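import Mathlib.GroupTheory.QuotientGroup.Basic
import Mathlib.Algebra.Group.Pointwise.Finset.Basic
import Mathlib.Data.Nat.Factorial.Basic
import Mathlib.Tactic.Group
import Mathlib.Tactic.Ring

/-! # Carmichael's bound for groups generated like an alternating group

If `x₀, …, x_{m-1}` have cube one and all `(xᵢ xⱼ)² = 1` (`i ≠ j`), then they generate a group with
at most `(m+2)!/2` elements. -/

set_option autoImplicit false

namespace Cfsg.Agent.Suzuki.Triple

open scoped Pointwise
open Nat (factorial)

variable {G : Type*} [Group G]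

theorem carmichael_bound (x : ℕ → G) (h3 : ∀ i, x i * x i * x i = 1) :
    ∀ m : ℕ, (∀ i j, i < m → j < m → i ≠ j → x i * x j * (x i * x j) = 1) →
      ∃ S : Finset G, S.card * 2 ≤ factorial (m + 2) ∧
        ∀ g ∈ Subgroup.closure (x '' {i | i < m}), g ∈ S := by
  classical
  intro m
  induction m with
  | zero => exact fun _ => ⟨{1}, by simp [factorial], fun g hg => by simpa using hg⟩
  | succ m ih =>
    intro h2
    obtain ⟨S, hS, hmem⟩ := ih fun i j hi hj => h2 i j (by omega) (by omega)
    set H := Subgroup.closure (x '' {i | i < m})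
    set y := x m
    let R : Finset G := {1, y, y * y} ∪ (Finset.range m).image fun k => y * y * x k
    have hy1 : (1 : G) ∈ R := by simp [R]
    have hyy : y ∈ R := by simp [R]
    have hy2 : y * y ∈ R := by simp [R]
    have hyk : ∀ k < m, y * y * x k ∈ R := fun k hk =>
      Finset.mem_union_right _ (Finset.mem_image.2 ⟨k, Finset.mem_range.2 hk, rfl⟩)
    refine ⟨S * R, ?_, ?_⟩
    · have hR : R.card ≤ m + 3 := by
        refine (Finset.card_union_le _ _).trans ?_
        have h1 : ({1, y, y * y} : Finset G).card ≤ 3 := Finset.card_le_three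
        have h2' := (Finset.card_image_le (s := Finset.range m) (f := fun k => y * y * x k))
        simp only [Finset.card_range] at h2'
        omega
      calc (S * R).card * 2 ≤ S.card * R.card * 2 := Nat.mul_le_mul_right _ Finset.card_mul_le
        _ = S.card * 2 * R.card := by ring
        _ ≤ factorial (m + 2) * (m + 3) := Nat.mul_le_mul hS hR
        _ = factorial (m + 1 + 2) := by rw [Nat.factorial_succ (m + 2)]; ring
    -- `(a b)² = 1` lets one reverse a product
    have hrev : ∀ i j, i ≤ m → j ≤ m → i ≠ j → x i * x j = x j * x j * (x i * x i) := by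
      intro i j hi hj hij
      have hi2 : x i * x i = (x i)⁻¹ := eq_inv_of_mul_eq_one_left (h3 i)
      have hj2 : x j * x j = (x j)⁻¹ := eq_inv_of_mul_eq_one_left (h3 j)
      rw [hi2, hj2, ← mul_inv_rev]
      exact eq_inv_of_mul_eq_one_left (h2 i j (by omega) (by omega) hij)
    have hxH : ∀ j, j < m → x j ∈ H := fun j hj => Subgroup.subset_closure ⟨j, hj, rfl⟩
    have hstep : ∀ r ∈ R, ∀ j ≤ m, ∃ h ∈ H, ∃ r' ∈ R, r * x j = h * r' := by
      intro r hr j hj
      -- the product `y * x j` for `j < m`
      have hyx : ∀ i < m, y * x i = x i * x i * (y * y) := fun i hi =>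
        hrev m i le_rfl hi.le (by omega)
      have hxy : ∀ i < m, x i * y = y * y * (x i * x i) := fun i hi =>
        hrev i m hi.le le_rfl (by omega)
      -- `y * (x i * x i)` lies in `H * R`
      have hkey : ∀ i < m, y * (x i * x i) = x i * x i * (y * y * x i) := fun i hi => by
        rw [← mul_assoc, hyx i hi]; group
      rcases lt_or_eq_of_le hj with hjm | rfl
      · simp only [R, Finset.mem_union, Finset.mem_insert, Finset.mem_singleton, Finset.mem_image,
          Finset.mem_range] at hr
        rcases hr with (rfl | rfl | rfl) | ⟨k, hk, rfl⟩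
        · exact ⟨x j, hxH j hjm, 1, hy1, by simp⟩
        · exact ⟨x j * x j, H.mul_mem (hxH j hjm) (hxH j hjm), y * y, hy2, hyx j hjm⟩
        · exact ⟨1, H.one_mem, y * y * x j, hyk j hjm, by simp⟩
        · rcases eq_or_ne k j with rfl | hkj
          · refine ⟨x k, hxH k hk, y, hyy, ?_⟩
            rw [hxy k hk, mul_assoc (y * y)]
          · have e1 : y * y * (x j * x j) = x j * y := (hxy j hjm).symm
            refine ⟨x j * (x k * x k), H.mul_mem (hxH j hjm) (H.mul_mem (hxH k hk) (hxH k hk)),
              y * y * x k, hyk k hk, ?_⟩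
            calc y * y * x k * x j = y * y * (x k * x j) := mul_assoc _ _ _
              _ = y * y * (x j * x j) * (x k * x k) := by
                rw [hrev k j hk.le hjm.le hkj]; group
              _ = x j * (y * (x k * x k)) := by rw [e1, mul_assoc]
              _ = _ := by rw [hkey k hk, ← mul_assoc]
      · simp only [R, Finset.mem_union, Finset.mem_insert, Finset.mem_singleton, Finset.mem_image,
          Finset.mem_range] at hr
        rcases hr with (rfl | rfl | rfl) | ⟨k, hk, rfl⟩
        · exact ⟨1, H.one_mem, _, hyy, rfl⟩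
        · exact ⟨1, H.one_mem, _, hy2, (one_mul _).symm⟩
        · exact ⟨1, H.one_mem, 1, hy1, by rw [one_mul]; exact h3 _⟩
        · refine ⟨x k * x k, H.mul_mem (hxH k hk) (hxH k hk), _, hyk k hk, ?_⟩
          calc y * y * x k * y = y * y * (x k * y) := mul_assoc _ _ _
            _ = y * y * y * (y * (x k * x k)) := by rw [hxy k hk]; group
            _ = _ := by rw [show y * y * y = 1 from h3 _, one_mul, hkey k hk]
    intro g hg
    suffices ∃ h ∈ H, ∃ r ∈ R, g = h * r by
      obtain ⟨h, hh, r, hr, rfl⟩ := this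
      exact Finset.mul_mem_mul (hmem h hh) hr
    have hmul : ∀ {a : G}, (∃ h ∈ H, ∃ r ∈ R, a = h * r) → ∀ j ≤ m,
        ∃ h ∈ H, ∃ r ∈ R, a * x j = h * r := by
      rintro a ⟨h, hh, r, hr, rfl⟩ j hj
      obtain ⟨h', hh', r', hr', e⟩ := hstep r hr j hj
      exact ⟨h * h', H.mul_mem hh hh', r', hr', by rw [mul_assoc, e, mul_assoc]⟩
    induction hg using Subgroup.closure_induction_right with
    | one => exact ⟨1, H.one_mem, 1, hy1, (one_mul _).symm⟩
    | mul_right a _ b hb iha =>
      obtain ⟨j, hj, rfl⟩ := hb
      exact hmul iha j (Nat.lt_succ_iff.1 hj)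
    | mul_inv_cancel a _ b hb iha =>
      obtain ⟨j, hj, rfl⟩ := hb
      have hinv : (x j)⁻¹ = x j * x j := (eq_inv_of_mul_eq_one_left (h3 j)).symm
      rw [hinv, ← mul_assoc]
      exact hmul (hmul iha j (Nat.lt_succ_iff.1 hj)) j (Nat.lt_succ_iff.1 hj)

end Cfsg.Agent.Suzuki.Triple
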