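import Cfsg.Agent.Suzuki.SpInjective
import Mathlib

/-!
The orbit of a basis vector under lifted root elements: the induction step for faithfulness.
-/

set_option autoImplicit false

namespace Cfsg.Agent.Suzuki.SpSt

open Matrix
open Cfsg.Agent.KnownB.Proj.Symp

universe u v

variable {m : ℕ} {F : Type u} [Field F] {E : Type v} [Group E]

local notation "Vm" => (Fin m ⊕ Fin m → F)
local notation "Spm" => Matrix.symplecticGroup (Fin m) F
local notation "B" => Cfsg.sympForm m F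

namespace Rels

variable {π : E →* Matrix.symplecticGroup (Fin m) F} (R : Rels π)

/-- the element sending `e a` to `e a + e c` -/
def X (a c : Fin m ⊕ Fin m) : E := R.y c (bar a) (sg a)

/-- the element sending `e a + e c` to `e c` -/
def Z (a c : Fin m ⊕ Fin m) : E := R.y a (bar c) (-(sg c))

theorem ne_a {a c : Fin m ⊕ Fin m} (h : cls c ≠ cls a) : bar a ≠ bar c ∧ c ≠ a ∧ bar c ≠ bar a ∧ c ≠ bar a ∧ a ≠ bar c :=
  ⟨fun e' => h (by rw [bar_inj.1 e']), fun e' => h (by rw [e']), fun e' => h (by rw [bar_inj.1 e']),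
    fun e' => h (by rw [e', cls_bar]), fun e' => h (by rw [e', cls_bar])⟩

theorem X_img {a c : Fin m ⊕ Fin m} (h : cls c ≠ cls a) : (π (R.X a c)).1 *ᵥ e a = (e a + e c : Vm) := by
  obtain ⟨h1, h2, h3, h4, h5⟩ := ne_a h
  rw [X, R.map c (bar a) h1]
  funext i
  rw [Y_short_coord h1 h4, bar_bar, e_self, e_ne h5.symm, sg_bar]
  simp only [Pi.add_apply, e_apply, mul_zero, neg_zero, ite_self, add_zero, mul_neg, mul_one, neg_neg, sg_mul_self]

theorem ZX_img {a c : Fin m ⊕ Fin m} (h : cls c ≠ cls a) : (π (R.Z a c * R.X a c)).1 *ᵥ e a = (e c : Vm) := by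
  obtain ⟨h1, h2, h3, h4, h5⟩ := ne_a h
  rw [map_mul, sp_mul_mulVec, R.X_img h, Z, R.map a (bar c) h3]
  funext i
  rw [Y_short_coord h3 h5, bar_bar]
  simp only [Pi.add_apply, e_apply, bar_ne a, h2, h4.symm, if_false, if_true, sg_bar]
  simp only [add_zero, zero_add, mul_zero, neg_zero, ite_self, mul_one]
  rw [show -((-(sg c : F)) * -(sg c : F)) = -1 by rw [neg_mul_neg, sg_mul_self]]
  split_ifs <;> simp

theorem X_mem {a c : Fin m ⊕ Fin m} (h : cls c ≠ cls a) : R.X a c ∈ R.U {cls a, cls c} :=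
  R.y_mem (ne_a h).1 (by simp) (by simp [cls_bar]) _

theorem Z_mem {a c : Fin m ⊕ Fin m} (h : cls c ≠ cls a) : R.Z a c ∈ R.U {cls a, cls c} :=
  R.y_mem (ne_a h).2.2.1 (by simp) (by simp [cls_bar]) _

section

variable {t : Finset (Fin m)} {a : Fin m ⊕ Fin m} (ha : cls a ∈ t)

include ha in
theorem pair_le {c : Fin m ⊕ Fin m} (hc : cls c ∈ t.erase (cls a)) :
    ({cls a, cls c} : Finset (Fin m)) ⊆ t := by
  intro x hx
  simp only [Finset.mem_insert, Finset.mem_singleton] at hx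
  rcases hx with rfl | rfl
  · exact ha
  · exact Finset.mem_of_mem_erase hc

theorem erase_le_P : R.U (t.erase (cls a)) ≤ R.P t a :=
  R.U_le_P (Finset.erase_subset _ _) (Finset.notMem_erase _ _)

theorem single_disjoint : Disjoint ({cls a} : Finset (Fin m)) (t.erase (cls a)) :=
  Finset.disjoint_singleton_left.2 (Finset.notMem_erase _ _)

theorem u_comm {u x : E} (hu : u ∈ R.U {cls a}) (hx : x ∈ R.U (t.erase (cls a))) : u * x = x * u :=
  R.commute_disjoint single_disjoint hu hx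

include ha in
theorem switch {c d : Fin m ⊕ Fin m} (hc : cls c ∈ t.erase (cls a)) (hd : cls d ∈ t.erase (cls a))
    (hcd : cls c ≠ cls d) :
    ∃ s ∈ R.U (t.erase (cls a)), (π s).1 *ᵥ e d = (e c : Vm) ∧
      ∀ w, (w ∈ R.U {cls a} ∨ w = R.Z a c) → ∃ w', (w' ∈ R.U {cls a} ∨ w' = R.Z a d) ∧
        ∃ q ∈ R.P t a, w * R.X a c = s * (w' * R.X a d) * q := by
  have hca : cls c ≠ cls a := (Finset.mem_erase.1 hc).1
  have hda : cls d ≠ cls a := (Finset.mem_erase.1 hd).1
  obtain ⟨c1, c2, c3, c4, c5⟩ := ne_a hca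
  obtain ⟨d1, d2, d3, d4, d5⟩ := ne_a hda
  have hdc : bar c ≠ bar d := fun h => hcd (by rw [bar_inj.1 h])
  set sd := R.y d (bar c) (sg c) with hsd
  set sc := R.y c (bar d) (sg d) with hsc
  have msd : sd ∈ R.U (t.erase (cls a)) := R.y_mem hdc hd (by rw [cls_bar]; exact hc) _
  have msc : sc ∈ R.U (t.erase (cls a)) := R.y_mem hdc.symm hc (by rw [cls_bar]; exact hd) _
  have hXX : R.X a c * R.X a d = R.X a d * R.X a c :=
    R.comm _ _ _ _ c1 d1 ⟨fun h => hcd (by rw [h, cls_bar]), by rw [bar_bar]; exact d2, c1,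
      by rw [bar_bar]; exact bar_ne a⟩ _ _
  have e1 : sd * R.X a c = R.X a d * R.X a c * sd := by
    have h := R.conj_out (p := d) (r := bar c) (s := bar a) (by rw [cls_bar]; exact hcd.symm)
      (by rw [cls_bar, cls_bar]; exact hca) (by rw [cls_bar]; exact hda) (sg c) (sg a)
    rw [bar_bar, sg_mul_self, one_mul] at h
    exact h
  have e2 : sc * R.X a d = R.X a c * R.X a d * sc := by
    have h := R.conj_out (p := c) (r := bar d) (s := bar a) (by rw [cls_bar]; exact hcd)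
      (by rw [cls_bar, cls_bar]; exact hda) (by rw [cls_bar]; exact hca) (sg d) (sg a)
    rw [bar_bar, sg_mul_self, one_mul] at h
    exact h
  have esX : sd⁻¹ * sc * R.X a d = R.X a c * (sd⁻¹ * sc) := by
    rw [mul_assoc, e2, hXX, show sd⁻¹ * (R.X a d * R.X a c * sc) = sd⁻¹ * (R.X a d * R.X a c * sd) * (sd⁻¹ * sc) by group,
      ← e1, inv_mul_cancel_left]
  have ezc : sc * R.Z a d = R.Z a d * sc :=
    R.comm _ _ _ _ hdc.symm d3 ⟨c5, by rw [bar_bar]; exact d2.symm, hdc.symm, by rw [bar_bar]; exact bar_ne d⟩ _ _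
  have ezd : sd⁻¹ * R.Z a d = R.Z a c * R.Z a d * sd⁻¹ := by
    have h := R.conj_out (p := bar c) (r := d) (s := a) (by rw [cls_bar]; exact hcd) hda
      (by rw [cls_bar]; exact hca) (-(sg c)) (-(sg d))
    rw [show (sg (bar d) : F) * -(sg c) * -(sg d) = -(sg c) by
      rw [sg_bar]; linear_combination (-(sg c : F)) * sg_mul_self (F := F) d] at h
    rw [hsd, R.y_inv hdc, R.symm d (bar c) hdc, Z, Z, R.symm a (bar d) d3, R.symm a (bar c) c3]
    exact h
  have eZX : R.Z a d * R.X a c = R.X a c * (R.y c (bar d) (sg d) * R.Z a d) := by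
    have h := R.conj_out (p := c) (r := bar a) (s := bar d) (by rw [cls_bar]; exact hca)
      (by rw [cls_bar, cls_bar]; exact hda.symm) (by rw [cls_bar]; exact hcd) (sg a) (-(sg d))
    rw [bar_bar, sg_mul_self, one_mul] at h
    have hcm : R.X a c * R.y c (bar d) (sg d) = R.y c (bar d) (sg d) * R.X a c :=
      R.comm _ _ _ _ c1 hdc.symm ⟨(bar_ne c).symm, by rw [bar_bar]; exact c2, hdc.symm,
        by rw [bar_bar]; exact d5.symm⟩ _ _
    show R.y a (bar d) (-(sg d)) * R.y c (bar a) (sg a) =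
      R.y c (bar a) (sg a) * (R.y c (bar d) (sg d) * R.y a (bar d) (-(sg d)))
    rw [← mul_assoc, show R.y c (bar a) (sg a) * R.y c (bar d) (sg d) = _ from hcm, mul_assoc, X, h,
      ← mul_assoc, ← mul_assoc, show R.y c (bar d) (sg d) * R.y c (bar d) (-(sg d)) = 1 by
        rw [← R.y_inv hdc.symm, mul_inv_cancel], one_mul]
  have eS : sd⁻¹ * sc * (R.Z a d * R.X a d) = R.Z a c * R.X a c * (R.y c (bar d) (sg d) * R.Z a d * (sd⁻¹ * sc)) := by
    calc sd⁻¹ * sc * (R.Z a d * R.X a d) = sd⁻¹ * R.Z a d * (sc * R.X a d) := by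
          rw [mul_assoc, ← mul_assoc sc, ezc]; group
      _ = R.Z a c * (R.Z a d * (sd⁻¹ * sc * R.X a d)) := by rw [ezd]; group
      _ = R.Z a c * (R.Z a d * R.X a c * (sd⁻¹ * sc)) := by rw [esX]; group
      _ = _ := by rw [eZX]; group
  have hsP : sd⁻¹ * sc ∈ R.P t a := R.erase_le_P (mul_mem (inv_mem msd) msc)
  have hq : R.y c (bar d) (sg d) * R.Z a d * (sd⁻¹ * sc) ∈ R.P t a :=
    mul_mem (mul_mem (R.erase_le_P msc) (R.P_mem d3 ha (by rw [cls_bar]; exact Finset.mem_of_mem_erase hd)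
      (bar_ne a).symm d3 _)) hsP
  refine ⟨sd⁻¹ * sc, mul_mem (inv_mem msd) msc, ?_, ?_⟩
  · have h := congrArg (fun g => (π g).1 *ᵥ (e a : Vm)) eS
    rw [map_mul π (sd⁻¹ * sc), sp_mul_mulVec, R.ZX_img hda, map_mul π (R.Z a c * R.X a c), sp_mul_mulVec,
      R.P_fix hq, R.ZX_img hca] at h
    exact h
  · rintro w (hw | rfl)
    · refine ⟨w, Or.inl hw, (sd⁻¹ * sc)⁻¹, inv_mem hsP, ?_⟩
      rw [← mul_assoc (sd⁻¹ * sc) w, ← R.u_comm hw (mul_mem (inv_mem msd) msc), mul_assoc w (sd⁻¹ * sc), esX]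
      group
    · exact ⟨_, Or.inr rfl, _, inv_mem hq, by rw [eS]; group⟩

include ha in
theorem uniq {c : Fin m ⊕ Fin m} (hc : cls c ∈ t.erase (cls a)) (hS : R.Stab (t.erase (cls a)))
    {w : E} (hw : w ∈ R.U {cls a} ∨ w = R.Z a c) {h h' : E} (hh : h ∈ R.U (t.erase (cls a)))
    (hh' : h' ∈ R.U (t.erase (cls a))) (he : (π h).1 *ᵥ e c = (π h').1 *ᵥ (e c : Vm)) :
    ∃ q ∈ R.P t a, h * (w * R.X a c) = h' * (w * R.X a c) * q := by
  have hca : cls c ≠ cls a := (Finset.mem_erase.1 hc).1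
  obtain ⟨c1, c2, c3, c4, c5⟩ := ne_a hca
  have hs : h'⁻¹ * h ∈ R.P (t.erase (cls a)) c := hS c hc _ (mul_mem (inv_mem hh') hh)
    (by rw [map_mul, map_inv, sp_mul_mulVec, he, sp_inv_mulVec])
  set k := w * R.X a c with hk
  suffices H : R.P (t.erase (cls a)) c ≤ (R.P t a).comap (MulAut.conj k⁻¹).toMonoidHom by
    refine ⟨k⁻¹ * (h'⁻¹ * h) * k, ?_, by group⟩
    have := H hs
    simpa [MulAut.conj_apply] using this
  rw [P, Subgroup.closure_le]
  rintro _ ⟨p, r, d, hp, hr, hne, hpc, hrc, rfl⟩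
  show k⁻¹ * R.y p r d * k⁻¹⁻¹ ∈ R.P t a
  rw [inv_inv]
  have hpa : cls p ≠ cls a := (Finset.mem_erase.1 hp).1
  have hra : cls r ≠ cls a := (Finset.mem_erase.1 hr).1
  have hq : R.y p r d ∈ R.P t a := R.erase_le_P (R.y_mem hne hp hr d)
  have hXq : R.X a c * R.y p r d = R.y p r d * R.X a c :=
    R.comm _ _ _ _ c1 hne ⟨hpc, by rw [bar_bar]; exact ne_of_cls hpa, hrc, by rw [bar_bar]; exact ne_of_cls hra⟩ _ _
  have plain : w * R.y p r d = R.y p r d * w → k⁻¹ * R.y p r d * k ∈ R.P t a := by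
    intro hwq
    rw [hk, show (w * R.X a c)⁻¹ * R.y p r d * (w * R.X a c) = (R.X a c)⁻¹ * (w⁻¹ * (R.y p r d * w)) * R.X a c by group,
      ← hwq, inv_mul_cancel_left, mul_assoc, ← hXq, inv_mul_cancel_left]
    exact hq
  rcases hw with hw | rfl
  · exact plain (R.u_comm hw (R.y_mem hne hp hr d))
  have main : ∀ r, cls r ∈ t.erase (cls a) → cls r ≠ cls c → ∀ d, (R.Z a c * R.X a c)⁻¹ * R.y r c d * (R.Z a c * R.X a c) ∈ R.P t a := by
    intro r hr hrc d
    have hra : cls r ≠ cls a := (Finset.mem_erase.1 hr).1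
    have hr' := Finset.mem_of_mem_erase hr
    have hc' := Finset.mem_of_mem_erase hc
    have h1 := R.conj_out (p := r) (r := c) (s := a) hrc hca hra d (-(sg c))
    have h2 := R.conj_out (p := r) (r := a) (s := c) hra hca.symm hrc (sg (bar c) * d * -(sg c)) (sg a)
    have hrcP : ∀ z, R.y r c z ∈ R.P t a := fun z => R.erase_le_P (R.y_mem (ne_bar_of_cls hrc) hr hc z)
    have hraP : ∀ z, R.y r a z ∈ R.P t a := fun z =>
      R.P_mem (ne_bar_of_cls hra) hr' ha (fun e' => hra (by rw [e', cls_bar])) (bar_ne a).symm z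
    have hZ : R.y (bar c) a (-(sg c)) = R.Z a c := (R.symm a (bar c) c3 _).symm
    have hX : R.y (bar a) c (sg a) = R.X a c := (R.symm c (bar a) c1 _).symm
    rw [hZ] at h1
    rw [hX] at h2
    have hXc : ∀ z, R.X a c * R.y r c z = R.y r c z * R.X a c := fun z =>
      R.comm _ _ _ _ c1 (ne_bar_of_cls hrc) ⟨fun e' => hrc (by rw [e', cls_bar]), by rw [bar_bar]; exact ne_of_cls hra,
        (bar_ne c).symm, by rw [bar_bar]; exact c2⟩ _ _
    set v := sg (bar c) * d * -(sg c) with hv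
    have hAZ : R.y r a v * R.Z a c = R.Z a c * R.y r a v :=
      R.comm _ _ _ _ (ne_bar_of_cls hra) c3 ⟨fun e' => hra (by rw [e', cls_bar]), (bar_ne a).symm,
        fun e' => hrc (by rw [bar_inj.1 e']), c3⟩ _ _
    rw [mul_assoc, ← mul_assoc (R.y r c d), h1, hAZ]
    rw [show (R.Z a c * R.X a c)⁻¹ * (R.Z a c * R.y r a v * R.y r c d * R.X a c) =
      (R.X a c)⁻¹ * (R.y r a v * (R.y r c d * R.X a c)) by group, ← hXc,
      show (R.X a c)⁻¹ * (R.y r a v * (R.X a c * R.y r c d)) = (R.X a c)⁻¹ * (R.y r a v * R.X a c) * R.y r c d by group,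
      h2, ← hXc, show (R.X a c)⁻¹ * (R.X a c * R.y r c (sg (bar a) * v * sg a) * R.y r a v) =
        R.y r c (sg (bar a) * v * sg a) * R.y r a v by group]
    exact mul_mem (mul_mem (hrcP _) (hraP _)) (hrcP _)
  have pair : cls p = cls c → cls r = cls c → k⁻¹ * R.y p r d * k ∈ R.P t a := by
    intro h1 h2
    have hk' : k ∈ R.U {cls a, cls c} := mul_mem (R.Z_mem hca) (R.X_mem hca)
    have hy : R.y p r d ∈ R.U {cls a, cls c} := R.y_mem hne (by simp [h1]) (by simp [h2]) d
    refine R.P_mono (pair_le ha hc) a (R.stab_pair (Finset.Subset.refl _) a (by simp) _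
      (mul_mem (mul_mem (inv_mem hk') hy) hk') ?_)
    rw [map_mul, map_mul, map_inv, sp_mul_mulVec, sp_mul_mulVec, R.map p r hne, hk, R.ZX_img hca,
      Y_fix_e hne d (bar_symm hpc) (bar_symm hrc)]
    conv_lhs => rw [← R.ZX_img hca]
    rw [sp_inv_mulVec]
  by_cases hp' : p = c
  · subst hp'
    by_cases hrc' : cls r = cls p
    · exact pair rfl hrc'
    · rw [R.symm p r hne]; exact main r hr hrc' d
  by_cases hr' : r = c
  · subst hr'
    by_cases hpc' : cls p = cls r
    · exact pair hpc' rfl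
    · exact main p hp hpc' d
  exact plain (R.comm _ _ _ _ c3 hne ⟨fun e' => hpa (by rw [e', cls_bar]), by rw [bar_bar]; exact hp',
    fun e' => hra (by rw [e', cls_bar]), by rw [bar_bar]; exact hr'⟩ _ _)

include ha in
theorem X_step {b c : Fin m ⊕ Fin m} (hb : cls b ∈ t.erase (cls a)) (hc : cls c ∈ t.erase (cls a))
    (hbc : cls b ≠ cls c) {w : E} (hw : w ∈ R.U {cls a} ∨ w = R.Z a c) (τ : F) :
    ∃ h1 ∈ R.U (t.erase (cls a)), (∀ z, h1 * R.y (bar a) (bar c) z = R.y (bar a) (bar c) z * h1) ∧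
      ∃ k' ∈ R.U {cls a, cls c}, ∃ q ∈ R.P t a, R.y b (bar a) τ * (w * R.X a c) = h1 * k' * q := by
  have hca : cls c ≠ cls a := (Finset.mem_erase.1 hc).1
  have hba : cls b ≠ cls a := (Finset.mem_erase.1 hb).1
  obtain ⟨c1, c2, c3, c4, c5⟩ := ne_a hca
  obtain ⟨b1, b2, b3, b4, b5⟩ := ne_a hba
  have hbc' : cls b ≠ cls (bar c) := by rwa [cls_bar]
  have hne := ne_bar_of_cls hbc'
  have hac : cls a ≠ cls (bar c) := by rw [cls_bar]; exact hca.symm
  have hmid : ∀ z, R.y b (bar c) z ∈ R.U (t.erase (cls a)) := fun z => R.y_mem hne hb (by rw [cls_bar]; exact hc) z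
  have hcom : ∀ z z', R.y b (bar c) z * R.y (bar a) (bar c) z' = R.y (bar a) (bar c) z' * R.y b (bar c) z := fun z z' =>
    R.comm _ _ _ _ hne (ne_bar_of_cls (by rw [cls_bar, cls_bar]; exact hca.symm))
      ⟨fun e' => hba (by rw [bar_inj.1 e']), by rw [bar_bar]; exact c4.symm,
        hne, by rw [bar_bar]; exact bar_ne c⟩ _ _
  have hcb : bar c ≠ bar b := fun e' => hbc (by rw [bar_inj.1 e'])
  have hXX : ∀ σ, ∃ z, R.y b (bar a) σ * R.X a c = R.y b (bar c) z * R.X a c * (R.y b (bar c) z)⁻¹ := by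
    intro σ
    refine ⟨σ * (sg c * sg a), ?_⟩
    have h := R.conj_out (p := b) (r := bar c) (s := bar a) hbc' (by rw [cls_bar, cls_bar]; exact hca)
      (by rw [cls_bar]; exact hba) (σ * (sg c * sg a)) (sg a)
    rw [bar_bar, show (sg c : F) * (σ * (sg c * sg a)) * sg a = σ by
      linear_combination (σ * sg a * sg a) * sg_mul_self (F := F) c + σ * sg_mul_self (F := F) a] at h
    rw [X, h, mul_inv_cancel_right]
  rcases hw with hw | rfl
  · set v : Vm := ((π w)⁻¹).1 *ᵥ e (bar a) with hv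
    have hoff : ∀ i, i ≠ a → i ≠ bar a → v i = 0 := fun i h1 h2 => by
      rw [hv, spOn_coord (inv_mem (R.map_spOn hw)) _ (fun h => (eq_or_bar (Finset.mem_singleton.1 h)).elim h1 h2), e_ne h2]
    have hdec : v = v a • e a + v (bar a) • e (bar a) := by
      funext i
      simp only [Pi.add_apply, Pi.smul_apply, e_apply, smul_eq_mul]
      by_cases h1 : i = a
      · subst h1; simp [(bar_ne i).symm]
      by_cases h2 : i = bar a
      · subst h2; simp [bar_ne a]
      simp [h1, h2, hoff i h1 h2]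
    have hfix : ((π w)⁻¹).1 *ᵥ e b = (e b : Vm) :=
      inv_mem (R.map_spOn hw) b (by rw [Finset.mem_singleton]; exact hba)
    have hB1 : B (e b) (v a • e a : Vm) = 0 := by rw [B_smul_right, B_e_e b5, mul_zero]
    have hB2 : B (e b) (v (bar a) • e (bar a) : Vm) = 0 := by rw [B_smul_right, B_e_e b1, mul_zero]
    set σ := -(τ * τ * B (v (bar a) • e (bar a)) (v a • e a : Vm)) with hσ
    have em : π (w⁻¹ * R.y b (bar a) τ * w) = Y b b σ * (Y b a (v a * τ) * Y b (bar a) (v (bar a) * τ)) := by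
      conv_lhs => rw [map_mul, map_mul, map_inv, R.map _ _ b1, Y_short b4]
      have := S_conj ((π w)⁻¹) (e b) (e (bar a)) τ
      rw [inv_inv] at this
      rw [this, hfix, ← hv]
      conv_lhs => rw [hdec]
      rw [S_add_right' hB1 hB2, S_symm hB1, S_symm hB2, S_smul_left (B_e_e (bar_symm b5)),
        S_smul_left (B_e_e (bar_symm b1)), S_symm (B_e_e (bar_symm b5)), S_symm (B_e_e (bar_symm b1)),
        Y_long, Y_short b2, Y_short b4]
    have m0 : cls b ∈ ({cls a, cls b} : Finset (Fin m)) := by simp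
    have m1 : cls a ∈ ({cls a, cls b} : Finset (Fin m)) := by simp
    have m2 : cls (bar a) ∈ ({cls a, cls b} : Finset (Fin m)) := by simp [cls_bar]
    have hwU : w ∈ R.U {cls a, cls b} := R.U_mono (by simp) hw
    have eE : w⁻¹ * R.y b (bar a) τ * w = R.y b b σ * (R.y b a (v a * τ) * R.y b (bar a) (v (bar a) * τ)) :=
      R.eq_of_map_eq (x := cls a) (y := cls b) (Finset.Subset.refl _)
        (mul_mem (mul_mem (inv_mem hwU) (R.y_mem b1 m0 m2 _)) hwU)
        (mul_mem (R.y_mem (bar_ne b).symm m0 m0 _) (mul_mem (R.y_mem b5 m0 m1 _) (R.y_mem b1 m0 m2 _)))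
        (by rw [em, map_mul π (R.y b b σ), map_mul π (R.y b a _), R.map _ _ (bar_ne b).symm, R.map _ _ b5, R.map _ _ b1])
    obtain ⟨z, hz⟩ := hXX (v (bar a) * τ)
    have h2 := R.conj_out (p := b) (r := a) (s := c) hba hca.symm hbc (v a * τ) (sg a)
    rw [show R.y (bar a) c (sg a) = R.X a c from (R.symm c (bar a) c1 _).symm] at h2
    set z' := sg (bar a) * (v a * τ) * sg a
    have hXc : R.X a c * R.y b c z' = R.y b c z' * R.X a c :=
      R.comm _ _ _ _ c1 (ne_bar_of_cls hbc) ⟨fun e' => hbc (by rw [e', cls_bar]), by rw [bar_bar]; exact b2,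
        (bar_ne c).symm, by rw [bar_bar]; exact c2⟩ _ _
    have k1 : R.y b a (v a * τ) * R.y b (bar c) z = R.y b (bar c) z * R.y b a (v a * τ) :=
      R.comm _ _ _ _ b5 hne ⟨(bar_ne b).symm, fun e' => hba (by rw [e', cls_bar]), hcb, c3⟩ _ _
    have k2 : R.y b b σ * R.y b (bar c) z = R.y b (bar c) z * R.y b b σ :=
      R.comm _ _ _ _ (bar_ne b).symm hne ⟨(bar_ne b).symm, (bar_ne b).symm, hcb, hcb⟩ _ _
    have k3 : R.y b b σ * R.X a c = R.X a c * R.y b b σ :=
      R.comm _ _ _ _ (bar_ne b).symm c1 ⟨fun e' => hbc (by rw [e', cls_bar]), fun e' => hbc (by rw [e', cls_bar]),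
        fun e' => hba (by rw [bar_inj.1 e']), fun e' => hba (by rw [bar_inj.1 e'])⟩ _ _
    have k4 : w * R.y b (bar c) z = R.y b (bar c) z * w := R.u_comm hw (hmid z)
    refine ⟨R.y b (bar c) z, hmid z, hcom z, w * R.X a c,
      mul_mem (R.U_mono (by simp) hw) (R.X_mem hca),
      R.y b b σ * (R.y b c z' * R.y b a (v a * τ)) * (R.y b (bar c) z)⁻¹, ?_, ?_⟩
    · have hb' := Finset.mem_of_mem_erase hb
      exact mul_mem (mul_mem (R.erase_le_P (R.y_mem (bar_ne b).symm hb hb _))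
        (mul_mem (R.erase_le_P (R.y_mem (ne_bar_of_cls hbc) hb hc _))
          (R.P_mem b5 hb' ha (fun e' => hba (by rw [e', cls_bar])) (bar_ne a).symm _))) (inv_mem (R.erase_le_P (hmid z)))
    calc R.y b (bar a) τ * (w * R.X a c) = w * (w⁻¹ * R.y b (bar a) τ * w) * R.X a c := by group
      _ = w * R.y b b σ * R.y b a (v a * τ) * (R.y b (bar a) (v (bar a) * τ) * R.X a c) := by rw [eE]; group
      _ = w * R.y b b σ * (R.y b a (v a * τ) * R.y b (bar c) z) * R.X a c * (R.y b (bar c) z)⁻¹ := by rw [hz]; group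
      _ = w * (R.y b b σ * R.y b (bar c) z) * (R.y b a (v a * τ) * R.X a c) * (R.y b (bar c) z)⁻¹ := by rw [k1]; group
      _ = (w * R.y b (bar c) z) * R.y b b σ * (R.X a c * R.y b c z' * R.y b a (v a * τ)) * (R.y b (bar c) z)⁻¹ := by
        rw [k2, h2, hXc]; group
      _ = R.y b (bar c) z * w * (R.y b b σ * R.X a c) * (R.y b c z' * R.y b a (v a * τ)) * (R.y b (bar c) z)⁻¹ := by
        rw [k4]; group
      _ = _ := by rw [k3]; group
  · obtain ⟨z, hz⟩ := hXX τ
    have h := R.conj_out (p := b) (r := bar a) (s := bar c) (by rw [cls_bar]; exact hba)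
      (by rw [cls_bar, cls_bar]; exact hca.symm) hbc' τ (-(sg c))
    rw [bar_bar] at h
    set ρ := sg a * τ * -(sg c)
    have k1 : R.Z a c * R.y b (bar c) z = R.y b (bar c) z * R.Z a c :=
      R.comm _ _ _ _ c3 hne ⟨b4, by rw [bar_bar]; exact fun e' => hbc (by rw [e']),
        c3, by rw [bar_bar]; exact bar_ne c⟩ _ _
    refine ⟨R.y b (bar c) ρ * R.y b (bar c) z, mul_mem (hmid ρ) (hmid z), fun z' => ?_,
      R.Z a c * R.X a c, mul_mem (R.Z_mem hca) (R.X_mem hca), (R.y b (bar c) z)⁻¹, inv_mem (R.erase_le_P (hmid z)), ?_⟩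
    · rw [mul_assoc, hcom z z', ← mul_assoc, hcom ρ z', mul_assoc]
    calc R.y b (bar a) τ * (R.Z a c * R.X a c) = R.y b (bar a) τ * R.Z a c * R.X a c := by group
      _ = R.y b (bar c) ρ * R.Z a c * (R.y b (bar a) τ * R.X a c) := by
        rw [show R.Z a c = R.y a (bar c) (-(sg c)) from rfl, h]; group
      _ = R.y b (bar c) ρ * (R.Z a c * R.y b (bar c) z) * R.X a c * (R.y b (bar c) z)⁻¹ := by rw [hz]; group
      _ = _ := by rw [k1]; group

include ha in
theorem norm_form {c : Fin m ⊕ Fin m} (hc : cls c ∈ t.erase (cls a)) {k : E} (hk : k ∈ R.U {cls a, cls c}) :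
    (∃ u ∈ R.U {cls a}, ∃ q ∈ R.P t a, k = u * q) ∨
      ∃ kc ∈ R.U {cls c}, ∃ w, (w ∈ R.U {cls a} ∨ w = R.Z a c) ∧ ∃ q ∈ R.P t a, k = kc * (w * R.X a c) * q := by
  classical
  have hca : cls c ≠ cls a := (Finset.mem_erase.1 hc).1
  set v : Vm := (π k).1 *ᵥ e a with hv
  have hs : Supp ({cls a, cls c} : Finset (Fin m)) v := supp_spOn (R.map_spOn hk) (supp_e (by simp))
  let va : Vm := fun i => if cls i = cls a then v i else 0
  let vc : Vm := fun i => if cls i = cls a then 0 else v i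
  have hsum : v = va + vc := by funext i; simp only [va, vc, Pi.add_apply]; split_ifs <;> simp
  have hsa : Supp {cls a} va := fun i hi => if_neg (by simpa using hi)
  have hsc : Supp {cls c} vc := fun i hi => by
    simp only [vc]
    split_ifs with h
    · rfl
    · exact hs i (by simp only [Finset.mem_insert, Finset.mem_singleton]; rw [Finset.mem_singleton] at hi; tauto)
  have close : ∀ x ∈ R.U {cls a, cls c}, (π x).1 *ᵥ e a = v → x⁻¹ * k ∈ R.P t a := fun x hx hxv =>
    R.P_mono (pair_le ha hc) a (R.stab_pair (Finset.Subset.refl _) a (by simp) _ (mul_mem (inv_mem hx) hk)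
      (by rw [map_mul, map_inv, sp_mul_mulVec, ← hv, ← hxv, sp_inv_mulVec]))
  have hlift : ∀ x : Fin m ⊕ Fin m, ∀ z : Vm, Supp {cls x} z → z ≠ 0 → ∃ g ∈ R.U {cls x}, (π g).1 *ᵥ e x = z := by
    intro x z hz hz0
    obtain ⟨g, hg, eg⟩ := trans_vec (b := x) (Finset.mem_singleton_self _) hz hz0
    obtain ⟨g', hg', e'⟩ := R.exists_lift_U hg
    exact ⟨g', hg', by rw [e', eg]⟩
  by_cases h0 : vc = 0
  · have hva : va ≠ 0 := fun h => sp_mulVec_ne (π k) (e_ne_zero a) (by rw [← hv, hsum, h, h0, add_zero])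
    obtain ⟨u, hu, eu⟩ := hlift a va hsa hva
    exact Or.inl ⟨u, hu, u⁻¹ * k, close u (R.U_mono (by simp) hu) (by rw [eu, hsum, h0, add_zero]), by group⟩
  obtain ⟨kc, hkc, ec⟩ := hlift c vc hsc h0
  refine Or.inr ⟨kc, hkc, ?_⟩
  by_cases ha0 : va = 0
  · refine ⟨R.Z a c, Or.inr rfl, (kc * (R.Z a c * R.X a c))⁻¹ * k,
      close _ (mul_mem (R.U_mono (by simp) hkc) (mul_mem (R.Z_mem hca) (R.X_mem hca))) ?_, by group⟩
    rw [map_mul, sp_mul_mulVec, R.ZX_img hca, ec, hsum, ha0, zero_add]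
  · obtain ⟨u, hu, eu⟩ := hlift a va hsa ha0
    refine ⟨u, Or.inl hu, (kc * (u * R.X a c))⁻¹ * k,
      close _ (mul_mem (R.U_mono (by simp) hkc) (mul_mem (R.U_mono (by simp) hu) (R.X_mem hca))) ?_, by group⟩
    rw [map_mul, sp_mul_mulVec, map_mul, sp_mul_mulVec, R.X_img hca, Matrix.mulVec_add, eu,
      spOn_fix (R.map_spOn hu) (x := e c) (fun p hp => e_ne (fun h => hca (by
        rw [← h]; exact Finset.mem_singleton.1 hp))),
      Matrix.mulVec_add, ec, spOn_fix (R.map_spOn hkc) (x := va) (fun p hp => if_neg (fun h => hca (by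
        rw [← Finset.mem_singleton.1 hp, h]))), hsum]

/-- products in the shape of the orbit -/
def Good (t : Finset (Fin m)) (a : Fin m ⊕ Fin m) (g : E) : Prop :=
  ∃ c, cls c ∈ t.erase (cls a) ∧ ∃ h ∈ R.U (t.erase (cls a)), ∃ k ∈ R.U {cls a, cls c}, ∃ p ∈ R.P t a, g = h * k * p

include ha in
theorem good_u {g u : E} (hg : R.Good t a g) (hu : u ∈ R.U {cls a}) : R.Good t a (u * g) := by
  obtain ⟨c, hc, h, hh, k, hk, p, hp, rfl⟩ := hg
  refine ⟨c, hc, h, hh, u * k, mul_mem (R.U_mono (by simp) hu) hk, p, hp, ?_⟩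
  rw [← mul_assoc, ← mul_assoc, R.u_comm hu hh]
  group

theorem good_h {g x : E} (hg : R.Good t a g) (hx : x ∈ R.U (t.erase (cls a))) : R.Good t a (x * g) := by
  obtain ⟨c, hc, h, hh, k, hk, p, hp, rfl⟩ := hg
  exact ⟨c, hc, x * h, mul_mem hx hh, k, hk, p, hp, by group⟩

include ha in
theorem good_X (hS : R.Stab (t.erase (cls a))) {g : E} (hg : R.Good t a g) {b : Fin m ⊕ Fin m}
    (hb : cls b ∈ t.erase (cls a)) (τ : F) : R.Good t a (R.y b (bar a) τ * g) := by
  classical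
  obtain ⟨c, hc, h, hh, k, hk, p, hp, rfl⟩ := hg
  have hba : cls b ≠ cls a := (Finset.mem_erase.1 hb).1
  obtain ⟨b1, b2, b3, b4, b5⟩ := ne_a hba
  have hXU : R.y b (bar a) τ ∈ R.U {cls a, cls b} := R.y_mem b1 (by simp) (by simp [cls_bar]) τ
  rcases R.norm_form ha hc hk with ⟨u, hu, q, hq, rfl⟩ | ⟨kc, hkc, w, hw, q, hq, rfl⟩
  · refine ⟨b, hb, 1, one_mem _, R.y b (bar a) τ * u, mul_mem hXU (R.U_mono (by simp) hu), h * q * p,
      mul_mem (mul_mem (R.erase_le_P hh) hq) hp, ?_⟩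
    rw [← mul_assoc h u, ← R.u_comm hu hh]
    group
  set h0 := h * kc with hh0
  have mh0 : h0 ∈ R.U (t.erase (cls a)) := mul_mem hh (R.U_mono (by simpa using hc) hkc)
  set v : Vm := (π h0).1 *ᵥ e c with hv
  have hsv : Supp (t.erase (cls a)) v := supp_spOn (R.map_spOn mh0) (supp_e hc)
  let v2 : Vm := fun i => if cls i = cls b then 0 else v i
  by_cases h2 : v2 = 0
  · have hsb : Supp {cls b} v := fun i hi => by
      have := congrFun h2 i
      simp only [v2, if_neg (show ¬ cls i = cls b by simpa using hi)] at this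
      exact this
    have : ∀ c w, cls c = cls b → (w ∈ R.U {cls a} ∨ w = R.Z a c) → ∀ h1 ∈ R.U (t.erase (cls a)), (π h1).1 *ᵥ e c = v →
        ∀ p' ∈ R.P t a, R.Good t a (R.y b (bar a) τ * (h1 * (w * R.X a c) * p')) := by
      intro c w hcb hw h1 m1 e1 p' hp'
      have hc : cls c ∈ t.erase (cls a) := hcb ▸ hb
      obtain ⟨g, hg, eg⟩ := trans_vec (b := c) (t := {cls b}) (by simp [hcb]) hsb (by rw [← e1]; exact sp_mulVec_ne _ (e_ne_zero c))
      obtain ⟨g', hg', e'⟩ := R.exists_lift_U hg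
      have mg : g' ∈ R.U (t.erase (cls a)) := R.U_mono (by simpa using hb) hg'
      obtain ⟨q', hq', eq'⟩ := R.uniq ha hc hS hw m1 mg (by rw [e1, e', eg])
      have hca : cls c ≠ cls a := hcb ▸ hba
      have hwU : w ∈ R.U {cls a, cls c} := by
        rcases hw with hw | rfl
        · exact R.U_mono (by simp) hw
        · exact R.Z_mem hca
      refine ⟨b, hb, 1, one_mem _, R.y b (bar a) τ * (g' * (w * R.X a c)),
        mul_mem hXU (mul_mem (R.U_mono (by simp) hg') (by rw [← hcb]; exact mul_mem hwU (R.X_mem hca))),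
        q' * p', mul_mem hq' hp', ?_⟩
      rw [eq']; group
    by_cases hcb : cls c = cls b
    · rw [show h * (kc * (w * R.X a c) * q) * p = h0 * (w * R.X a c) * (q * p) by rw [hh0]; group]
      exact this c w hcb hw h0 mh0 hv.symm _ (mul_mem hq hp)
    · obtain ⟨s, hs, es, hsw⟩ := R.switch ha hc hb hcb
      obtain ⟨w', hw', q1, hq1, ew⟩ := hsw w hw
      rw [show h * (kc * (w * R.X a c) * q) * p = h0 * (w * R.X a c) * (q * p) by rw [hh0]; group, ew,
        show h0 * (s * (w' * R.X a b) * q1) * (q * p) = h0 * s * (w' * R.X a b) * (q1 * (q * p)) by group]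
      exact this b w' rfl hw' _ (mul_mem mh0 hs) (by rw [map_mul, sp_mul_mulVec, es]) _ (mul_mem hq1 (mul_mem hq hp))
  obtain ⟨i0, hi0⟩ := Function.ne_iff.1 h2
  have hi0' : cls i0 ≠ cls b ∧ cls i0 ∈ t.erase (cls a) := by
    refine ⟨fun h => hi0 (if_pos h), ?_⟩
    by_contra hc'
    apply hi0
    simp only [v2, Pi.zero_apply]
    split_ifs
    · rfl
    · exact hsv i0 hc'
  obtain ⟨c', w', hc', hcb, hw', h1, mh1, eh1, q1, hq1, eg⟩ : ∃ c' w', cls c' ∈ t.erase (cls a) ∧ cls b ≠ cls c' ∧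
      (w' ∈ R.U {cls a} ∨ w' = R.Z a c') ∧ ∃ h1 ∈ R.U (t.erase (cls a)), (π h1).1 *ᵥ e c' = v ∧
      ∃ q1 ∈ R.P t a, h * (kc * (w * R.X a c) * q) * p = h1 * (w' * R.X a c') * q1 := by
    by_cases hcb : cls c = cls b
    · obtain ⟨s, hs, es, hsw⟩ := R.switch ha hc hi0'.2 (hcb ▸ hi0'.1.symm)
      obtain ⟨w', hw', q1, hq1, ew⟩ := hsw w hw
      refine ⟨i0, w', hi0'.2, hi0'.1.symm, hw', h0 * s, mul_mem mh0 hs, by rw [map_mul, sp_mul_mulVec, es],
        q1 * (q * p), mul_mem hq1 (mul_mem hq hp), ?_⟩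
      rw [ew, hh0]; group
    · exact ⟨c, w, hc, fun h => hcb h.symm, hw, h0, mh0, rfl, q * p, mul_mem hq hp, by rw [hh0]; group⟩
  have hca' : cls c' ≠ cls a := (Finset.mem_erase.1 hc').1
  set t2 := (t.erase (cls a)).erase (cls b) with ht2
  have hs2 : Supp t2 v2 := fun i hi => by
    simp only [v2]
    split_ifs with h
    · rfl
    · exact hsv i (fun h' => hi (Finset.mem_erase.2 ⟨h, h'⟩))
  obtain ⟨g2, hg2, eg2⟩ := trans_vec (b := c') (t := t2) (Finset.mem_erase.2 ⟨hcb.symm, hc'⟩) hs2 h2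
  obtain ⟨h2', mh2', e2'⟩ := R.exists_lift_U hg2
  have hcs : cls c' ≠ cls b := hcb.symm
  obtain ⟨n1, n2, n3, n4, n5⟩ := ne_a (a := b) hcs
  have hbc1 : bar c' ≠ bar b := n3
  have hbc2 : bar c' ≠ bar (bar b) := by rw [bar_bar]; exact fun e' => hcb (by rw [← e', cls_bar])
  have hcc : bar c' ≠ bar (bar c') := by rw [bar_bar]; exact bar_ne c'
  set lam := v b * sg c' with hlam
  set mu := v (bar b) * sg c' with hmu
  set δ := -(mu * sg b * v b) * sg c' with hδ
  set C := R.y b (bar c') lam with hC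
  set Bm := R.y (bar b) (bar c') mu with hBm
  set A := R.y (bar c') (bar c') δ with hA
  have mC : C ∈ R.U (t.erase (cls a)) := R.y_mem hbc1 hb (by rw [cls_bar]; exact hc') _
  have mB : Bm ∈ R.U (t.erase (cls a)) := R.y_mem hbc2 (by rw [cls_bar]; exact hb) (by rw [cls_bar]; exact hc') _
  have mA : A ∈ R.U (t.erase (cls a)) := R.y_mem hcc (by rw [cls_bar]; exact hc') (by rw [cls_bar]; exact hc') _
  set hγ := A * Bm * C with hhγ
  have eγ : (π hγ).1 *ᵥ e c' = (e c' + v b • e b + v (bar b) • e (bar b) : Vm) := by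
    rw [hhγ, map_mul, map_mul, sp_mul_mulVec, sp_mul_mulVec, hA, hBm, hC, R.map _ _ hcc, R.map _ _ hbc2, R.map _ _ hbc1]
    have q1 : bar b ≠ bar c' := hbc1.symm
    have q2 : b ≠ bar c' := fun e' => hcb (by rw [e', cls_bar])
    have q3 : bar b ≠ c' := fun e' => hcb (by rw [← e', cls_bar])
    have q4 : b ≠ c' := ne_of_cls hcb
    have q5 : bar b ≠ b := bar_ne b
    have q6 : bar c' ≠ c' := bar_ne c'
    have s1 : (Y b (bar c') lam).1 *ᵥ e c' = (e c' + v b • e b : Vm) := by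
      funext i
      rw [Y_short_coord hbc1 q2, bar_bar, sg_bar, e_self, e_ne q3]
      simp only [Pi.add_apply, Pi.smul_apply, e_apply, smul_eq_mul, hlam]
      by_cases i1 : i = b
      · subst i1; simp [q2, q4]; linear_combination v i * sg_mul_self (F := F) c'
      · simp [i1]
    have s2 : (Y (bar b) (bar c') mu).1 *ᵥ (e c' + v b • e b : Vm) =
        (e c' + v b • e b + v (bar b) • e (bar b) + (mu * sg b * v b) • e (bar c') : Vm) := by
      funext i
      rw [Y_short_coord hbc2 q1, bar_bar, bar_bar, sg_bar, sg_bar]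
      simp only [Pi.add_apply, Pi.smul_apply, e_apply, smul_eq_mul, q4, q4.symm, if_true, if_false, mul_zero, add_zero,
        zero_add, mul_one]
      by_cases i2 : i = bar b
      · subst i2; simp [q1, q3, q5, hmu]; linear_combination v (bar b) * sg_mul_self (F := F) c'
      by_cases i3 : i = bar c'
      · subst i3; simp [q1.symm, q2.symm, q6]
      simp [i2, i3]
    rw [s1, s2]
    funext i
    rw [Y_long_coord, bar_bar, sg_bar]
    simp only [Pi.add_apply, Pi.smul_apply, e_apply, smul_eq_mul, q3.symm, q4.symm, q6.symm, if_true, if_false, mul_zero,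
      add_zero, mul_one]
    by_cases i3 : i = bar c'
    · subst i3; simp [q1.symm, q2.symm, q6, hδ]
      linear_combination (-(mu * sg b * v b)) * sg_mul_self (F := F) c'
    simp [i3]
  have mh2 : h2' ∈ R.U (t.erase (cls a)) := R.U_mono (Finset.erase_subset _ _) mh2'
  have eh2 : (π (h2' * hγ)).1 *ᵥ e c' = v := by
    rw [map_mul, sp_mul_mulVec, eγ, Matrix.mulVec_add, Matrix.mulVec_add, Matrix.mulVec_smul, Matrix.mulVec_smul, e2', eg2]
    have hf := Ys_le_spOn _ hg2
    rw [hf b (Finset.notMem_erase _ _), hf (bar b) (by rw [cls_bar]; exact Finset.notMem_erase _ _)]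
    funext i
    simp only [v2, Pi.add_apply, Pi.smul_apply, e_apply, smul_eq_mul]
    by_cases hi : cls i = cls b
    · rcases eq_or_bar hi with rfl | rfl
      · simp [(bar_ne i).symm]
      · simp [bar_ne b, cls_bar]
    · rw [if_neg hi, if_neg (fun h => hi (by rw [h])), if_neg (fun h => hi (by rw [h, cls_bar]))]; ring
  obtain ⟨q2, hq2, eq2⟩ := R.uniq ha hc' hS hw' mh1 (mul_mem mh2 (mul_mem (mul_mem mA mB) mC)) (eh1.trans eh2.symm)
  obtain ⟨x1, mx1, cx1, k', hk', q3, hq3, ex⟩ := R.X_step ha hb hc' hcb hw' τ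
  set X0 := R.y b (bar a) τ with hX0
  have kh : X0 * h2' = h2' * X0 := R.commute_disjoint (s := {cls a, cls b}) (t := t2)
    (Finset.disjoint_left.2 fun x hx hx' => by
      simp only [ht2, Finset.mem_erase] at hx'
      simp only [Finset.mem_insert, Finset.mem_singleton] at hx
      tauto) hXU mh2'
  have hcA : bar c' ≠ a := fun e' => hca' (by rw [← e', cls_bar])
  have kA : X0 * A = A * X0 := R.comm _ _ _ _ b1 hcc ⟨hbc1, by rw [bar_bar]; exact hcA, hbc1, by rw [bar_bar]; exact hcA⟩ _ _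
  have kC : X0 * C = C * X0 := R.comm _ _ _ _ b1 hbc1 ⟨(bar_ne b).symm, by rw [bar_bar]; exact b2, hbc1,
    by rw [bar_bar]; exact hcA⟩ _ _
  have kB := R.conj_out (p := bar a) (r := b) (s := bar c') (by rw [cls_bar]; exact hba.symm)
    (by rw [cls_bar]; exact hcb) (by rw [cls_bar, cls_bar]; exact hca'.symm) τ mu
  rw [← R.symm b (bar a) b1, ← hX0, ← hBm] at kB
  set ρ := sg (bar b) * τ * mu
  set Xc := R.y (bar a) (bar c') ρ with hXc
  have hne' : bar c' ≠ bar (bar a) := by rw [bar_bar]; exact hcA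
  have q0 : bar a ≠ c' := fun e' => hca' (by rw [← e', cls_bar])
  have kB2 : Xc * Bm = Bm * Xc := R.comm _ _ _ _ hne' hbc2 ⟨by rw [bar_bar]; exact fun e' => hba (by rw [← cls_bar b, e']),
    by rw [bar_bar]; exact fun e' => hcb (by rw [← e', cls_bar]), by rw [bar_bar]; exact hcA, hcc⟩ _ _
  have kC2 : Xc * C = C * Xc := R.comm _ _ _ _ hne' hbc1 ⟨by rw [bar_bar]; exact b2, by rw [bar_bar]; exact ne_of_cls hcb,
    by rw [bar_bar]; exact hcA, hcc⟩ _ _
  refine ⟨c', hc', h2' * hγ * x1, mul_mem (mul_mem mh2 (mul_mem (mul_mem mA mB) mC)) mx1, Xc * k',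
    mul_mem (R.y_mem hne' (by simp [cls_bar]) (by simp [cls_bar]) _) hk', q3 * q2 * q1,
    mul_mem (mul_mem hq3 hq2) hq1, ?_⟩
  rw [eg, eq2, hhγ]
  calc X0 * (h2' * (A * Bm * C) * (w' * R.X a c') * q2 * q1)
      = (X0 * h2') * A * Bm * C * (w' * R.X a c') * q2 * q1 := by group
    _ = h2' * (X0 * A) * Bm * C * (w' * R.X a c') * q2 * q1 := by rw [kh]; group
    _ = h2' * A * (X0 * Bm) * C * (w' * R.X a c') * q2 * q1 := by rw [kA]; group
    _ = h2' * A * (Xc * Bm) * (X0 * C) * (w' * R.X a c') * q2 * q1 := by rw [kB]; group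
    _ = h2' * A * Bm * (Xc * C) * X0 * (w' * R.X a c') * q2 * q1 := by rw [kB2, kC]; group
    _ = h2' * A * Bm * C * Xc * (X0 * (w' * R.X a c')) * q2 * q1 := by rw [kC2]; group
    _ = h2' * A * Bm * C * (Xc * x1) * k' * q3 * q2 * q1 := by rw [ex]; group
    _ = _ := by rw [hXc, ← cx1]; group

include ha in
theorem stab_step (hS : R.Stab (t.erase (cls a))) (hne : (t.erase (cls a)).Nonempty) :
    ∀ g ∈ R.U t, (π g).1 *ᵥ e a = (e a : Vm) → g ∈ R.P t a := by
  classical
  obtain ⟨d, hd⟩ := hne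
  have hall : ∀ g ∈ R.U t, R.Good t a g := by
    have hgen : ∀ p r c, cls p ∈ t → cls r ∈ t → r ≠ bar p → ∀ z, R.Good t a z → R.Good t a (R.y p r c * z) := by
      intro p r c hp hr hne' z hz
      have side : ∀ p r c, cls p = cls a → cls r ∈ t → r ≠ bar p → cls r ≠ cls a → R.Good t a (R.y p r c * z) := by
        intro p r c hpa hr hne' hra
        have hr' : cls r ∈ t.erase (cls a) := Finset.mem_erase.2 ⟨hra, hr⟩
        rw [R.symm p r hne']
        rcases eq_or_bar hpa with rfl | rfl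
        · obtain ⟨W, hW, eW⟩ := trans_vec (b := bar p) (t := {cls p}) (by simp [cls_bar]) (supp_e (F := F) (p := p) (by simp)) (e_ne_zero p)
          obtain ⟨W', hW', eW'⟩ := R.exists_lift_U hW
          obtain ⟨r1, r2, r3, r4, r5⟩ := ne_a (a := p) hra
          have hy := R.y_mem (t := {cls p, cls r}) r1 (by simp) (by simp [cls_bar]) c
          have he : R.y r p c = W' * R.y r (bar p) c * W'⁻¹ := by
            refine R.eq_of_map_eq (x := cls p) (y := cls r) (Finset.Subset.refl _) (R.y_mem r5 (by simp) (by simp) c)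
              (mul_mem (mul_mem (R.U_mono (by simp) hW') hy) (inv_mem (R.U_mono (by simp) hW'))) ?_
            rw [map_mul, map_mul, map_inv, R.map _ _ r5, R.map _ _ r1, Y_short r4, Y_short r2, S_conj, eW', eW]
            rw [R.map_spOn hW' |> fun h => (eW' ▸ h : W ∈ spOn {cls p}) r (by rw [Finset.mem_singleton]; exact hra)]
          rw [he, show W' * R.y r (bar p) c * W'⁻¹ * z = W' * (R.y r (bar p) c * (W'⁻¹ * z)) by group]
          exact R.good_u ha (R.good_X ha hS (R.good_u ha hz (inv_mem hW')) hr' c) hW'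
        · exact R.good_X ha hS hz hr' c
      by_cases hpa : cls p = cls a
      · by_cases hra : cls r = cls a
        · exact R.good_u ha hz (R.y_mem hne' (by simp [hpa]) (by simp [hra]) c)
        · exact side p r c hpa hr hne' hra
      by_cases hra : cls r = cls a
      · rw [R.symm p r hne']
        exact side r p c hra hp (bar_symm hne') hpa
      · exact R.good_h hz (R.y_mem hne' (Finset.mem_erase.2 ⟨hpa, hp⟩) (Finset.mem_erase.2 ⟨hra, hr⟩) c)
    intro g hg
    induction hg using Subgroup.closure_induction_left with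
    | one => exact ⟨Sum.inl d, hd, 1, one_mem _, 1, one_mem _, 1, one_mem _, by group⟩
    | mul_left x hx z _ ihz =>
      obtain ⟨p, r, c, hp, hr, hne', rfl⟩ := hx
      exact hgen p r c hp hr hne' z ihz
    | inv_mul_cancel x hx z _ ihz =>
      obtain ⟨p, r, c, hp, hr, hne', rfl⟩ := hx
      rw [R.y_inv hne']
      exact hgen p r (-c) hp hr hne' z ihz
  intro g hg hga
  obtain ⟨c, hc, h, hh, k, hk, p, hp, rfl⟩ := hall g hg
  rw [map_mul, sp_mul_mulVec, R.P_fix hp] at hga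
  have hca : cls c ≠ cls a := (Finset.mem_erase.1 hc).1
  rcases R.norm_form ha hc hk with ⟨u, hu, q, hq, rfl⟩ | ⟨kc, hkc, w, hw, q, hq, rfl⟩
  · rw [← mul_assoc h u q, ← R.u_comm hu hh, mul_assoc u h q] at hga ⊢
    refine mul_mem (mul_mem ?_ (mul_mem (R.erase_le_P hh) hq)) hp
    refine R.P_mono (by simpa using ha) a (R.stab_pair (x := cls a) (y := cls a) (by simp) a (by simp) u hu ?_)
    rw [map_mul, sp_mul_mulVec, R.P_fix (mul_mem (R.erase_le_P hh) hq)] at hga
    exact hga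
  exfalso
  set h1 := h * kc with hh1
  have mh1 : h1 ∈ R.U (t.erase (cls a)) := mul_mem hh (R.U_mono (by simpa using hc) hkc)
  rw [show h * (kc * (w * R.X a c) * q) = h1 * (w * R.X a c) * q by rw [hh1]; group, map_mul, sp_mul_mulVec,
    R.P_fix hq, map_mul, sp_mul_mulVec] at hga
  have hz : ((π (w * R.X a c)).1 *ᵥ e a) c = (e a : Vm) c → False := by
    rw [e_ne (ne_of_cls hca)]
    intro h0
    rcases hw with hw | rfl
    · rw [map_mul, sp_mul_mulVec, R.X_img hca, spOn_coord (R.map_spOn hw) _ (by rw [Finset.mem_singleton]; exact hca),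
        Pi.add_apply, e_ne (ne_of_cls hca), e_self, zero_add] at h0
      exact one_ne_zero h0
    · rw [R.ZX_img hca, e_self] at h0
      exact one_ne_zero h0
  apply hz
  have hfix : (π h1).1 *ᵥ e a = (e a : Vm) := R.map_spOn mh1 a (Finset.notMem_erase _ _)
  have : (π (w * R.X a c)).1 *ᵥ e a = (e a : Vm) := by
    have h2 := congrArg (fun x => ((π h1)⁻¹).1 *ᵥ x) hga
    simp only [sp_inv_mulVec] at h2
    rw [h2]
    conv_lhs => rw [← hfix]
    rw [sp_inv_mulVec]
  rw [this]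

end

/-- Lifted root elements generate a group mapped faithfully. -/
theorem eq_one_of_map_eq_one {g : E} (hg : g ∈ R.U Finset.univ) (h1 : π g = 1) : g = 1 := by
  suffices H : ∀ t : Finset (Fin m), R.Inj t from H _ g hg h1
  intro t
  induction t using Finset.strongInduction with
  | H t ih =>
    rcases t.eq_empty_or_nonempty with rfl | ⟨d, hd⟩
    · intro g hg _
      have : R.U ∅ ≤ ⊥ := R.U_le fun p r c hp _ _ => absurd hp (Finset.notMem_empty _)
      exact Subgroup.mem_bot.1 (this hg)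
    by_cases h1 : t.erase d = ∅
    · intro g hg hg1
      refine R.inj_small (x := d) (y := d) ?_ hg hg1
      intro x hx
      by_contra hne
      have : x ∈ t.erase d := Finset.mem_erase.2 ⟨fun e' => hne (by simp [e']), hx⟩
      rw [h1] at this
      exact Finset.notMem_empty _ this
    have hS : ∀ a, cls a ∈ t → R.Stab (t.erase (cls a)) := fun a ha => R.stab_of_inj (ih _ (Finset.erase_ssubset ha))
    refine R.inj_of_stab (a := Sum.inl d) hd (fun a ha => R.stab_step ha (hS a ha) ?_) (ih _ (Finset.erase_ssubset hd))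
    obtain ⟨x, hx⟩ := Finset.nonempty_iff_ne_empty.2 h1
    by_cases hxa : x = cls a
    · exact ⟨d, Finset.mem_erase.2 ⟨fun e' => (Finset.mem_erase.1 hx).1 (hxa.trans e'.symm), hd⟩⟩
    · exact ⟨x, Finset.mem_erase.2 ⟨hxa, Finset.mem_of_mem_erase hx⟩⟩

end Rels

end Cfsg.Agent.Suzuki.SpSt
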