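import Mathlib

/-!
Square-zero matrices are classified by their rank, also up to conjugation by matrices of determinant one when
every scalar is a square.
-/

set_option autoImplicit false

namespace Cfsg.Agent.Suzuki

variable {F : Type*} [Field F]

theorem sqzero_normal {V : Type*} [AddCommGroup V] [Module F V] [FiniteDimensional F V]
    (N : V →ₗ[F] V) (h : N ∘ₗ N = 0) {r m : ℕ} (hr : Module.finrank F (LinearMap.range N) = r)
    (hn : Module.finrank F V = r + r + m) :
    ∃ Φ : ((Fin r → F) × (Fin r → F) × (Fin m → F)) ≃ₗ[F] V,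
      ∀ p, N (Φ p) = Φ (0, p.1, 0) := by
  classical
  have hrk := LinearMap.finrank_range_add_finrank_ker N
  have hle : LinearMap.range N ≤ LinearMap.ker N := by
    rintro _ ⟨v, rfl⟩
    exact LinearMap.congr_fun h v
  obtain ⟨W, hW⟩ := Submodule.exists_isCompl (LinearMap.ker N)
  obtain ⟨C, hC⟩ := Submodule.exists_isCompl ((LinearMap.range N).comap (LinearMap.ker N).subtype)
  have hWr : Module.finrank F W = r := by
    have := Submodule.finrank_add_eq_of_isCompl hW
    omega
  have hCm : Module.finrank F C = m := by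
    have h1 := Submodule.finrank_add_eq_of_isCompl hC
    rw [LinearEquiv.finrank_eq (Submodule.comapSubtypeEquivOfLe hle), hr] at h1
    omega
  let bW : (Fin r → F) ≃ₗ[F] W := LinearEquiv.ofFinrankEq _ _ (by rw [Module.finrank_fin_fun, hWr])
  let bC : (Fin m → F) ≃ₗ[F] C := LinearEquiv.ofFinrankEq _ _ (by rw [Module.finrank_fin_fun, hCm])
  let f : ((Fin r → F) × (Fin r → F) × (Fin m → F)) →ₗ[F] V :=
    (W.subtype ∘ₗ bW.toLinearMap).coprod
      ((N ∘ₗ W.subtype ∘ₗ bW.toLinearMap).coprod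
        ((LinearMap.ker N).subtype ∘ₗ C.subtype ∘ₗ bC.toLinearMap))
  have hfv : ∀ x y z, f (x, y, z) = (bW x : V) + (N (bW y : V) + ((bC z : LinearMap.ker N) : V)) :=
    fun x y z => rfl
  have hker : ∀ z, N ((bC z : LinearMap.ker N) : V) = 0 := fun z => (bC z : LinearMap.ker N).2
  have hNN : ∀ v, N (N v) = 0 := fun v => LinearMap.congr_fun h v
  have hNf : ∀ x y z, N (f (x, y, z)) = N (bW x : V) := fun x y z => by
    rw [hfv, map_add, map_add, hNN, hker, add_zero, add_zero]
  have hWinj : ∀ x, N (bW x : V) = 0 → x = 0 := fun x e => by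
    have hm : (bW x : V) ∈ LinearMap.ker N ⊓ W := ⟨e, (bW x).2⟩
    rw [disjoint_iff.1 hW.disjoint, Submodule.mem_bot] at hm
    exact bW.injective (Subtype.ext (by rw [map_zero]; exact hm))
  have hinj : Function.Injective f := by
    rw [← LinearMap.ker_eq_bot, LinearMap.ker_eq_bot']
    rintro ⟨x, y, z⟩ e
    have hx : x = 0 := hWinj x (by rw [← hNf x y z, e, map_zero])
    subst hx
    rw [hfv, map_zero, Submodule.coe_zero, zero_add] at e
    have hz : z = 0 := by
      have hm : (bC z : LinearMap.ker N) ∈ (LinearMap.range N).comap (LinearMap.ker N).subtype ⊓ C :=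
        ⟨⟨-(bW y : V), by rw [map_neg, neg_eq_iff_add_eq_zero]; exact e⟩, (bC z).2⟩
      rw [disjoint_iff.1 hC.disjoint, Submodule.mem_bot] at hm
      exact bC.injective (Subtype.ext (by rw [map_zero]; exact hm))
    subst hz
    rw [map_zero, Submodule.coe_zero, Submodule.coe_zero, add_zero] at e
    rw [hWinj y e]; rfl
  refine ⟨LinearEquiv.ofInjectiveOfFinrankEq f hinj (by simp [hn, add_assoc]), fun p => ?_⟩
  obtain ⟨x, y, z⟩ := p
  show N (f (x, y, z)) = f (0, x, 0)
  rw [hNf, hfv]; simp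

theorem sqzero_conj {n : ℕ} (A B : Matrix (Fin n) (Fin n) F) (hA : A * A = 0) (hB : B * B = 0)
    (hr : A.rank = B.rank) (hA0 : A ≠ 0) (hsq : ∀ c : F, IsSquare c) :
    ∃ P : Matrix.SpecialLinearGroup (Fin n) F,
      (P : Matrix (Fin n) (Fin n) F) * A = B * (P : Matrix (Fin n) (Fin n) F) := by
  classical
  have hzero : ∀ M : Matrix (Fin n) (Fin n) F, M * M = 0 →
      Matrix.toLin' M ∘ₗ Matrix.toLin' M = 0 := fun M hM => by
    rw [← Matrix.toLin'_mul, hM, map_zero]
  have hrng : ∀ M : Matrix (Fin n) (Fin n) F,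
      Module.finrank F (LinearMap.range (Matrix.toLin' M)) = M.rank := fun M => rfl
  set r := A.rank with hrdef
  have h2r : r + r ≤ n := by
    have h1 := LinearMap.finrank_range_add_finrank_ker (Matrix.toLin' A)
    have h2 : LinearMap.range (Matrix.toLin' A) ≤ LinearMap.ker (Matrix.toLin' A) := by
      rintro _ ⟨v, rfl⟩; exact LinearMap.congr_fun (hzero A hA) v
    have h3 := Submodule.finrank_mono h2
    rw [hrng, Module.finrank_fin_fun, ← hrdef] at h1
    rw [hrng, ← hrdef] at h3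
    omega
  have hn : Module.finrank F (Fin n → F) = r + r + (n - (r + r)) := by
    rw [Module.finrank_fin_fun]; omega
  obtain ⟨Φ, hΦ⟩ := sqzero_normal _ (hzero A hA) (hrng A) hn
  obtain ⟨Ψ, hΨ⟩ := sqzero_normal _ (hzero B hB) ((hrng B).trans hr.symm) hn
  have hr0 : 0 < r := by
    by_contra hr0
    apply hA0
    have : LinearMap.range (Matrix.toLin' A) = ⊥ := Submodule.finrank_eq_zero.1 (by rw [hrng]; omega)
    exact Matrix.toLin'.injective (by rw [LinearMap.range_eq_bot.1 this, map_zero])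
  let c : F := LinearMap.det ((Φ.symm.trans Ψ : (Fin n → F) ≃ₗ[F] (Fin n → F)) : (Fin n → F) →ₗ[F] (Fin n → F))
  have hc : c ≠ 0 := (LinearEquiv.isUnit_det' _).ne_zero
  obtain ⟨s, hs⟩ := hsq c⁻¹
  let d : Fin r → F := fun i => if i = ⟨0, hr0⟩ then s else 1
  let D1 : (Fin r → F) →ₗ[F] (Fin r → F) := Matrix.toLin' (Matrix.diagonal d)
  have hD1 : LinearMap.det D1 = s := by
    rw [LinearMap.det_toLin', Matrix.det_diagonal, Finset.prod_ite_eq' Finset.univ]
    simp
  let D : ((Fin r → F) × (Fin r → F) × (Fin (n - (r + r)) → F)) →ₗ[F] _ :=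
    D1.prodMap (D1.prodMap LinearMap.id)
  have hD : LinearMap.det D = c⁻¹ := by
    rw [LinearMap.det_prodMap, LinearMap.det_prodMap, LinearMap.det_id, hD1, mul_one, hs]
  let T : (Fin n → F) →ₗ[F] (Fin n → F) := Ψ.toLinearMap ∘ₗ D ∘ₗ Φ.symm.toLinearMap
  have hT : LinearMap.det T = 1 := by
    have e : T = ((Φ.symm.trans Ψ : (Fin n → F) ≃ₗ[F] (Fin n → F)) : (Fin n → F) →ₗ[F] (Fin n → F)) ∘ₗ
        (Φ.toLinearMap ∘ₗ D ∘ₗ Φ.symm.toLinearMap) := by
      ext v; simp [T]
    rw [e, LinearMap.det_comp, LinearMap.det_conj, hD]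
    exact mul_inv_cancel₀ hc
  refine ⟨⟨LinearMap.toMatrix' T, by rw [LinearMap.det_toMatrix', hT]⟩, ?_⟩
  apply Matrix.toLin'.injective
  rw [Matrix.toLin'_mul, Matrix.toLin'_mul, Matrix.toLin'_toMatrix']
  refine LinearMap.ext fun v => ?_
  obtain ⟨q, rfl⟩ := Φ.surjective v
  have e : ∀ p, T (Φ p) = Ψ (D p) := fun p => by simp [T]
  show T (Matrix.toLin' A (Φ q)) = Matrix.toLin' B (T (Φ q))
  rw [hΦ, e, e, hΨ]
  congr 1
  simp [D]

end Cfsg.Agent.Suzuki
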