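import Cfsg.Prelude.Def_ClassicalGeometry

/-!
Matrices of involutions in characteristic two.
-/

set_option autoImplicit false

namespace Cfsg.Agent.Suzuki

open Matrix

variable {F : Type*} [Field F]

/-- An alternating matrix of odd size is singular in characteristic two. -/
theorem det_alternating_odd [CharP F 2] {ι : Type*} [Fintype ι] [DecidableEq ι] (M : Matrix ι ι F)
    (hsym : ∀ i j, M i j = M j i) (hdiag : ∀ i, M i i = 0) (hodd : Odd (Fintype.card ι)) :
    M.det = 0 := by
  rw [Matrix.det_apply']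
  refine Finset.sum_involution (fun σ _ => σ⁻¹) (fun σ _ => ?_) (fun σ _ hne e => hne ?_)
    (fun σ _ => Finset.mem_univ _) (fun σ _ => inv_inv σ)
  · rw [show ∏ i, M (σ⁻¹ i) i = ∏ i, M (σ i) i from by
      rw [← Equiv.prod_comp σ fun i => M (σ⁻¹ i) i]
      exact Finset.prod_congr rfl fun i _ => by rw [Equiv.Perm.coe_inv, σ.symm_apply_apply, hsym],
      Equiv.Perm.sign_inv]
    exact CharTwo.add_self_eq_zero _
  · obtain ⟨i, hi⟩ := Equiv.Perm.exists_fixed_point_of_prime (σ := σ) (p := 2) (n := 1)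
      (hp := Fact.mk Nat.prime_two) (by rw [← even_iff_two_dvd, Nat.not_even_iff_odd]; exact hodd)
      (by
        have e' : σ⁻¹ = σ := e
        rw [pow_one, pow_two]
        nth_rw 1 [← e']
        exact inv_mul_cancel σ)
    rw [Finset.prod_eq_zero (Finset.mem_univ i) (by rw [hi, hdiag]), mul_zero]

/-- An alternating matrix has even rank in characteristic two. -/
theorem even_rank_alternating [CharP F 2] {ι : Type*} [Fintype ι] [DecidableEq ι] (M : Matrix ι ι F)
    (hsym : ∀ i j, M i j = M j i) (halt : ∀ v, v ⬝ᵥ (M *ᵥ v) = 0) : Even M.rank := by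
  classical
  obtain ⟨W, hW⟩ := Submodule.exists_isCompl (LinearMap.ker M.mulVecLin)
  have hfin : Module.finrank F W = M.rank := by
    have h1 := LinearMap.finrank_range_add_finrank_ker M.mulVecLin
    have h2 := Submodule.finrank_add_eq_of_isCompl hW
    rw [Matrix.rank]
    omega
  let b := Module.finBasis F W
  let C : Matrix ι (Fin (Module.finrank F W)) F := Matrix.of fun i j => (b j).1 i
  have hC : ∀ x, C *ᵥ x = ((∑ j, x j • b j : W) : ι → F) := fun x => by
    funext i
    simp [C, Matrix.mulVec, dotProduct, mul_comm]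
  have hMt : Mᵀ = M := Matrix.ext fun i j => hsym j i
  let M' := Cᵀ * M * C
  have hsym' : ∀ i j, M' i j = M' j i := fun i j => by
    have : M'ᵀ = M' := by simp [M', Matrix.transpose_mul, hMt, Matrix.mul_assoc]
    exact congrFun (congrFun this j) i
  have hdiag' : ∀ i, M' i i = 0 := fun i => by
    have := halt (C *ᵥ Pi.single i 1)
    rw [Matrix.mulVec_mulVec, ← Matrix.vecMul_transpose C, ← Matrix.dotProduct_mulVec,
      Matrix.mulVec_mulVec, single_one_dotProduct, Matrix.mulVec_single_one] at this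
    simpa [M', Matrix.mul_assoc] using this
  rw [← hfin, ← Nat.not_odd_iff_even]
  intro hodd
  have hdet := det_alternating_odd M' hsym' hdiag' (by simpa using hodd)
  obtain ⟨x, hx, hx0⟩ := (Matrix.exists_mulVec_eq_zero_iff).2 hdet
  set y := C *ᵥ x with hy
  have hyW : y ∈ W := by rw [hy, hC]; exact Submodule.coe_mem _
  have horth : M *ᵥ y = 0 := by
    refine dotProduct_eq_zero _ fun u => ?_
    obtain ⟨z, hz, w, hw, rfl⟩ := Submodule.mem_sup.1
      (hW.sup_eq_top ▸ Submodule.mem_top : u ∈ LinearMap.ker M.mulVecLin ⊔ W)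
    rw [dotProduct_add]
    have e1 : M *ᵥ y ⬝ᵥ z = 0 := by
      rw [dotProduct_comm, Matrix.dotProduct_mulVec, ← Matrix.mulVec_transpose, hMt,
        show M *ᵥ z = 0 from hz, zero_dotProduct]
    obtain ⟨c, hc⟩ : ∃ c, w = C *ᵥ c := ⟨fun j => b.repr ⟨w, hw⟩ j, by
      rw [hC, b.sum_repr ⟨w, hw⟩]⟩
    have e2 : M *ᵥ y ⬝ᵥ w = 0 := by
      rw [hc, Matrix.dotProduct_mulVec, ← Matrix.mulVec_transpose, hy, Matrix.mulVec_mulVec,
        Matrix.mulVec_mulVec, show Cᵀ * M * C = M' from rfl, hx0, zero_dotProduct]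
    rw [e1, e2, add_zero]
  have hy0 : y = 0 := Submodule.disjoint_def.1 hW.disjoint y horth hyW
  apply hx
  have h1 : (∑ j, x j • b j : W) = 0 := Subtype.ext ((hC x).symm.trans hy0)
  funext j
  exact Fintype.linearIndependent_iff.1 b.linearIndependent x h1 j

theorem le_rank_of_submatrix {ι : Type*} [Fintype ι] {l : ℕ} (M : Matrix ι ι F)
    (r c : Fin l → ι) (h : M.submatrix r c = 1) : l ≤ M.rank := by
  have := M.rank_submatrix_le r c
  rw [h, Matrix.rank_one, Fintype.card_fin] at this
  exact this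

theorem rank_eq_of_factor {ι : Type*} [Fintype ι] {l : ℕ} (M : Matrix ι ι F) (A : Matrix ι (Fin l) F)
    (B : Matrix (Fin l) ι F) (hM : M = A * B) (r c : Fin l → ι) (h : M.submatrix r c = 1) :
    M.rank = l := by
  refine le_antisymm ?_ (le_rank_of_submatrix M r c h)
  rw [hM]
  refine (Matrix.rank_mul_le_left A B).trans ?_
  simpa using Matrix.rank_le_card_width A

end Cfsg.Agent.Suzuki
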