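import Cfsg.Agent.Suzuki.D4TwoBase

/-! # The two classes are separated by the rank on the adjoint module -/

set_option autoImplicit false
set_option maxHeartbeats 2000000

universe u

namespace Cfsg.Agent.Suzuki.D4Two

open Cfsg.Lie Cfsg.Agent.Chev
open scoped Matrix MatrixGroups

theorem x_hom {L : Type*} [Field L] {K : Type u} [Field K] (φ : L →+* K) (r : ℕ) (t : L) :
    (chevD4.x L r t).map φ = chevD4.x K r (φ t) := by
  unfold ChevalleyDatum.x
  split
  · ext row col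
    rcases col with i | s <;> rcases row with j | v <;>
      simp [ChevalleyDatum.xMat, Matrix.of_apply, apply_ite φ, map_list_sum, List.map_map, Function.comp_def]
    all_goals (split <;> simp [apply_ite φ, map_list_sum, List.map_map, Function.comp_def])
  · rw [Matrix.map_one φ (map_zero φ) (map_one φ)]

/-- The index with a given position. -/
def ix : ℕ → chevD4.Idx := fun i =>
  if i < 4 then Sum.inl ⟨i % 4, Nat.mod_lt _ (by decide)⟩ else Sum.inr ⟨(i - 4) % 24, Nat.mod_lt _ (by decide)⟩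

/-- Rows of the minor. -/
def rowI : Fin 11 → chevD4.Idx := fun i => ix (#[0, 1, 2, 8, 9, 16, 17, 19, 20, 21, 26].getD i.val 0)

/-- Columns of the minor. -/
def colI : Fin 11 → chevD4.Idx := fun i => ix (#[0, 4, 5, 6, 7, 8, 9, 10, 11, 12, 14].getD i.val 0)

/-- The columns met by the long root element. -/
def colZ : Fin 10 → chevD4.Idx := fun i => ix (#[1, 4, 5, 6, 7, 8, 10, 11, 12, 13].getD i.val 0)

/-- The inverse of the minor. -/
def minorInv : Matrix (Fin 11) (Fin 11) (ZMod 2) :=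
  !![1, 1, 0, 0, 0, 0, 0, 0, 0, 1, 0; 0, 0, 0, 1, 0, 0, 0, 0, 0, 0, 0; 0, 0, 0, 0, 1, 0, 0, 0, 0, 0, 0;
     1, 1, 1, 0, 0, 0, 0, 0, 0, 0, 0; 0, 1, 1, 0, 0, 0, 0, 0, 0, 0, 0; 0, 0, 0, 1, 0, 1, 1, 0, 0, 0, 1;
     0, 0, 0, 0, 1, 0, 0, 0, 1, 0, 0; 1, 1, 0, 0, 0, 0, 0, 0, 0, 0, 0; 0, 0, 0, 0, 0, 0, 1, 0, 0, 0, 1;
     0, 0, 0, 0, 0, 1, 0, 0, 0, 0, 1; 0, 0, 0, 0, 0, 0, 0, 1, 1, 0, 0]

theorem long_small :
    chevD4.x (ZMod 2) 23 1 - 1 =
      ((chevD4.x (ZMod 2) 23 1 - 1).submatrix id colZ) * ((1 : Matrix chevD4.Idx chevD4.Idx (ZMod 2)).submatrix colZ id) := by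
  decide +kernel

theorem short_minor :
    minorInv * ((chevD4.x (ZMod 2) 17 1 * chevD4.x (ZMod 2) 20 1 * chevD4.x (ZMod 2) 21 1 - 1).submatrix rowI colI) = 1 := by
  decide +kernel

variable {K : Type u} [Field K] [CharP K 2]

theorem not_conj (k : G K) :
    k * cD.xu 23 (1 : K) ≠ cD.xu 17 1 * (cD.xu 20 1 * cD.xu 21 1) * k := by
  intro h
  set φ : ZMod 2 →+* K := ZMod.castHom (dvd_refl 2) K
  set Z : Matrix chevD4.Idx chevD4.Idx K := chevD4.x K 23 1 - 1
  set C : Matrix chevD4.Idx chevD4.Idx K := chevD4.x K 17 1 * chevD4.x K 20 1 * chevD4.x K 21 1 - 1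
  have hC : C = (k : Matrix chevD4.Idx chevD4.Idx K) * Z * ((k⁻¹ : G K) : Matrix chevD4.Idx chevD4.Idx K) := by
    have e := congrArg (fun g : G K => ((g * k⁻¹ : G K) : Matrix chevD4.Idx chevD4.Idx K)) h
    simp only [mul_inv_cancel_right, Units.val_mul, Cert.coe_xu] at e
    rw [Matrix.mul_sub, Matrix.sub_mul, Matrix.mul_one, e, Units.mul_inv, ← mul_assoc]
  have hZ : Z = (Z.submatrix id colZ) * ((1 : Matrix chevD4.Idx chevD4.Idx K).submatrix colZ id) := by
    have e := congrArg (fun M => M.map φ) long_small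
    simp only [Matrix.map_mul, ← Matrix.submatrix_map, Matrix.map_sub φ (map_sub φ), x_hom, map_one,
      Matrix.map_one φ (map_zero φ) (map_one φ)] at e
    exact e
  have hS : (minorInv.map φ) * C.submatrix rowI colI = 1 := by
    have e := congrArg (fun M => M.map φ) short_minor
    simp only [Matrix.map_mul, ← Matrix.submatrix_map, Matrix.map_sub φ (map_sub φ), x_hom, map_one,
      Matrix.map_one φ (map_zero φ) (map_one φ)] at e
    exact e
  rw [hC, hZ, ← Matrix.mul_assoc, Matrix.mul_assoc (_ * _) _ ((k⁻¹ : G K) : Matrix chevD4.Idx chevD4.Idx K),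
    ← Matrix.submatrix_mul_equiv _ _ rowI (Equiv.refl _) colI] at hS
  have h1 := congrArg Matrix.rank hS
  rw [Matrix.rank_one, Fintype.card_fin, ← Matrix.mul_assoc] at h1
  have h3 := h1.symm.le.trans ((Matrix.rank_mul_le_left _ _).trans (Matrix.rank_le_card_width _))
  simp at h3

end Cfsg.Agent.Suzuki.D4Two
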