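import Cfsg.Agent.Suzuki.D4TwoClasses
import Cfsg.Agent.Suzuki.D4TwoRank

/-! # Exactly two classes of involutions in ³D₄ over fields of characteristic two -/

set_option autoImplicit false
set_option maxHeartbeats 1000000
set_option linter.unusedSectionVars false

universe u

namespace Cfsg.Agent.Suzuki.D4Two

open Cfsg.Lie Cfsg.Agent.Chev Cfsg.Agent.Chev.TwoGenTools
open scoped Matrix MatrixGroups

variable {K : Type u} [Field K] [CharP K 2]

local notation "X" => Cert.xu cD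

/-- The torus normalises both normal forms. -/
theorem scale [Finite K] (τ : K →+* K) (hτ : ∀ x, (τ)^[3] x = x) :
    (∀ c : K, c ≠ 0 → τ c = c → Rel τ hτ (El τ 0 0 0 0 0 c) (El τ 0 0 0 0 0 1)) ∧
      ∀ c : K, c ≠ 0 → Rel τ hτ (El τ 0 0 0 c 0 0) (El τ 0 0 0 1 0 0) := by
  have hcart : chevD4.cartan 0 17 = -1 ∧ chevD4.cartan 1 17 = 0 ∧ chevD4.cartan 2 17 = 1 ∧ chevD4.cartan 3 17 = 1 ∧
      chevD4.cartan 0 20 = 1 ∧ chevD4.cartan 1 20 = 0 ∧ chevD4.cartan 2 20 = -1 ∧ chevD4.cartan 3 20 = 1 ∧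
      chevD4.cartan 0 21 = 1 ∧ chevD4.cartan 1 21 = 0 ∧ chevD4.cartan 2 21 = 1 ∧ chevD4.cartan 3 21 = -1 ∧
      chevD4.cartan 0 23 = 0 ∧ chevD4.cartan 1 23 = 1 ∧ chevD4.cartan 2 23 = 0 ∧ chevD4.cartan 3 23 = 0 := by
    decide +kernel
  obtain ⟨c0, c1, c2, c3, d0, d1, d2, d3, f0, f1, f2, f3, z0, z1, z2, z3⟩ := hcart
  set T : Kˣ →* Kˣ := Units.map (τ : K →* K) with hTdef
  have hT3 : ∀ a, T (T (T a)) = a := fun a => Units.ext (hτ a)
  -- a parameter of the torus
  have key : ∀ (x w : Kˣ), T w = w → ∃ h ∈ (tD4 τ hτ).small, ∀ r < 24, ∀ t : K, ∀ g : G K,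
      h * (X r t * g) = X r (((x ^ chevD4.cartan 0 r * w ^ chevD4.cartan 1 r * T x ^ chevD4.cartan 2 r *
        T (T x) ^ chevD4.cartan 3 r : Kˣ) : K) * t) * (h * g) := by
    intro x w hw
    let cc : Fin 4 → Kˣ := ![x, w, T x, T (T x)]
    let nf : Fin 4 → Fin 4 := ![2, 1, 3, 0]
    have hnf : ∀ k : Fin 4, (nf k : ℕ) = gD4a.nodeF k := by decide +kernel
    set S := tD4 τ hτ
    have hshift : S.shift cc = cc := by
      funext j
      obtain ⟨k, rfl⟩ := S.nodeEquiv.surjective j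
      refine (S.shift_node cc k).trans ?_
      show T (cc k) = cc (S.nodeFin k)
      rw [show S.nodeFin k = nf k from Fin.ext (hnf k).symm]
      fin_cases k
      · rfl
      · exact hw
      · rfl
      · exact hT3 x
    refine ⟨cD.torusHom cc, S.torusHom_mem_small hshift, fun r hr t g => ?_⟩
    have := torusHom_conj cD cc (show r < chevD4.nroots from hr) t
    have ht : tchar (D := chevD4) cc r = x ^ chevD4.cartan 0 r * w ^ chevD4.cartan 1 r * T x ^ chevD4.cartan 2 r *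
        T (T x) ^ chevD4.cartan 3 r := by
      show ∏ k : Fin 4, cc k ^ chevD4.cartan (k : ℕ) r = _
      rw [Fin.prod_univ_four]
      rfl
    rw [ht] at this
    rw [← mul_assoc, ← mul_assoc, mul_inv_eq_iff_eq_mul.1 this]
  refine ⟨fun c hc hcf => ?_, fun c hc => ?_⟩
  · let w : Kˣ := (Units.mk0 c hc)⁻¹
    have hw : T w = w := by
      rw [map_inv, show T (Units.mk0 c hc) = Units.mk0 c hc from Units.ext hcf]
    obtain ⟨h, hh, e⟩ := key 1 w hw
    refine ⟨h, hh, ?_⟩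
    have e1 : ∀ c : K, El τ 0 0 0 0 0 c = X 23 c * 1 := fun c => by simp [El, P12, cD.xu_zero]
    rw [e1, e1, e 23 (by norm_num) c 1, z0, z1, z2, z3]
    simp [w, hc]
  · obtain ⟨x, hx⟩ : IsSquare (τ c⁻¹ * τ (τ c⁻¹)) :=
      FiniteField.isSquare_of_char_two (ringChar.eq_iff.mpr inferInstance : ringChar K = 2) _
    have hτ0 : ∀ y : K, y ≠ 0 → τ y ≠ 0 := fun y hy h => hy (τ.injective (h.trans (map_zero τ).symm))
    have hx0 : x ≠ 0 := fun h => by
      rw [h, mul_zero] at hx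
      exact mul_ne_zero (hτ0 _ (inv_ne_zero hc)) (hτ0 _ (hτ0 _ (inv_ne_zero hc))) hx
    have hchar : τ x * τ (τ x) * c = x := by
      refine CharTwo.add_eq_zero.1 (mul_self_eq_zero.1 ?_)
      have hτc := hτ0 c hc
      have hττc := hτ0 _ hτc
      have h2 : (τ x * τ (τ x) * c) ^ 2 = x ^ 2 := by
        calc _ = τ (x * x) * τ (τ (x * x)) * c ^ 2 := by simp only [map_mul]; ring
          _ = τ c⁻¹ * τ (τ c⁻¹) := by
            rw [← hx]; simp only [map_mul, map_inv₀, tau_three τ hτ]; field_simp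
          _ = _ := by rw [hx]; ring
      linear_combination h2 + (τ x * τ (τ x) * c * x + x * x) * (two_zero τ hτ)
    obtain ⟨h, hh, e⟩ := key (Units.mk0 x hx0) 1 (map_one T)
    refine ⟨h, hh, ?_⟩
    have e1 : ∀ c : K, El τ 0 0 0 c 0 0 = X 17 c * (X 20 (τ c) * (X 21 (τ (τ c)) * 1)) := fun c => by
      simp [El, P12, cD.xu_zero]
    have h17 : x⁻¹ * τ x * τ (τ x) * c = 1 := by
      rw [mul_assoc x⁻¹, mul_assoc x⁻¹, hchar, inv_mul_cancel₀ hx0]
    have h20 : x * (τ x)⁻¹ * τ (τ x) * τ c = 1 := by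
      have := congrArg τ h17
      simp only [map_mul, map_inv₀, tau_three τ hτ, map_one] at this
      linear_combination this
    have h21 : x * τ x * (τ (τ x))⁻¹ * τ (τ c) = 1 := by
      have := congrArg τ h20
      simp only [map_mul, map_inv₀, tau_three τ hτ, map_one] at this
      linear_combination this
    rw [e1, e1, e 17 (by norm_num), e 20 (by norm_num), e 21 (by norm_num), c0, c1, c2, c3, d0, d1, d2, d3, f0, f1, f2,
      f3, map_one, map_one]
    simp only [zpow_neg_one, zpow_zero, zpow_one, mul_one, Units.val_mul, Units.val_inv_eq_inv_val, hTdef,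
      Units.coe_map, Units.val_mk0, MonoidHom.coe_coe, mul_assoc]
    simp only [mul_assoc] at h17 h20 h21
    rw [h17, h20, h21]

theorem two_classes [Fintype K] {q : ℕ} (hq : IsPrimePow q) (hK : Fintype.card K = q ^ 3) :
    (ConjClasses.mk '' {g : ↥(twistedD4 K q) | orderOf g = 2}).ncard = 2 := by
  classical
  obtain ⟨τ, hτ, he, hτq, hfix, -⟩ := exists_tD4 hq hK
  have hord : Nat.card ↥(twistedD4 K q) = q ^ 12 * (q ^ 2 - 1) * (q ^ 6 - 1) * (q ^ 8 + q ^ 4 + 1) := orderD4t hq hK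
  have hU : Nat.card ↥(chevD4.posUnipotent K ⊓ twistedD4 K q) = q ^ 12 := D4_unip_card hq hK
  rw [he] at hord hU ⊢
  set S := tD4 τ hτ
  have h0 : τ (0 : K) = 0 := map_zero τ
  let zl : ↥S.small := ⟨El τ 0 0 0 0 0 1, mem_small τ hτ h0 h0 (map_one τ)⟩
  let cs : ↥S.small := ⟨El τ 0 0 0 1 0 0, mem_small τ hτ h0 h0 h0⟩
  have conj_of : ∀ a b : ↥S.small, Rel τ hτ (a : G K) b → IsConj a b := by
    rintro a b ⟨k, hk, e⟩
    refine isConj_iff.2 ⟨⟨k, hk⟩, Subtype.ext ?_⟩
    show k * (a : G K) * k⁻¹ = b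
    rw [e, mul_inv_cancel_right]
  -- the order of the unipotent group is the 2-part of the order
  obtain ⟨a, ha, hqa⟩ : ∃ a : ℕ, a ≠ 0 ∧ q = 2 ^ a := by
    obtain ⟨p, k, hp, hk, rfl⟩ := hq
    obtain ⟨n, -, hn⟩ := FiniteField.card K 2
    refine ⟨k, hk.ne', ?_⟩
    have h2 : (2 : ℕ) ∣ (p ^ k) ^ 3 := by rw [← hK, hn]; exact dvd_pow_self _ n.ne_zero
    have : 2 = p := (Nat.prime_dvd_prime_iff_eq Nat.prime_two hp.nat_prime).1
      (Nat.prime_two.dvd_of_dvd_pow (Nat.prime_two.dvd_of_dvd_pow h2))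
    rw [← this]
  have hq2 : 2 ∣ q := hqa ▸ dvd_pow_self 2 ha
  set U := (chevD4.posUnipotent K ⊓ S.small).subgroupOf S.small with hUdef
  have hUc : Nat.card U = q ^ 12 := by
    rw [Nat.card_congr (Subgroup.subgroupOfEquivOfLe (inf_le_right (a := chevD4.posUnipotent K))).toEquiv, hU]
  have : Fact (Nat.Prime 2) := ⟨Nat.prime_two⟩
  have hUp : IsPGroup 2 U := IsPGroup.of_card (n := a * 12) (by rw [hUc, hqa, pow_mul])
  obtain ⟨P, hP⟩ := hUp.exists_le_sylow
  have hPU : (P : Subgroup ↥S.small) = U := by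
    symm
    refine Subgroup.eq_of_le_of_card_ge hP ?_
    obtain ⟨n, hn⟩ := IsPGroup.iff_card.1 P.isPGroup'
    have hd := Subgroup.card_subgroup_dvd_card (P : Subgroup ↥S.small)
    rw [hord, hn, mul_assoc, mul_assoc] at hd
    have hodd : ¬ 2 ∣ (q ^ 2 - 1) * ((q ^ 6 - 1) * (q ^ 8 + q ^ 4 + 1)) := by
      have e : ∀ n, n ≠ 0 → 2 ∣ q ^ n := fun n hn => dvd_pow hq2 hn
      have h1 : ∀ n, n ≠ 0 → 1 ≤ q ^ n := fun n _ => Nat.one_le_pow _ _ hq.pos
      intro h
      rcases (Nat.Prime.dvd_mul Nat.prime_two).1 h with h | h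
      · have := e 2 (by norm_num); have := h1 2 (by norm_num); omega
      rcases (Nat.Prime.dvd_mul Nat.prime_two).1 h with h | h
      · have := e 6 (by norm_num); have := h1 6 (by norm_num); omega
      · have := e 8 (by norm_num); have := e 4 (by norm_num); omega
    rw [hn, hUc]
    exact Nat.le_of_dvd (pow_pos hq.pos _)
      ((((Nat.prime_two.coprime_iff_not_dvd).2 hodd).pow_left n).dvd_of_dvd_mul_right hd)
  have cover : ∀ g : ↥S.small, orderOf g = 2 → IsConj g zl ∨ IsConj g cs := by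
    intro g hg
    have hgp : IsPGroup 2 (Subgroup.zpowers g) :=
      IsPGroup.of_card (n := 1) (by rw [Nat.card_zpowers, hg, pow_one])
    obtain ⟨Q, hQ⟩ := hgp.exists_le_sylow
    obtain ⟨x, hx⟩ := MulAction.exists_smul_eq ↥S.small Q P
    have hmem : x * g * x⁻¹ ∈ U := by
      rw [← hPU, ← hx, Sylow.coe_subgroup_smul]
      exact Subgroup.smul_mem_pointwise_smul _ (MulAut.conj x) _ (hQ (Subgroup.mem_zpowers g))
    obtain ⟨u, r, v, w, d, z, hr, hd, hz, eg⟩ := El_surj τ hτ hq hK hfix he (Subgroup.mem_subgroupOf.1 hmem)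
    have ho : orderOf (x * g * x⁻¹) = 2 := by
      rw [show x * g * x⁻¹ = MulAut.conj x g from rfl, MulEquiv.orderOf_eq, hg]
    have hsq : (x * g * x⁻¹) * (x * g * x⁻¹) = 1 := by rw [← pow_two, ← ho, pow_orderOf_eq_one]
    have h2 : El τ u r v w d z * El τ u r v w d z = 1 := by
      rw [← eg]; exact congrArg Subtype.val hsq
    have h1 : El τ u r v w d z ≠ 1 := fun h => by
      rw [← eg] at h
      have : x * g * x⁻¹ = 1 := Subtype.ext h
      rw [this, orderOf_one] at ho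
      omega
    have hgc : IsConj g (x * g * x⁻¹) := isConj_iff.2 ⟨x, rfl⟩
    rcases classify τ hτ hr hd hz h2 h1 with ⟨c, hc, hcf, e⟩ | ⟨c, hc, e⟩
    · exact Or.inl (hgc.trans (conj_of _ _ (eg ▸ rel_trans τ hτ e ((scale τ hτ).1 c hc hcf))))
    · exact Or.inr (hgc.trans (conj_of _ _ (eg ▸ rel_trans τ hτ e ((scale τ hτ).2 c hc))))
  have two : ∀ {r d : K} (v w z : K) (hr : τ r = r) (hd : τ d = d) (hz : τ z = z),
      r = 0 → v = 0 → d = 0 → El τ 0 r v w d z ≠ 1 →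
      orderOf (⟨El τ 0 r v w d z, mem_small τ hτ hr hd hz⟩ : ↥S.small) = 2 := by
    intro r d v w z hr hd hz er ev ed hne
    refine orderOf_eq_prime ?_ fun h => hne (congrArg Subtype.val h)
    rw [pow_two]
    refine Subtype.ext ?_
    show El τ 0 r v w d z * El τ 0 r v w d z = 1
    rw [El_mul τ hτ hr hd hr hd, ← El_zero τ hτ]
    subst er ev ed
    refine El_congr τ hτ ?_ ?_ ?_ ?_ ?_ ?_ <;> (try simp only [map_zero]) <;>
      first | ring1 | linear_combination w * two_zero τ hτ | linear_combination z * two_zero τ hτ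
  have hne : ¬ IsConj zl cs := by
    intro h
    obtain ⟨k, hk⟩ := isConj_iff.1 h
    refine not_conj (K := K) (k : G K) ?_
    have e := congrArg Subtype.val hk
    have ez : El τ 0 0 0 0 0 1 = X 23 1 := by simp [El, P12, cD.xu_zero]
    have ec : El τ 0 0 0 1 0 0 = X 17 1 * (X 20 1 * X 21 1) := by simp [El, P12, cD.xu_zero]
    rw [← ez, ← ec]
    show _ = (cs : G K) * _
    rw [← e]
    show _ = (k : G K) * El τ 0 0 0 0 0 1 * (k : G K)⁻¹ * _
    rw [inv_mul_cancel_right]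
  have h1z : El τ (0 : K) 0 0 0 0 1 ≠ 1 := fun h => by
    rw [← El_zero τ hτ] at h
    exact one_ne_zero (El_inj τ h).2.2.2.2.2
  have h1c : El τ (0 : K) 0 0 1 0 0 ≠ 1 := fun h => by
    rw [← El_zero τ hτ] at h
    exact one_ne_zero (El_inj τ h).2.2.2.1
  have hset : ConjClasses.mk '' {g : ↥S.small | orderOf g = 2} = {ConjClasses.mk zl, ConjClasses.mk cs} := by
    refine Set.Subset.antisymm ?_ ?_
    · rintro _ ⟨g, hg, rfl⟩
      rcases cover g hg with h | h
      · exact Or.inl (ConjClasses.mk_eq_mk_iff_isConj.2 h)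
      · exact Or.inr (ConjClasses.mk_eq_mk_iff_isConj.2 h)
    · rintro _ (rfl | rfl)
      · exact ⟨zl, two 0 0 1 h0 h0 (map_one τ) rfl rfl rfl h1z, rfl⟩
      · exact ⟨cs, two 0 1 0 h0 h0 h0 rfl rfl rfl h1c, rfl⟩
  rw [hset, Set.ncard_pair (fun h => hne (ConjClasses.mk_eq_mk_iff_isConj.1 h))]

end Cfsg.Agent.Suzuki.D4Two
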