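import Cfsg.Agent.Suzuki.F4TwoBase

/-! # The two classes of ²F₄ are separated by the rank on the adjoint module -/

set_option autoImplicit false
set_option maxHeartbeats 2000000

universe u

namespace Cfsg.Agent.Suzuki.F4Two

open Cfsg.Lie Cfsg.Agent.Chev Cfsg.Agent.Chev.Ree4
open scoped Matrix MatrixGroups

theorem x_hom {L : Type*} [Field L] {K : Type u} [Field K] (φ : L →+* K) (r : ℕ) (t : L) :
    (chevF4.x L r t).map φ = chevF4.x K r (φ t) := by
  unfold ChevalleyDatum.x
  split
  · ext row col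
    rcases col with i | s <;> rcases row with j | v <;>
      simp [ChevalleyDatum.xMat, Matrix.of_apply, apply_ite φ, map_list_sum, List.map_map, Function.comp_def]
    all_goals (split <;> simp [apply_ite φ, map_list_sum, List.map_map, Function.comp_def])
  · rw [Matrix.map_one φ (map_zero φ) (map_one φ)]

/-- The index with a given position. -/
def ix : ℕ → chevF4.Idx := fun i =>
  if i < 4 then Sum.inl ⟨i % 4, Nat.mod_lt _ (by decide)⟩ else Sum.inr ⟨(i - 4) % 48, Nat.mod_lt _ (by decide)⟩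

/-- The position of an index. -/
def pos : chevF4.Idx → ℕ := Sum.elim (fun k => (k : ℕ)) fun s => 4 + s

/-- Rows of the minor. -/
def rowI : Fin 22 → chevF4.Idx := fun i => ix (#[0, 3, 5, 10, 11, 12, 14, 16, 21, 23, 24, 26, 28, 30, 33, 35, 37, 38, 40, 42, 43, 46].getD i.val 0)

/-- Columns of the minor. -/
def colI : Fin 22 → chevF4.Idx := fun i => ix (#[1, 2, 4, 7, 8, 9, 10, 13, 15, 16, 17, 18, 25, 27, 29, 31, 32, 33, 34, 35, 36, 41].getD i.val 0)

/-- Columns spanning the image of the second normal form. -/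
def colZ : Fin 21 → chevF4.Idx := fun i => ix (#[0, 2, 4, 6, 7, 8, 9, 10, 12, 13, 15, 18, 22, 25, 27, 29, 31, 32, 34, 36, 41].getD i.val 0)

/-- The coefficients of all columns in the spanning ones. -/
def coefZ : Matrix (Fin 21) chevF4.Idx (ZMod 2) := fun i j =>
  if (#[1, 1, 2, 3, 4, 0, 8, 16, 32, 64, 128, 0, 256, 512, 0, 1024, 0, 1, 2048, 0, 0, 0, 4096, 0, 0, 8192, 0, 16384, 0, 32768, 0, 65536, 131072, 0, 262144, 0, 524288, 0, 0, 0, 0, 1048576, 0, 0, 0, 0, 0, 0, 0, 0, 0, 0] : Array ℕ).getD (pos j) 0 |>.testBit i then 1 else 0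

/-- The inverse of the minor. -/
def minorInv : Matrix (Fin 22) (Fin 22) (ZMod 2) := fun i j =>
  if (#[65537, 4098, 4, 16, 32, 8, 264, 320, 128, 640, 1024, 1, 2048, 2, 8192, 131072, 16384, 278528, 32768, 2129920, 1048576, 2621440] : Array ℕ).getD i 0 |>.testBit j then 1 else 0

theorem long_small :
    chevF4.x (ZMod 2) 36 1 * chevF4.x (ZMod 2) 42 1 - 1 =
      ((chevF4.x (ZMod 2) 36 1 * chevF4.x (ZMod 2) 42 1 - 1).submatrix id colZ) * coefZ := by
  decide +kernel

theorem short_minor :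
    minorInv * ((chevF4.x (ZMod 2) 33 1 * chevF4.x (ZMod 2) 24 1 - 1).submatrix rowI colI) = 1 := by
  decide +kernel

variable {K : Type u} [Field K] [CharP K 2]

theorem not_conj (k : GG K) :
    k * (cF.xu 36 (1 : K) * cF.xu 42 1) ≠ cF.xu 33 1 * cF.xu 24 1 * k := by
  intro h
  set φ : ZMod 2 →+* K := ZMod.castHom (dvd_refl 2) K
  set Z : Matrix chevF4.Idx chevF4.Idx K := chevF4.x K 36 1 * chevF4.x K 42 1 - 1
  set C : Matrix chevF4.Idx chevF4.Idx K := chevF4.x K 33 1 * chevF4.x K 24 1 - 1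
  have hC : C = (k : Matrix chevF4.Idx chevF4.Idx K) * Z * ((k⁻¹ : GG K) : Matrix chevF4.Idx chevF4.Idx K) := by
    have e := congrArg (fun g : GG K => ((g * k⁻¹ : GG K) : Matrix chevF4.Idx chevF4.Idx K)) h
    simp only [mul_inv_cancel_right, Units.val_mul, Cert.coe_xu] at e
    rw [Matrix.mul_sub, Matrix.sub_mul, Matrix.mul_one, e, Units.mul_inv]
  have hZ : Z = (Z.submatrix id colZ) * coefZ.map φ := by
    have e := congrArg (fun M => M.map φ) long_small
    simp only [Matrix.map_mul, ← Matrix.submatrix_map, Matrix.map_sub φ (map_sub φ), x_hom, map_one,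
      Matrix.map_one φ (map_zero φ) (map_one φ)] at e
    exact e
  have hS : (minorInv.map φ) * C.submatrix rowI colI = 1 := by
    have e := congrArg (fun M => M.map φ) short_minor
    simp only [Matrix.map_mul, ← Matrix.submatrix_map, Matrix.map_sub φ (map_sub φ), x_hom, map_one,
      Matrix.map_one φ (map_zero φ) (map_one φ)] at e
    exact e
  rw [hC, hZ, ← Matrix.mul_assoc, Matrix.mul_assoc (_ * _) _ ((k⁻¹ : GG K) : Matrix chevF4.Idx chevF4.Idx K),
    ← Matrix.submatrix_mul_equiv _ _ rowI (Equiv.refl _) colI] at hS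
  have h1 := congrArg Matrix.rank hS
  rw [Matrix.rank_one, Fintype.card_fin, ← Matrix.mul_assoc] at h1
  have h3 := h1.symm.le.trans ((Matrix.rank_mul_le_left _ _).trans (Matrix.rank_le_card_width _))
  simp at h3

end Cfsg.Agent.Suzuki.F4Two
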