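import Cfsg.Agent.Suzuki.F4TwoClasses
import Cfsg.Agent.Suzuki.F4TwoRank
import Cfsg.Agent.Chev.TwistTwoGenTools
import Cfsg.Agent.LeadWork.TitsSimple

/-! # Exactly two classes of involutions in ²F₄ and in the Tits group -/

set_option autoImplicit false
set_option maxHeartbeats 1000000
set_option maxRecDepth 100000
set_option linter.unusedSectionVars false

universe u

namespace Cfsg.Agent.Suzuki.F4Two

open Cfsg.Lie Cfsg.Agent.Chev Cfsg.Agent.Chev.Ree4 Cfsg.Agent.Chev.TwoGenTools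
open scoped Matrix MatrixGroups

variable {K : Type u} [Field K] [CharP K 2] {m : ℕ}

local notation "X" => Cert.xu cF

/-- The first normal form. -/
noncomputable def nfA (m : ℕ) (c : K) : GG K := El (eHom K m) ⟨c, 0, 0, 0, 0, 0, 0, 0, 0, 0, 0, 0⟩

/-- The second normal form. -/
noncomputable def nfB (m : ℕ) (c : K) : GG K := El (eHom K m) ⟨0, 0, c, 0, 0, 0, 0, 0, 0, 0, 0, 0⟩

theorem nfA_eq (c : K) : nfA m c = X 33 c * X 24 (eHom K m c) := by simp [nfA, El, Cert.xu_zero]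

theorem nfB_eq (c : K) : nfB m c = X 36 c * X 42 (eHom K m c) := by simp [nfB, El, Cert.xu_zero]

variable (h : Ctx K m)
include h

theorem grp : Grp (tw K m) (eHom K m) where
  sq := eHom_sq h
  surj x := ⟨x ^ 2 ^ m, eHom_theta h x⟩
  mem p := (El_mem h p).2
  refl k _ := nk_mem m k

/-- The torus normalises both normal forms. -/
theorem scale {c : K} (hc : c ≠ 0) :
    Rel (tw K m) (nfA m c) (nfA m 1) ∧ Rel (tw K m) (nfB m c) (nfB m 1) := by
  have hcart : (chevF4.cartan 0 33 = 2 ∧ chevF4.cartan 1 33 = -1 ∧ chevF4.cartan 2 33 = 0 ∧ chevF4.cartan 3 33 = 0) ∧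
      (chevF4.cartan 0 24 = 0 ∧ chevF4.cartan 1 24 = 0 ∧ chevF4.cartan 2 24 = -1 ∧ chevF4.cartan 3 24 = 2) ∧
      (chevF4.cartan 0 36 = 1 ∧ chevF4.cartan 1 36 = -1 ∧ chevF4.cartan 2 36 = 0 ∧ chevF4.cartan 3 36 = 1) ∧
      (chevF4.cartan 0 42 = 2 ∧ chevF4.cartan 1 42 = 0 ∧ chevF4.cartan 2 42 = -1 ∧ chevF4.cartan 3 42 = 1) := by
    decide +kernel
  obtain ⟨⟨a0, a1, a2, a3⟩, ⟨b0, b1, b2, b3⟩, ⟨c0, c1, c2, c3⟩, d0, d1, d2, d3⟩ := hcart
  have hec := (map_ne_zero (eHom K m)).2 hc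
  set y : Kˣ := Units.mk0 (eHom K m c) hec
  set n := tHom m ((1, y) : Kˣ × Kˣ)
  have hn : n ∈ tw K m := tHom_mem h _
  have key : ∀ r < 48, ∀ t : K, n * X r t * n⁻¹ = X r (((1 : Kˣ) ^ chevF4.cartan 0 r * (y ^ 2 ^ m) ^ chevF4.cartan 1 r *
      y ^ chevF4.cartan 2 r * (1 : Kˣ) ^ chevF4.cartan 3 r : Kˣ) * t) := by
    intro r hr t
    have e := torusHom_conj cF (tArg m ((1, y) : Kˣ × Kˣ)) (show r < chevF4.nroots from hr) t
    rw [show n = cF.torusHom (tArg m ((1, y) : Kˣ × Kˣ)) from rfl, e]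
    congr 2
    show ((∏ k : Fin 4, tArg m ((1, y) : Kˣ × Kˣ) k ^ chevF4.cartan (k : ℕ) r : Kˣ) : K) = _
    rw [Fin.prod_univ_four]
    show ((((1 : Kˣ) ^ 2 ^ m) ^ chevF4.cartan 0 r * (y ^ 2 ^ m) ^ chevF4.cartan 1 r *
      y ^ chevF4.cartan 2 r * (1 : Kˣ) ^ chevF4.cartan 3 r : Kˣ) : K) = _
    simp
  have hy : ((y ^ 2 ^ m : Kˣ) : K) = c := by rw [Units.val_pow_eq_pow_val]; exact pow_eHom h c
  have two : ∀ r s : ℕ, ∀ a b a' b' : K, n * X r a * n⁻¹ = X r a' → n * X s b * n⁻¹ = X s b' →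
      X r a * X s b * n⁻¹ = n⁻¹ * (X r a' * X s b') := by
    intro r s a b a' b' e1 e2
    rw [← e1, ← e2]; group
  constructor
  · refine ⟨n⁻¹, inv_mem hn, ?_⟩
    rw [nfA_eq, nfA_eq]
    refine two _ _ _ _ _ _ ?_ ?_
    · rw [key 33 (by norm_num), a0, a1, a2, a3]
      simp [hy, hc]
    · rw [key 24 (by norm_num), b0, b1, b2, b3]
      simp [y, hec]
  · refine ⟨n⁻¹, inv_mem hn, ?_⟩
    rw [nfB_eq, nfB_eq]
    refine two _ _ _ _ _ _ ?_ ?_
    · rw [key 36 (by norm_num), c0, c1, c2, c3]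
      simp [hy, hc]
    · rw [key 42 (by norm_num), d0, d1, d2, d3]
      simp [y, hec]

theorem nf_invol {c : K} (hc : c ≠ 0) :
    (nfA m c * nfA m c = 1 ∧ nfA m c ≠ 1) ∧ nfB m c * nfB m c = 1 ∧ nfB m c ≠ 1 := by
  refine ⟨⟨?_, fun he => hc ?_⟩, ?_, fun he => hc ?_⟩
  · rw [nfA, El_mul (eHom_sq h), ← El_zero (eHom K m)]
    congr 1
    ext <;> simp [Co.zero, CharTwo.add_self_eq_zero]
  · rw [nfA, ← El_zero (eHom K m)] at he
    exact congrArg Co.u1 (El_inj he)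
  · rw [nfB, El_mul (eHom_sq h), ← El_zero (eHom K m)]
    congr 1
    ext <;> simp [Co.zero, CharTwo.add_self_eq_zero]
  · rw [nfB, ← El_zero (eHom K m)] at he
    exact congrArg Co.b2 (El_inj he)

theorem outer_comm (c : K) :
    nfA m c * El (eHom K m) ⟨0, 1, 0, 0, 0, 0, 0, 0, 0, 0, 0, 0⟩ = El (eHom K m) ⟨0, 1, 0, 0, 0, 0, 0, 0, 0, 0, 0, 0⟩ * nfA m c ∧
      nfB m c * El (eHom K m) ⟨0, 1, 0, 0, 0, 0, 0, 0, 0, 0, 0, 0⟩ = El (eHom K m) ⟨0, 1, 0, 0, 0, 0, 0, 0, 0, 0, 0, 0⟩ * nfB m c := by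
  constructor <;> simp only [nfA, nfB] <;> rw [El_mul (eHom_sq h), El_mul (eHom_sq h)] <;> congr 1 <;>
    ext <;> simp <;> ring

theorem cover (g : ↥(tw K m)) (hg : orderOf g = 2) :
    IsConj g ⟨nfA m 1, (grp h).mem _⟩ ∨ IsConj g ⟨nfB m 1, (grp h).mem _⟩ := by
  have := h.finite
  have conj_of : ∀ a b : ↥(tw K m), Rel (tw K m) (a : GG K) b → IsConj a b := by
    rintro a b ⟨k, hk, e⟩
    refine isConj_iff.2 ⟨⟨k, hk⟩⁻¹, Subtype.ext ?_⟩
    show k⁻¹ * (a : GG K) * k⁻¹⁻¹ = b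
    rw [inv_inv, mul_assoc, e, inv_mul_cancel_left]
  set q := 2 ^ (2 * m + 1) with hqdef
  have hq2 : 2 ∣ q := dvd_pow_self 2 (by omega)
  have hqpos : 0 < q := Nat.two_pow_pos _
  have hord := natCard_tw h
  rw [← hqdef] at hord
  set U := (chevF4.posUnipotent K ⊓ tw K m).subgroupOf (tw K m) with hUdef
  have hUc : Nat.card U = q ^ 12 := by
    rw [Nat.card_congr (Subgroup.subgroupOfEquivOfLe (inf_le_right (a := chevF4.posUnipotent K))).toEquiv, card_pos_tw h]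
  have : Fact (Nat.Prime 2) := ⟨Nat.prime_two⟩
  have hUp : IsPGroup 2 U := IsPGroup.of_card (n := (2 * m + 1) * 12) (by rw [hUc, pow_mul])
  obtain ⟨P, hP⟩ := hUp.exists_le_sylow
  have hPU : (P : Subgroup ↥(tw K m)) = U := by
    symm
    refine Subgroup.eq_of_le_of_card_ge hP ?_
    obtain ⟨n, hn⟩ := IsPGroup.iff_card.1 P.isPGroup'
    have hd := Subgroup.card_subgroup_dvd_card (P : Subgroup ↥(tw K m))
    rw [hord, hn, mul_assoc, mul_assoc, mul_assoc] at hd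
    have hodd : ¬ 2 ∣ (q - 1) * ((q ^ 3 + 1) * ((q ^ 4 - 1) * (q ^ 6 + 1))) := by
      have e : ∀ n, n ≠ 0 → 2 ∣ q ^ n := fun n hn => dvd_pow hq2 hn
      have h1 : ∀ n, 1 ≤ q ^ n := fun n => Nat.one_le_pow _ _ hqpos
      intro h
      rcases (Nat.Prime.dvd_mul Nat.prime_two).1 h with h | h
      · omega
      rcases (Nat.Prime.dvd_mul Nat.prime_two).1 h with h | h
      · have := e 3 (by norm_num); omega
      rcases (Nat.Prime.dvd_mul Nat.prime_two).1 h with h | h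
      · have := e 4 (by norm_num); have := h1 4; omega
      · have := e 6 (by norm_num); omega
    rw [hn, hUc]
    exact Nat.le_of_dvd (pow_pos hqpos _)
      ((((Nat.prime_two.coprime_iff_not_dvd).2 hodd).pow_left n).dvd_of_dvd_mul_right hd)
  have hgp : IsPGroup 2 (Subgroup.zpowers g) := IsPGroup.of_card (n := 1) (by rw [Nat.card_zpowers, hg, pow_one])
  obtain ⟨Q, hQ⟩ := hgp.exists_le_sylow
  obtain ⟨x, hx⟩ := MulAction.exists_smul_eq ↥(tw K m) Q P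
  have hmem : x * g * x⁻¹ ∈ U := by
    rw [← hPU, ← hx, Sylow.coe_subgroup_smul]
    exact Subgroup.smul_mem_pointwise_smul _ (MulAut.conj x) _ (hQ (Subgroup.mem_zpowers g))
  obtain ⟨p, eg⟩ := El_surj h (Subgroup.mem_subgroupOf.1 hmem)
  have ho : orderOf (x * g * x⁻¹) = 2 := by
    rw [show x * g * x⁻¹ = MulAut.conj x g from rfl, MulEquiv.orderOf_eq, hg]
  have hsq : (x * g * x⁻¹) * (x * g * x⁻¹) = 1 := by rw [← pow_two, ← ho, pow_orderOf_eq_one]
  have h2 : El (eHom K m) p * El (eHom K m) p = 1 := by rw [← eg]; exact congrArg Subtype.val hsq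
  have h1 : El (eHom K m) p ≠ 1 := fun h => by
    rw [← eg] at h
    have : x * g * x⁻¹ = 1 := Subtype.ext h
    rw [this, orderOf_one] at ho
    omega
  have hgc : IsConj g (x * g * x⁻¹) := isConj_iff.2 ⟨x, rfl⟩
  rcases classify (grp h) h1 h2 with ⟨c, hc, e⟩ | ⟨c, hc, e⟩
  · exact Or.inl (hgc.trans (conj_of _ _ (eg ▸ rel_trans e (scale h hc).1)))
  · exact Or.inr (hgc.trans (conj_of _ _ (eg ▸ rel_trans e (scale h hc).2)))

theorem not_conj' (k : GG K) : k * nfB m 1 * k⁻¹ ≠ nfA m 1 := fun e => by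
  refine not_conj k ?_
  rw [mul_inv_eq_iff_eq_mul, nfA_eq, nfB_eq, map_one] at e
  exact e

omit h in
/-- Two classes inside a subgroup in which the classes do not split. -/
theorem count {G : Type*} [Group G] {D : Subgroup G} {a b : G} (ha : a ∈ D) (hb : b ∈ D)
    (ha2 : orderOf a = 2) (hb2 : orderOf b = 2)
    (hcov : ∀ g ∈ D, orderOf g = 2 → (∃ x ∈ D, x * g * x⁻¹ = a) ∨ ∃ x ∈ D, x * g * x⁻¹ = b)
    (hne : ∀ x : G, x * b * x⁻¹ ≠ a) :
    (ConjClasses.mk '' {g : D | orderOf g = 2}).ncard = 2 := by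
  have hset : ConjClasses.mk '' {g : D | orderOf g = 2} =
      {ConjClasses.mk ⟨a, ha⟩, ConjClasses.mk ⟨b, hb⟩} := by
    refine Set.Subset.antisymm ?_ ?_
    · rintro _ ⟨g, hg, rfl⟩
      rcases hcov g g.2 ((Subgroup.orderOf_coe g).trans hg) with ⟨x, hx, e⟩ | ⟨x, hx, e⟩
      · exact Or.inl (ConjClasses.mk_eq_mk_iff_isConj.2 (isConj_iff.2 ⟨⟨x, hx⟩, Subtype.ext e⟩))
      · exact Or.inr (ConjClasses.mk_eq_mk_iff_isConj.2 (isConj_iff.2 ⟨⟨x, hx⟩, Subtype.ext e⟩))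
    · rintro _ (rfl | rfl)
      · exact ⟨⟨a, ha⟩, by show orderOf _ = 2; rw [← Subgroup.orderOf_coe]; exact ha2, rfl⟩
      · exact ⟨⟨b, hb⟩, by show orderOf _ = 2; rw [← Subgroup.orderOf_coe]; exact hb2, rfl⟩
  rw [hset, Set.ncard_pair fun e => ?_]
  obtain ⟨x, hx⟩ := isConj_iff.1 (ConjClasses.mk_eq_mk_iff_isConj.1 e).symm
  exact hne x (congrArg Subtype.val hx)

theorem two_classes : (ConjClasses.mk '' {g : ↥(tw K m) | orderOf g = 2}).ncard = 2 := by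
  obtain ⟨⟨ha, ha1⟩, hb, hb1⟩ := nf_invol h (one_ne_zero (α := K))
  refine count ((grp h).mem _) ((grp h).mem _) (orderOf_eq_prime (by rw [pow_two]; exact ha) ha1)
    (orderOf_eq_prime (by rw [pow_two]; exact hb) hb1) (fun g hg h2 => ?_) fun x => not_conj' h x
  rw [show g = ((⟨g, hg⟩ : ↥(tw K m)) : GG K) from rfl, Subgroup.orderOf_coe] at h2
  rcases cover h ⟨g, hg⟩ h2 with e | e <;> obtain ⟨x, hx⟩ := isConj_iff.1 e
  · exact Or.inl ⟨x, x.2, congrArg Subtype.val hx⟩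
  · exact Or.inr ⟨x, x.2, congrArg Subtype.val hx⟩

omit h

local notation "K₂" => ZMod 2

/-- An element outside the derived subgroup commuting with both normal forms. -/
noncomputable def outC : ↥(tw K₂ 0) := ⟨El (eHom (ZMod 2) 0) ⟨0, 1, 0, 0, 0, 0, 0, 0, 0, 0, 0, 0⟩, (grp LeadWork.ReeInvolutions.ctx0).mem _⟩

theorem outC_notMem : outC ∉ commutator ↥(tw K₂ 0) := by
  intro hc
  refine LeadWork.TitsSimple.outElt_notMem ?_
  have := (Subgroup.commutator_normal (⊤ : Subgroup ↥(tw K₂ 0)) ⊤).conj_mem outC hc ⟨nk K₂ 1, nk_mem 0 1⟩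
  refine Eq.subst (motive := fun z => z ∈ commutator ↥(tw K₂ 0)) ?_ this
  refine Subtype.ext ?_
  symm
  show LeadWork.ReeInvolutions.word [27, 25, 28] = nk K₂ 1 * (outC : GG K₂) * (nk K₂ 1)⁻¹
  have hx : ∀ x, x < 48 → ∀ t : ZMod 2, nk K₂ 1 * X x t * (nk K₂ 1)⁻¹ = X (act chevF4 (wdF 1) x) t :=
    fun x hx t => cF.conj_xu_two (flatF_lt _) hx t
  have hact : act chevF4 (wdF 1) 34 = 27 ∧ act chevF4 (wdF 1) 26 = 25 ∧ act chevF4 (wdF 1) 36 = 28 := by
    decide +kernel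
  have e : (outC : GG K₂) = X 34 1 * X 26 1 * X 36 1 := by
    simp [outC, El, Cert.xu_zero, mul_assoc]
  rw [e, show nk K₂ 1 * (X 34 (1 : ZMod 2) * X 26 1 * X 36 1) * (nk K₂ 1)⁻¹ =
    (nk K₂ 1 * X 34 1 * (nk K₂ 1)⁻¹) * (nk K₂ 1 * X 26 1 * (nk K₂ 1)⁻¹) *
      (nk K₂ 1 * X 36 1 * (nk K₂ 1)⁻¹) by group,
    hx 34 (by norm_num), hx 26 (by norm_num), hx 36 (by norm_num), hact.1, hact.2.1, hact.2.2]
  simp [LeadWork.ReeInvolutions.word, Cert.wu, mul_assoc]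

/-- Classes not splitting in a subgroup of index two. -/
theorem count_index_two {G : Type*} [Group G] {D : Subgroup G} (hD : D.index = 2) {a b c : G} (hc : c ∉ D)
    (hinv : ∀ g : G, orderOf g = 2 → g ∈ D) (oa : orderOf a = 2) (ob : orderOf b = 2) (ca : c * a = a * c)
    (cb : c * b = b * c) (hcov : ∀ g : G, orderOf g = 2 → IsConj g a ∨ IsConj g b)
    (hne : ∀ x : G, x * b * x⁻¹ ≠ a) :
    (ConjClasses.mk '' {g : D | orderOf g = 2}).ncard = 2 := by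
  refine count (hinv a oa) (hinv b ob) oa ob (fun g _ hg => ?_) hne
  have fix : ∀ n : G, c * n = n * c → ∀ x, x * g * x⁻¹ = n → ∃ x ∈ D, x * g * x⁻¹ = n := by
    intro n hn x e
    by_cases hx : x ∈ D
    · exact ⟨x, hx, e⟩
    · refine ⟨c * x, (Subgroup.mul_mem_iff_of_index_two hD).2 (iff_of_false hc hx), ?_⟩
      rw [show c * x * g * (c * x)⁻¹ = c * (x * g * x⁻¹) * c⁻¹ by group, e, hn, mul_inv_cancel_right]
  rcases hcov g hg with e | e <;> obtain ⟨x, hx⟩ := isConj_iff.1 e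
  · exact Or.inl (fix a ca x hx)
  · exact Or.inr (fix b cb x hx)

variable (h0 : Ctx K₂ 0)

/-- The first normal form as an element of the group. -/
noncomputable def tA (h0 : Ctx K₂ 0) : ↥(tw K₂ 0) := ⟨nfA 0 1, (grp h0).mem _⟩

/-- The second normal form as an element of the group. -/
noncomputable def tB (h0 : Ctx K₂ 0) : ↥(tw K₂ 0) := ⟨nfB 0 1, (grp h0).mem _⟩

theorem outC_val : ((outC : ↥(tw K₂ 0)) : GG K₂) = El (eHom K₂ 0) ⟨0, 1, 0, 0, 0, 0, 0, 0, 0, 0, 0, 0⟩ := rfl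
theorem tA_val : ((tA h0 : ↥(tw K₂ 0)) : GG K₂) = nfA 0 1 := rfl
theorem tB_val : ((tB h0 : ↥(tw K₂ 0)) : GG K₂) = nfB 0 1 := rfl

attribute [local irreducible] nfA nfB El outC tA tB

theorem tA_order : orderOf (tA h0) = 2 := by
  rw [← Subgroup.orderOf_coe, tA_val]
  exact orderOf_eq_prime (by rw [pow_two]; exact (nf_invol h0 one_ne_zero).1.1) (nf_invol h0 one_ne_zero).1.2

theorem tB_order : orderOf (tB h0) = 2 := by
  rw [← Subgroup.orderOf_coe, tB_val]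
  exact orderOf_eq_prime (by rw [pow_two]; exact (nf_invol h0 one_ne_zero).2.1) (nf_invol h0 one_ne_zero).2.2

theorem tA_comm : outC * tA h0 = tA h0 * outC := by
  apply Subtype.ext
  rw [Subgroup.coe_mul, Subgroup.coe_mul, tA_val, outC_val]
  exact (outer_comm h0 (1 : K₂)).1.symm

theorem tB_comm : outC * tB h0 = tB h0 * outC := by
  apply Subtype.ext
  rw [Subgroup.coe_mul, Subgroup.coe_mul, tB_val, outC_val]
  exact (outer_comm h0 (1 : K₂)).2.symm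

theorem derived_classes (h0 : Ctx K₂ 0) :
    (ConjClasses.mk '' {g : ↥(commutator ↥(tw K₂ 0)) | orderOf g = 2}).ncard = 2 := by
  have hinv : ∀ g : ↥(tw K₂ 0), orderOf g = 2 → g ∈ commutator ↥(tw K₂ 0) := by
    rw [show tw K₂ 0 = twistedF4 K₂ 1 by rw [tw, pow_zero]]; exact LeadWork.ReeInvolutions.main
  refine count_index_two LeadWork.TitsSimple.index_two outC_notMem hinv (tA_order h0) (tB_order h0)
    (tA_comm h0) (tB_comm h0) (fun g hg => ?_) fun x e => not_conj' h0 (x : GG K₂) ?_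
  · have := cover h0 g hg
    unfold tA tB
    exact this
  · have e' := congrArg Subtype.val e
    rw [Subgroup.coe_mul, Subgroup.coe_mul, Subgroup.coe_inv, tA_val, tB_val] at e'
    exact e'

theorem two_classes_derived :
    (ConjClasses.mk '' {g : TitsGroup | orderOf g = 2}).ncard = 2 := by
  have hh := derived_classes LeadWork.ReeInvolutions.ctx0
  rw [show tw K₂ 0 = twistedF4 K₂ 1 by rw [tw, pow_zero]] at hh
  exact hh

end Cfsg.Agent.Suzuki.F4Two
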