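import Cfsg.Agent.Chev.BNPairChev
import Cfsg.Agent.Chev.Certs
import Cfsg.Prelude.Def_LieExceptional

/-!
Pairs of long root subgroups in characteristic two.
-/

set_option autoImplicit false

universe u

namespace Cfsg.Agent.Suzuki

open Cfsg.Lie Cfsg.Agent.Chev
open scoped Matrix MatrixGroups

/-- the root elements of `r` and `s` commute, read off the tables -/
noncomputable def commT (T : FTab) (r s : ℕ) : Bool :=
  Nat.beq (T.slot r s) 0 && Nat.beq (T.slot s r) 0

/-- the pair `(h, s)` reaches only `v`, central in the pair -/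
noncomputable def nilPairV (T : FTab) (h s v : ℕ) : Bool :=
  Nat.beq (Nat.mod (T.slot s h) 256) v &&
  (Nat.beq (Nat.shiftRight (T.slot h s) 12) 0 && Nat.beq (Nat.shiftRight (T.slot s h) 12) 0) &&
  (commT T h v && commT T s v) &&
  (!Nat.beq (T.slot h s) 0 && !Nat.beq (T.slot s h) 0) &&
  (!Nat.beq v h && !Nat.beq v (T.neg h) && !Nat.beq v s && !Nat.beq v (T.neg s))

/-- the pair `(h, s)` generates at most one more root, central in the pair -/
noncomputable def nilPairT (T : FTab) (h s : ℕ) : Bool :=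
  bif commT T h s then true else nilPairV T h s (Nat.mod (T.slot h s) 256)

/-- the check for the highest root -/
noncomputable def okPair (T : FTab) (O : ℕ → Bool) : Bool :=
  (O (T.n - 1) && Nat.beq (T.neg (T.n - 1)) 0 && posT T (T.n - 1) && Nat.ble 1 T.n) &&
  allBelow (fun r => bif posT T r then commT T (T.n - 1) r && !Nat.beq r 0 else true) T.n &&
  allBelow (fun s => bif O s then allBelow (fun i => O (T.w i s)) T.l &&
    (bif Nat.beq s 0 || Nat.beq s (T.n - 1) then true else nilPairT T (T.n - 1) s) else true) T.n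

/-- What is read off from the check. -/
structure PairData (D : ChevalleyDatum) (O : ℕ → Prop) : Prop where
  lt : D.nroots - 1 < D.nroots
  high : O (D.nroots - 1)
  neg_high : D.neg (D.nroots - 1) = 0
  closed : ∀ s < D.nroots, O s → ∀ i < D.rank, O (D.reflectRoot i s)
  central : ∀ r, D.IsPosRoot r → r ≠ 0 ∧ (r ≠ D.nroots - 1 → D.commTerms r (D.nroots - 1) = [])
  pair : ∀ s < D.nroots, O s → s ≠ 0 → s ≠ D.nroots - 1 →
    ∃ v < D.nroots, (∀ c ∈ D.commTerms s (D.nroots - 1), c.1 = v) ∧
      (D.commTerms (D.nroots - 1) s = [] ∨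
        (v ≠ D.nroots - 1 ∧ v ≠ D.neg (D.nroots - 1) ∧ v ≠ s ∧ v ≠ D.neg s ∧
          D.commTerms (D.nroots - 1) v = [] ∧ D.commTerms s v = []))

theorem commTerms_nil {D : ChevalleyDatum} {T : FTab} (B : BasicOK D T) {r s : ℕ} (hr : r < T.n)
    (hs : s < T.n) (h : commT T r s = true) : D.commTerms r s = [] ∧ D.commTerms s r = [] := by
  simp only [commT, Bool.and_eq_true] at h
  have h1 := (B.chainEntry_nil_iff hr hs).2 (Nat.eq_of_beq_eq_true h.1)
  have h2 := (B.chainEntry_nil_iff hs hr).2 (Nat.eq_of_beq_eq_true h.2)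
  constructor <;>
    simp [ChevalleyDatum.commTerms, ChevalleyDatum.chainRoot, h1, h2]

theorem commTerms_single {D : ChevalleyDatum} {T : FTab} (B : BasicOK D T) {r s : ℕ} (hr : r < T.n)
    (hs : s < T.n) (hrs : Nat.shiftRight (T.slot r s) 12 = 0) (hsr : Nat.shiftRight (T.slot s r) 12 = 0)
    (h0 : T.slot r s ≠ 0) : ∀ c ∈ D.commTerms r s, c.1 = Nat.mod (T.slot r s) 256 := by
  have hz : ∀ k, 2 ≤ k → k ≤ 3 → ∀ {a b : ℕ}, a < T.n → b < T.n → Nat.shiftRight (T.slot a b) 12 = 0 →
      D.chainRoot a b k = none := by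
    intro k hk2 hk3 a b ha hb h
    have hcond : Nat.shiftRight (T.slot a b) (12 * (k - 1)) = 0 := by
      rw [shiftRight_12]
      have hlt : T.slot a b < 4096 := by
        have e : T.slot a b / 4096 = 0 := by
          have := shiftRight_12 (T.slot a b) 1
          rw [pow_one, mul_one] at this
          rw [← this]; exact h
        exact (Nat.div_eq_zero_iff.1 e).resolve_left (by norm_num)
      exact Nat.div_eq_of_lt (lt_of_lt_of_le hlt (Nat.le_self_pow (by omega) 4096))
    rw [ChevalleyDatum.chainRoot, B.chainRoot_eq ha hb (by omega), if_pos hcond]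
    rfl
  have h1 : D.chainRoot r s 1 = some (Nat.mod (T.slot r s) 256) := by
    rw [ChevalleyDatum.chainRoot, B.chainRoot_eq hr hs le_rfl,
      if_neg (show Nat.shiftRight (T.slot r s) (12 * (1 - 1)) ≠ 0 from h0)]
    rfl
  intro c hc
  simp [ChevalleyDatum.commTerms, h1, hz 2 le_rfl (by omega) hr hs hrs, hz 3 (by omega) le_rfl hr hs hrs,
    hz 2 le_rfl (by omega) hs hr hsr, hz 3 (by omega) le_rfl hs hr hsr] at hc
  rw [hc]

theorem pairData_of_check {D : ChevalleyDatum} {T : FTab} (B : BasicOK D T) (C : Cert.{u} D)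
    (hC : ∀ r < T.n, posT T r = true ↔ D.IsPosRoot r) (O : ℕ → Bool) (h : okPair T O = true) :
    PairData D (fun r => O r = true) := by
  simp only [okPair, Bool.and_eq_true, allBelow_iff] at h
  obtain ⟨⟨⟨⟨⟨hO, hneg⟩, hpos⟩, hn⟩, hcen⟩, hp⟩ := h
  have hn' : 1 ≤ T.n := Nat.ble_eq.mp hn
  have e := B.nroots_eq
  refine ⟨by omega, by rw [e]; exact hO, by rw [e, B.neg_eq (by omega)]; exact Nat.eq_of_beq_eq_true hneg,
    ?_, ?_, ?_⟩
  · intro s hs hsO i hi
    rw [e] at hs
    rw [B.rank_eq] at hi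
    have := hp s hs
    rw [hsO, cond_true, Bool.and_eq_true, allBelow_iff] at this
    rw [B.refl_eq hi hs]
    exact this.1 i hi
  · intro r hr
    have hr' : r < T.n := e ▸ hr.1
    have := hcen r hr'
    rw [(hC r hr').2 hr, cond_true, Bool.and_eq_true, Bool.not_eq_true'] at this
    refine ⟨fun e0 => by simp [e0] at this, fun _ => ?_⟩
    rw [e]
    exact (commTerms_nil B (by omega) hr' this.1).2
  · intro s hs hsO hs0 hsh
    rw [e] at hs hsh
    rw [e]
    have := hp s hs
    rw [hsO, cond_true, Bool.and_eq_true, beq_f hs0, beq_f hsh, Bool.or_self, cond_false] at this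
    have hq := this.2
    by_cases hc : commT T (T.n - 1) s = true
    · exact ⟨0, by omega, by simp [(commTerms_nil B (by omega) hs hc).2],
        Or.inl (commTerms_nil B (by omega) hs hc).1⟩
    · rw [nilPairT, Bool.not_eq_true _ |>.mp hc, cond_false] at hq
      simp only [nilPairV, Bool.and_eq_true, Bool.not_eq_true'] at hq
      obtain ⟨⟨⟨⟨hv, hs1, hs2⟩, hc1, hc2⟩, hz1, hz2⟩, hne⟩ := hq
      obtain ⟨⟨⟨hv1, hv2⟩, hv3⟩, hv4⟩ := hne
      have hne : ∀ {a b : ℕ}, Nat.beq a b = false → a ≠ b := fun {a b} h e => by simp [e] at h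
      have hvlt : Nat.mod (T.slot (T.n - 1) s) 256 < T.n := by
        have hc' := C.chain_root_lt (T.n - 1) (by omega) s (by omega)
          (decodeOne (T.slot (T.n - 1) s)) ?_
        · rw [e] at hc'; exact hc'
        · refine List.mem_of_getElem? (i := 0) ?_
          have := B.chainRoot_eq (show T.n - 1 < T.n by omega) hs (k := 1) le_rfl
          rw [Nat.sub_self, if_neg (show Nat.shiftRight (T.slot (T.n - 1) s) (12 * 0) ≠ 0 from hne hz1)] at this
          exact this
      refine ⟨_, e.symm ▸ hvlt, ?_, Or.inr ⟨hne hv1, ?_, hne hv3, ?_, (commTerms_nil B (by omega) hvlt hc1).1,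
        (commTerms_nil B hs hvlt hc2).1⟩⟩
      · rw [← Nat.eq_of_beq_eq_true hv]
        exact commTerms_single B hs (by omega) (Nat.eq_of_beq_eq_true hs2) (Nat.eq_of_beq_eq_true hs1)
          (hne hz2)
      · rw [B.neg_eq (by omega)]; exact hne hv2
      · rw [B.neg_eq hs]; exact hne hv4

variable {D : ChevalleyDatum} {F : Type u} [Field F] (C : Cert.{u} D)
include C

theorem isPGroup_root [CharP F 2] (r : ℕ) : IsPGroup 2 ↥(D.rootSubgroup F r) := by
  rintro ⟨x, hx⟩
  obtain ⟨t, rfl⟩ := C.mem_rootSubgroup.mp hx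
  refine ⟨1, Subtype.ext ?_⟩
  simp [pow_two, C.xu_add, CharTwo.add_self_eq_zero, C.xu_zero]

theorem root_normalizes {r s : ℕ} (hr : r < D.nroots) (hs : s < D.nroots) (hne : s ≠ r)
    (hneg : s ≠ D.neg r) (hT : D.commTerms r s = []) :
    D.rootSubgroup F r ≤ Subgroup.normalizer (D.rootSubgroup F s : Set (GL D.Idx F)) := by
  intro x hx
  obtain ⟨t, rfl⟩ := C.mem_rootSubgroup.mp hx
  have key : ∀ t v : F, C.xu r t * C.xu s v * (C.xu r t)⁻¹ = C.xu s v := by
    intro t v
    rw [C.conj_xu hr hs hne hneg, ChevalleyDatum.commWord, hT]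
    simp [Cert.wu]
  rw [Subgroup.mem_normalizer_iff]
  intro y
  constructor
  · intro hy
    obtain ⟨v, rfl⟩ := C.mem_rootSubgroup.mp hy
    rw [key]; exact hy
  · intro hy
    obtain ⟨v, hv⟩ := C.mem_rootSubgroup.mp hy
    have : y = C.xu r (-t) * C.xu s v * (C.xu r (-t))⁻¹ := by
      rw [← hv, ← C.xu_inv]; group
    rw [this, key]; exact C.mem_rootSubgroup.mpr ⟨v, rfl⟩

variable {O : ℕ → Prop} (P : PairData D O)
include P

theorem borel_le_normalizer_high :
    D.borelSubgroup F ≤ Subgroup.normalizer (D.rootSubgroup F (D.nroots - 1) : Set (GL D.Idx F)) := by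
  refine sup_le ?_ ?_
  · show spanGroup D F D.IsPosRoot ≤ _
    refine C.span_le fun r hr t => ?_
    by_cases e : r = D.nroots - 1
    · exact Subgroup.le_normalizer (C.mem_rootSubgroup.mpr ⟨t, by rw [e]⟩)
    · refine root_normalizes C hr.1 P.lt (Ne.symm e) ?_ ((P.central r hr).2 e)
        (C.mem_rootSubgroup.mpr ⟨t, rfl⟩)
      intro h
      have h' := congrArg D.neg h
      rw [P.neg_high, C.neg_neg r hr.1] at h'
      exact (P.central r hr).1 h'.symm
  · intro h hh
    rw [Subgroup.mem_normalizer_iff]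
    intro x
    have hm := C.map_rootSubgroup_diagonal (F := F) hh P.lt
    constructor
    · intro hx
      rw [← hm]
      exact Subgroup.mem_map_of_mem _ hx
    · intro hx
      rw [← hm] at hx
      obtain ⟨y, hy, e⟩ := hx
      simp only [MulEquiv.coe_toMonoidHom, MulAut.conj_apply, mul_left_inj, mul_right_inj] at e
      exact e ▸ hy

theorem pair_isPGroup [CharP F 2] {s : ℕ} (hs : s < D.nroots) (hO : O s) (hs0 : s ≠ 0) :
    IsPGroup 2 ↥(D.rootSubgroup F (D.nroots - 1) ⊔ D.rootSubgroup F s) := by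
  by_cases hsh : s = D.nroots - 1
  · rw [hsh, sup_idem]; exact isPGroup_root C _
  obtain ⟨v, hv, hc, h⟩ := P.pair s hs hO hs0 hsh
  have hneg : s ≠ D.neg (D.nroots - 1) := by rwa [P.neg_high]
  have hneg' : D.nroots - 1 ≠ D.neg s := fun e => hneg (by rw [e, C.neg_neg s hs])
  rcases h with h | ⟨h1, h2, h3, h4, h5, h6⟩
  · exact (isPGroup_root C _).to_sup_of_normal_right' (isPGroup_root C _)
      (root_normalizes C P.lt hs hsh hneg h)
  · have hA : IsPGroup 2 ↥(D.rootSubgroup F (D.nroots - 1) ⊔ D.rootSubgroup F v) :=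
      (isPGroup_root C _).to_sup_of_normal_right' (isPGroup_root C _) (root_normalizes C P.lt hv h1 h2 h5)
    have hN : D.rootSubgroup F s ≤ Subgroup.normalizer
        ((D.rootSubgroup F (D.nroots - 1) ⊔ D.rootSubgroup F v : Subgroup (GL D.Idx F)) : Set (GL D.Idx F)) := by
      intro x hx
      obtain ⟨t, rfl⟩ := C.mem_rootSubgroup.mp hx
      have hV : D.rootSubgroup F v ≤ D.rootSubgroup F (D.nroots - 1) ⊔ D.rootSubgroup F v := le_sup_right
      have key : ∀ t : F, ∀ y ∈ D.rootSubgroup F (D.nroots - 1) ⊔ D.rootSubgroup F v,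
          C.xu s t * y * (C.xu s t)⁻¹ ∈ D.rootSubgroup F (D.nroots - 1) ⊔ D.rootSubgroup F v := by
        intro t y hy
        have : D.rootSubgroup F (D.nroots - 1) ⊔ D.rootSubgroup F v ≤
            (D.rootSubgroup F (D.nroots - 1) ⊔ D.rootSubgroup F v).comap (MulAut.conj (C.xu s t)).toMonoidHom := by
          refine sup_le ?_ ?_ <;> intro z hz <;> obtain ⟨w, rfl⟩ := C.mem_rootSubgroup.mp hz <;>
            simp only [Subgroup.mem_comap, MulEquiv.coe_toMonoidHom, MulAut.conj_apply]
          · rw [C.conj_xu hs P.lt (Ne.symm hsh) hneg']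
            refine mul_mem (Subgroup.mem_sup_left hz) (Subgroup.list_prod_mem _ fun z hz => ?_)
            obtain ⟨p, hp, rfl⟩ := List.mem_map.mp hz
            obtain ⟨c, hc', rfl⟩ := List.mem_map.mp hp
            rw [hc c hc']
            exact Subgroup.mem_sup_right (C.mem_rootSubgroup.mpr ⟨_, rfl⟩)
          · rw [C.conj_xu hs hv h3 h4, ChevalleyDatum.commWord, h6]
            simpa [Cert.wu] using Subgroup.mem_sup_right hz
        exact this hy
      rw [Subgroup.mem_normalizer_iff]
      intro y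
      refine ⟨key t y, fun hy => ?_⟩
      have := key (-t) _ hy
      rwa [← C.xu_inv, inv_inv, show (C.xu s t)⁻¹ * (C.xu s t * y * (C.xu s t)⁻¹) * C.xu s t = y by group] at this
    refine ((isPGroup_root C s).to_sup_of_normal_right' hA hN).to_le ?_
    exact sup_le (le_trans le_sup_left le_sup_right) le_sup_left

theorem high_root_pairs [CharP F 2] {M : CoxeterMatrix (Fin D.rank)} (hM : CoxOK D M)
    {g : GL D.Idx F} (hg : g ∈ D.group F) :
    IsPGroup 2 ↥(D.rootSubgroup F (D.nroots - 1) ⊔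
        (D.rootSubgroup F (D.nroots - 1)).map (MulAut.conj g).toMonoidHom) ∨
    ∃ h ∈ D.group F, (D.rootSubgroup F (D.nroots - 1) ⊔
        (D.rootSubgroup F (D.nroots - 1)).map (MulAut.conj g).toMonoidHom).map (MulAut.conj h).toMonoidHom =
      D.rootSubgroup F (D.nroots - 1) ⊔ D.rootSubgroup F 0 := by
  obtain ⟨n, hn, b, hb, b', hb', rfl⟩ := C.exists_bruhat hM hg
  set X := D.rootSubgroup F (D.nroots - 1) with hX
  have hfix : ∀ c ∈ D.borelSubgroup F, X.map (MulAut.conj c).toMonoidHom = X := by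
    intro c hc
    ext z
    have hz := Subgroup.mem_normalizer_iff.mp (borel_le_normalizer_high C P hc)
    constructor
    · rintro ⟨y, hy, rfl⟩; exact (hz y).mp hy
    · intro hz'
      refine ⟨c⁻¹ * z * c, (hz _).mpr ?_, by simp [mul_assoc]⟩
      rwa [show c * (c⁻¹ * z * c) * c⁻¹ = z by group]
  obtain ⟨L, -, hmap⟩ := C.monomial_map hM hn
  have hO : ∀ L : List ℕ, (∀ i ∈ L, i < D.rank) → O (act D L (D.nroots - 1)) := by
    intro L
    induction L with
    | nil => intro _; exact P.high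
    | cons a L ih =>
      intro hL
      have hL' : ∀ i ∈ L, i < D.rank := fun i hi => hL i (List.mem_cons_of_mem _ hi)
      rw [act_cons]
      exact P.closed _ (C.act_lt hL' P.lt) (ih hL') a (hL a List.mem_cons_self)
  set s := act D (L.map Fin.val) (D.nroots - 1) with hs
  have hslt : s < D.nroots := C.act_lt (C.fin_word_lt L) P.lt
  have e : X.map (MulAut.conj (b * n * b')).toMonoidHom =
      (D.rootSubgroup F s).map (MulAut.conj b).toMonoidHom := by
    rw [map_conj_mul, hfix b' hb', map_conj_mul, hX, hmap _ P.lt]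
  have e2 : X ⊔ X.map (MulAut.conj (b * n * b')).toMonoidHom =
      (X ⊔ D.rootSubgroup F s).map (MulAut.conj b).toMonoidHom := by
    rw [e, Subgroup.map_sup, hfix b hb]
  rw [e2]
  by_cases hs0 : s = 0
  · refine Or.inr ⟨b⁻¹, inv_mem (C.borel_le_group hb), ?_⟩
    rw [← map_conj_mul, inv_mul_cancel, hs0]
    ext z; simp
  · exact Or.inl ((pair_isPGroup C P hslt (hO _ (C.fin_word_lt L)) hs0).map _)

omit C P in
theorem posT_iff {T : FTab} (H : AllOK D T) {r : ℕ} (hr : r < T.n) : posT T r = true ↔ D.IsPosRoot r := by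
  have hlt : r < D.nroots := by rw [H.basic.nroots_eq]; exact hr
  rw [(AllOK.cert.{0} H).pos_iff r hlt, posT, allBelow_iff, H.basic.rank_eq]
  refine forall₂_congr fun x _ => ?_
  rw [Nat.ble_eq]
  show _ ↔ (0 : ℤ) ≤ T.coefI r x
  unfold FTab.coefI
  omega

/-- long roots of `G₂` -/
def longG2 (r : ℕ) : Bool := List.contains [0, 1, 5, 6, 10, 11] r

omit C P in
theorem exists_pairData (hD : D ∈ [chevG2, chevD4, chevE6, chevE7, chevE8]) :
    ∃ O : ℕ → Prop, PairData D O := by
  simp only [List.mem_cons, List.not_mem_nil, or_false] at hD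
  rcases hD with rfl | rfl | rfl | rfl | rfl
  · exact ⟨_, pairData_of_check allOKG2.basic (AllOK.cert.{0} allOKG2) (fun r hr => posT_iff allOKG2 hr) longG2 (by decide +kernel)⟩
  · exact ⟨_, pairData_of_check allOKD4.basic (AllOK.cert.{0} allOKD4) (fun r hr => posT_iff allOKD4 hr) (fun _ => true) (by decide +kernel)⟩
  · exact ⟨_, pairData_of_check allOKE6.basic (AllOK.cert.{0} allOKE6) (fun r hr => posT_iff allOKE6 hr) (fun _ => true) (by decide +kernel)⟩
  · exact ⟨_, pairData_of_check allOKE7.basic (AllOK.cert.{0} allOKE7) (fun r hr => posT_iff allOKE7 hr) (fun _ => true) (by decide +kernel)⟩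
  · exact ⟨_, pairData_of_check allOKE8.basic (AllOK.cert.{0} allOKE8) (fun r hr => posT_iff allOKE8 hr) (fun _ => true) (by decide +kernel)⟩

end Cfsg.Agent.Suzuki
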