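import Cfsg.Agent.Suzuki.G2MinOneB

/-! # The case `q ≡ 1 (mod 3)`: the element of order three and the bound -/

set_option autoImplicit false
set_option maxHeartbeats 800000
set_option linter.unusedSectionVars false

universe u v

namespace Cfsg.Agent.Suzuki.G2Min

open Cfsg.Lie Cfsg.Agent.Chev
open Cfsg.Agent.Suzuki.ReeDeg Cfsg.Agent.Suzuki.TraceProj

variable {F : Type u} [Field F] [Fintype F] [DecidableEq F] {V : Type v} [AddCommGroup V] [Module ℂ V]
  [FiniteDimensional ℂ V] (ρ : Representation ℂ ↥(chevG2.group F) V) {ψ : AddChar F ℂ}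
  (hψ : ∀ c : F, c ≠ 0 → ∑ b : F, ψ (c * b) = 0)

local notation "T" => LinearMap.trace ℂ V

/-- The eigenprojection of an element of order three. -/
noncomputable def eig3 (h : ↥(chevG2.group F)) (θ : ℂ) : Module.End ℂ V :=
  (3⁻¹ : ℂ) • ((1 : Module.End ℂ V) + θ ^ 2 • ρ h + θ • (ρ h * ρ h))

theorem eig3_fix {h : ↥(chevG2.group F)} {θ : ℂ} (hθ : θ ^ 3 = 1) {X : Module.End ℂ V} (hX : ρ h * X = θ • X) :
    eig3 ρ h θ * X = X := by
  rw [eig3, smul_mul_assoc, add_mul, add_mul, one_mul, smul_mul_assoc, smul_mul_assoc, mul_assoc, hX, mul_smul_comm,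
    hX, smul_smul, smul_smul, smul_smul, show θ ^ 2 * θ = 1 by linear_combination hθ,
    show θ * θ * θ = 1 by linear_combination hθ, one_smul, smul_add, smul_add]
  module

theorem eig3_idem {h : ↥(chevG2.group F)} (hh : h ^ 3 = 1) {θ : ℂ} (hθ : θ ^ 3 = 1) :
    eig3 ρ h θ * eig3 ρ h θ = eig3 ρ h θ := by
  refine eig3_fix ρ hθ ?_
  have h3 : ρ h * (ρ h * ρ h) = 1 := by rw [← map_mul, ← map_mul, ← pow_two, ← pow_succ', hh, map_one]
  rw [eig3, mul_smul_comm, mul_add, mul_add, mul_one, mul_smul_comm, mul_smul_comm, h3]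
  simp only [smul_add, smul_smul, ← mul_assoc]
  rw [show θ * 3⁻¹ * θ ^ 2 = (3⁻¹ : ℂ) by linear_combination (3⁻¹ : ℂ) * hθ]
  module

include hψ

omit [DecidableEq F] in
theorem trace_zq {z : F} (hz : z ≠ 0) :
    (Fintype.card F : ℂ) * T (pr ρ ψ 11 z * pr ρ ψ 10 0) = T (pr ρ ψ 11 1) := by
  have h : (10 < 12 ∧ 6 < 12 ∧ 6 ≠ 10 ∧ 6 ≠ chevG2.neg 10) ∧ chevG2.commTerms 10 6 = [(11, -1, 1, 1)] := by
    decide +kernel
  have e := shift ρ hψ (κ := -(((-1 : ℤ) : F))) (by simp) (rel_conj h.1 h.2) (commute_pairs (by simp))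
    (commute_pairs (by simp)) hz 1 (fun _ => Commute.one_right _) 0
  rw [mul_one, mul_one, trace_centre ρ hz] at e
  exact e

/-- An element of order three centralising the long root subgroups has eigenspaces of about a third of the size. -/
theorem eig_part (h3 : (3 : F) ≠ 0) (hμ : mu ρ hψ = Fintype.card F) {x : F} (hx3 : x ^ 3 = 1) (hx : x ≠ 1)
    {h : ↥(chevG2.group F)} (hh3 : h ^ 3 = 1) (h2 : ∀ t, h * xg 2 t = xg 2 (x * t) * h)
    (h0 : ∀ t, Commute h (xg 0 t)) (h5 : ∀ t, Commute h (xg 5 t)) {θ : ℂ} (hθ : θ ^ 3 = 1) :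
    ∃ n : ℕ, 3 * n ≤ Fintype.card F + 2 ∧ T (pr ρ ψ 0 1 * pr ρ ψ 5 0 * eig3 ρ h θ) = n ∧
      Commute (pr ρ ψ 0 1 * pr ρ ψ 5 0) (eig3 ρ h θ) ∧
      (pr ρ ψ 0 1 * pr ρ ψ 5 0 * eig3 ρ h θ) * (pr ρ ψ 0 1 * pr ρ ψ 5 0 * eig3 ρ h θ) =
        pr ρ ψ 0 1 * pr ρ ψ 5 0 * eig3 ρ h θ := by
  have hh : act chevG2 [1, 0, 1, 0, 1] 0 = 11 ∧ act chevG2 [1, 0, 1, 0, 1] 5 = 10 ∧ act chevG2 [1, 0, 1, 0, 1] 2 = 8 ∧
      (∀ i ∈ [1, 0, 1, 0, 1], i < chevG2.rank) ∧
      ∀ p ∈ [(0, 2), (5, 2)], (p.1 < 12 ∧ p.2 < 12 ∧ p.2 ≠ p.1 ∧ p.2 ≠ chevG2.neg p.1) ∧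
        chevG2.commTerms p.1 p.2 = [] := by decide +kernel
  obtain ⟨a0, a5, a2, hL, hpair⟩ := hh
  set Q := pr ρ ψ 0 1 * pr ρ ψ 5 0 with hQ
  set B : F → Module.End ℂ V := fun u => pr ρ ψ 2 u with hB
  have cQB : ∀ u, Commute Q (B u) := fun u =>
    (pr_commute ρ (fun a b => xg_commute (hpair (0, 2) (by simp)).1 (hpair (0, 2) (by simp)).2 a b) 1 u).mul_left
      (pr_commute ρ (fun a b => xg_commute (hpair (5, 2) (by simp)).1 (hpair (5, 2) (by simp)).2 a b) 0 u)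
  have hQQ : Q * Q = Q :=
    idem_mul (pr_idem ρ hψ 0 1) (pr_idem ρ hψ 5 0) (pr_commute ρ (commute_long (by simp)) 1 0).symm
  -- transport to the centre
  obtain ⟨w, hw⟩ := exists_weyl (F := F) hL
  obtain ⟨c0, hc0, e0⟩ := hw 0 (by norm_num)
  obtain ⟨c5, hc5, e5⟩ := hw 5 (by norm_num)
  obtain ⟨c2, hc2, e2⟩ := hw 2 (by norm_num)
  rw [a0] at e0; rw [a5] at e5; rw [a2] at e2
  have hwQ : ρ w * Q = (pr ρ ψ 11 (1 / c0) * pr ρ ψ 10 0) * ρ w := by
    rw [hQ, ← mul_assoc, move_pr ρ hc0 e0 1, mul_assoc, move_pr ρ hc5 e5 0, zero_div, ← mul_assoc]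
  have hq : (Fintype.card F : ℂ) ≠ 0 := by exact_mod_cast Fintype.card_ne_zero
  have hz : (1 / c0 : F) ≠ 0 := by simp [hc0]
  have hz10 : T (pr ρ ψ 11 (1 / c0) * pr ρ ψ 10 0) = Fintype.card F := by
    refine mul_left_cancel₀ hq ?_
    rw [trace_zq ρ hψ hz, centre_mu ρ hψ, hμ, Nat.cast_mul]
  have hTQ : T Q = Fintype.card F := (op_trace ρ w hwQ).trans hz10
  have hTB : ∀ u, T (Q * B u) = 1 := by
    intro u
    have c108 : Commute (pr ρ ψ 10 0) (pr ρ ψ 8 (u / c2)) := pr_commute ρ (commute_pairs (by simp)) 0 _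
    have e : ρ w * (Q * B u) = (pr ρ ψ 11 (1 / c0) * (pr ρ ψ 8 (u / c2) * pr ρ ψ 10 0)) * ρ w := by
      rw [hB, ← mul_assoc, hwQ, mul_assoc, move_pr ρ hc2 e2 u, ← mul_assoc, mul_assoc _ (pr ρ ψ 10 0) _, c108.eq]
    rw [op_trace ρ w e]
    refine mul_left_cancel₀ hq ?_
    rw [shift_eight ρ hψ h3 hz (pr ρ ψ 10 0)
      (fun t => commute_prj (fun b => (commute_pairs (r := 9) (s := 10) (by simp) t b).map ρ) 0), hz10, mul_one]
  -- only the trivial character contributes to the trace of a moving element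
  have vanish : ∀ (g : ↥(chevG2.group F)) (y : F), y ≠ 0 → y ≠ 1 → (∀ t, g * xg 2 t = xg 2 (y * t) * g) →
      T (Q * ρ g) = T (Q * ρ g * B 0) := by
    intro g y hy0 hy hg
    have h1 : T (Q * ρ g) = ∑ u, T (Q * ρ g * B u) := by
      rw [← map_sum, ← Finset.mul_sum]
      show _ = T (Q * ρ g * ∑ u, pr ρ ψ 2 u)
      rw [pr_sum ρ hψ, mul_one]
    rw [h1]
    refine Finset.sum_eq_single 0 (fun u _ hu => ?_) (by simp)
    have horth : B u * B (u / y) = 0 := by
      refine prj_orth hψ (op_add ρ 2) fun e => hy ?_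
      field_simp at e
      exact e
    calc T (Q * ρ g * B u) = T (Q * (ρ g * B u) * B u) := by
          simp only [hB, mul_assoc, pr_idem ρ hψ]
      _ = T (B u * (Q * (B (u / y) * ρ g))) := by
          rw [LinearMap.trace_mul_comm, hB]
          show T (pr ρ ψ 2 u * (Q * (ρ g * pr ρ ψ 2 u))) = _
          rw [move_pr ρ hy0 hg u]
      _ = 0 := by
          rw [← mul_assoc, ← (cQB u).eq, mul_assoc, ← mul_assoc (B u), horth, zero_mul, mul_zero, map_zero]
  have hx0 : x ≠ 0 := fun e => by simp [e] at hx3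
  have hx2 : x * x ≠ 1 := fun e => hx (by linear_combination hx3 - x * e)
  set F0 := Q * B 0 with hF0
  have hF0i : F0 * F0 = F0 := idem_mul hQQ (pr_idem ρ hψ 2 0) (cQB 0).symm
  have chQ : Commute (ρ h) Q :=
    (commute_prj (fun b => (h0 b).map ρ) 1).mul_right (commute_prj (fun b => (h5 b).map ρ) 0)
  have chB : Commute (ρ h) (B 0) := by
    show ρ h * pr ρ ψ 2 0 = pr ρ ψ 2 0 * ρ h
    rw [move_pr ρ hx0 h2 0, zero_div]
  have chF : Commute (ρ h) F0 := chQ.mul_right chB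
  set m := T (F0 * ρ h) with hm
  have hhF : ρ h * F0 = m • F0 := by
    rw [hm, ← sandwich hF0i (hTB 0), mul_assoc, chF.eq, ← mul_assoc, hF0i]
  have hm3 : m ^ 3 = 1 := by
    have e : ρ h * (ρ h * (ρ h * F0)) = F0 := by
      rw [← mul_assoc, ← mul_assoc, ← map_mul, ← map_mul, mul_assoc h, ← pow_two, ← pow_succ', hh3, map_one, one_mul]
    rw [hhF, mul_smul_comm, hhF, mul_smul_comm, mul_smul_comm, hhF] at e
    have := congrArg T e
    simp only [map_smul, show T F0 = 1 from hTB 0, smul_eq_mul, mul_one] at this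
    linear_combination this
  have hTh : T (Q * ρ h) = m := by
    rw [vanish h x hx0 hx h2, mul_assoc, chB.eq, ← mul_assoc]
  have hThh : T (Q * (ρ h * ρ h)) = m ^ 2 := by
    calc T (Q * (ρ h * ρ h)) = T (Q * ρ (h * h)) := by rw [map_mul ρ]
      _ = T (Q * ρ (h * h) * B 0) := vanish (h * h) (x * x) (mul_ne_zero hx0 hx0) hx2
          (fun t => by rw [mul_assoc, h2, ← mul_assoc, h2, mul_assoc, mul_assoc x x t])
      _ = T (ρ h * (ρ h * F0)) := by rw [map_mul ρ, ← (chQ.mul_left chQ).eq, mul_assoc, mul_assoc]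
      _ = _ := by
          rw [hhF, mul_smul_comm, hhF, smul_smul, map_smul, show T F0 = 1 from hTB 0, smul_eq_mul, mul_one, pow_two]
  have cQE : Commute Q (eig3 ρ h θ) :=
    (((Commute.one_right Q).add_right (chQ.symm.smul_right _)).add_right
      ((chQ.symm.mul_right chQ.symm).smul_right _)).smul_right _
  have hidem := idem_mul hQQ (eig3_idem ρ hh3 hθ) cQE.symm
  obtain ⟨n, hn, -⟩ := idem_trace hidem
  refine ⟨n, ?_, hn, cQE, hidem⟩
  have hval : (n : ℂ) = 3⁻¹ * (Fintype.card F + θ ^ 2 * m + θ * m ^ 2) := by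
    rw [← hn]
    simp only [eig3, mul_smul_comm, mul_add, mul_one, map_smul, map_add, smul_eq_mul, hTQ, hTh, hThh]
  set ω := θ ^ 2 * m with hω
  have hω3 : ω ^ 3 = 1 := by rw [hω]; linear_combination (θ ^ 3 + 1) * m ^ 3 * hθ + hm3
  have hω2 : θ * m ^ 2 = ω ^ 2 := by rw [hω]; linear_combination -(θ * m ^ 2) * hθ
  rw [hω2] at hval
  rcases eq_or_ne ω 1 with hw1 | hw1
  · have : ((3 * n : ℕ) : ℂ) = ((Fintype.card F + 2 : ℕ) : ℂ) := by
      push_cast; rw [hval, hw1]; ring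
    exact le_of_eq (by exact_mod_cast this)
  · have hr : ω ^ 2 + ω + 1 = 0 :=
      (mul_eq_zero.1 (by linear_combination hω3 : (ω - 1) * (ω ^ 2 + ω + 1) = 0)).resolve_left (sub_ne_zero.2 hw1)
    have : ((3 * n + 1 : ℕ) : ℂ) = ((Fintype.card F : ℕ) : ℂ) := by
      push_cast; rw [hval]; linear_combination hr
    have : 3 * n + 1 = Fintype.card F := by exact_mod_cast this
    omega

/-- The space fixed by the long root subgroups cannot be small. -/
theorem no_small (h3 : (3 : F) ≠ 0) (hq1 : Fintype.card F % 3 = 1) (hq4 : 4 < Fintype.card F)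
    (hμ : mu ρ hψ = Fintype.card F) (h10 : R ρ hψ 1 0 = 1) (h00 : R ρ hψ 0 0 ≤ 1) : False := by
  obtain ⟨c, α, β, hc, hTA0, hdec⟩ := mid_decomp ρ hψ h10 h00 (by omega)
  -- a primitive cube root of unity
  obtain ⟨x, hx3, hx⟩ : ∃ x : F, x ^ 3 = 1 ∧ x ≠ 1 := by
    have h3dvd : 3 ∣ Fintype.card Fˣ := by rw [Fintype.card_units]; omega
    have : Fact (Nat.Prime 3) := ⟨Nat.prime_three⟩
    obtain ⟨u, hu⟩ := exists_prime_orderOf_dvd_card 3 h3dvd
    refine ⟨u, ?_, fun e => ?_⟩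
    · have := congrArg Units.val (pow_orderOf_eq_one u)
      rw [hu] at this
      simpa using this
    · rw [Units.val_eq_one.1 e, orderOf_one] at hu
      omega
  obtain ⟨h, hh3, h2, hdiag, hcomm⟩ := exists_h0 hx3
  set P := PE ρ ψ with hP
  set e := e0p ρ ψ with he
  set E : F → Module.End ℂ V := fun d => P * pr ρ ψ 10 d with hE
  have hPP : P * P = P := PE_idem ρ hψ
  have hEE : ∀ d, E d * E d = E d := fun d => idem_mul hPP (pr_idem ρ hψ 10 d) (PE_pr_ten ρ d).symm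
  have chP : Commute (ρ h) P :=
    (commute_prj (fun b => (hcomm 11 (by simp) (by norm_num) b).map ρ) 0).mul_right
      (commute_prj (fun b => (hcomm 6 (by simp) (by norm_num) b).map ρ) 0)
  have chE : ∀ d, Commute (ρ h) (E d) := fun d =>
    chP.mul_right (commute_prj (fun b => (hcomm 10 (by simp) (by norm_num) b).map ρ) d)
  set θ := T (E 1 * ρ h) with hθdef
  have hT1 : ∀ d, d ≠ 0 → T (E d) = 1 := fun d hd => by
    rw [hE, hP, trace_PE_ten ρ hψ, R_zero_col ρ hψ hd, h10, Nat.cast_one]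
  have hEh : ∀ d, d ≠ 0 → ρ h * E d = θ • E d := by
    intro d hd
    have h1 : ρ h * E d = T (E d * ρ h) • E d := by
      rw [← sandwich (hEE d) (hT1 d hd), mul_assoc, (chE d).eq, ← mul_assoc, hEE]
    rw [h1]
    congr 1
    obtain ⟨g, hg, gg⟩ := exists_torus_neg (F := F) one_ne_zero (inv_ne_zero hd)
    refine (op_trace ρ g ?_).symm
    rw [hE, ← mul_assoc, ← mul_assoc, hP, PE_move ρ (by simp [hd]) (inv_ne_zero hd) (fun t => (gg t).1) (fun t => (gg t).2.1),
      mul_assoc _ (ρ g), move_pr ρ (by simp [hd]) (fun t => (gg t).2.2.1) 1, ← mul_assoc, mul_assoc _ (ρ g) (ρ h),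
      ← map_mul, ← (hdiag g hg).eq, map_mul, ← mul_assoc]
    simp
  have hθ3 : θ ^ 3 = 1 := by
    have e1 : ρ h * (ρ h * (ρ h * E 1)) = E 1 := by
      rw [← mul_assoc, ← mul_assoc, ← map_mul, ← map_mul, mul_assoc h, ← pow_two, ← pow_succ', hh3, map_one, one_mul]
    rw [hEh 1 one_ne_zero, mul_smul_comm, hEh 1 one_ne_zero, mul_smul_comm, mul_smul_comm, hEh 1 one_ne_zero] at e1
    have := congrArg T e1
    simp only [map_smul, hT1 1 one_ne_zero, smul_eq_mul, mul_one] at this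
    linear_combination this
  set P1 := ∑ d ∈ (Finset.univ : Finset F).erase 0, E d with hP1
  have hsplit : P = P1 + e := by
    rw [hP1, show e = E 0 from rfl, Finset.sum_erase_add _ _ (Finset.mem_univ _)]
    simp only [hE, ← Finset.mul_sum, pr_sum ρ hψ, mul_one]
  have hfix : eig3 ρ h θ * P1 = P1 := by
    refine eig3_fix ρ hθ3 ?_
    rw [hP1, Finset.mul_sum, Finset.smul_sum]
    exact Finset.sum_congr rfl fun d hd => hEh d (Finset.ne_of_mem_erase hd)
  obtain ⟨n, hn, hTn, -, hidem⟩ := eig_part ρ hψ h3 hμ hx3 hx hh3 h2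
    (fun t => hcomm 0 (by simp) (by norm_num) t) (fun t => hcomm 5 (by simp) (by norm_num) t) hθ3
  set Q := pr ρ ψ 0 1 * pr ρ ψ 5 0 with hQ
  have hTe : T e = R ρ hψ 0 0 := trace_PE_ten ρ hψ 0
  have rkQP : rk (Q * P) ≤ n + R ρ hψ 0 0 := by
    rw [hsplit, mul_add]
    refine (rk_add _ _).trans (Nat.add_le_add ?_ ?_)
    · rw [← hfix, ← mul_assoc]
      exact (rk_mul_left _ _).trans (rk_idem hidem hTn).le
    · exact (rk_mul_right _ _).trans (rk_idem (e0p_idem ρ hψ) hTe).le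
  have hP_eq : P = c⁻¹ • (((Fintype.card F : ℂ) ^ 2) • (P * Q * P) + α • (P * pr ρ ψ 1 0) + β • e) := by
    rw [← hdec, smul_smul, inv_mul_cancel₀ hc, one_smul]
  have rkP : rk P ≤ (n + R ρ hψ 0 0) + R ρ hψ 0 0 + R ρ hψ 0 0 := by
    rw [hP_eq]
    refine (rk_smul _ _).trans ((rk_add _ _).trans (Nat.add_le_add ((rk_add _ _).trans (Nat.add_le_add ?_ ?_)) ?_))
    · refine (rk_smul _ _).trans ?_
      rw [mul_assoc P Q P]
      exact (rk_mul_right _ _).trans rkQP
    · exact (rk_smul _ _).trans (rk_idem (idem_mul hPP (pr_idem ρ hψ 1 0) (PE_pr_one ρ 0).symm) hTA0).le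
    · exact (rk_smul _ _).trans (rk_idem (e0p_idem ρ hψ) hTe).le
  have hTP : T P = ((Fintype.card F - 1 + R ρ hψ 0 0 : ℕ) : ℂ) := by
    rw [hsplit, map_add, hP1, map_sum, Finset.sum_congr rfl fun d hd => hT1 d (Finset.ne_of_mem_erase hd),
      Finset.sum_const, Finset.card_erase_of_mem (Finset.mem_univ _), Finset.card_univ, hTe, nsmul_eq_mul, mul_one,
      Nat.cast_add]
  rw [rk_idem hPP hTP] at rkP
  omega

theorem bound_one (h3 : (3 : F) ≠ 0) (hnt : op ρ 11 1 ≠ 1) (hq1 : Fintype.card F % 3 = 1)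
    (hq4 : 4 < Fintype.card F) : Fintype.card F ^ 3 + 1 ≤ Module.finrank ℂ V := by
  obtain ⟨L, hL1, hL⟩ := exists_L ρ hψ h3 hnt
  have hk := degree_eq ρ hψ
  rw [hL, ← fixed_ge ρ hψ] at hk
  set q := Fintype.card F with hqdef
  obtain ⟨p, hp⟩ : ∃ p, q = p + 5 := ⟨q - 5, by omega⟩
  by_cases hL2 : 2 ≤ L
  · obtain ⟨l, rfl⟩ : ∃ l, L = l + 2 := ⟨L - 2, by omega⟩
    rw [hk, hp, show p + 5 - 1 = p + 4 by omega]
    zify
    nlinarith [Int.natCast_nonneg p, Int.natCast_nonneg l, mul_nonneg (Int.natCast_nonneg p) (Int.natCast_nonneg l),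
      sq_nonneg (p : ℤ), Int.natCast_nonneg (R ρ hψ 1 0), Int.natCast_nonneg (R ρ hψ 0 0)]
  have hL1' : L = 1 := by omega
  subst hL1'
  have hμ : mu ρ hψ = q := by rw [hL, mul_one]
  have hfix : q + 1 ≤ (q - 1) * R ρ hψ 1 0 + R ρ hψ 0 0 := by
    have hR1 : 1 ≤ R ρ hψ 1 0 := by
      by_contra h0
      rw [not_le, Nat.lt_one_iff] at h0
      -- the cubes act on the characters without a fixed point, and their number divides `q` and `q - 1`
      let H : Subgroup Fˣ := (powMonoidHom 3 : Fˣ →* Fˣ).range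
      have hd := card_dvd_sum H (fun u : Fˣ => R ρ hψ 1 (u : F)) (by
        rintro _ ⟨a, rfl⟩ u
        have := R_torus ρ hψ a.ne_zero one_ne_zero 1 (u : F)
        simpa [mul_comm] using this)
      have hsum : ∑ u : Fˣ, R ρ hψ 1 (u : F) = q := by
        conv_rhs => rw [← hμ, mu, ← Finset.add_sum_erase _ _ (Finset.mem_univ (0 : F)), h0, zero_add]
        refine Finset.sum_bij (fun u _ => (u : F)) (fun u _ => by simp) (fun u _ v _ e => Units.ext e)
          (fun d hd => ⟨Units.mk0 d (Finset.ne_of_mem_erase hd), Finset.mem_univ _, rfl⟩) fun u _ => rfl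
      rw [hsum] at hd
      have hd' : Nat.card H ∣ q - 1 := by
        have := Subgroup.card_subgroup_dvd_card H
        rwa [Nat.card_eq_fintype_card (α := Fˣ), Fintype.card_units] at this
      have h1 : Nat.card H = 1 := by
        have := Nat.dvd_sub hd hd'
        rwa [show q - (q - 1) = 1 by omega, Nat.dvd_one] at this
      have hbot : H = ⊥ := Subgroup.eq_bot_of_card_eq H h1
      have hall : ∀ a : Fˣ, a ^ 3 = 1 := fun a => by
        have : a ^ 3 ∈ H := ⟨a, rfl⟩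
        rwa [hbot, Subgroup.mem_bot] at this
      classical
      have hle : (Finset.univ.erase (0 : F)).card ≤ 3 := by
        refine le_trans ?_ (Polynomial.card_nthRoots 3 (1 : F))
        refine Finset.card_le_card (t := (Polynomial.nthRoots 3 (1 : F)).toFinset) (fun d hd => ?_) |>.trans
          (Multiset.toFinset_card_le _)
        rw [Multiset.mem_toFinset, Polynomial.mem_nthRoots (by norm_num)]
        simpa using congrArg Units.val (hall (Units.mk0 d (Finset.ne_of_mem_erase hd)))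
      rw [Finset.card_erase_of_mem (Finset.mem_univ _), Finset.card_univ, ← hqdef] at hle
      omega
    by_cases h2 : 2 ≤ R ρ hψ 1 0
    · have := Nat.mul_le_mul_left (q - 1) h2
      omega
    have h10 : R ρ hψ 1 0 = 1 := by omega
    by_cases h00 : 2 ≤ R ρ hψ 0 0
    · rw [h10]; omega
    exact (no_small ρ hψ h3 hq1 hq4 hμ h10 (by omega)).elim
  rw [hk]
  obtain ⟨m, hm⟩ : ∃ m, q = m + 1 := ⟨q - 1, by omega⟩
  rw [hm, Nat.add_sub_cancel] at hfix ⊢
  nlinarith

end Cfsg.Agent.Suzuki.G2Min
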