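import Cfsg.Agent.Suzuki.G2MinThreeB

/-! # Characteristic three: the bound -/

set_option autoImplicit false
set_option maxHeartbeats 1600000

universe u v

namespace Cfsg.Agent.Suzuki.G2Min

open Cfsg.Lie Cfsg.Agent.Chev
open Cfsg.Agent.Suzuki.ReeDeg Cfsg.Agent.Suzuki.TraceProj

variable {F : Type u} [Field F] [Fintype F] [DecidableEq F] {V : Type v} [AddCommGroup V] [Module ℂ V]
  [FiniteDimensional ℂ V] (ρ : Representation ℂ ↥(chevG2.group F) V) {ψ : AddChar F ℂ}
  (hψ : ∀ c : F, c ≠ 0 → ∑ b : F, ψ (c * b) = 0) (h3 : (3 : F) = 0)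

local notation "T" => LinearMap.trace ℂ V

include hψ

omit [DecidableEq F] in
theorem split_centre (X : Module.End ℂ V) [DecidableEq F] :
    T X = T (q0 ρ ψ * X) + ∑ z ∈ (Finset.univ : Finset F).erase 0, T (pr ρ ψ 11 z * X) := by
  calc T X = T ((∑ z, pr ρ ψ 11 z) * X) := by rw [pr_sum ρ hψ, one_mul]
    _ = ∑ z, T (pr ρ ψ 11 z * X) := by rw [Finset.sum_mul, map_sum]
    _ = _ := (Finset.add_sum_erase _ _ (Finset.mem_univ _)).symm

omit hψ in
theorem sum_erase_const (g : F → ℂ) (v : ℂ) (h : ∀ z : F, z ≠ 0 → g z = v) :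
    ∑ z ∈ (Finset.univ : Finset F).erase 0, g z = ((Fintype.card F : ℂ) - 1) * v := by
  rw [Finset.sum_congr rfl fun z hz => h z (Finset.ne_of_mem_erase hz), Finset.sum_const,
    Finset.card_erase_of_mem (Finset.mem_univ _), Finset.card_univ, nsmul_eq_mul, Nat.cast_sub Fintype.card_pos,
    Nat.cast_one]

include h3

/-- The key identity between the long and short root subgroups. -/
theorem central_eq (hq : 9 ≤ Fintype.card F) (h8 : op ρ 8 1 ≠ 1) :
    ∃ L : ℕ, 1 ≤ L ∧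
      ((Fintype.card F - 1) * (Fintype.card F ^ 2 * L) ≤ Fintype.card F * mu ρ hψ) ∧
      (L = 1 → ∑ d, M ρ hψ (1, 1, 0, d) = 1 ∧
        (Fintype.card F - 1) * Fintype.card F ^ 2 + (Fintype.card F - 1) * Fintype.card F ≤
          Fintype.card F * mu ρ hψ ∧
        ∀ z c : F, z ≠ 0 → c ≠ 0 → T (pr ρ ψ 11 z * pr ρ ψ 9 c) = ((Fintype.card F ^ 2 : ℕ) : ℂ)) := by
  obtain ⟨L, n, hA, hB, hC⟩ := exists_central ρ hψ h3
  set q := Fintype.card F with hqdef
  have hq0 : (q : ℂ) ≠ 0 := by rw [hqdef]; exact_mod_cast Fintype.card_ne_zero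
  have c68 : ∀ a u, Commute (pr ρ ψ 6 a) (pr ρ ψ 8 u) := pr_commute ρ (commute_pairs (by simp))
  set G := ∑ d, M ρ hψ (1, 1, 0, d) with hG
  have hM11 : T (q0 ρ ψ * (pr ρ ψ 6 1 * pr ρ ψ 8 1)) = ((q * G : ℕ) : ℂ) := by
    rw [trace_six_eight ρ hψ]
    simp only [← Nat.cast_sum]
    rw [Finset.sum_congr rfl fun c _ => sum_last ρ hψ h3 one_ne_zero one_ne_zero c, Finset.sum_const,
      Finset.card_univ, smul_eq_mul]
  have hconj : T (pr ρ ψ 6 1 * pr ρ ψ 8 1) = ((q ^ 2 * L : ℕ) : ℂ) := by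
    obtain ⟨g, x, y, w, hx, hy, -, e11, e9, -⟩ := exists_move (F := F)
    rw [← hA x y hx hy]
    symm
    refine op_trace ρ g ?_
    rw [← mul_assoc, move_pr ρ (ψ := ψ) hx e11 x, mul_assoc, move_pr ρ (ψ := ψ) hy e9 y, div_self hx, div_self hy,
      ← mul_assoc]
  have hsplit : ∀ z : F, z ≠ 0 → T (pr ρ ψ 11 z * (pr ρ ψ 6 1 * pr ρ ψ 8 1)) = (((q - 1) * L + n : ℕ) : ℂ) := by
    intro z hz
    have e : (q : ℂ) * T (pr ρ ψ 11 z * (pr ρ ψ 6 1 * pr ρ ψ 8 1)) = T (pr ρ ψ 11 z * pr ρ ψ 8 1) :=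
      shift_six ρ hψ hz _ (fun t => commute_prj (fun b => (commute_pairs (r := 10) (s := 8) (by simp) t b).map ρ) 1) 1
    have e2 : T (pr ρ ψ 11 z * pr ρ ψ 8 1) = ∑ c, T (pr ρ ψ 11 z * (pr ρ ψ 9 c * pr ρ ψ 8 1)) := by
      rw [← map_sum, ← Finset.mul_sum, ← Finset.sum_mul, pr_sum ρ hψ, one_mul]
    rw [e2, ← Finset.add_sum_erase _ _ (Finset.mem_univ (0 : F)), hC z 1 hz one_ne_zero,
      sum_erase_const _ _ fun c hc => hB z c 1 hz hc] at e
    refine mul_left_cancel₀ hq0 (e.trans ?_)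
    push_cast [show 1 ≤ q by omega]
    ring
  have key : q ^ 2 * L = (q - 1) * ((q - 1) * L + n) + q * G := by
    have h := split_centre ρ hψ (pr ρ ψ 6 1 * pr ρ ψ 8 1)
    rw [hconj, hM11, sum_erase_const _ _ hsplit] at h
    have : ((q ^ 2 * L : ℕ) : ℂ) = (((q - 1) * ((q - 1) * L + n) + q * G : ℕ) : ℂ) := by
      rw [h]; push_cast [show 1 ≤ q by omega]; ring
    exact_mod_cast this
  have hμ : ((q * mu ρ hψ : ℕ) : ℂ) =
      T (pr ρ ψ 11 1 * pr ρ ψ 9 0) + ((q : ℂ) - 1) * ((q ^ 2 * L : ℕ) : ℂ) := by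
    rw [hqdef, ← centre_mu ρ hψ, show pr ρ ψ 11 1 = ∑ c, pr ρ ψ 11 1 * pr ρ ψ 9 c by
      rw [← Finset.mul_sum, pr_sum ρ hψ, mul_one], map_sum, ← Finset.add_sum_erase _ _ (Finset.mem_univ (0 : F)),
      sum_erase_const _ _ fun c hc => hA 1 c one_ne_zero hc]
    rw [← Finset.mul_sum, pr_sum ρ hψ, mul_one]
  have hC0 : ∃ s : ℕ, T (pr ρ ψ 11 1 * pr ρ ψ 9 0) = (((q - 1) * (q * n) + s : ℕ) : ℂ) := by
    obtain ⟨s, hs, -⟩ := idem_trace (idem_mul (prj_idem hψ (op_add ρ 11) (1 : F))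
      (idem_mul (prj_idem hψ (op_add ρ 9) (0 : F)) (prj_idem hψ (op_add ρ 8) (0 : F))
        (pr_commute ρ (commute_eight_nine h3) 0 0))
      ((pr_commute ρ (commute_pairs (r := 11) (s := 9) (by simp)) (1 : F) 0).mul_right
        (pr_commute ρ (commute_pairs (r := 11) (s := 8) (by simp)) (1 : F) 0)).symm)
    refine ⟨s, ?_⟩
    have e : T (pr ρ ψ 11 1 * pr ρ ψ 9 0) = ∑ u, T (pr ρ ψ 11 1 * (pr ρ ψ 9 0 * pr ρ ψ 8 u)) := by
      rw [← map_sum, ← Finset.mul_sum, ← Finset.mul_sum, pr_sum ρ hψ, mul_one]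
    rw [e, ← Finset.add_sum_erase _ _ (Finset.mem_univ (0 : F)),
      sum_erase_const _ _ fun u hu => hC 1 u one_ne_zero hu, show T (pr ρ ψ 11 1 * (pr ρ ψ 9 0 * pr ρ ψ 8 0)) = s
        from hs]
    push_cast [show 1 ≤ q by omega]
    ring
  obtain ⟨s, hs⟩ := hC0
  have hlow : q * mu ρ hψ = (q - 1) * (q * n) + s + (q - 1) * (q ^ 2 * L) := by
    rw [hs] at hμ
    have : ((q * mu ρ hψ : ℕ) : ℂ) = (((q - 1) * (q * n) + s + (q - 1) * (q ^ 2 * L) : ℕ) : ℂ) := by
      rw [hμ]; push_cast [show 1 ≤ q by omega]; ring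
    exact_mod_cast this
  have hLpos : 1 ≤ L := by
    by_contra h0
    have hL : L = 0 := by omega
    subst hL
    rw [mul_zero, mul_zero, zero_add] at key
    have hn : n = 0 := by
      by_contra hn
      have := Nat.mul_pos (show 0 < q - 1 by omega) (Nat.pos_of_ne_zero hn)
      omega
    have hG0 : G = 0 := by
      by_contra hg
      have := Nat.mul_pos (show 0 < q by omega) (Nat.pos_of_ne_zero hg)
      omega
    refine h8 (op_trivial ρ hψ 8 (fun u hu => ?_) 1)
    rw [split_centre ρ hψ, trace_eight ρ hψ]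
    refine (congrArg₂ (· + ·) ?_ (Finset.sum_eq_zero fun z hz => ?_)).trans (add_zero (0 : ℂ))
    · exact Finset.sum_eq_zero fun a _ => Finset.sum_eq_zero fun c _ => Finset.sum_eq_zero fun d _ => by
        rw [vanish ρ hψ h3 hq (hG ▸ hG0) (Or.inl hu) a d, Nat.cast_zero]
    · have hz0 := Finset.ne_of_mem_erase hz
      rw [show pr ρ ψ 11 z * pr ρ ψ 8 u = ∑ c, pr ρ ψ 11 z * (pr ρ ψ 9 c * pr ρ ψ 8 u) by
        rw [← Finset.mul_sum, ← Finset.sum_mul, pr_sum ρ hψ, one_mul], map_sum]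
      refine Finset.sum_eq_zero fun c _ => ?_
      by_cases hc : c = 0
      · rw [hc, hC z u hz0 hu, hn, mul_zero, Nat.cast_zero]
      · rw [hB z c u hz0 hc, mul_zero, Nat.cast_zero]
  refine ⟨L, hLpos, by omega, fun hL1 => ?_⟩
  subst hL1
  have hGn : G = 1 ∧ n = 1 := by
    obtain ⟨p, hp⟩ : ∃ p, q = p + 1 := ⟨q - 1, by omega⟩
    rw [hp, Nat.add_sub_cancel] at key
    have hG2 : G ≤ 1 := by
      by_contra hG2
      have := Nat.mul_le_mul_left (p + 1) (show 2 ≤ G by omega)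
      nlinarith
    rcases Nat.lt_or_ge G 1 with hg | hg
    · rw [show G = 0 by omega] at key
      have hk : p * n = 2 * p + 1 := by nlinarith
      rcases Nat.lt_or_ge n 3 with hn | hn
      · interval_cases n <;> omega
      · have := Nat.mul_le_mul_left p hn
        omega
    · have hg1 : G = 1 := by omega
      rw [hg1] at key
      have hk : p * n = p := by nlinarith
      exact ⟨hg1, by
        have := Nat.eq_of_mul_eq_mul_left (show 0 < p by omega) (hk.trans (mul_one p).symm)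
        exact this⟩
  refine ⟨hGn.1, ?_, fun z c hz hc => ?_⟩
  · rw [hlow, hGn.2, mul_one, mul_one]; omega
  · rw [hA z c hz hc, mul_one]

/-- The standard fibre when the last coordinate vanishes. -/
theorem fibre_special (hq : 9 ≤ Fintype.card F) (hG : ∑ d, M ρ hψ (1, 1, 0, d) = 1)
    (h0 : M ρ hψ (1, 1, 0, 0) = 1) (x d : F) : M ρ hψ (x, 1, 0, d) = if d = 0 then 1 else 0 := by
  have hline : ∀ t : F, M ρ hψ (1 + t, 1, 0, 0) = 1 := fun t => by
    have e := M_shT ρ hψ t (1, 1, 0, 0)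
    simp only [shT, h3, zero_mul, mul_zero, sub_zero, add_zero, mul_one] at e
    rw [e, h0]
  split_ifs with hd
  · subst hd
    simpa using hline (x - 1)
  · have hne : ∀ {x : F} (d : F), x ≠ 0 → d ≠ 0 → M ρ hψ (x, 1, 0, d) = 0 := by
      intro x d hx hd
      have e := M_torus ρ hψ hx (inv_ne_zero hx) x 1 0 d
      simp only [inv_mul_cancel₀ hx, mul_inv_cancel₀ hx, one_mul, mul_zero] at e
      rw [← e]
      have h1 := Finset.add_sum_erase _ (fun d => M ρ hψ (1, 1, 0, d)) (Finset.mem_univ (0 : F))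
      rw [h0, hG] at h1
      have h2 : ∑ d ∈ (Finset.univ : Finset F).erase 0, M ρ hψ (1, 1, 0, d) = 0 := by omega
      exact Finset.sum_eq_zero_iff.1 h2 _ (Finset.mem_erase.2
        ⟨mul_ne_zero (mul_ne_zero (pow_ne_zero _ hx) (inv_ne_zero hx)) hd, Finset.mem_univ _⟩)
    by_cases hx : x = 0
    · subst hx
      let P : Polynomial F := Polynomial.C (-d) * Polynomial.X ^ 3 + Polynomial.X
      have hP : P ≠ 0 := fun e => by
        have e1 := congrArg (fun p => Polynomial.coeff p 1) e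
        simp [P, Polynomial.coeff_X] at e1
      obtain ⟨t, ht⟩ := exists_nonroot P hP (by
        have : P.natDegree ≤ 3 := by simp only [P]; compute_degree
        omega)
      simp only [P, Polynomial.eval_add, Polynomial.eval_mul, Polynomial.eval_C, Polynomial.eval_pow,
        Polynomial.eval_X] at ht
      rw [← M_shT ρ hψ t (0, 1, 0, d)]
      simp only [shT, h3, zero_mul, mul_zero, sub_zero, add_zero, mul_one, zero_add]
      exact hne d (fun e => ht (by linear_combination e)) hd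
    · exact hne d hx hd

/-- A lower bound for the standard fibre in the other case. -/
theorem fibre_big {d₀ : F} (hd : d₀ ≠ 0) (hM : M ρ hψ (1, 1, 0, d₀) ≠ 0) :
    Fintype.card F * (Fintype.card F - 1) ≤ 6 * fib ρ hψ 1 0 := by
  let g : F → F := fun t => 1 + t - t ^ 3 * d₀
  let I : Finset F := Finset.univ.image g
  let U : Finset F := (Finset.univ : Finset F).erase 0
  let S : Finset (F × F) := Finset.univ.filter fun p => M ρ hψ (p.1, 1, 0, p.2) ≠ 0
  have h1 : Fintype.card F ≤ 3 * I.card := by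
    rw [← Finset.card_univ]
    refine Finset.card_le_mul_card_image _ 3 fun y _ => ?_
    let P : Polynomial F := Polynomial.C (-d₀) * Polynomial.X ^ 3 + Polynomial.X + Polynomial.C (1 - y)
    have hP : P ≠ 0 := fun e => by
      have e1 := congrArg (fun p => Polynomial.coeff p 1) e
      simp [P, Polynomial.coeff_X, Polynomial.coeff_C, Polynomial.coeff_sub, Polynomial.coeff_one] at e1
    have hsub : (Finset.univ.filter fun t => g t = y).val ⊆ P.roots := fun t ht => by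
      rw [Polynomial.mem_roots hP, Polynomial.IsRoot.def]
      have := (Finset.mem_filter.1 ht).2
      simp only [P, g, Polynomial.eval_add, Polynomial.eval_mul, Polynomial.eval_C, Polynomial.eval_pow,
        Polynomial.eval_X] at this ⊢
      linear_combination this
    refine (Multiset.card_le_card ((Multiset.le_iff_subset (Finset.nodup _)).2 hsub)).trans
      ((Polynomial.card_roots' P).trans ?_)
    simp only [P]; compute_degree
  have h2 : (U ×ˢ I).card ≤ 2 * S.card := by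
    refine (Finset.card_le_mul_card_image (f := fun p : F × F => (p.2 / p.1, p.1 ^ 2 * d₀)) _ 2 fun y _ => ?_).trans
      (Nat.mul_le_mul_left 2 (Finset.card_le_card fun y hy => ?_))
    · by_cases hne : ((U ×ˢ I).filter fun p : F × F => (p.2 / p.1, p.1 ^ 2 * d₀) = y).Nonempty
      swap
      · rw [Finset.not_nonempty_iff_eq_empty.1 hne]; simp
      obtain ⟨p, hp⟩ := hne
      rw [Finset.mem_filter, Finset.mem_product] at hp
      refine (Finset.card_le_card (t := {p, (-p.1, -p.2)}) fun r hr => ?_).trans Finset.card_le_two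
      rw [Finset.mem_filter, Finset.mem_product] at hr
      have e := hr.2.trans hp.2.symm
      simp only [Prod.mk.injEq, mul_eq_mul_right_iff, hd, or_false] at e
      have hp1 := Finset.ne_of_mem_erase hp.1.1
      have hr1 := Finset.ne_of_mem_erase hr.1.1
      have e1 : r.2 * p.1 = p.2 * r.1 := (div_eq_div_iff hr1 hp1).1 e.1
      rw [Finset.mem_insert, Finset.mem_singleton]
      rcases eq_or_eq_neg_of_sq_eq_sq _ _ e.2 with h | h
      · left
        refine Prod.ext h ?_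
        rw [h] at e1
        exact mul_right_cancel₀ hp1 e1
      · right
        refine Prod.ext h ?_
        rw [h, mul_neg, ← neg_mul] at e1
        exact mul_right_cancel₀ hp1 e1
    · simp only [Finset.mem_image, Finset.mem_product, U, I, Finset.mem_erase, Finset.mem_univ, and_true,
        true_and] at hy
      obtain ⟨⟨a, _⟩, ⟨ha, t, rfl⟩, rfl⟩ := hy
      simp only [S, Finset.mem_filter, Finset.mem_univ, true_and]
      have e := M_torus ρ hψ ha (inv_ne_zero ha) (g t) 1 0 d₀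
      simp only [mul_inv_cancel₀ ha, one_mul, mul_zero, show a ^ 3 * a⁻¹ = a ^ 2 by field_simp] at e
      rw [div_eq_inv_mul, e]
      have e2 := M_shT ρ hψ t (1, 1, 0, d₀)
      simp only [shT, h3, zero_mul, mul_zero, sub_zero, add_zero, mul_one] at e2
      rw [show g t = 1 + t - t ^ 3 * d₀ from rfl, e2]
      exact hM
  have h4 : S.card ≤ fib ρ hψ 1 0 := by
    rw [fib, ← Fintype.sum_prod_type (f := fun p : F × F => M ρ hψ (p.1, 1, 0, p.2)), Finset.card_eq_sum_ones]
    refine (Finset.sum_le_sum fun p hp => Nat.one_le_iff_ne_zero.2 (Finset.mem_filter.1 hp).2).trans ?_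
    exact Finset.sum_le_sum_of_subset (Finset.subset_univ _)
  rw [Finset.card_product, Finset.card_erase_of_mem (Finset.mem_univ _), Finset.card_univ] at h2
  calc Fintype.card F * (Fintype.card F - 1) ≤ 3 * I.card * (Fintype.card F - 1) := Nat.mul_le_mul_right _ h1
    _ = 3 * ((Fintype.card F - 1) * I.card) := by ring
    _ ≤ 3 * (2 * S.card) := Nat.mul_le_mul_left 3 h2
    _ ≤ _ := by omega

/-- The trace of `x₇` on the fixed space of the centre. -/
theorem levi_fixed (hM : ∀ a d : F, ∀ u : F, u ≠ 0 → M ρ hψ (a, u, 0, d) ≠ 0 → d = 0)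
    (h1 : M ρ hψ (1, 0, 0, 0) = 1) (hq : 9 ≤ Fintype.card F) :
    ∃ f : ℕ, (Fintype.card F : ℂ) * T (q0 ρ ψ * pr ρ ψ 7 0) + (M ρ hψ 0 : ℂ) =
      (∑ w, (M ρ hψ w : ℂ)) + ((Fintype.card F : ℂ) - 1) ^ 2 + (Fintype.card F : ℂ) * f := by
  set q := Fintype.card F
  have h2 := two_ne h3
  have hgw : ∀ w t, op ρ 7 t * P ρ ψ w = P ρ ψ (shT t w) * op ρ 7 t := fun w t => (P_T ρ hψ t w).symm
  obtain ⟨f, hf, -⟩ := idem_trace (idem_mul (P_idem ρ hψ (0 : W4 F)) (prj_idem hψ (op_add ρ 7) (0 : F))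
    (commute_prj (fun t => (show Commute (op ρ 7 t) (P ρ ψ 0) by
      have := hgw 0 t
      rwa [show shT t (0 : W4 F) = 0 from Prod.ext (by simp [shT]) (Prod.ext (by simp [shT])
        (Prod.ext (by simp [shT]) (by simp [shT])))] at this).symm) 0).symm)
  refine ⟨f, ?_⟩
  let g : W4 F → F → ℂ := fun w t => T (P ρ ψ w * op ρ 7 t)
  have hsum : (q : ℂ) * T (q0 ρ ψ * pr ρ ψ 7 0) = ∑ w, ∑ t, g w t := by
    have hq0 : (q : ℂ) ≠ 0 := by exact_mod_cast Fintype.card_ne_zero
    simp only [g, ← map_sum, ← Finset.mul_sum, ← Finset.sum_mul, sum_P ρ hψ]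
    simp only [pr, prj, zero_mul, neg_zero, AddChar.map_zero_eq_one, one_smul, mul_smul_comm, map_smul, smul_eq_mul]
    rw [← mul_assoc, mul_inv_cancel₀ hq0, one_mul]
  have g0 : ∀ w, g w 0 = M ρ hψ w := fun w => by simp only [g, op_zero, mul_one, M_spec ρ hψ]
  have moved : ∀ w t, shT t w ≠ w → g w t = 0 := by
    intro w t hw
    simp only [g]
    rw [← P_idem ρ hψ w, mul_assoc, LinearMap.trace_mul_comm, mul_assoc, hgw, ← mul_assoc, P_mul ρ hψ,
      if_neg (Ne.symm hw), zero_mul, map_zero]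
  have zero_of : ∀ w t, M ρ hψ w = 0 → g w t = 0 := fun w t h => by simp only [g, M_zero ρ hψ h, zero_mul, map_zero]
  -- the fixed lines
  have line : ∀ a t : F, a ≠ 0 → g (a, 0, 0, 0) t = 1 := by
    intro a t ha
    set w : W4 F := (a, 0, 0, 0)
    set E := P ρ ψ w
    have hE : T E = 1 := by
      rw [M_spec ρ hψ, M_line ρ hψ h3 (Or.inl ha), h1, Nat.cast_one]
    have hc : ∀ s, Commute E (op ρ 7 s) := fun s => by
      have := hgw w s
      simp only [w, shT, mul_zero, sub_zero, add_zero] at this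
      exact this.symm
    have hsc : ∀ s, E * op ρ 7 s = g w s • E := fun s => by
      rw [← sandwich (P_idem ρ hψ w) hE (op ρ 7 s)]
      show E * op ρ 7 s = E * op ρ 7 s * E
      rw [mul_assoc, ← (hc s).eq, ← mul_assoc, P_idem ρ hψ]
    have hmul : ∀ s s', g w (s + s') = g w s * g w s' := by
      intro s s'
      have e : E * op ρ 7 (s + s') = (g w s * g w s') • E := by
        rw [← op_add, ← mul_assoc, hsc, smul_mul_assoc, hsc, smul_smul]
      show T (E * op ρ 7 (s + s')) = _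
      rw [e, map_smul, hE, smul_eq_mul, mul_one]
    have hscale : ∀ b s : F, b ≠ 0 → g w (b * s) = g w s := by
      intro b s hb
      obtain ⟨h, hh⟩ := exists_torus hb (one_ne_zero : (1 : F) ≠ 0)
      have e := P_torus ρ (ψ := ψ) hb one_ne_zero h hh w
      simp only [w, one_mul, mul_zero] at e
      symm
      refine op_trace ρ h ?_
      rw [← mul_assoc, e, mul_assoc, show ρ h * op ρ 7 s = op ρ 7 (b * s) * ρ h by
        rw [op, op, ← map_mul, (hh s).1, map_mul], ← mul_assoc]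
    have h01 : g w 0 = 1 := by simp only [g, op_zero, mul_one]; exact hE
    have hone : g w 1 = 1 := by
      have e := hmul 1 1
      have e2 := hscale 2 1 h2
      rw [mul_one] at e2
      rw [show (1 : F) + 1 = 2 by norm_num, e2] at e
      have hne : g w 1 ≠ 0 := fun h => by
        have e3 := hmul 1 (-1)
        rw [add_neg_cancel, h01, h, zero_mul] at e3
        exact one_ne_zero e3
      exact (mul_right_eq_self₀.1 e.symm).resolve_right hne
    by_cases ht : t = 0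
    · rw [ht, h01]
    · rw [show t = t * 1 from (mul_one t).symm, hscale t 1 ht, hone]
  let LS : Finset (W4 F) := ((Finset.univ : Finset F).erase 0).image fun a => (a, 0, 0, 0)
  have hrest : ∀ w, w ≠ 0 → w ∉ LS → ∑ t, g w t = (M ρ hψ w : ℂ) := by
    intro w hw0 hwL
    rw [← Finset.add_sum_erase _ _ (Finset.mem_univ (0 : F)), g0, Finset.sum_eq_zero, add_zero]
    intro t ht
    have ht0 := Finset.ne_of_mem_erase ht
    obtain ⟨a, u, c, d⟩ := w
    by_cases hm : M ρ hψ (a, u, c, d) = 0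
    · exact zero_of _ _ hm
    refine moved _ _ fun e => ?_
    simp only [shT, h3, zero_mul, sub_zero, Prod.mk.injEq, and_true] at e
    obtain ⟨e1, e2⟩ := e
    have hc : c = 0 := by
      rw [add_eq_left] at e2
      exact (mul_eq_zero.1 e2).resolve_left (mul_ne_zero h2 ht0)
    subst hc
    rw [mul_zero, add_zero] at e1
    by_cases hu : u = 0
    · subst hu
      rw [mul_zero, add_zero, sub_eq_self] at e1
      have hd : d = 0 := (mul_eq_zero.1 e1).resolve_left (pow_ne_zero _ ht0)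
      subst hd
      refine hwL (Finset.mem_image.2 ⟨a, Finset.mem_erase.2 ⟨fun ha => hw0 ?_, Finset.mem_univ _⟩, rfl⟩)
      rw [ha]; rfl
    · have hd := hM a d u hu hm
      subst hd
      rw [mul_zero, sub_zero, add_eq_left] at e1
      exact mul_ne_zero ht0 hu e1
  have h0 : ∑ t, g 0 t = (q : ℂ) * f := by
    have hq0 : (q : ℂ) ≠ 0 := by exact_mod_cast Fintype.card_ne_zero
    simp only [g, ← map_sum, ← Finset.mul_sum]
    rw [← hf]
    simp only [prj, zero_mul, neg_zero, AddChar.map_zero_eq_one, one_smul, mul_smul_comm, map_smul, smul_eq_mul]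
    rw [← mul_assoc, mul_inv_cancel₀ hq0, one_mul]
  have hmain : ∀ w, ∑ t, g w t = (M ρ hψ w : ℂ) + (if w = 0 then (q : ℂ) * f - (M ρ hψ 0 : ℂ) else 0) +
      (if w ∈ LS then (q : ℂ) - 1 else 0) := by
    intro w
    by_cases hw : w = 0
    · subst hw
      have hn : (0 : W4 F) ∉ LS := fun h => by
        obtain ⟨a, ha, e⟩ := Finset.mem_image.1 h
        exact Finset.ne_of_mem_erase ha (congrArg Prod.fst e)
      rw [if_pos rfl, if_neg hn, h0]; ring
    rw [if_neg hw]
    by_cases hL : w ∈ LS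
    · rw [if_pos hL]
      obtain ⟨a, ha, rfl⟩ := Finset.mem_image.1 hL
      have ha0 := Finset.ne_of_mem_erase ha
      rw [Finset.sum_congr rfl fun t _ => line a t ha0, M_line ρ hψ h3 (Or.inl ha0), h1]
      simp only [Finset.sum_const, Finset.card_univ, nsmul_eq_mul, mul_one, q]
      push_cast; ring
    · rw [if_neg hL, hrest w hw hL]; ring
  rw [hsum, Finset.sum_congr rfl fun w _ => hmain w, Finset.sum_add_distrib, Finset.sum_add_distrib,
    Finset.sum_ite_eq' Finset.univ (0 : W4 F), if_pos (Finset.mem_univ _), Finset.sum_ite_mem,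
    Finset.univ_inter, Finset.sum_const, Finset.card_image_of_injective _ (fun a b e => congrArg Prod.fst e),
    Finset.card_erase_of_mem (Finset.mem_univ _), Finset.card_univ, nsmul_eq_mul, Nat.cast_sub Fintype.card_pos]
  push_cast; ring

theorem bound_three (hq : 9 ≤ Fintype.card F) (h8 : op ρ 8 1 ≠ 1)
    (hdvd : Module.finrank ℂ V ∣ Fintype.card F ^ 6 * (Fintype.card F ^ 2 - 1) * (Fintype.card F ^ 6 - 1)) :
    Fintype.card F ^ 4 + Fintype.card F ^ 2 + 1 ≤ Module.finrank ℂ V := by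
  obtain ⟨L, hL1, hlo, hL⟩ := central_eq ρ hψ h3 hq h8
  set q := Fintype.card F with hqdef
  have hk0 := finrank_eq ρ hψ
  rw [trace_q0 ρ hψ, centre_mu ρ hψ, ← hqdef, ← Nat.cast_sum, total_eq ρ hψ h3, fib_zero ρ hψ h3, ← hqdef] at hk0
  set e := M ρ hψ 0
  set m := M ρ hψ (1, 0, 0, 0) with hm
  set Fb := fib ρ hψ 1 0 with hFb
  have hk : Module.finrank ℂ V =
      (q - 1) * (q * mu ρ hψ) + (e + (q ^ 2 - 1) * m + (q ^ 2 - 1) * Fb) := by
    have h1 : 1 ≤ q := by omega
    have h2 : 1 ≤ q ^ 2 := Nat.one_le_pow _ _ h1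
    have : (Module.finrank ℂ V : ℂ) =
        (((q - 1) * (q * mu ρ hψ) + (e + (q ^ 2 - 1) * m + (q ^ 2 - 1) * Fb) : ℕ) : ℂ) := by
      rw [hk0]; push_cast [h1, h2]; ring
    exact_mod_cast this
  obtain ⟨p, hp⟩ : ∃ p, q = p + 9 := ⟨q - 9, by omega⟩
  by_cases hL2 : 2 ≤ L
  · have h1 : (q - 1) * ((q - 1) * (q ^ 2 * 2)) ≤ (q - 1) * (q * mu ρ hψ) :=
      Nat.mul_le_mul_left _ ((Nat.mul_le_mul_left _ (Nat.mul_le_mul_left _ hL2)).trans hlo)
    have h2 : q ^ 4 + q ^ 2 + 1 ≤ (q - 1) * ((q - 1) * (q ^ 2 * 2)) := by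
      rw [hp, show p + 9 - 1 = p + 8 by omega]
      nlinarith [sq_nonneg (p : ℤ)]
    omega
  obtain ⟨hG, hμlo, hA⟩ := hL (by omega)
  by_cases h0 : M ρ hψ (1, 1, 0, 0) = 0
  · obtain ⟨d₀, hd₀⟩ : ∃ d, M ρ hψ (1, 1, 0, d) ≠ 0 := by
      by_contra hc
      push Not at hc
      rw [Finset.sum_eq_zero fun d _ => hc d] at hG
      exact absurd hG zero_ne_one
    have hF := fibre_big ρ hψ h3 (fun e => hd₀ (by rw [e]; exact h0)) hd₀
    rw [← hqdef, ← hFb] at hF
    have h1 : (q - 1) * ((q - 1) * q ^ 2 + (q - 1) * q) ≤ (q - 1) * (q * mu ρ hψ) := Nat.mul_le_mul_left _ hμlo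
    have h2 : (q ^ 2 - 1) * (q * (q - 1)) ≤ 6 * ((q ^ 2 - 1) * Fb) := by
      calc _ ≤ (q ^ 2 - 1) * (6 * Fb) := Nat.mul_le_mul_left _ hF
        _ = _ := by ring
    have h3' : 6 * (q ^ 4 + q ^ 2 + 1) ≤
        6 * ((q - 1) * ((q - 1) * q ^ 2 + (q - 1) * q)) + (q ^ 2 - 1) * (q * (q - 1)) := by
      have : 1 ≤ q ^ 2 := Nat.one_le_pow _ _ (by omega)
      rw [hp, show p + 9 - 1 = p + 8 by omega]
      rw [hp] at this
      zify [this]
      nlinarith [sq_nonneg (p : ℤ), pow_nonneg (Int.natCast_nonneg p) 3, pow_nonneg (Int.natCast_nonneg p) 4]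
    omega
  have h01 : M ρ hψ (1, 1, 0, 0) = 1 := by
    have := Finset.single_le_sum (f := fun d => M ρ hψ (1, 1, 0, d)) (fun d _ => Nat.zero_le _) (Finset.mem_univ 0)
    omega
  have fs := fibre_special ρ hψ h3 hq hG h01
  have hFq : Fb = q := by
    rw [hFb, fib, Finset.sum_congr rfl fun a _ => Finset.sum_congr rfl fun d _ => fs a d]
    simp [hqdef]
  have h2 := two_ne h3
  -- characters with `u = 0`
  have hu0 : ∀ a c d : F, c ≠ 0 → a ≠ 0 → M ρ hψ (a, 0, c, d) = 0 := by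
    intro a c d hc ha
    rw [← M_shT ρ hψ (-(1 / c)) (a, 0, c, d), ← M_shS ρ hψ c]
    simp only [shT, shS, h3, zero_mul, sub_zero, add_zero, mul_zero, zero_add]
    rw [show 2 * -(1 / c) * c = 1 + -(3 : F) by field_simp; ring, h3, neg_zero, add_zero,
      show c + 2 * c * 1 = 0 by linear_combination c * h3, fs, if_neg]
    intro e
    refine ha ?_
    have : a * c ^ 3 = 0 := by
      field_simp at e
      linear_combination (-1 : F) * e - (c ^ 2) * h3
    exact (mul_eq_zero.1 this).resolve_right (pow_ne_zero _ hc)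
  have hμ : mu ρ hψ = (q - 1) * q + q * m := by
    rw [mu_three ρ hψ h3, hG, mul_one, Finset.sum_eq_zero fun c hc => Finset.sum_eq_zero fun d _ =>
      hu0 1 c d (Finset.ne_of_mem_erase hc) one_ne_zero, add_zero]
  have hm1 : 1 ≤ m := by
    by_contra hc
    rw [hμ, show m = 0 by omega, mul_zero, add_zero] at hμlo
    have h5 : 0 < (q - 1) * q := Nat.mul_pos (by omega) (by omega)
    nlinarith
  by_cases hm2 : 2 ≤ m
  · obtain ⟨j, hj⟩ : ∃ j, m = j + 2 := ⟨m - 2, by omega⟩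
    rw [hk, hμ, hFq, hj, hp, show p + 9 - 1 = p + 8 by omega]
    have : 1 ≤ (p + 9) ^ 2 := Nat.one_le_pow _ _ (by omega)
    zify [this]
    nlinarith [sq_nonneg (p : ℤ), pow_nonneg (Int.natCast_nonneg p) 3, Int.natCast_nonneg e, Int.natCast_nonneg j,
      mul_nonneg (Int.natCast_nonneg j) (Int.natCast_nonneg p),
      mul_nonneg (Int.natCast_nonneg j) (pow_nonneg (Int.natCast_nonneg p) 2),
      mul_nonneg (Int.natCast_nonneg j) (pow_nonneg (Int.natCast_nonneg p) 3)]
  have hm' : m = 1 := by omega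
  have fsu : ∀ a u d : F, u ≠ 0 → M ρ hψ (a, u, 0, d) = if d = 0 then 1 else 0 := by
    intro a u d hu
    have e := M_torus ρ hψ one_ne_zero hu (a / u) 1 0 (d / u)
    simp only [mul_div_cancel₀ _ hu, one_mul, mul_one, one_pow, mul_zero] at e
    rw [e, fs]
    simp [hu]
  obtain ⟨f, hf⟩ := levi_fixed ρ hψ h3 (fun a d u hu hne => by
    by_contra hd
    exact hne (by rw [fsu a u d hu, if_neg hd])) (hm'.symm ▸ hm.symm) hq
  rw [← Nat.cast_sum, total_eq ρ hψ h3, fib_zero ρ hψ h3, ← hFb, ← hm, hFq, hm', ← hqdef] at hf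
  -- compare the fixed spaces of two short root subgroups
  have hZC : ∀ z : F, z ≠ 0 → T (pr ρ ψ 11 z * pr ρ ψ 9 0) = ((q ^ 2 : ℕ) : ℂ) := by
    intro z hz
    have e1 : T (pr ρ ψ 11 z) = ∑ c, T (pr ρ ψ 11 z * pr ρ ψ 9 c) := by
      rw [← map_sum, ← Finset.mul_sum, pr_sum ρ hψ, mul_one]
    rw [← Finset.add_sum_erase _ _ (Finset.mem_univ (0 : F)), sum_erase_const _ _ fun c hc => hA z c hz hc,
      trace_centre ρ hz, centre_mu ρ hψ, hμ, hm', ← hqdef] at e1
    push_cast [show 1 ≤ q by omega] at e1 ⊢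
    linear_combination -e1
  have hQC : T (q0 ρ ψ * pr ρ ψ 9 0) = (((q - 1) * q + ((q ^ 2 - 1) + e) : ℕ) : ℂ) := by
    rw [trace_nine ρ hψ]
    simp only [← Nat.cast_sum]
    rw [Finset.sum_comm, ← Finset.add_sum_erase _ _ (Finset.mem_univ (0 : F)),
      show ∑ a, ∑ d, M ρ hψ (a, 0, 0, d) = fib ρ hψ 0 0 from rfl, fib_zero ρ hψ h3, ← hm, hm', ← hqdef,
      Finset.sum_congr rfl fun u hu => show ∑ a, ∑ d, M ρ hψ (a, u, 0, d) = q by
        rw [Finset.sum_congr rfl fun a _ => Finset.sum_congr rfl fun d _ => fsu a u d (Finset.ne_of_mem_erase hu)]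
        simp [hqdef],
      Finset.sum_const, Finset.card_erase_of_mem (Finset.mem_univ _), Finset.card_univ, smul_eq_mul, ← hqdef,
      show e = M ρ hψ 0 from rfl]
    push_cast; ring
  obtain ⟨n, x, y, w, hx, -, hw, e11, -, e7⟩ := exists_move (F := F)
  have hZP : ∀ z : F, z ≠ 0 → T (pr ρ ψ 11 z * pr ρ ψ 7 0) = (((q - 1) * q + ((q - 1) + q) : ℕ) : ℂ) := by
    intro z hz
    have ha : z / x ≠ 0 := div_ne_zero hz hx
    have e : T (pr ρ ψ 11 z * pr ρ ψ 7 0) = T (pr ρ ψ 6 (z / x) * pr ρ ψ 9 0) := by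
      refine op_trace ρ n ?_
      rw [← mul_assoc, move_pr ρ (ψ := ψ) hx e11 z, mul_assoc, move_pr ρ (ψ := ψ) hw e7 0, zero_div, ← mul_assoc]
    rw [e, split_centre ρ hψ, trace_six_nine ρ hψ, sum_erase_const _ (q : ℂ) fun z' hz' => by
      have := shift_six ρ hψ hz' (pr ρ ψ 9 0)
        (fun t => commute_prj (fun b => (commute_pairs (r := 10) (s := 9) (by simp) t b).map ρ) 0) (z / x)
      rw [hZC z' hz'] at this
      refine mul_left_cancel₀ (show (Fintype.card F : ℂ) ≠ 0 by exact_mod_cast Fintype.card_ne_zero) ?_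
      rw [this, hqdef]; push_cast; ring]
    simp only [← Nat.cast_sum]
    rw [← Finset.add_sum_erase _ _ (Finset.mem_univ (0 : F)),
      Finset.sum_congr rfl fun d (_ : d ∈ Finset.univ) => M_line ρ hψ h3 (a := z / x) (d := d) (Or.inl ha),
      Finset.sum_congr rfl fun u hu => show ∑ d, M ρ hψ (z / x, u, 0, d) = 1 by
        rw [Finset.sum_congr rfl fun d _ => fsu (z / x) u d (Finset.ne_of_mem_erase hu)]
        simp,
      ← hm, hm']
    simp only [Finset.sum_const, Finset.card_erase_of_mem (Finset.mem_univ _), Finset.card_univ, smul_eq_mul,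
      mul_one, ← hqdef]
    push_cast [show 1 ≤ q by omega]; ring
  have h79 : T (pr ρ ψ 7 0) = T (pr ρ ψ 9 0) := by
    refine op_trace ρ n ?_
    rw [move_pr ρ (ψ := ψ) hw e7 0, zero_div]
  rw [split_centre ρ hψ, split_centre ρ hψ (pr ρ ψ 9 0), sum_erase_const _ _ hZP,
    sum_erase_const _ _ hZC, hQC, ← hqdef] at h79
  have hef : e + 1 = q + f := by
    have h1 : 1 ≤ q := by omega
    have h2' : 1 ≤ q ^ 2 := Nat.one_le_pow _ _ h1
    have : ((q : ℂ) * ((e : ℂ) + 1)) = (q : ℂ) * ((q : ℂ) + f) := by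
      push_cast [h1, h2'] at hf h79
      linear_combination hf - (q : ℂ) * h79
    have := mul_left_cancel₀ (show (q : ℂ) ≠ 0 by exact_mod_cast (by omega : q ≠ 0)) this
    exact_mod_cast this
  by_cases hf3 : 3 ≤ f
  · rw [hk, hμ, hFq, hm', hp, show p + 9 - 1 = p + 8 by omega]
    have : 1 ≤ (p + 9) ^ 2 := Nat.one_le_pow _ _ (by omega)
    rw [hp] at hef
    zify [this] at hef ⊢
    nlinarith
  exfalso
  have hkf : (Module.finrank ℂ V : ℤ) = (q : ℤ) ^ 4 + (q : ℤ) ^ 2 - 2 + (f : ℤ) := by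
    rw [hk, hμ, hFq, hm']
    have h1 : 1 ≤ q := by omega
    have h2' : 1 ≤ q ^ 2 := Nat.one_le_pow _ _ h1
    have he : (e : ℤ) = (q : ℤ) + f - 1 := by omega
    push_cast [h1, h2']
    rw [he]; ring
  have hd := Int.natCast_dvd_natCast.2 hdvd
  have h1 : 1 ≤ q ^ 2 := Nat.one_le_pow _ _ (by omega)
  have h6 : 1 ≤ q ^ 6 := Nat.one_le_pow _ _ (by omega)
  push_cast [h1, h6] at hd
  rw [hkf] at hd
  set X : ℤ := (q : ℤ) ^ 2 with hX
  have hX81 : 81 ≤ X := by rw [hX]; nlinarith [show (9 : ℤ) ≤ q by omega]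
  rw [show (q : ℤ) ^ 4 = X ^ 2 by rw [hX]; ring,
    show (q : ℤ) ^ 6 = X ^ 3 by rw [hX]; ring] at hd
  interval_cases f
  · have h : X + 2 ∣ X ^ 3 * (X ^ 3 - 1) := by
      refine Int.dvd_of_mul_dvd_mul_right (a := X - 1) (by omega) ?_
      refine dvd_trans (dvd_of_eq ?_) (hd.trans (dvd_of_eq ?_)) <;> push_cast <;> ring
    have h72 : X + 2 ∣ 72 := by
      have e : (72 : ℤ) = X ^ 3 * (X ^ 3 - 1) -
          (X + 2) * (X ^ 5 - 2 * X ^ 4 + 4 * X ^ 3 - 9 * X ^ 2 + 18 * X - 36) := by ring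
      rw [e]
      exact dvd_sub h (dvd_mul_right _ _)
    have := Int.le_of_dvd (by norm_num) h72
    omega
  · have h : X ^ 2 + X - 1 ∣ 26 * X - 16 := by
      have e : 26 * X - 16 = X ^ 3 * (X - 1) * (X ^ 3 - 1) -
          (X ^ 2 + X - 1) * (X ^ 5 - 2 * X ^ 4 + 3 * X ^ 3 - 6 * X ^ 2 + 10 * X - 16) := by ring
      rw [e]
      refine dvd_sub ?_ (dvd_mul_right _ _)
      refine dvd_trans (dvd_of_eq ?_) (hd.trans (dvd_of_eq ?_)) <;> push_cast <;> ring
    have := Int.le_of_dvd (by omega) h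
    nlinarith
  · have h : X + 1 ∣ X ^ 2 * (X - 1) * (X ^ 3 - 1) := by
      refine Int.dvd_of_mul_dvd_mul_left (a := X) (by omega) ?_
      refine dvd_trans (dvd_of_eq ?_) (hd.trans (dvd_of_eq ?_)) <;> push_cast <;> ring
    have h4 : X + 1 ∣ 4 := by
      have e : (4 : ℤ) = X ^ 2 * (X - 1) * (X ^ 3 - 1) -
          (X + 1) * (X ^ 5 - 2 * X ^ 4 + 2 * X ^ 3 - 3 * X ^ 2 + 4 * X - 4) := by ring
      rw [e]
      exact dvd_sub h (dvd_mul_right _ _)
    have := Int.le_of_dvd (by norm_num) h4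
    omega

end Cfsg.Agent.Suzuki.G2Min
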