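import Cfsg.Agent.Suzuki.D4MinRoots
import Cfsg.Agent.Chars.Eigen
import Cfsg.Agent.KnownA.RepSimple
import Mathlib.RingTheory.IntegralDomain

/-! # The degree bound for ³D₄ -/

set_option autoImplicit false
set_option maxHeartbeats 1000000

universe u

namespace Cfsg.Agent.Suzuki.D4Min

open Cfsg.Lie Cfsg.Agent.Chev Cfsg.Agent.Chev.TwoGenTools
open scoped Matrix MatrixGroups

variable {K : Type u} [Field K] [Fintype K] [DecidableEq K] (τ : K →+* K) (hτ : ∀ x, (τ)^[3] x = x) {q : ℕ}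

theorem swap_three {G : Type*} [Group G] {b₁ b₂ b₃ c₁ c₂ c₃ z₁ z₂ z₃ : G}
    (h₁ : c₁ * b₁ = b₁ * c₁ * z₁) (h₂ : c₂ * b₂ = b₂ * c₂ * z₂) (h₃ : c₃ * b₃ = b₃ * c₃ * z₃)
    (a : Commute c₁ b₂) (b : Commute c₁ b₃) (c : Commute c₂ b₁) (d : Commute c₂ b₃) (e : Commute c₃ b₁)
    (f : Commute c₃ b₂) (zb₁ : ∀ x ∈ [b₁, b₂, b₃, c₁, c₂, c₃], Commute z₁ x)
    (zb₂ : ∀ x ∈ [b₁, b₂, b₃, c₁, c₂, c₃], Commute z₂ x) :
    c₁ * c₂ * c₃ * (b₁ * b₂ * b₃) = b₁ * b₂ * b₃ * (c₁ * c₂ * c₃) * (z₁ * z₂ * z₃) := by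
  have w₁ : Commute z₁ (b₂ * b₃) := (zb₁ _ (by simp)).mul_right (zb₁ _ (by simp))
  have w₁' : Commute z₁ (c₂ * c₃) := (zb₁ _ (by simp)).mul_right (zb₁ _ (by simp))
  have w₂ : Commute z₂ b₃ := zb₂ _ (by simp)
  have w₂' : Commute z₂ c₃ := zb₂ _ (by simp)
  have e₃ : c₃ * (b₁ * b₂ * b₃) = b₁ * b₂ * b₃ * (c₃ * z₃) := by
    rw [← mul_assoc, (e.mul_right f).eq, mul_assoc (b₁ * b₂), h₃]
    simp only [mul_assoc]
  have e₂ : c₂ * (b₁ * b₂ * b₃) = b₁ * b₂ * b₃ * (c₂ * z₂) := by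
    rw [← mul_assoc, ← mul_assoc, c.eq, mul_assoc b₁, h₂, ← mul_assoc, ← mul_assoc, mul_assoc _ z₂, w₂.eq,
      ← mul_assoc, mul_assoc _ c₂ b₃, d.eq]
    simp only [mul_assoc]
  have e₁ : c₁ * (b₁ * b₂ * b₃) = b₁ * b₂ * b₃ * (c₁ * z₁) := by
    rw [mul_assoc b₁, ← mul_assoc, h₁, mul_assoc _ z₁, w₁.eq, ← mul_assoc, mul_assoc _ c₁, (a.mul_right b).eq]
    simp only [mul_assoc]
  calc c₁ * c₂ * c₃ * (b₁ * b₂ * b₃) = c₁ * (c₂ * (c₃ * (b₁ * b₂ * b₃))) := by simp only [mul_assoc]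
    _ = c₁ * (c₂ * (b₁ * b₂ * b₃)) * (c₃ * z₃) := by rw [e₃]; simp only [mul_assoc]
    _ = c₁ * (b₁ * b₂ * b₃) * (c₂ * z₂) * (c₃ * z₃) := by rw [e₂]; simp only [mul_assoc]
    _ = b₁ * b₂ * b₃ * (c₁ * z₁ * (c₂ * (z₂ * c₃) * z₃)) := by rw [e₁]; simp only [mul_assoc]
    _ = b₁ * b₂ * b₃ * (c₁ * (z₁ * (c₂ * c₃)) * (z₂ * z₃)) := by rw [w₂'.eq]; simp only [mul_assoc]
    _ = _ := by rw [w₁'.eq]; simp only [mul_assoc]

theorem sign_two {e : K} (h : e = 1 ∨ e = -1) (h2 : (2 : K) = 0) : e = 1 := by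
  rcases h with rfl | rfl
  · rfl
  · linear_combination -h2

omit [DecidableEq K] in
theorem exists_data (hτq : ∀ x, τ x = x ^ q) (hq : 2 ≤ q) (hK : Fintype.card K = q ^ 3)
    (hfix : Nat.card {t : K // τ t = t} = q) :
    ∃ (F : Subfield K) (_ : Fintype F) (_ : DecidableEq K), Fintype.card F = q ∧
      ∃ S : Data ↥(tD4 τ hτ).small F K, ∀ t : F, (t : K) ≠ 0 → S.Z t ≠ 1 := by
  classical
  set C := cD.{u}
  set S := tD4 τ hτ
  let F : Subfield K := RingHom.eqLocusField τ (RingHom.id K)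
  have hF : ∀ t : F, τ (t : K) = t := fun t => t.2
  let : Fintype F := Fintype.ofFinite F
  have hcF : Fintype.card F = q := by
    rw [← Nat.card_eq_fintype_card, ← hfix]
    exact Nat.card_congr (Equiv.subtypeEquivRight fun x => Iff.rfl)
  obtain ⟨⟨p14, p22, p23, p19, p17, p18⟩, ⟨r19, r16, r17, r20, r18, r13, r14, r22, r23⟩, ⟨f14, f22, f23⟩⟩ :=
    facts_orbit
  have pos : ∀ r ∈ [12, 13, 14, 15, 16, 17, 18, 19, 20, 21, 22, 23], chevD4.IsPosRoot r := facts_pos
  have lt : ∀ r ∈ [12, 13, 14, 15, 16, 17, 18, 19, 20, 21, 22, 23], r < chevD4.nroots := fun r hr => (pos r hr).1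
  have v3 : ∀ r, gD4a.per r = 3 → ∀ t : K, S.Valid r t := fun r hr t => S.valid_of_per_ord hr t
  have memF : ∀ r ∈ [14, 22, 23], ∀ t : F, C.xu r (t : K) ∈ S.small := by
    intro r hr t
    have hp : gD4a.per r = 1 := by
      simp only [List.mem_cons, List.not_mem_nil, or_false] at hr
      rcases hr with rfl | rfl | rfl <;> assumption
    rw [← oe_fixed τ hτ hp]
    refine S.oe_mem_small (pos r ?_) (valid_fixed τ hτ hp (hF t))
    simp only [List.mem_cons, List.not_mem_nil, or_false] at hr ⊢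
    omega
  have memK : ∀ r ∈ [19, 17, 18], ∀ t : K, S.oe r t ∈ S.small := by
    intro r hr t
    simp only [List.mem_cons, List.not_mem_nil, or_false] at hr
    rcases hr with rfl | rfl | rfl
    exacts [S.oe_mem_small (pos _ (by simp)) (v3 _ p19 t), S.oe_mem_small (pos _ (by simp)) (v3 _ p17 t),
      S.oe_mem_small (pos _ (by simp)) (v3 _ p18 t)]
  obtain ⟨b₂, b₃, hb₂, hb₃, hB⟩ := oe_three τ hτ (lt 19 (by simp)) p19
  obtain ⟨c₂, c₃, hc₂, hc₃, hC⟩ := oe_three τ hτ (lt 17 (by simp)) p17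
  obtain ⟨g₂, g₃, hg₂, hg₃, hG⟩ := oe_three τ hτ (lt 18 (by simp)) p18
  simp only [r19, r16] at hB
  simp only [r17, r20] at hC
  simp only [r18, r13] at hG
  let Zg : F → ↥S.small := fun t => ⟨C.xu 23 (t : K), memF 23 (by simp) t⟩
  let Ag : F → ↥S.small := fun t => ⟨C.xu 14 (t : K), memF 14 (by simp) t⟩
  let Dg : F → ↥S.small := fun t => ⟨C.xu 22 (t : K), memF 22 (by simp) t⟩
  let Bg : K → ↥S.small := fun t => ⟨S.oe 19 t, memK 19 (by simp) t⟩
  let Cg : K → ↥S.small := fun t => ⟨S.oe 17 t, memK 17 (by simp) t⟩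
  have cs : ∀ x y : ↥S.small, Commute (x : GL chevD4.Idx K) (y : GL chevD4.Idx K) → Commute x y := fun x y h =>
    Subtype.ext h
  have c14 : ∀ (s u : K), Commute (C.xu 14 s) (S.oe 19 u) := fun s u => by
    rw [hB]
    exact ((xu_commute (by simp) s u).mul_right (xu_commute (by simp) s _)).mul_right (xu_commute (by simp) s _)
  have c14' : ∀ (s u : K), Commute (C.xu 14 s) (S.oe 17 u) := fun s u => by
    rw [hC]
    exact ((xu_commute (by simp) s u).mul_right (xu_commute (by simp) s _)).mul_right (xu_commute (by simp) s _)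
  have c22 : ∀ (s u : K), Commute (C.xu 22 s) (S.oe 19 u) := fun s u => by
    rw [hB]
    exact ((xu_commute (by simp) s u).mul_right (xu_commute (by simp) s _)).mul_right (xu_commute (by simp) s _)
  have c23 : ∀ (s u : K), Commute (C.xu 23 s) (S.oe 19 u) := fun s u => by
    rw [hB]
    exact ((xu_commute (by simp) s u).mul_right (xu_commute (by simp) s _)).mul_right (xu_commute (by simp) s _)
  have c23' : ∀ (s u : K), Commute (C.xu 23 s) (S.oe 17 u) := fun s u => by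
    rw [hC]
    exact ((xu_commute (by simp) s u).mul_right (xu_commute (by simp) s _)).mul_right (xu_commute (by simp) s _)
  -- the pairing of the two short root subgroups
  obtain ⟨e₁, he₁, h₁⟩ := xu_single (K := K) (r := 19) (s := 17) (c := 23) (by simp)
  obtain ⟨e₂, he₂, h₂⟩ := xu_single (K := K) (r := 16) (s := 20) (c := 23) (by simp)
  obtain ⟨e₃, he₃, h₃⟩ := xu_single (K := K) (r := 15) (s := 21) (c := 23) (by simp)
  let ω : K → K → K := fun v u => e₁ * (u * v) + e₂ * (b₂ * τ u * (c₂ * τ v)) + e₃ * (b₃ * τ (τ u) * (c₃ * τ (τ v)))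
  have hCB : ∀ v u, S.oe 17 v * S.oe 19 u = S.oe 19 u * S.oe 17 v * C.xu 23 (ω v u) := by
    intro v u
    rw [hB, hC, swap_three (h₁ u v) (h₂ _ _) (h₃ _ _) (xu_commute (by simp) _ _).symm (xu_commute (by simp) _ _).symm
      (xu_commute (by simp) _ _).symm (xu_commute (by simp) _ _).symm (xu_commute (by simp) _ _).symm
      (xu_commute (by simp) _ _).symm, C.xu_add, C.xu_add]
    all_goals
      intro x hx
      simp only [List.mem_cons, List.not_mem_nil, or_false] at hx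
      rcases hx with rfl | rfl | rfl | rfl | rfl | rfl <;> exact xu_commute (by simp) _ _
  have hωF : ∀ v u, τ (ω v u) = ω v u := by
    intro v u
    have h := congrArg S.sigma (hCB v u)
    rw [map_mul, map_mul, map_mul, S.sigma_oe (lt 17 (by simp)) (v3 _ p17 v), S.sigma_oe (lt 19 (by simp)) (v3 _ p19 u),
      sigma_fixed τ hτ (lt 23 (by simp)) r23 f23, hCB] at h
    exact (C.xu_inj (lt 23 (by simp)) (mul_left_cancel h)).symm
  have hsq : ∀ {e : K}, (e = 1 ∨ e = -1) → e ≠ 0 := by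
    rintro e (rfl | rfl)
    exacts [one_ne_zero, neg_ne_zero.2 one_ne_zero]
  have hωne : ∀ u, u ≠ 0 → ∃ v, ω v u ≠ 0 := by
    intro u hu
    by_contra hcon
    push Not at hcon
    let P : Polynomial K := Polynomial.C (e₁ * u) * Polynomial.X ^ 1 +
      Polynomial.C (e₂ * (b₂ * τ u * c₂)) * Polynomial.X ^ q +
      Polynomial.C (e₃ * (b₃ * τ (τ u) * c₃)) * Polynomial.X ^ (q * q)
    have hqq : q ≤ q * q := Nat.le_mul_self q
    have hP : P ≠ 0 := fun h => by
      have h' := congrArg (fun p => Polynomial.coeff p 1) h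
      simp only [P, Polynomial.coeff_add, Polynomial.coeff_C_mul_X_pow, Polynomial.coeff_zero, if_pos,
        if_neg (show 1 ≠ q by omega), if_neg (show 1 ≠ q * q by omega), add_zero] at h'
      exact mul_ne_zero (hsq he₁) hu h'
    have hdeg : P.natDegree ≤ q * q := by
      refine (Polynomial.natDegree_add_le _ _).trans (max_le ((Polynomial.natDegree_add_le _ _).trans (max_le ?_ ?_)) ?_)
      all_goals refine (Polynomial.natDegree_C_mul_X_pow_le _ _).trans ?_
      all_goals omega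
    have hroots : (Finset.univ : Finset K).val ⊆ P.roots := fun v _ => by
      rw [Polynomial.mem_roots hP, Polynomial.IsRoot.def]
      have hv := hcon v
      simp only [ω, hτq] at hv
      simp only [P, Polynomial.eval_add, Polynomial.eval_mul, Polynomial.eval_C, Polynomial.eval_pow,
        Polynomial.eval_X, pow_one, hτq, pow_mul]
      rw [← hv]
      ring
    have h1 := (Multiset.card_le_card ((Multiset.le_iff_subset (Finset.univ : Finset K).nodup).2 hroots)).trans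
      ((Polynomial.card_roots' P).trans hdeg)
    rw [← Finset.card_def, Finset.card_univ, hK] at h1
    nlinarith
  have hpair : ∀ u, u ≠ 0 → ∀ x : F, ∃ g, (∀ b, Commute g (Zg b)) ∧ (∀ s, Commute g (Ag s)) ∧
      g * Bg u = Bg u * g * Zg x := by
    intro u hu x
    obtain ⟨v, hv⟩ := hωne u hu
    set l := (x : K) / ω v u
    have hl : τ l = l := by rw [map_div₀, hF, hωF]
    refine ⟨Cg (l * v), fun b => cs _ _ (c23' _ _).symm, fun s => cs _ _ (c14' _ _).symm, Subtype.ext ?_⟩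
    show S.oe 17 (l * v) * S.oe 19 u = S.oe 19 u * S.oe 17 (l * v) * C.xu 23 (x : K)
    rw [hCB]
    congr 2
    simp only [ω, map_mul, hl]
    calc _ = l * ω v u := by simp only [ω]; ring
      _ = _ := div_mul_cancel₀ _ hv
  -- the two long root subgroups
  obtain ⟨κ, hκ, hAD⟩ := xu_single (K := K) (r := 14) (s := 22) (c := 23) (by simp)
  have hκF : τ κ = κ := by rcases hκ with rfl | rfl <;> simp
  let kF : F := ⟨κ, hκF⟩
  -- torus
  have hcart : chevD4.cartan 0 14 = -1 ∧ chevD4.cartan 1 14 = 2 ∧ chevD4.cartan 2 14 = -1 ∧ chevD4.cartan 3 14 = -1 ∧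
      chevD4.cartan 0 22 = 1 ∧ chevD4.cartan 1 22 = -1 ∧ chevD4.cartan 2 22 = 1 ∧ chevD4.cartan 3 22 = 1 ∧
      chevD4.cartan 0 23 = 0 ∧ chevD4.cartan 1 23 = 1 ∧ chevD4.cartan 2 23 = 0 ∧ chevD4.cartan 3 23 = 0 := by
    decide +kernel
  set T : Kˣ →* Kˣ := Units.map (τ : K →* K) with hTdef
  let N : Kˣ →* Kˣ := MonoidHom.id Kˣ * T * T.comp T
  have hT3 : ∀ a, T (T (T a)) = a := fun a => Units.ext (hτ a)
  let H : Subgroup Kˣ := MonoidHom.eqLocus T (MonoidHom.id _)
  have hNH : N.range ≤ H := by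
    rintro _ ⟨a, rfl⟩
    show T (a * T a * T (T a)) = a * T a * T (T a)
    rw [map_mul, map_mul, hT3]
    simp [mul_comm, mul_left_comm]
  have hN : N.range = H := by
    refine Subgroup.eq_of_le_of_card_ge hNH ?_
    obtain ⟨g, hg⟩ := IsCyclic.exists_generator (α := Kˣ)
    have ho : orderOf g = q ^ 3 - 1 := by
      rw [orderOf_eq_card_of_forall_mem_zpowers hg, Nat.card_eq_fintype_card, Fintype.card_units, hK]
    have hTq : ∀ a, T a = a ^ q := fun a => Units.ext (by simp [hTdef, hτq])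
    have hfac : q ^ 3 - 1 = (1 + q + q * q) * (q - 1) := by
      obtain ⟨p, rfl⟩ : ∃ p, q = p + 1 := ⟨q - 1, by omega⟩
      rw [Nat.add_sub_cancel, show (p + 1) ^ 3 = (1 + (p + 1) + (p + 1) * (p + 1)) * p + 1 by ring,
        Nat.add_sub_cancel]
    have hNg : N g = g ^ (1 + q + q * q) := by
      show g * T g * T (T g) = _
      rw [hTq, hTq, ← pow_mul, pow_add, pow_add, pow_one]
    have hoN : orderOf (N g) = q - 1 := by
      rw [hNg, orderOf_pow' _ (by omega), ho, hfac, Nat.gcd_mul_right_left, Nat.mul_div_cancel_left _ (by omega)]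
    have hcH : Nat.card H ≤ q - 1 := by
      have : Nat.card H = Nat.card {u : Kˣ // T u = u} := rfl
      rw [this, Nat.card_eq_fintype_card]
      let j : {u : Kˣ // T u = u} → {t : F // (t : K) ≠ 0} := fun u =>
        ⟨⟨(u.1 : K), congrArg (fun w : Kˣ => (w : K)) u.2⟩, u.1.ne_zero⟩
      refine (Fintype.card_le_of_injective j fun a b h => Subtype.ext (Units.ext
        (congrArg (fun t => ((t : F) : K)) (congrArg Subtype.val h)))).trans ?_
      rw [Fintype.card_subtype_compl]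
      have h1 : Fintype.card {t : F // (t : K) = 0} = 1 :=
        Fintype.card_eq_one_iff.2 ⟨⟨0, rfl⟩, fun t => Subtype.ext (Subtype.ext t.2)⟩
      omega
    calc Nat.card H ≤ q - 1 := hcH
      _ = orderOf (⟨N g, MonoidHom.mem_range.2 ⟨g, rfl⟩⟩ : N.range) := by
        rw [← Subgroup.orderOf_coe]
        exact hoN.symm
      _ ≤ _ := orderOf_le_card
  have htorus : ∀ α δ : F, α ≠ 0 → δ ≠ 0 → ∃ h, (∀ t, h * Ag t = Ag (α * t) * h) ∧
      (∀ t, h * Dg t = Dg (δ * t) * h) ∧ ∀ t, h * Zg t = Zg (α * δ * t) * h := by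
    intro α δ hα hδ
    have hα' : (α : K) ≠ 0 := fun h => hα (Subtype.ext h)
    have hδ' : (δ : K) ≠ 0 := fun h => hδ (Subtype.ext h)
    let a : Kˣ := Units.mk0 _ hα'
    let d : Kˣ := Units.mk0 _ hδ'
    have ha : T a = a := Units.ext (hF α)
    have hd : T d = d := Units.ext (hF δ)
    obtain ⟨x, hx⟩ : a * d * d ∈ N.range := by
      rw [hN]
      show T (a * d * d) = a * d * d
      rw [map_mul, map_mul, ha, hd]
    let w : Kˣ := a * d
    let cc : Fin 4 → Kˣ := ![x, w, T x, T (T x)]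
    have hw : T w = w := by rw [map_mul, ha, hd]
    let nf : Fin 4 → Fin 4 := ![2, 1, 3, 0]
    have hnf : ∀ k : Fin 4, (nf k : ℕ) = gD4a.nodeF k := by decide +kernel
    have hshift : S.shift cc = cc := by
      funext j
      obtain ⟨k, rfl⟩ := S.nodeEquiv.surjective j
      refine (S.shift_node cc k).trans ?_
      show T (cc k) = cc (S.nodeFin k)
      rw [show S.nodeFin k = nf k from Fin.ext (hnf k).symm]
      fin_cases k
      · rfl
      · exact hw
      · rfl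
      · exact hT3 x
    have hNx : x * T x * T (T x) = a * d * d := hx
    have hch : tchar (D := chevD4) cc 14 = a ∧ tchar (D := chevD4) cc 22 = d ∧ tchar (D := chevD4) cc 23 = a * d := by
      obtain ⟨c0, c1, c2, c3, d0, d1, d2, d3, z0, z1, z2, z3⟩ := hcart
      refine ⟨?_, ?_, ?_⟩ <;>
        (show ∏ k : Fin 4, cc k ^ chevD4.cartan (k : ℕ) _ = _
         rw [Fin.prod_univ_four])
      · show x ^ chevD4.cartan 0 14 * w ^ chevD4.cartan 1 14 * T x ^ chevD4.cartan 2 14 * T (T x) ^ chevD4.cartan 3 14 = a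
        rw [c0, c1, c2, c3, zpow_neg_one, zpow_neg_one, zpow_neg_one, zpow_two]
        calc _ = w * w * (x * T x * T (T x))⁻¹ := by simp only [mul_inv]; ac_rfl
          _ = a := by rw [hNx, mul_inv_eq_iff_eq_mul]; simp only [w]; ac_rfl
      · show x ^ chevD4.cartan 0 22 * w ^ chevD4.cartan 1 22 * T x ^ chevD4.cartan 2 22 * T (T x) ^ chevD4.cartan 3 22 = d
        rw [d0, d1, d2, d3, zpow_neg_one, zpow_one, zpow_one, zpow_one]
        calc _ = w⁻¹ * (x * T x * T (T x)) := by ac_rfl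
          _ = d := by rw [hNx, inv_mul_eq_iff_eq_mul]
      · show x ^ chevD4.cartan 0 23 * w ^ chevD4.cartan 1 23 * T x ^ chevD4.cartan 2 23 * T (T x) ^ chevD4.cartan 3 23 = _
        rw [z0, z1, z2, z3]
        simp [w]
    refine ⟨⟨C.torusHom cc, S.torusHom_mem_small hshift⟩, ?_, ?_, ?_⟩ <;> intro t <;> refine Subtype.ext ?_
    · have := torusHom_conj C cc (lt 14 (by simp)) (t : K)
      rw [hch.1] at this
      exact mul_inv_eq_iff_eq_mul.1 this
    · have := torusHom_conj C cc (lt 22 (by simp)) (t : K)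
      rw [hch.2.1] at this
      exact mul_inv_eq_iff_eq_mul.1 this
    · have := torusHom_conj C cc (lt 23 (by simp)) (t : K)
      rw [hch.2.2] at this
      exact mul_inv_eq_iff_eq_mul.1 this
  -- Weyl elements
  have hact : act chevD4 (gD4a.oWord [0]) 14 = 22 ∧ act chevD4 (gD4a.oWord [0]) 22 = 14 ∧
      act chevD4 (gD4a.oWord [0]) 23 = 23 ∧ act chevD4 (gD4a.oWord [1, 0]) 14 = 23 ∧
      (∀ a ∈ [0], a < chevD4.rank) ∧ ∀ a ∈ [1, 0], a < chevD4.rank := by decide +kernel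
  obtain ⟨a14, a22, a23, a10, hL0, hL10⟩ := hact
  obtain ⟨na, hna, hnaF, hnA⟩ := weyl τ hτ hL0 (lt 14 (by simp)) (lt 22 (by simp)) r14 f14 r22 f22 a14
  obtain ⟨nd, hnd, hndF, hnD⟩ := weyl τ hτ hL0 (lt 22 (by simp)) (lt 14 (by simp)) r22 f22 r14 f14 a22
  obtain ⟨nc, hnc, hncF, hnZ⟩ := weyl τ hτ hL0 (lt 23 (by simp)) (lt 23 (by simp)) r23 f23 r23 f23 a23
  obtain ⟨nm, hnm, hnmF, hnM⟩ := weyl τ hτ hL10 (lt 14 (by simp)) (lt 23 (by simp)) r14 f14 r23 f23 a10
  have htwo : Fintype.card F = 2 → ∑ u ∈ (Finset.univ : Finset K).erase 0, u = 0 ∧ ∃ f : K → K,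
      ∑ u ∈ (Finset.univ : Finset K).erase 0, f u = 0 ∧
        ∀ u, u ≠ 0 → ∃ g x, (∀ b, Commute g (Zg b)) ∧ g * Ag 1 = Ag 1 * Bg u * Cg (f u) * Dg 1 * Zg x * g := by
    intro h2F
    have hq2 : q = 2 := hcF.symm.trans h2F
    have h8 : Fintype.card K = 8 := by rw [hK, hq2]; rfl
    have h20 : (2 : K) = 0 := by
      have := FiniteField.cast_card_eq_zero K
      rw [h8] at this
      exact pow_eq_zero_iff (n := 3) (by norm_num) |>.1 (by rw [← this]; norm_num)
    have hsum : ∀ i, 1 ≤ i → i < 7 → ∑ u ∈ (Finset.univ : Finset K).erase 0, u ^ i = 0 := by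
      intro i h1 h7
      have := FiniteField.sum_pow_lt_card_sub_one K i (by rw [h8]; omega)
      rwa [← Finset.add_sum_erase _ _ (Finset.mem_univ (0 : K)), zero_pow (by omega), zero_add] at this
    refine ⟨by simpa using hsum 1 le_rfl (by norm_num), fun u => τ u * τ (τ u), ?_, fun u hu => ?_⟩
    · refine (Finset.sum_congr rfl fun u _ => ?_).trans (hsum 6 (by norm_num) (by norm_num))
      simp only [hτq, hq2]
      ring
    refine ⟨⟨S.oe 18 u, memK 18 (by simp) u⟩, 1, fun b => cs _ _ ?_, Subtype.ext ?_⟩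
    · show Commute (S.oe 18 u) (C.xu 23 (b : K))
      rw [hG]
      exact ((show Commute (C.xu 18 u) (C.xu 23 (b : K)) from by
        have h : chevD4.commTerms 18 23 = [] ∧ 23 ≠ chevD4.neg 18 ∧ 23 < chevD4.nroots ∧ 18 < chevD4.nroots := by
          decide +kernel
        have := C.xu_comm h.2.2.2 h.2.2.1 (by decide) h.2.1 u (b : K)
        simp only [ChevalleyDatum.commWord, h.1, List.map_nil, Cert.wu, List.prod_nil, mul_one] at this
        exact this.symm).mul_left (show Commute (C.xu 13 (g₂ * τ u)) (C.xu 23 (b : K)) from by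
        have h : chevD4.commTerms 13 23 = [] ∧ 23 ≠ chevD4.neg 13 ∧ 23 < chevD4.nroots ∧ 13 < chevD4.nroots := by
          decide +kernel
        have := C.xu_comm h.2.2.2 h.2.2.1 (by decide) h.2.1 (g₂ * τ u) (b : K)
        simp only [ChevalleyDatum.commWord, h.1, List.map_nil, Cert.wu, List.prod_nil, mul_one] at this
        exact this.symm)).mul_left (show Commute (C.xu 12 (g₃ * τ (τ u))) (C.xu 23 (b : K)) from by
        have h : chevD4.commTerms 12 23 = [] ∧ 23 ≠ chevD4.neg 12 ∧ 23 < chevD4.nroots ∧ 12 < chevD4.nroots := by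
          decide +kernel
        have := C.xu_comm h.2.2.2 h.2.2.1 (by decide) h.2.1 (g₃ * τ (τ u)) (b : K)
        simp only [ChevalleyDatum.commWord, h.1, List.map_nil, Cert.wu, List.prod_nil, mul_one] at this
        exact this.symm)
    show S.oe 18 u * C.xu 14 ((1 : F) : K) =
      C.xu 14 ((1 : F) : K) * S.oe 19 u * S.oe 17 (τ u * τ (τ u)) * C.xu 22 ((1 : F) : K) * C.xu 23 ((1 : F) : K) *
        S.oe 18 u
    have one : ∀ {r s c : ℕ} {e : K}, (e = 1 ∨ e = -1) →
        (∀ t v : K, C.xu s v * C.xu r t = C.xu r t * C.xu s v * C.xu c (e * (t * v))) →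
        ∀ t v, C.xu s v * C.xu r t = C.xu r t * C.xu s v * C.xu c (t * v) := fun he h t v => by
      rw [h, sign_two he h20, one_mul]
    obtain ⟨_, w1, q1⟩ := xu_single (K := K) (r := 14) (s := 12) (c := 15) (by simp)
    obtain ⟨_, w2, q2⟩ := xu_single (K := K) (r := 14) (s := 13) (c := 16) (by simp)
    obtain ⟨_, w3, q3⟩ := xu_single (K := K) (r := 14) (s := 18) (c := 19) (by simp)
    obtain ⟨_, w4, q4⟩ := xu_single (K := K) (r := 15) (s := 13) (c := 17) (by simp)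
    obtain ⟨_, w5, q5⟩ := xu_single (K := K) (r := 15) (s := 18) (c := 20) (by simp)
    obtain ⟨_, w6, q6⟩ := xu_single (K := K) (r := 16) (s := 18) (c := 21) (by simp)
    obtain ⟨_, w7, q7⟩ := xu_single (K := K) (r := 17) (s := 18) (c := 22) (by simp)
    set s := τ u with hs
    set t := τ (τ u) with ht
    have hτs : τ s = t := rfl
    have hτt : τ t = u := hτ u
    have hG' : S.oe 18 u = C.xu 18 u * C.xu 13 s * C.xu 12 t := by
      rw [hG, sign_two hg₂ h20, sign_two hg₃ h20, one_mul, one_mul]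
    have hB' : S.oe 19 u = C.xu 19 u * C.xu 16 s * C.xu 15 t := by
      rw [hB, sign_two hb₂ h20, sign_two hb₃ h20, one_mul, one_mul]
    have hC' : S.oe 17 (s * t) = C.xu 17 (s * t) * C.xu 20 (t * u) * C.xu 21 (u * s) := by
      rw [hC, sign_two hc₂ h20, sign_two hc₃ h20, one_mul, one_mul, map_mul, map_mul, hτs, hτt]
    have hN1 : s * t * u = 1 := by
      simp only [hs, ht, hτq, hq2]
      rw [← pow_mul, ← pow_add, ← pow_succ, show 2 + 2 * 2 + 1 = Fintype.card K - 1 by rw [h8]]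
      exact FiniteField.pow_card_sub_one_eq_one u hu
    have z23 : ∀ r ∈ [22, 17, 20, 21], ∀ x v : K, Commute (C.xu 23 x) (C.xu r v) := by
      intro r hr x v
      simp only [List.mem_cons, List.not_mem_nil, or_false] at hr
      rcases hr with rfl | rfl | rfl | rfl <;> exact xu_commute (by simp) x v
    have e12 : C.xu 12 t * C.xu 14 1 = C.xu 14 1 * (C.xu 15 t * C.xu 12 t) := by
      rw [one w1 q1, one_mul, mul_assoc, ← (xu_commute (r := 15) (s := 12) (by simp) t t).eq]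
    have e13a : C.xu 13 s * C.xu 14 1 = C.xu 14 1 * (C.xu 16 s * C.xu 13 s) := by
      rw [one w2 q2, one_mul, mul_assoc, ← (xu_commute (r := 16) (s := 13) (by simp) s s).eq]
    have e13b : C.xu 13 s * C.xu 15 t = C.xu 15 t * (C.xu 17 (s * t) * C.xu 13 s) := by
      rw [one w4 q4, mul_comm t s, mul_assoc, ← (xu_commute (r := 17) (s := 13) (by simp) (s * t) s).eq]
    have e18a : C.xu 18 u * C.xu 14 1 = C.xu 14 1 * (C.xu 19 u * C.xu 18 u) := by
      rw [one w3 q3, one_mul, mul_assoc, ← (xu_commute (r := 19) (s := 18) (by simp) u u).eq]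
    have e18b : C.xu 18 u * C.xu 16 s = C.xu 16 s * (C.xu 21 (u * s) * C.xu 18 u) := by
      rw [one w6 q6, mul_comm s u, mul_assoc, ← (xu_commute (r := 21) (s := 18) (by simp) (u * s) u).eq]
    have e18c : C.xu 18 u * C.xu 15 t = C.xu 15 t * (C.xu 20 (t * u) * C.xu 18 u) := by
      rw [one w5 q5, mul_assoc, ← (xu_commute (r := 20) (s := 18) (by simp) (t * u) u).eq]
    have e18d : C.xu 18 u * C.xu 17 (s * t) = C.xu 17 (s * t) * (C.xu 22 1 * C.xu 18 u) := by
      rw [one w7 q7, hN1, mul_assoc, ← (xu_commute (r := 22) (s := 18) (by simp) 1 u).eq]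
    have e21 : C.xu 21 (u * s) * C.xu 15 t = C.xu 15 t * C.xu 21 (u * s) * C.xu 23 1 := by
      rw [h₃, sign_two he₃ h20, one_mul, show t * (u * s) = s * t * u by ring, hN1]
    rw [hG', hB', hC', Subfield.coe_one]
    calc C.xu 18 u * C.xu 13 s * C.xu 12 t * C.xu 14 1
        = C.xu 18 u * (C.xu 13 s * C.xu 14 1) * C.xu 15 t * C.xu 12 t := by
          rw [mul_assoc _ (C.xu 12 t), e12]; simp only [mul_assoc]
      _ = C.xu 18 u * C.xu 14 1 * C.xu 16 s * (C.xu 13 s * C.xu 15 t) * C.xu 12 t := by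
          rw [e13a]; simp only [mul_assoc]
      _ = C.xu 18 u * C.xu 14 1 * C.xu 16 s * C.xu 15 t * C.xu 17 (s * t) * (C.xu 13 s * C.xu 12 t) := by
          rw [e13b]; simp only [mul_assoc]
      _ = C.xu 14 1 * C.xu 19 u * (C.xu 18 u * C.xu 16 s) * C.xu 15 t * C.xu 17 (s * t) *
            (C.xu 13 s * C.xu 12 t) := by
          rw [e18a]; simp only [mul_assoc]
      _ = C.xu 14 1 * C.xu 19 u * C.xu 16 s * C.xu 21 (u * s) * (C.xu 18 u * C.xu 15 t) * C.xu 17 (s * t) *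
            (C.xu 13 s * C.xu 12 t) := by
          rw [e18b]; simp only [mul_assoc]
      _ = C.xu 14 1 * C.xu 19 u * C.xu 16 s * (C.xu 21 (u * s) * C.xu 15 t) * C.xu 20 (t * u) *
            (C.xu 18 u * C.xu 17 (s * t)) * (C.xu 13 s * C.xu 12 t) := by
          rw [e18c]; simp only [mul_assoc]
      _ = C.xu 14 1 * C.xu 19 u * C.xu 16 s * C.xu 15 t *
            (C.xu 21 (u * s) * C.xu 23 1 * C.xu 20 (t * u) * C.xu 17 (s * t) * C.xu 22 1) *
            (C.xu 18 u * C.xu 13 s * C.xu 12 t) := by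
          rw [e21, e18d]; simp only [mul_assoc]
      _ = _ := by
          have e : C.xu 21 (u * s) * C.xu 23 1 * C.xu 20 (t * u) * C.xu 17 (s * t) * C.xu 22 1 =
              C.xu 17 (s * t) * C.xu 20 (t * u) * C.xu 21 (u * s) * C.xu 22 1 * C.xu 23 1 := by
            rw [← (z23 21 (by simp) 1 (u * s)).eq]
            simp only [mul_assoc]
            rw [((z23 21 (by simp) 1 (u * s)).mul_right ((z23 20 (by simp) 1 (t * u)).mul_right
              ((z23 17 (by simp) 1 (s * t)).mul_right (z23 22 (by simp) 1 1)))).eq]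
            simp only [← mul_assoc]
            rw [mul_assoc (C.xu 21 (u * s)), ← ((xu_commute (r := 17) (s := 20) (by simp) (s * t) (t * u))).eq,
              ← mul_assoc, ← (xu_commute (r := 17) (s := 21) (by simp) (s * t) (u * s)).eq, mul_assoc (C.xu 17 (s * t)),
              ← (xu_commute (r := 20) (s := 21) (by simp) (t * u) (u * s)).eq, ← mul_assoc]
          rw [e]
          simp only [mul_assoc]
  refine ⟨F, inferInstance, inferInstance, hcF,
    { Z := Zg, A := Ag, D := Dg, B := Bg, C := Cg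
      Z_add := fun s t => Subtype.ext (C.xu_add 23 _ _)
      A_add := fun s t => Subtype.ext (C.xu_add 14 _ _)
      D_add := fun s t => Subtype.ext (C.xu_add 22 _ _)
      B_add := fun s t => Subtype.ext (S.oe_add (pos 19 (by simp)) _ _)
      C_add := fun s t => Subtype.ext (S.oe_add (pos 17 (by simp)) _ _)
      ZA := fun b t => cs _ _ (xu_commute (by simp) _ _)
      ZD := fun b t => cs _ _ (xu_commute (by simp) _ _)
      ZB := fun b t => cs _ _ (c23 _ _)
      ZC := fun b t => cs _ _ (c23' _ _)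
      AB := fun b t => cs _ _ (c14 _ _)
      DB := fun b t => cs _ _ (c22 _ _)
      κ := kF
      κ_ne := fun h => hsq hκ (congrArg Subtype.val h)
      AD := fun r s => Subtype.ext (by
        show C.xu 22 (r : K) * C.xu 14 (s : K) = C.xu 14 (s : K) * C.xu 22 (r : K) * C.xu 23 (κ * ((r : K) * s))
        rw [hAD, mul_comm (s : K)])
      CB := fun v u => ⟨⟨ω v u, hωF v u⟩, Subtype.ext (hCB v u)⟩
      pairing := hpair
      torus := htorus
      swap := ⟨⟨S.nSeq [0], S.nSeq_mem hL0⟩, ⟨na, hnaF⟩, ⟨nd, hndF⟩, ⟨nc, hncF⟩, fun h => hna (congrArg Subtype.val h),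
        fun h => hnd (congrArg Subtype.val h), fun h => hnc (congrArg Subtype.val h),
        fun t => Subtype.ext (hnA t), fun t => Subtype.ext (hnD t), fun t => Subtype.ext (hnZ t)⟩
      move := ⟨⟨S.nSeq [1, 0], S.nSeq_mem hL10⟩, ⟨nm, hnmF⟩, fun h => hnm (congrArg Subtype.val h),
        fun t => Subtype.ext (hnM t)⟩
      card_eq := by rw [hcF, hK]
      two := htwo }, fun t ht h => ht (C.xu_inj (lt 23 (by simp)) ((congrArg Subtype.val h).trans (C.xu_zero 23).symm))⟩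

/-- The exceptional degree does not divide the order. -/
theorem not_dvd_order {q : ℕ} (hq : 2 ≤ q) :
    ¬ (q - 1) * (q ^ 4 + q ^ 3 + 1) ∣ q ^ 12 * (q ^ 2 - 1) * (q ^ 6 - 1) * (q ^ 8 + q ^ 4 + 1) := by
  intro hd
  set m := q ^ 4 + q ^ 3 + 1 with hm
  have hmd : m ∣ q ^ 12 * (q ^ 2 - 1) * (q ^ 6 - 1) * (q ^ 8 + q ^ 4 + 1) := (dvd_mul_left _ _).trans hd
  have key : (m : ℤ) ∣ (3 : ℤ) ^ 4 := by
    have hA : 1 ≤ q ^ 2 := Nat.one_le_pow _ _ (by omega)
    have hB : 1 ≤ q ^ 6 := Nat.one_le_pow _ _ (by omega)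
    have h0 : (m : ℤ) ∣ (q : ℤ) ^ 12 * ((q : ℤ) ^ 2 - 1) * ((q : ℤ) ^ 6 - 1) * ((q : ℤ) ^ 8 + (q : ℤ) ^ 4 + 1) := by
      have := Int.natCast_dvd_natCast.2 hmd
      push_cast [hA, hB] at this
      exact this
    set x : ℤ := (q : ℤ)
    have hmx : (m : ℤ) = x ^ 4 + x ^ 3 + 1 := by rw [hm]; push_cast; rfl
    rw [hmx] at h0 ⊢
    set M : ℤ := x ^ 4 + x ^ 3 + 1
    have u0 : IsCoprime M x := ⟨1, -(x ^ 3 + x ^ 2), by simp only [M]; ring⟩
    have u2 : IsCoprime M (x + 1) := ⟨1, -x ^ 3, by simp only [M]; ring⟩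
    have u6 : IsCoprime M (x ^ 2 - x + 1) := by
      exact ⟨x - 1, -x ^ 3 - x ^ 2 + x + 2, by simp only [M]; ring⟩
    have u12 : IsCoprime M (x ^ 4 - x ^ 2 + 1) := by
      exact ⟨1 - x, x, by simp only [M]; ring⟩
    have t : M ∣ (x ^ 2 + x + 1) ^ 2 * (x - 1) ^ 2 := by
      refine (((u0.pow_right (n := 12)).mul_right (u2.pow_right (n := 2))).mul_right
        ((u6.pow_right (n := 2)).mul_right u12)).dvd_of_dvd_mul_left ?_
      refine h0.trans (dvd_of_eq ?_)
      ring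
    -- reduce the remaining factors to powers of three
    obtain ⟨c, hc⟩ : ∃ c : ℤ, (1 : ℤ) * 3 - c * (x - 1) = M := ⟨-(x ^ 3 + 2 * x ^ 2 + 2 * x + 2), by simp only [M]; ring⟩
    have s1 : M ∣ (x ^ 2 + x + 1) ^ 2 * 3 ^ 2 := by
      have e : (x ^ 2 + x + 1) ^ 2 * 3 ^ 2 = (x ^ 2 + x + 1) ^ 2 * (M + 2 * c * (x - 1)) * M +
          c ^ 2 * ((x ^ 2 + x + 1) ^ 2 * (x - 1) ^ 2) := by
        have : (3 : ℤ) = M + c * (x - 1) := by linear_combination hc
        rw [this]; ring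
      rw [e]
      exact dvd_add (dvd_mul_left _ _) (dvd_mul_of_dvd_right t _)
    -- 3 lies in the ideal generated by M and x ^ 2 + x + 1
    have e3 : (3 : ℤ) = (-x + 1) * M + (x ^ 3 - x ^ 2 - x + 2) * (x ^ 2 + x + 1) := by
      simp only [M]; ring
    set d := x ^ 2 + x + 1
    set b := x ^ 3 - x ^ 2 - x + 2
    set a := -x + 1
    have e4 : (3 : ℤ) ^ 4 = 3 ^ 2 * a * (a * M + 2 * b * d) * M + b ^ 2 * (d ^ 2 * 3 ^ 2) := by
      have : (3 : ℤ) ^ 2 = (a * M + b * d) ^ 2 := by rw [e3]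
      rw [show (3 : ℤ) ^ 4 = 3 ^ 2 * (3 : ℤ) ^ 2 by norm_num]
      nth_rewrite 2 [this]
      ring
    rw [e4]
    exact dvd_add (dvd_mul_left _ _) (dvd_mul_of_dvd_right s1 _)
  have hle : (m : ℤ) ≤ 81 := by simpa using Int.le_of_dvd (by norm_num) key
  have hq2 : q = 2 := by
    by_contra h
    have h3 : 3 ^ 4 ≤ q ^ 4 := Nat.pow_le_pow_left (by omega) _
    have : (q ^ 4 + q ^ 3 + 1 : ℕ) ≤ 81 := by exact_mod_cast hle
    norm_num at h3
    omega
  rw [hq2] at hm
  norm_num [hm] at key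

theorem min_degree {K : Type u} [Field K] [Fintype K] {q : ℕ} (hq : IsPrimePow q) (hK : Fintype.card K = q ^ 3)
    {V : Type} [AddCommGroup V] [Module ℂ V] [FiniteDimensional ℂ V]
    (ρ : Representation ℂ ↥(twistedD4 K q) V) (hirr : ρ.IsIrreducible) (hk : 2 ≤ Module.finrank ℂ V) :
    q * (q ^ 4 - q ^ 2 + 1) ≤ Module.finrank ℂ V := by
  classical
  have hord : Nat.card ↥(twistedD4 K q) = q ^ 12 * (q ^ 2 - 1) * (q ^ 6 - 1) * (q ^ 8 + q ^ 4 + 1) := orderD4t hq hK
  have hfin : Finite ↥(twistedD4 K q) := Finite.of_injective (fun x => x.1) Subtype.val_injective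
  have := hirr
  have hdiv : Module.finrank ℂ V ∣ q ^ 12 * (q ^ 2 - 1) * (q ^ 6 - 1) * (q ^ 8 + q ^ 4 + 1) :=
    hord ▸ Cfsg.Agent.Chars.rep_finrank_dvd_card ρ
  obtain ⟨hs, -⟩ := D4_simple hq hK
  obtain ⟨τ, hτ, e, hτq, hfix, -⟩ := exists_tD4 hq hK
  obtain ⟨F, iF, iD, hF, S, hS⟩ := exists_data τ hτ hτq hq.two_le hK hfix
  let ι : ↥(tD4 τ hτ).small →* ↥(twistedD4 K q) := (MulEquiv.subgroupCongr e.symm).toMonoidHom
  have hker : ρ.ker = ⊥ := by
    rcases hs.eq_bot_or_eq_top_of_normal _ (MonoidHom.normal_ker ρ) with h | h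
    · exact h
    · obtain ⟨g, hg⟩ := Cfsg.Agent.KnownA.exists_not_scalar_of_irreducible ρ hirr hk
      exfalso
      refine hg 1 ?_
      rw [one_smul]
      exact MonoidHom.mem_ker.1 (h ▸ Subgroup.mem_top g)
  have hnt : ∃ t, (ρ.comp ι) (S.Z t) ≠ 1 := by
    refine ⟨1, fun h => hS 1 (by simp) ?_⟩
    have h1 : ι (S.Z 1) ∈ ρ.ker := h
    rw [hker, Subgroup.mem_bot] at h1
    exact (MulEquiv.subgroupCongr e.symm).injective (h1.trans (map_one _).symm)
  rcases bound S (ρ.comp ι) hnt with h | h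
  · rwa [hF] at h
  · rw [hF] at h
    exact absurd (h ▸ hdiv) (not_dvd_order hq.two_le)

end Cfsg.Agent.Suzuki.D4Min
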