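import Cfsg.Agent.Suzuki.FieldAutSpan

/-!
Additive maps of a finite field of characteristic two closed under twisting by scalars: such a set
contains the monomial components of its members.
-/

set_option autoImplicit false

namespace Cfsg.Agent.Suzuki.TwoGroup

variable {F : Type*} [Field F] [Finite F] [CharP F 2]

instance finite_fieldAut : Finite (F ≃+* F) :=
  Finite.of_injective (fun σ => (σ : F → F)) DFunLike.coe_injective

/-- products of two field automorphisms determine the two automorphisms -/
theorem aut_mul_eq {a b c d : F ≃+* F} (h : ∀ x, a x * b x = c x * d x) :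
    (a = c ∧ b = d) ∨ (a = d ∧ b = c) := by
  classical
  have := Fintype.ofFinite (F ≃+* F)
  have cancel : ∀ {a b d : F ≃+* F}, (∀ x, a x * b x = a x * d x) → b = d := by
    intro a b d h
    refine RingEquiv.ext fun x => ?_
    by_cases hx : x = 0
    · simp [hx]
    · exact mul_left_cancel₀ (a.map_ne_zero_iff.2 hx) (h x)
  let v : (F ≃+* F) → (F ≃+* F) → F → F → (F ≃+* F) → F :=
    fun a b x y σ => (if σ = b then x else 0) + (if σ = a then y else 0)
  have hv : v a b (a 1) (b 1) = v c d (c 1) (d 1) := by
    refine coeff_unique fun y => ?_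
    have hp := h (1 + y)
    simp only [map_add, map_one, add_mul, mul_add, one_mul, mul_one, h y] at hp
    simp only [v, add_mul, ite_mul, zero_mul, Finset.sum_add_distrib, Finset.sum_ite_eq',
      Finset.mem_univ, if_true, map_one, one_mul]
    linear_combination hp
  by_cases hab : a = b
  · subst hab
    have hz := congrFun hv c
    simp only [v, map_one, if_true] at hz
    have hcd : c = d := by
      by_contra hcd
      rw [if_neg hcd] at hz
      by_cases hca : c = a <;> simp [hca, CharTwo.add_self_eq_zero] at hz
    subst hcd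
    have : a = c := RingEquiv.ext fun x => CharTwo.sq_injective (by
      show a x ^ 2 = c x ^ 2
      rw [pow_two, pow_two, h x])
    exact Or.inl ⟨this, this⟩
  · have hz := congrFun hv a
    simp only [v, map_one, if_true, if_neg hab] at hz
    by_cases hac : a = c
    · subst hac
      exact Or.inl ⟨rfl, cancel h⟩
    · by_cases had : a = d
      · subst had
        refine Or.inr ⟨rfl, cancel (a := a) fun x => ?_⟩
        rw [h x, mul_comm]
      · simp [hac, had] at hz

theorem card_units_cast : ((Nat.card Fˣ : ℕ) : F) = 1 := by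
  have := Fintype.ofFinite F
  have h1 : Nat.card Fˣ + 1 = Nat.card F := by
    rw [Nat.card_units, Nat.sub_add_cancel (Nat.one_le_iff_ne_zero.2 Nat.card_pos.ne')]
  have h2 : ((Nat.card F : ℕ) : F) = 0 := by
    rw [Nat.card_eq_fintype_card]; exact FiniteField.cast_card_eq_zero F
  rw [← h1, Nat.cast_add, Nat.cast_one] at h2
  exact CharTwo.add_eq_zero.1 h2

/-- a set of additive maps, closed under sums and twists, with no monomial member but zero, is zero -/
theorem zero_of_no_monomial (V : Set (F → F)) (h0 : (0 : F → F) ∈ V)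
    (hadd : ∀ f ∈ V, ∀ g ∈ V, f + g ∈ V) (hlin : ∀ f ∈ V, ∀ x y, f (x + y) = f x + f y)
    (htw : ∀ k : Fˣ, ∀ f ∈ V, (fun x => (k : F) * f (((k⁻¹ : Fˣ) : F) * x)) ∈ V)
    (hmon : ∀ f ∈ V, (∃ (c : F) (σ : F ≃+* F), ∀ x, f x = c * σ x) → f = 0) :
    ∀ f ∈ V, f = 0 := by
  classical
  have := Fintype.ofFinite (F ≃+* F)
  have := Fintype.ofFinite Fˣ
  intro f hf
  obtain ⟨c, hc⟩ := exists_additive_coeff (AddMonoidHom.mk' f (hlin f hf))
  simp only [AddMonoidHom.mk'_apply] at hc
  suffices hall : ∀ σ0, c σ0 = 0 by
    funext x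
    simp [hc x, hall]
  intro σ0
  have hsum : ∀ s : Finset Fˣ, (fun x => ∑ k ∈ s, (k : F) * f (((k⁻¹ : Fˣ) : F) * x)) ∈ V := by
    intro s
    induction s using Finset.induction with
    | empty => simp only [Finset.sum_empty]; exact h0
    | @insert k s hk ih =>
      simp only [Finset.sum_insert hk]
      exact hadd _ (htw k f hf) _ ih
  have hexp : ∀ (w : Fˣ → F) (x : F), ∑ k : Fˣ, w k * ((k : F) * f (((k⁻¹ : Fˣ) : F) * x)) =
      ∑ σ : F ≃+* F, c σ * σ x * ∑ k : Fˣ, w k * ((k : F) * (σ (k : F))⁻¹) := by
    intro w x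
    simp only [hc, Finset.mul_sum, map_mul, Units.val_inv_eq_inv_val, map_inv₀]
    rw [Finset.sum_comm]
    exact Finset.sum_congr rfl fun σ _ => Finset.sum_congr rfl fun k _ => by ring
  -- the components of a member are obtained by weighted sums of twists
  suffices ∃ s : Finset Fˣ, ∀ x, ∑ k ∈ s, (k : F) * f (((k⁻¹ : Fˣ) : F) * x) = c σ0 * σ0 x by
    obtain ⟨s, hs⟩ := this
    have h1 := hmon _ (hsum s) ⟨c σ0, σ0, hs⟩
    have h2 := congrFun h1 1
    simp only [Pi.zero_apply] at h2
    rw [hs 1, map_one, mul_one] at h2
    exact h2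
  let ev : (F ≃+* F) → Fˣ →* F := fun σ =>
    { toFun := fun k => σ (k : F)
      map_one' := by simp
      map_mul' := fun k l => by simp }
  have hcast : ((Fintype.card Fˣ : ℕ) : F) = 1 := by
    rw [← Nat.card_eq_fintype_card]; exact card_units_cast
  by_cases h1 : σ0 = RingEquiv.refl F
  · refine ⟨Finset.univ, fun x => ?_⟩
    have := hexp (fun _ => 1) x
    simp only [one_mul] at this
    rw [this]
    have key : ∀ σ : F ≃+* F, ∑ k : Fˣ, (k : F) * (σ (k : F))⁻¹ = if σ = σ0 then 1 else 0 := by
      intro σ
      let χ : Fˣ →* F :=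
        { toFun := fun k => (k : F) * (σ (k : F))⁻¹
          map_one' := by simp
          map_mul' := fun k l => by simp only [Units.val_mul, map_mul, mul_inv_rev]; ring }
      show ∑ k : Fˣ, χ k = _
      rw [sum_hom_units χ]
      have hiff : χ = 1 ↔ σ = σ0 := by
        constructor
        · intro e
          refine h1 ▸ RingEquiv.ext fun y => ?_
          by_cases hy : y = 0
          · simp [hy]
          · have := DFunLike.congr_fun e (Units.mk0 y hy)
            simp only [χ, MonoidHom.coe_mk, OneHom.coe_mk, Units.val_mk0, MonoidHom.one_apply] at this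
            rw [mul_inv_eq_one₀ (σ.map_ne_zero_iff.2 hy)] at this
            exact this.symm
        · rintro rfl
          subst h1
          ext k
          show (k : F) * (k : F)⁻¹ = 1
          exact mul_inv_cancel₀ k.ne_zero
      by_cases hσ : σ = σ0
      · rw [if_pos (hiff.2 hσ), if_pos hσ]; exact hcast
      · rw [if_neg (fun e => hσ (hiff.1 e)), if_neg hσ]; exact Nat.cast_zero
    simp [key]
  · let w : Fˣ → F := fun k => ∑ τ : F ≃+* F, τ (σ0 (k : F) * (k : F)⁻¹)
    have hw : ∀ k, w k * w k = w k := fun k => by
      simp only [w]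
      let fr : F ≃+* F := RingEquiv.ofBijective (frobenius F 2)
        ⟨fun a b e => CharTwo.sq_injective e,
          Finite.injective_iff_surjective.1 fun a b e => CharTwo.sq_injective e⟩
      rw [← pow_two, CharTwo.sum_sq]
      refine Fintype.sum_equiv ⟨fun τ => τ.trans fr, fun τ => τ.trans fr.symm, fun τ => ?_, fun τ => ?_⟩ _ _ fun τ => ?_
      · ext y; simp
      · ext y; simp
      · rfl
    refine ⟨Finset.univ.filter fun k => w k = 1, fun x => ?_⟩
    have e1 : ∑ k ∈ Finset.univ.filter (fun k => w k = 1), (k : F) * f (((k⁻¹ : Fˣ) : F) * x) =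
        ∑ k : Fˣ, w k * ((k : F) * f (((k⁻¹ : Fˣ) : F) * x)) := by
      rw [Finset.sum_filter]
      refine Finset.sum_congr rfl fun k _ => ?_
      rcases eq_or_ne (w k) 0 with h | h
      · simp [h]
      · have : w k = 1 := mul_left_cancel₀ h (by rw [hw k, mul_one])
        simp [this]
    rw [e1, hexp]
    have key : ∀ σ : F ≃+* F, ∑ k : Fˣ, w k * ((k : F) * (σ (k : F))⁻¹) = if σ = σ0 then 1 else 0 := by
      intro σ
      simp only [w, Finset.sum_mul]
      rw [Finset.sum_comm]
      let χ : (F ≃+* F) → Fˣ →* F := fun τ =>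
        { toFun := fun k => τ (σ0 (k : F) * (k : F)⁻¹) * ((k : F) * (σ (k : F))⁻¹)
          map_one' := by simp
          map_mul' := fun k l => by
            simp only [Units.val_mul, map_mul, mul_inv_rev, map_inv₀]
            ring }
      have hiff : ∀ τ, χ τ = 1 ↔ τ = RingEquiv.refl F ∧ σ = σ0 := by
        intro τ
        constructor
        · intro e
          have hmul : ∀ y, (σ0.trans τ) y * (RingEquiv.refl F) y = τ y * σ y := by
            intro y
            by_cases hy : y = 0
            · simp [hy]
            · have := DFunLike.congr_fun e (Units.mk0 y hy)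
              simp only [χ, MonoidHom.coe_mk, OneHom.coe_mk, Units.val_mk0, MonoidHom.one_apply,
                map_mul, map_inv₀] at this
              have hτ := τ.map_ne_zero_iff.2 hy
              have hσ := σ.map_ne_zero_iff.2 hy
              show τ (σ0 y) * y = τ y * σ y
              field_simp at this
              linear_combination this
          rcases aut_mul_eq hmul with ⟨ha, -⟩ | ⟨ha, hb⟩
          · refine absurd (RingEquiv.ext fun y => τ.injective ?_) h1
            exact DFunLike.congr_fun ha y
          · refine ⟨hb.symm, RingEquiv.ext fun y => ?_⟩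
            have := DFunLike.congr_fun ha y
            rw [← hb] at this
            exact this.symm
        · rintro ⟨rfl, rfl⟩
          ext k
          show σ (k : F) * (k : F)⁻¹ * ((k : F) * (σ (k : F))⁻¹) = 1
          have := σ.map_ne_zero_iff.2 k.ne_zero
          field_simp
      have hval : ∀ τ, ∑ k : Fˣ, τ (σ0 (k : F) * (k : F)⁻¹) * ((k : F) * (σ (k : F))⁻¹) =
          if τ = RingEquiv.refl F ∧ σ = σ0 then 1 else 0 := by
        intro τ
        show ∑ k : Fˣ, χ τ k = _
        rw [sum_hom_units (χ τ)]
        by_cases hτ : τ = RingEquiv.refl F ∧ σ = σ0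
        · rw [if_pos ((hiff τ).2 hτ), if_pos hτ]; exact hcast
        · rw [if_neg (fun e => hτ ((hiff τ).1 e)), if_neg hτ]; exact Nat.cast_zero
      simp only [hval]
      by_cases hσ : σ = σ0 <;> simp [hσ]
    simp [key]

end Cfsg.Agent.Suzuki.TwoGroup
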