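import Cfsg.Agent.Suzuki.TwoGroupTypeA
import Cfsg.Agent.Suzuki.TwoGroupWeights

/-!
Suzuki two-groups: all squares and commutators are central.

`layer A` is the subgroup of the elements whose square and whose commutators lie in `A`. If the layer
over the centre is proper, its centre is homocyclic of exponent four and equals the layer; such an
invariant homocyclic subgroup is then shown to extend to a larger one indefinitely, which is absurd.
-/

set_option autoImplicit false

universe u

namespace Cfsg.Agent.Suzuki.TwoGroup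

namespace Data

variable {P : Type u} [Group P] {F : Type} [Field F] {d : Data P F}

/-- the elements with square and all commutators in a normal subgroup -/
def layer (A : Subgroup P) (hn : ∀ a ∈ A, ∀ p : P, p * a * p⁻¹ ∈ A) : Subgroup P where
  carrier := {x | x * x ∈ A ∧ ∀ p, p * x * p⁻¹ * x⁻¹ ∈ A}
  one_mem' := ⟨by simp, fun p => by simp⟩
  mul_mem' := by
    rintro x y ⟨hx, hx'⟩ ⟨hy, hy'⟩
    refine ⟨?_, fun p => ?_⟩
    · rw [show x * y * (x * y) = x * (y * x * y⁻¹ * x⁻¹) * x⁻¹ * (x * x) * (y * y) by group]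
      exact mul_mem (mul_mem (hn _ (hx' y) x) hx) hy
    · rw [show p * (x * y) * p⁻¹ * (x * y)⁻¹ = (p * x * p⁻¹ * x⁻¹) * (x * (p * y * p⁻¹ * y⁻¹) * x⁻¹) by group]
      exact mul_mem (hx' p) (hn _ (hy' p) x)
  inv_mem' := by
    rintro x ⟨hx, hx'⟩
    refine ⟨?_, fun p => ?_⟩
    · rw [← mul_inv_rev]; exact inv_mem hx
    · rw [show p * x⁻¹ * p⁻¹ * (x⁻¹)⁻¹ = x⁻¹ * (p * x * p⁻¹ * x⁻¹)⁻¹ * (x⁻¹)⁻¹ by group]
      exact hn _ (inv_mem (hx' p)) _

theorem layer_le (A : Subgroup P) (hn : ∀ a ∈ A, ∀ p : P, p * a * p⁻¹ ∈ A) : A ≤ layer A hn :=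
  fun a ha => ⟨mul_mem ha ha, fun p => mul_mem (hn a ha p) (inv_mem ha)⟩

theorem layer_inv (A : Subgroup P) (hn : ∀ a ∈ A, ∀ p : P, p * a * p⁻¹ ∈ A)
    (hinv : ∀ k, ∀ a ∈ A, d.μ k a ∈ A) (k : Fˣ) {x : P} (hx : x ∈ layer A hn) :
    d.μ k x ∈ layer A hn := by
  refine ⟨?_, fun p => ?_⟩
  · rw [← map_mul]; exact hinv k _ hx.1
  · obtain ⟨q, rfl⟩ := (d.μ k).surjective p
    rw [← map_inv, ← map_inv, ← map_mul, ← map_mul, ← map_mul]
    exact hinv k _ (hx.2 q)

include d in
theorem exists_layer_not_mem [Finite P] (A : Subgroup P) (hn : ∀ a ∈ A, ∀ p : P, p * a * p⁻¹ ∈ A)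
    (hne : A ≠ ⊤) : ∃ x ∈ layer A hn, x ∉ A := by
  have : A.Normal := ⟨hn⟩
  have : Nontrivial (P ⧸ A) := QuotientGroup.nontrivial_iff.2 hne
  have hq : IsPGroup 2 (P ⧸ A) := d.pg.to_quotient A
  have := Fact.mk Nat.prime_two
  have hz := hq.center_nontrivial
  obtain ⟨z, hz2⟩ : ∃ z : Subgroup.center (P ⧸ A), orderOf z = 2 := by
    refine exists_prime_orderOf_dvd_card' 2 ?_
    obtain ⟨j, hj⟩ := IsPGroup.iff_card.1 (hq.to_subgroup (Subgroup.center (P ⧸ A)))
    rw [hj]
    refine dvd_pow_self 2 ?_
    rintro rfl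
    have h1 := Finite.one_lt_card (α := Subgroup.center (P ⧸ A))
    rw [hj] at h1
    simp at h1
  obtain ⟨x, hx⟩ := QuotientGroup.mk_surjective z.1
  refine ⟨x, ⟨?_, fun p => ?_⟩, fun hxA => ?_⟩
  · rw [← QuotientGroup.eq_one_iff, QuotientGroup.mk_mul, hx, ← Subgroup.coe_mul, ← pow_two, ← hz2,
      pow_orderOf_eq_one, Subgroup.coe_one]
  · rw [← QuotientGroup.eq_one_iff, QuotientGroup.mk_mul, QuotientGroup.mk_mul, QuotientGroup.mk_mul,
      QuotientGroup.mk_inv, QuotientGroup.mk_inv, hx, Subgroup.mem_center_iff.1 z.2, mul_inv_cancel_right, mul_inv_cancel]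
  · have : z.1 = 1 := by rw [← hx, QuotientGroup.eq_one_iff]; exact hxA
    have : z = 1 := Subtype.ext this
    rw [this, orderOf_one] at hz2
    omega

include d in
/-- no non-identity scalar fixes a non-identity element -/
theorem eq_one_of_fix {k : Fˣ} (hk : k ≠ 1) {x : P} (hx : d.μ k x = x) : x = 1 := by
  by_contra hx1
  obtain ⟨m, hm⟩ := d.pg x
  have hex : ∃ m, x ^ 2 ^ m = 1 := ⟨m, hm⟩
  classical
  set j := Nat.find hex with hj
  obtain ⟨i, hi⟩ : ∃ i, j = i + 1 := by
    refine Nat.exists_eq_succ_of_ne_zero fun e => hx1 ?_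
    have := Nat.find_spec hex
    rw [← hj, e, pow_zero, pow_one] at this
    exact this
  have h1 : x ^ 2 ^ i ≠ 1 := Nat.find_min hex (by omega)
  have h2 : x ^ 2 ^ i * x ^ 2 ^ i = 1 := by
    rw [← pow_add, ← two_mul, ← pow_succ', ← hi, hj]
    exact Nat.find_spec hex
  have h3 := d.co_μ k h2
  rw [map_pow, hx] at h3
  have h4 : d.co (x ^ 2 ^ i) ≠ 0 := fun e => h1 (d.eq_one_of_co h2 e)
  exact hk (Units.ext (mul_right_cancel₀ h4 (by rw [Units.val_one, one_mul, ← h3])))

include d in
/-- a scalar acts fixed-point-freely on the cosets of an invariant subgroup -/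
theorem mem_of_fix_coset [Finite P] {k : Fˣ} (hk : k ≠ 1) (K : Subgroup P)
    (hK : ∀ y ∈ K, d.μ k y ∈ K) {x : P} (hx : x⁻¹ * d.μ k x ∈ K) : x ∈ K := by
  let g : K → K := fun y => ⟨y.1⁻¹ * d.μ k y.1, mul_mem (inv_mem y.2) (hK _ y.2)⟩
  have hinj : ∀ y z : P, y⁻¹ * d.μ k y = z⁻¹ * d.μ k z → y = z := by
    intro y z e
    refine mul_inv_eq_one.1 (d.eq_one_of_fix hk ?_)
    rw [map_mul, map_inv, show d.μ k y = y * (z⁻¹ * d.μ k z) by rw [← e, mul_inv_cancel_left]]
    group
  obtain ⟨y, hy⟩ := (Finite.injective_iff_surjective (f := g)).1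
    (fun y z e => Subtype.ext (hinj _ _ (congrArg Subtype.val e))) ⟨_, hx⟩
  rw [← hinj _ _ (congrArg Subtype.val hy)]
  exact y.2

/-- commutative invariant subgroups of exponent `2 ^ e` with a non-trivial top power, acted on trivially
modulo squares -/
structure Wk (d : Data P F) (A : Subgroup P) (e : ℕ) : Prop where
  comm : ∀ a ∈ A, ∀ b ∈ A, a * b = b * a
  expo : ∀ a ∈ A, a ^ 2 ^ e = 1
  top : ∃ b ∈ A, b ^ 2 ^ (e - 1) ≠ 1
  inv : ∀ k, ∀ a ∈ A, d.μ k a ∈ A
  act : ∀ a ∈ A, ∀ p : P, ∃ u ∈ A, dl p a = u ^ 2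

variable {A : Subgroup P} {e : ℕ}

theorem Wk.top_sq (h : Wk d A e) (he : 1 ≤ e) {a : P} (ha : a ∈ A) :
    a ^ 2 ^ (e - 1) * a ^ 2 ^ (e - 1) = 1 := by
  rw [← pow_add, ← two_mul, ← pow_succ', show e - 1 + 1 = e by omega]
  exact h.expo a ha

theorem Wk.top_surj (h : Wk d A e) (he : 1 ≤ e) (a : F) : ∃ b ∈ A, b ^ 2 ^ (e - 1) = d.e a := by
  by_cases ha : a = 0
  · exact ⟨1, one_mem _, by rw [one_pow, ha, d.e_zero]⟩
  obtain ⟨b, hb, hb1⟩ := h.top
  obtain ⟨k, hk⟩ := d.exists_μ ha (h.top_sq he hb) hb1
  exact ⟨d.μ k b, h.inv k b hb, by rw [← map_pow, hk]⟩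

theorem Wk.inv_mem_of_sq (h : Wk d A e) (he : 1 ≤ e) {x : P} (hx : x * x = 1) : x ∈ A := by
  obtain ⟨b, hb, hbe⟩ := h.top_surj he (d.co x)
  rw [d.e_co hx] at hbe
  rw [← hbe]
  exact pow_mem hb _

theorem Wk.conj_mem (h : Wk d A e) : ∀ a ∈ A, ∀ p : P, p * a * p⁻¹ ∈ A := by
  intro a ha p
  obtain ⟨u, hu, e'⟩ := h.act a ha p
  rw [show p * a * p⁻¹ = dl p a * a by simp only [dl]; group, e']
  exact mul_mem (pow_mem hu _) ha

theorem Wk.homocyclic (h : Wk d A e) : ∀ k, k ≤ e → ∀ a ∈ A, a ^ 2 ^ k = 1 →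
    ∃ b ∈ A, a = b ^ 2 ^ (e - k) := by
  intro k
  induction k with
  | zero => intro _ a _ ha; exact ⟨1, one_mem _, by simpa using ha⟩
  | succ k ih =>
    intro hk a ha ha1
    have hsq : a ^ 2 ^ k * a ^ 2 ^ k = 1 := by
      rw [← pow_add, ← two_mul, ← pow_succ', ha1]
    obtain ⟨b, hb, hbe⟩ := h.top_surj (by omega) (d.co (a ^ 2 ^ k))
    rw [d.e_co hsq] at hbe
    have h1 : (a * (b ^ 2 ^ (e - (k + 1)))⁻¹) ^ 2 ^ k = 1 := by
      have hc : Commute a (b ^ 2 ^ (e - (k + 1)))⁻¹ := h.comm _ ha _ (inv_mem (pow_mem hb _))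
      rw [hc.mul_pow, inv_pow, ← pow_mul, ← pow_add, show e - (k + 1) + k = e - 1 by omega, hbe, mul_inv_cancel]
    obtain ⟨c, hc, hce⟩ := ih (by omega) _ (mul_mem ha (inv_mem (pow_mem hb _))) h1
    refine ⟨c ^ 2 * b, mul_mem (pow_mem hc _) hb, ?_⟩
    have hcb : Commute (c ^ 2) b := h.comm _ (pow_mem hc _) _ hb
    rw [hcb.mul_pow, ← pow_mul, ← pow_succ', show e - (k + 1) + 1 = e - k by omega, ← hce, inv_mul_cancel_right]

theorem Wk.dl_mem (h : Wk d A e) (x : P) {a : P} (ha : a ∈ A) : dl x a ∈ A :=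
  mul_mem (h.conj_mem a ha x) (inv_mem ha)

theorem Wk.dl_mul_right (h : Wk d A e) (x : P) {a b : P} (ha : a ∈ A) (hb : b ∈ A) :
    dl x (a * b) = dl x a * dl x b := by
  rw [show dl x (a * b) = (x * a * x⁻¹) * (dl x b * a⁻¹) by simp only [dl]; group,
    h.comm _ (h.dl_mem x hb) _ (inv_mem ha), ← mul_assoc]
  rfl

theorem Wk.dl_pow_right (h : Wk d A e) (x : P) {a : P} (ha : a ∈ A) :
    ∀ n : ℕ, dl x (a ^ n) = dl x a ^ n
  | 0 => by simp [dl]
  | n + 1 => by rw [pow_succ, h.dl_mul_right x (pow_mem ha n) ha, h.dl_pow_right x ha n, pow_succ]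

theorem dl_mul_left' (x y a : P) : dl (x * y) a = dl x (dl y a) * dl y a * dl x a := by
  simp only [dl]
  group

theorem dl_map' (k : Fˣ) (x a : P) : d.μ k (dl x a) = dl (d.μ k x) (d.μ k a) := by
  simp only [dl, map_mul, map_inv]

/-- the semilinear twists -/
theorem semilinear_twist {k : F} {σ : F ≃+* F} {f g : F → F} {c : F} (hk : k ≠ 0)
    (hf : ∀ q, f q = c * σ q) (hg : ∀ q, g (k * q) = k * f q) :
    ∀ q, g q = k * c * (σ k)⁻¹ * σ q := by
  intro q
  have := hg (k⁻¹ * q)
  rw [mul_inv_cancel_left₀ hk] at this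
  rw [this, hf, map_mul, map_inv₀]
  ring

set_option maxHeartbeats 1600000 in
/-- such a subgroup which contains the layer over the centre extends to a larger one -/
theorem Wk.grow [Finite P] [Finite F] [CharP F 2] (hF : ∃ k : Fˣ, k ≠ 1) (h : Wk d A e) (he : 2 ≤ e)
    (hlow : ∀ x : P, x * x ∈ Subgroup.center P → (∀ p, dl p x ∈ Subgroup.center P) → x ∈ A)
    (hne : A ≠ ⊤) : ∃ X : Subgroup P, Wk d X (e + 1) ∧ A ≤ X := by
  classical
  set X := layer A h.conj_mem with hX
  have hAX : A ≤ X := layer_le _ _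
  have hXinv : ∀ k, ∀ x ∈ X, d.μ k x ∈ X := fun k x hx => layer_inv _ _ h.inv k hx
  have hcsq : ∀ x : P, x * x = 1 → x ∈ Subgroup.center P :=
    fun x hx => Subgroup.mem_center_iff.2 (d.sq_central hx)
  choose bs hbs hbse using h.top_surj (by omega : 1 ≤ e)
  have hpow2 : ∀ w : P, ∀ i : ℕ, (w ^ 2 ^ i) * (w ^ 2 ^ i) = w ^ 2 ^ (i + 1) := fun w i => by
    rw [← pow_add, ← two_mul, ← pow_succ']
  have key : ∀ t, 1 ≤ t → t ≤ e → ∀ x ∈ X, ∀ a ∈ A, ∃ u ∈ A, dl x a = u ^ 2 ^ t := by
    intro t ht
    induction t, ht using Nat.le_induction with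
    | base => intro _ x _ a ha; rw [pow_one]; exact h.act a ha x
    | succ t ht ih =>
      intro hte
      have ih := ih (by omega)
      set N := 2 ^ (e - 1 - t) with hN
      have hpowt : ∀ w ∈ A, (w ^ 2 ^ t) ^ N = w ^ 2 ^ (e - 1) := fun w _ => by
        rw [← pow_mul, hN, ← pow_add 2, show t + (e - 1 - t) = e - 1 by omega]
      have hD2 : ∀ x ∈ X, ∀ a ∈ A, dl x a ^ N * dl x a ^ N = 1 := fun x hx a ha => by
        obtain ⟨u, hu, e'⟩ := ih x hx a ha
        rw [e', hpowt u hu]; exact h.top_sq (by omega) hu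
      have hA0 : ∀ x ∈ X, ∀ w ∈ A, dl x (w ^ 2) ^ N = 1 := fun x hx w hw => by
        obtain ⟨u, hu, e'⟩ := ih x hx w hw
        rw [h.dl_pow_right x hw, e', ← pow_mul, ← pow_mul, hN, ← pow_succ', ← pow_add,
          show t + (e - 1 - t + 1) = e by omega]
        exact h.expo u hu
      have hDmulr : ∀ x ∈ X, ∀ a ∈ A, ∀ b ∈ A, dl x (a * b) ^ N = dl x a ^ N * dl x b ^ N :=
        fun x hx a ha b hb => by
          have hc : Commute (dl x a) (dl x b) := h.comm _ (h.dl_mem x ha) _ (h.dl_mem x hb)
          rw [h.dl_mul_right x ha hb, hc.mul_pow]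
      have hDcongr : ∀ x ∈ X, ∀ a ∈ A, ∀ b ∈ A, a ^ 2 ^ (e - 1) = b ^ 2 ^ (e - 1) →
          dl x a ^ N = dl x b ^ N := by
        intro x hx a ha b hb e'
        have hc : Commute a b⁻¹ := h.comm _ ha _ (inv_mem hb)
        obtain ⟨w, hw, hwe⟩ := h.homocyclic (e - 1) (by omega) (a * b⁻¹) (mul_mem ha (inv_mem hb)) (by
          rw [hc.mul_pow, inv_pow, e', mul_inv_cancel])
        rw [show a = (a * b⁻¹) * b by group, hDmulr x hx _ (mul_mem ha (inv_mem hb)) b hb, hwe,
          show e - (e - 1) = 1 by omega, pow_one, hA0 x hx w hw, one_mul]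
      have hDmull : ∀ x ∈ X, ∀ y ∈ X, ∀ a ∈ A, dl (x * y) a ^ N = dl x a ^ N * dl y a ^ N := by
        intro x hx y hy a ha
        obtain ⟨u, hu, e'⟩ := ih y hy a ha
        have e1 : dl x (dl y a) ^ N = 1 := by
          rw [e', show u ^ 2 ^ t = (u ^ 2 ^ (t - 1)) ^ 2 by
            rw [← pow_mul, ← pow_succ, show t - 1 + 1 = t by omega]]
          exact hA0 x hx _ (pow_mem hu _)
        have c1 : Commute (dl x (dl y a) * dl y a) (dl x a) :=
          h.comm _ (mul_mem (h.dl_mem _ (h.dl_mem _ ha)) (h.dl_mem _ ha)) _ (h.dl_mem _ ha)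
        have c2 : Commute (dl x (dl y a)) (dl y a) := h.comm _ (h.dl_mem _ (h.dl_mem _ ha)) _ (h.dl_mem _ ha)
        have c3 : Commute (dl y a ^ N) (dl x a ^ N) :=
          h.comm _ (pow_mem (h.dl_mem _ ha) _) _ (pow_mem (h.dl_mem _ ha) _)
        rw [dl_mul_left' x y a, c1.mul_pow, c2.mul_pow, e1, one_mul, c3.eq]
      let f : P → F → F := fun x q => d.co (dl x (bs q) ^ N)
      have fX : ∀ x ∈ X, ∀ a ∈ A, d.co (dl x a ^ N) = f x (d.co (a ^ 2 ^ (e - 1))) := by
        intro x hx a ha
        show _ = d.co (dl x (bs _) ^ N)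
        rw [hDcongr x hx _ (hbs _) a ha (by rw [hbse, d.e_co (h.top_sq (by omega) ha)])]
      have fadd : ∀ x ∈ X, ∀ q r, f x (q + r) = f x q + f x r := by
        intro x hx q r
        have hc : Commute (bs q) (bs r) := h.comm _ (hbs _) _ (hbs _)
        show d.co _ = d.co _ + d.co _
        rw [← d.co_mul (hD2 x hx _ (hbs q)) (hD2 x hx _ (hbs r)), ← hDmulr x hx _ (hbs q) _ (hbs r),
          hDcongr x hx _ (hbs _) _ (mul_mem (hbs q) (hbs r)) (by rw [hc.mul_pow, hbse, hbse, hbse, d.e_add])]
      have fmul : ∀ x ∈ X, ∀ y ∈ X, ∀ q, f (x * y) q = f x q + f y q := by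
        intro x hx y hy q
        show d.co _ = d.co _ + d.co _
        rw [← d.co_mul (hD2 x hx _ (hbs q)) (hD2 y hy _ (hbs q)), hDmull x hx y hy _ (hbs q)]
      have ftw : ∀ k : Fˣ, ∀ x ∈ X, ∀ q, f (d.μ k x) ((k : F) * q) = k * f x q := by
        intro k x hx q
        show d.co _ = (k : F) * d.co _
        rw [← d.co_μ k (hD2 x hx _ (hbs q)), map_pow, dl_map',
          hDcongr _ (hXinv k x hx) _ (hbs _) _ (h.inv k _ (hbs q))
            (by rw [← map_pow, hbse, hbse, d.μ_e])]
      have fA : ∀ a ∈ A, ∀ q, f a q = 0 := by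
        intro a ha q
        show d.co _ = 0
        rw [show dl a (bs q) = 1 by
          simp only [dl]; rw [h.comm _ ha _ (hbs q), mul_inv_cancel_right, mul_inv_cancel], one_pow, d.co_one]
      have finv : ∀ x ∈ X, ∀ q, f x⁻¹ q = f x q := by
        intro x hx q
        have := fmul x hx x⁻¹ (inv_mem hx) q
        rw [mul_inv_cancel, fA 1 (one_mem A)] at this
        exact (CharTwo.add_eq_zero.1 this.symm).symm
      let K : Subgroup P :=
        { carrier := {x | x ∈ X ∧ ∀ q, f x q = 0}
          one_mem' := ⟨one_mem _, fA 1 (one_mem A)⟩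
          mul_mem' := fun {x y} hx hy => ⟨mul_mem hx.1 hy.1, fun q => by
            rw [fmul x hx.1 y hy.1, hx.2, hy.2, add_zero]⟩
          inv_mem' := fun {x} hx => ⟨inv_mem hx.1, fun q => by rw [finv x hx.1]; exact hx.2 q⟩ }
      have hKinv : ∀ k, ∀ x ∈ K, d.μ k x ∈ K := by
        intro k x hx
        refine ⟨hXinv k x hx.1, fun q => ?_⟩
        have := ftw k x hx.1 (((k⁻¹ : Fˣ) : F) * q)
        rw [Units.mul_inv_cancel_left, hx.2, mul_zero] at this
        exact this
      -- a non-zero value is moved by every non-identity scalar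
      have hmove : ∀ k : Fˣ, k ≠ 1 → ∀ x ∈ X, (∀ q, f (d.μ k x) q = f x q) → ∀ q, f x q = 0 := by
        intro k hk x hx heq
        refine (d.mem_of_fix_coset hk K (hKinv k) (x := x) ⟨mul_mem (inv_mem hx) (hXinv k x hx), fun q => ?_⟩).2
        rw [fmul _ (inv_mem hx) _ (hXinv k x hx), heq, finv x hx, CharTwo.add_self_eq_zero]
      have hmon : ∀ x ∈ X, ∀ (c : F) (σ : F ≃+* F), (∀ q, f x q = c * σ q) → c = 0 := by
        intro x hx c σ hf
        by_contra hc
        have hinj : ∀ y ∈ X, (∀ q, f y q = c * σ q) → ∀ q, f y q = 0 → q = 0 := fun y _ hy q hq => by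
          rw [hy] at hq
          exact σ.map_eq_zero_iff.1 ((mul_eq_zero.1 hq).resolve_left hc)
        have hker : ∀ y ∈ X, (∀ q, f y q = c * σ q) → ∀ k, k ≤ e → ∀ a ∈ A, a ^ 2 ^ k = 1 →
            dl y a = 1 → a ^ 2 ^ t = 1 := by
          intro y hy hfy k
          induction k with
          | zero => intro _ a _ ha _; rw [show a = 1 by simpa using ha, one_pow]
          | succ k ihk =>
            intro hk a ha hak hay
            by_cases hkt : k + 1 ≤ t
            · rw [show t = k + 1 + (t - (k + 1)) by omega, pow_add, pow_mul, hak, one_pow]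
            refine ihk (by omega) a ha ?_ hay
            obtain ⟨b, hb, rfl⟩ := h.homocyclic (k + 1) hk a ha hak
            rw [h.dl_pow_right y hb] at hay
            have h1 : dl y b ^ N = 1 := by
              rw [hN, show e - 1 - t = e - (k + 1) + (k - t) by omega, pow_add, pow_mul, hay, one_pow]
            have h2 := fX y hy b hb
            rw [h1, d.co_one] at h2
            rw [← pow_mul, ← pow_add, show e - (k + 1) + k = e - 1 by omega]
            exact d.eq_one_of_co (h.top_sq (by omega) hb) (hinj y hy hfy _ h2.symm)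
        have hsqt : ∀ y ∈ X, (∀ q, f y q = c * σ q) → (y * y) ^ 2 ^ t = 1 := fun y hy hfy =>
          hker y hy hfy e le_rfl _ hy.1 (h.expo _ hy.1) (by simp only [dl]; group)
        by_cases ht2 : t + 2 ≤ e
        · have h1 : ∀ a ∈ A, dl x a ^ 2 ^ (e - 2) * a ^ 2 ^ (e - 1) = 1 := by
            intro a ha
            have hxa : ∀ q, f (x * a) q = c * σ q := fun q => by
              rw [fmul x hx a (hAX ha), fA a ha, add_zero, hf]
            have h2 := hsqt _ (mul_mem hx (hAX ha)) hxa
            have e1 : x * a * (x * a) = dl x a * (a * a) * (x * x) := by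
              calc x * a * (x * a) = dl x a * a * ((x * x) * a) := by simp only [dl]; group
                _ = dl x a * a * (a * (x * x)) := by rw [h.comm _ hx.1 _ ha]
                _ = _ := by group
            have m1 : dl x a ∈ A := h.dl_mem x ha
            have c1 : Commute (dl x a * (a * a)) (x * x) :=
              h.comm _ (mul_mem m1 (mul_mem ha ha)) _ hx.1
            have c2 : Commute (dl x a) (a * a) := h.comm _ m1 _ (mul_mem ha ha)
            rw [e1, c1.mul_pow, hsqt x hx hf, mul_one, c2.mul_pow, ← pow_two a, ← pow_mul, ← pow_succ'] at h2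
            have h3 := congrArg (fun z => z ^ 2 ^ (e - 2 - t)) h2
            have c3 : Commute (dl x a ^ 2 ^ t) (a ^ 2 ^ (t + 1)) :=
              h.comm _ (pow_mem m1 _) _ (pow_mem ha _)
            simp only [one_pow] at h3
            rw [c3.mul_pow, ← pow_mul, ← pow_mul, ← pow_add, ← pow_add,
              show t + (e - 2 - t) = e - 2 by omega, show t + 1 + (e - 2 - t) = e - 1 by omega] at h3
            exact h3
          rcases Nat.lt_or_ge 1 t with ht1 | ht1
          · obtain ⟨b, hb, hb1⟩ := h.top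
            obtain ⟨u, hu, hue⟩ := ih x hx b hb
            refine hb1 ?_
            have := h1 b hb
            rwa [hue, ← pow_mul, ← pow_add, show t + (e - 2) = e + (t - 2) by omega, pow_add, pow_mul,
              h.expo u hu, one_pow, one_mul] at this
          · have hid : ∀ q, f x q = q := by
              intro q
              show d.co (dl x (bs q) ^ N) = q
              have := h1 (bs q) (hbs q)
              rw [hbse] at this
              rw [hN, show e - 1 - t = e - 2 by omega, eq_inv_of_mul_eq_one_left this,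
                inv_eq_of_mul_eq_one_right (d.e_sq q), d.co_e]
            obtain ⟨k, hk⟩ := hF
            have := hmove k hk x hx (fun q => by
              have e1 := ftw k x hx (((k⁻¹ : Fˣ) : F) * q)
              rw [Units.mul_inv_cancel_left, hid, Units.mul_inv_cancel_left] at e1
              rw [e1, hid]) 1
            rw [hid] at this
            exact one_ne_zero this
        · have hte' : t = e - 1 := by omega
          have hN1 : N = 1 := by rw [hN, show e - 1 - t = 0 by omega, pow_zero]
          have hDexp : ∀ y ∈ X, ∀ a ∈ A, dl y a * dl y a = 1 := fun y hy a ha => by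
            simpa [hN1] using hD2 y hy a ha
          obtain ⟨w, hw, hwe⟩ := h.homocyclic t (by omega) _ hx.1 (hsqt x hx hf)
          rw [show e - t = 1 by omega, pow_one] at hwe
          set y := x * w⁻¹ with hy
          have hyX : y ∈ X := mul_mem hx (inv_mem (hAX hw))
          have hfy : ∀ q, f y q = c * σ q := fun q => by
            rw [hy, fmul x hx _ (inv_mem (hAX hw)), fA _ (inv_mem hw), add_zero, hf]
          have hyy : y * y * (y * y) = 1 := by
            have hm := h.dl_mem x (inv_mem hw)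
            have e1 : y * y = dl x w⁻¹ := by
              calc y * y = dl x w⁻¹ * w⁻¹ * ((x * x) * w⁻¹) := by simp only [hy, dl]; group
                _ = dl x w⁻¹ * (w⁻¹ * (w ^ 2) * w⁻¹) := by rw [hwe]; group
                _ = dl x w⁻¹ := by group
            rw [e1]
            exact hDexp x hx _ (inv_mem hw)
          have hyc : y * y ∈ Subgroup.center P := hcsq _ hyy
          -- every commutator with such an element is inverted by it
          have hcy : ∀ p, dl y p ∈ A := fun p => by
            rw [show dl y p = (dl p y)⁻¹ by simp only [dl]; group]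
            exact inv_mem (hyX.2 p)
          have hinvc : ∀ p, dl y (dl y p) * dl y p ^ 2 = 1 := by
            intro p
            calc dl y (dl y p) * dl y p ^ 2 = y * y * p * (y * y)⁻¹ * p⁻¹ := by
                  simp only [dl, pow_two]; group
              _ = 1 := by rw [← Subgroup.mem_center_iff.1 hyc p, mul_inv_cancel_right, mul_inv_cancel]
          have hcentral : ∀ p, dl p y ∈ Subgroup.center P := by
            intro p
            suffices hs : dl y p * dl y p = 1 by
              rw [show dl p y = (dl y p)⁻¹ by simp only [dl]; group]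
              exact inv_mem (hcsq _ hs)
            have hc4 : dl y p ^ 2 ^ 2 = 1 := by
              have h1 : dl y p ^ 2 * dl y p ^ 2 = 1 := by
                rw [eq_inv_of_mul_eq_one_right (hinvc p), ← mul_inv_rev, hDexp y hyX _ (hcy p), inv_one]
              rw [← pow_add] at h1
              exact h1
            by_cases he3 : 3 ≤ e
            · obtain ⟨b, hb, hbe⟩ := h.homocyclic 2 (by omega) _ (hcy p) hc4
              have h1 : dl y (dl y p) = 1 := by
                rw [hbe, h.dl_pow_right y hb, show e - 2 = e - 3 + 1 by omega, pow_succ', pow_mul,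
                  pow_two, hDexp y hyX b hb, one_pow]
              have := hinvc p
              rwa [h1, one_mul, pow_two] at this
            · obtain rfl : e = 2 := by omega
              obtain rfl : t = 1 := by omega
              have hC2 : ∀ z ∈ X, ∀ p, dl z p ^ 2 * dl z p ^ 2 = 1 := fun z hz p => by
                rw [← pow_add]
                refine h.expo _ ?_
                rw [show dl z p = (dl p z)⁻¹ by simp only [dl]; group]
                exact inv_mem (hz.2 p)
              have hdA : ∀ z ∈ X, ∀ p, dl z p ∈ A := fun z hz p => by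
                rw [show dl z p = (dl p z)⁻¹ by simp only [dl]; group]
                exact inv_mem (hz.2 p)
              let C : P → P → F := fun z p => d.co (dl z p ^ 2)
              have hact2 : ∀ z : P, ∀ a ∈ A, dl z a ^ 2 = 1 := fun z a ha => by
                obtain ⟨u, hu, e'⟩ := h.act a ha z
                rw [e', ← pow_mul]; exact h.expo u hu
              have Cmul : ∀ z ∈ X, ∀ z' ∈ X, ∀ p, C (z * z') p = C z p + C z' p := by
                intro z hz z' hz' p
                show d.co _ = d.co _ + d.co _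
                have m1 := h.dl_mem z (hdA z' hz' p)
                have c1 : Commute (dl z (dl z' p) * dl z' p) (dl z p) :=
                  h.comm _ (mul_mem m1 (hdA z' hz' p)) _ (hdA z hz p)
                have c2 : Commute (dl z (dl z' p)) (dl z' p) := h.comm _ m1 _ (hdA z' hz' p)
                rw [dl_mul_left' z z' p, c1.mul_pow, c2.mul_pow, hact2 z _ (hdA z' hz' p), one_mul,
                  d.co_mul (hC2 z' hz' p) (hC2 z hz p), add_comm]
              have Cmulr : ∀ z ∈ X, ∀ p p', C z (p * p') = C z p + C z p' := by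
                intro z hz p p'
                show d.co _ = d.co _ + d.co _
                have m1 := h.dl_mem p (hdA z hz p')
                have e1 : dl z (p * p') = dl z p * (dl p (dl z p') * dl z p') := by simp only [dl]; group
                have c1 : Commute (dl z p) (dl p (dl z p') * dl z p') :=
                  h.comm _ (hdA z hz p) _ (mul_mem m1 (hdA z hz p'))
                have c2 : Commute (dl p (dl z p')) (dl z p') := h.comm _ m1 _ (hdA z hz p')
                rw [e1, c1.mul_pow, c2.mul_pow, hact2 p _ (hdA z hz p'), one_mul,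
                  d.co_mul (hC2 z hz p) (hC2 z hz p')]
              have CA : ∀ a ∈ A, ∀ p, C a p = 0 := fun a ha p => by
                show d.co _ = 0
                rw [show dl a p = (dl p a)⁻¹ by simp only [dl]; group, inv_pow, hact2 p a ha, inv_one, d.co_one]
              have Cμ : ∀ k : Fˣ, ∀ z ∈ X, ∀ p, C (d.μ k z) (d.μ k p) = k * C z p := fun k z hz p => by
                show d.co _ = _ * d.co _
                rw [← dl_map', ← map_pow, d.co_μ k (hC2 z hz p)]
              -- the values are fixed by the semilinear map of the element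
              have hfix : ∀ z ∈ X, ∀ c' : F, c' ≠ 0 → (∀ q, f z q = c' * σ q) →
                  ∀ p, C z p = c' * σ (C z p) := by
                intro z hz c' hc' hfz p
                have hz2 : (z * z) ^ 2 ^ 1 = 1 := by
                  obtain ⟨b, hb, hbe⟩ := h.homocyclic 2 le_rfl _ hz.1 (h.expo _ hz.1)
                  simp only [Nat.sub_self, pow_zero, pow_one] at hbe
                  have h1 : dl z (z * z) = 1 := by simp only [dl]; group
                  have h2 := fX z hz _ hz.1
                  rw [h1, one_pow, d.co_one, hfz] at h2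
                  exact d.eq_one_of_co (h.top_sq (by omega) hz.1)
                    (σ.map_eq_zero_iff.1 ((mul_eq_zero.1 h2.symm).resolve_left hc'))
                obtain ⟨v, hv, hve⟩ := h.homocyclic 1 (by omega) _ hz.1 hz2
                simp only [show 2 - 1 = 1 from rfl, pow_one] at hve
                set z' := z * v⁻¹ with hz'
                have hz'X : z' ∈ X := mul_mem hz (inv_mem (hAX hv))
                have hfz' : ∀ q, f z' q = c' * σ q := fun q => by
                  rw [hz', fmul z hz _ (inv_mem (hAX hv)), fA _ (inv_mem hv), add_zero, hfz]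
                have hzz : z' * z' * (z' * z') = 1 := by
                  have e1 : z' * z' = dl z v⁻¹ := by
                    calc z' * z' = dl z v⁻¹ * v⁻¹ * ((z * z) * v⁻¹) := by simp only [hz', dl]; group
                      _ = dl z v⁻¹ * (v⁻¹ * (v ^ 2) * v⁻¹) := by rw [hve]; group
                      _ = dl z v⁻¹ := by group
                  rw [e1]
                  exact hDexp z hz _ (inv_mem hv)
                have hC : C z' p = C z p := by
                  rw [hz', Cmul z hz _ (inv_mem (hAX hv)), CA _ (inv_mem hv), add_zero]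
                have h3 : dl z' (dl z' p) * dl z' p ^ 2 = 1 := by
                  calc dl z' (dl z' p) * dl z' p ^ 2 = z' * z' * p * (z' * z')⁻¹ * p⁻¹ := by
                        simp only [dl, pow_two]; group
                    _ = 1 := by
                      rw [← Subgroup.mem_center_iff.1 (hcsq _ hzz) p, mul_inv_cancel_right, mul_inv_cancel]
                have h4 := fX z' hz'X _ (hdA z' hz'X p)
                rw [hN1, pow_one, eq_inv_of_mul_eq_one_left h3,
                  inv_eq_of_mul_eq_one_right (hC2 z' hz'X p), hfz'] at h4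
                rw [← hC]
                exact h4
              -- vanishing at a twist
              have hnz : ∀ k : Fˣ, k ≠ 1 → ∀ c' : F, c' ≠ 0 → ∀ z ∈ X, (∀ q, f z q = c' * σ q) →
                  ∀ p, C z p ≠ 0 → C (d.μ k z) p ≠ 0 := by
                intro k hk c' hc' z hz hfz p hb hb'
                have hf' := semilinear_twist k.ne_zero hfz (ftw k z hz)
                set c1 := (k : F) * c' * (σ (k : F))⁻¹ with hc1
                have hc10 : c1 ≠ 0 := mul_ne_zero (mul_ne_zero k.ne_zero hc') (inv_ne_zero (σ.map_ne_zero_iff.2 k.ne_zero))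
                have hne : c' + c1 ≠ 0 := fun e' => by
                  have hzero := hmove k hk z hz fun q => by rw [hf', hfz, CharTwo.add_eq_zero.1 e']
                  have := hzero 1
                  rw [hfz, map_one, mul_one] at this
                  exact hc' this
                have h5 := hfix (z * d.μ k z) (mul_mem hz (hXinv k z hz)) (c' + c1) hne
                  (fun q => by rw [fmul z hz _ (hXinv k z hz), hfz, hf']; ring) p
                rw [Cmul z hz _ (hXinv k z hz), hb', add_zero, add_mul, ← hfix z hz c' hc' hfz p] at h5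
                exact mul_ne_zero hc10 (σ.map_ne_zero_iff.2 hb) (left_eq_add.1 h5)
              have hC0 : C y p = 0 := by
                by_contra hb
                obtain ⟨k, hk⟩ := hF
                have huniq : ∀ s s' : F, s ≠ 0 → s' ≠ 0 → s = c * σ s → s' = c * σ s' → s = s' := by
                  intro s s' hs hs' e1 e2
                  by_contra hne
                  let r : Fˣ := Units.mk0 (s' / s) (div_ne_zero hs' hs)
                  have hr1 : r ≠ 1 := fun e' => hne (by
                    have := congrArg Units.val e'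
                    simp only [r, Units.val_mk0, Units.val_one] at this
                    exact ((div_eq_one_iff_eq hs).1 this).symm)
                  have hσr : σ (r : F) = r := by
                    simp only [r, Units.val_mk0, map_div₀]
                    conv_rhs => rw [e1, e2, mul_div_mul_left _ _ hc]
                  have hzero := hmove r hr1 y hyX fun q => by
                    rw [semilinear_twist r.ne_zero hfy (ftw r y hyX), hσr, hfy]
                    field_simp
                  have := hzero 1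
                  rw [hfy, map_one, mul_one] at this
                  exact hc this
                let L : Subgroup P :=
                  { carrier := {p' | C y p' = 0}
                    one_mem' := by
                      show d.co _ = 0
                      rw [show dl y 1 = 1 by simp [dl], one_pow, d.co_one]
                    mul_mem' := fun {p1 p2} h1 h2 => by
                      show C y (p1 * p2) = 0
                      rw [Cmulr y hyX, h1, h2, add_zero]
                    inv_mem' := fun {p1} h1 => by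
                      show C y p1⁻¹ = 0
                      have := Cmulr y hyX p1 p1⁻¹
                      rw [mul_inv_cancel, show C y p1 = 0 from h1, zero_add] at this
                      rw [← this]
                      show d.co _ = 0
                      rw [show dl y 1 = 1 by simp [dl], one_pow, d.co_one] }
                have hsym : ∀ l : Fˣ, l ≠ 1 → ∀ p', C y p' ≠ 0 ↔ C (d.μ l y) p' ≠ 0 := by
                  intro l hl p'
                  refine ⟨hnz l hl c hc y hyX hfy p', fun h1 => ?_⟩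
                  have hc10 : (l : F) * c * (σ (l : F))⁻¹ ≠ 0 :=
                    mul_ne_zero (mul_ne_zero l.ne_zero hc) (inv_ne_zero (σ.map_ne_zero_iff.2 l.ne_zero))
                  have := hnz l⁻¹ (inv_ne_one.2 hl) _ hc10 _ (hXinv l y hyX)
                    (semilinear_twist l.ne_zero hfy (ftw l y hyX)) p' h1
                  rwa [← MulAut.mul_apply, ← map_mul, inv_mul_cancel, map_one, MulAut.one_apply] at this
                have hL : ∀ p' ∈ L, d.μ k p' ∈ L := by
                  intro p' hp'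
                  by_contra h1
                  have h2 := (hsym k hk _).1 h1
                  rw [Cμ k y hyX, show C y p' = 0 from hp', mul_zero] at h2
                  exact h2 rfl
                refine hb ((d.mem_of_fix_coset hk L hL (x := p) ?_) : C y p = 0)
                have h1 : C y (d.μ k p) ≠ 0 := (hsym k hk _).2 (by
                  rw [Cμ k y hyX]; exact mul_ne_zero k.ne_zero hb)
                show C y (p⁻¹ * d.μ k p) = 0
                have h2 : C y p⁻¹ = C y p := by
                  have := Cmulr y hyX p p⁻¹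
                  rw [mul_inv_cancel, show C y 1 = 0 from L.one_mem] at this
                  exact (CharTwo.add_eq_zero.1 this.symm).symm
                rw [Cmulr y hyX, h2, huniq _ _ hb h1 (hfix y hyX c hc hfy p) (hfix y hyX c hc hfy _),
                  CharTwo.add_self_eq_zero]
              have := d.eq_one_of_co (hC2 y hyX p) hC0
              rwa [pow_two] at this
          have hyA : y ∈ A := hlow y hyc hcentral
          have := hfy 1
          rw [fA y hyA, map_one, mul_one] at this
          exact hc this.symm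
      intro x hx a ha
      have hz := zero_of_no_monomial {g : F → F | ∃ z ∈ X, f z = g} ⟨1, one_mem _, funext (fA 1 (one_mem A))⟩
        (by
          rintro _ ⟨z, hz, rfl⟩ _ ⟨z', hz', rfl⟩
          exact ⟨z * z', mul_mem hz hz', funext fun q => fmul z hz z' hz' q⟩)
        (by rintro _ ⟨z, hz, rfl⟩; exact fadd z hz)
        (by
          rintro k _ ⟨z, hz, rfl⟩
          refine ⟨d.μ k z, hXinv k z hz, funext fun q => ?_⟩
          have := ftw k z hz (((k⁻¹ : Fˣ) : F) * q)
          rwa [Units.mul_inv_cancel_left] at this)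
        (by
          rintro _ ⟨z, hz, rfl⟩ ⟨c, σ, hf⟩
          funext q
          rw [hf, hmon z hz c σ hf, zero_mul]; rfl)
      have hfin : dl x a ^ N = 1 := by
        refine d.eq_one_of_co (hD2 x hx a ha) ?_
        rw [fX x hx a ha, hz _ ⟨x, hx, rfl⟩]; rfl
      obtain ⟨u, hu, e'⟩ := ih x hx a ha
      rw [e', hpowt u hu] at hfin
      obtain ⟨w, hw, hwe⟩ := h.homocyclic (e - 1) (by omega) u hu hfin
      refine ⟨w, hw, ?_⟩
      rw [e', hwe, show e - (e - 1) = 1 by omega, ← pow_mul, pow_one, ← pow_succ']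
  have hXA : ∀ x ∈ X, ∀ a ∈ A, dl x a = 1 := fun x hx a ha => by
    obtain ⟨u, hu, e'⟩ := key e (by omega) le_rfl x hx a ha
    rw [e', h.expo u hu]
  have hXA' : ∀ x ∈ X, ∀ a ∈ A, x * a = a * x := fun x hx a ha => by
    have := hXA x hx a ha
    simp only [dl] at this
    exact mul_inv_eq_iff_eq_mul.1 (mul_inv_eq_one.1 this)
  have hdl : ∀ x ∈ X, ∀ y : P, dl y x ∈ A := fun x hx y => hx.2 y
  have hc2 : ∀ x ∈ X, ∀ y ∈ X, dl y x * dl y x = 1 := by
    intro x hx y hy
    have e1 := hXA y hy (x * x) hx.1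
    rw [show dl y (x * x) = dl y x * (dl x (dl y x) * dl y x) by simp only [dl]; group,
      hXA x hx (dl y x) (hdl x hx y), one_mul] at e1
    exact e1
  have hsv_mul : ∀ x ∈ X, ∀ y ∈ X, sv e (x * y) = sv e x * sv e y := by
    intro x hx y hy
    have hd := hdl x hx y
    have e1 : x * y * (x * y) = dl y x * ((x * x) * (y * y)) := by
      calc x * y * (x * y) = x * dl y x * (x * y * y) := by simp only [dl]; group
        _ = dl y x * x * (x * y * y) := by rw [hXA' x hx _ hd]
        _ = _ := by group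
    have c1 : Commute (dl y x) (x * x * (y * y)) := h.comm _ hd _ (mul_mem hx.1 hy.1)
    have c2 : Commute (x * x) (y * y) := h.comm _ hx.1 _ hy.1
    simp only [sv]
    rw [e1, c1.mul_pow, c2.mul_pow, show e - 1 = e - 2 + 1 by omega, pow_succ', pow_mul (dl y x),
      pow_two (dl y x), hc2 x hx y hy, one_pow, one_mul]
  have hsv_one : ∀ x ∈ X, sv e x = 1 → x ∈ A := by
    intro x hx h1
    obtain ⟨b, hb, hbe⟩ := h.homocyclic (e - 1) (by omega) (x * x) hx.1 h1
    rw [show e - (e - 1) = 1 by omega, pow_one] at hbe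
    have h2 : x * b⁻¹ * (x * b⁻¹) = 1 := by
      calc x * b⁻¹ * (x * b⁻¹) = x * (b⁻¹ * x) * b⁻¹ := by group
        _ = x * x * (b ^ 2)⁻¹ := by rw [← hXA' x hx _ (inv_mem hb)]; group
        _ = 1 := by rw [hbe, mul_inv_cancel]
    have h3 := mul_mem (h.inv_mem_of_sq (by omega) h2) hb
    rwa [inv_mul_cancel_right] at h3
  have hsame : ∀ {x y}, x ∈ X → y ∈ X → sv e x = sv e y → ∃ a ∈ A, x = y * a := by
    intro x y hx hy e'
    refine ⟨y⁻¹ * x, hsv_one _ (mul_mem (inv_mem hy) hx) ?_, by group⟩
    rw [hsv_mul _ (inv_mem hy) _ hx, e', ← hsv_mul _ (inv_mem hy) _ hy, inv_mul_cancel]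
    simp [sv]
  have hsv_sq : ∀ x ∈ X, sv e x * sv e x = 1 := fun x hx => h.top_sq (by omega) hx.1
  have hsv_surj : ∀ a : F, ∃ x ∈ X, sv e x = d.e a := by
    intro a
    by_cases ha : a = 0
    · exact ⟨1, one_mem _, by simp [sv, ha, d.e_zero]⟩
    obtain ⟨x, hx, hxA⟩ := d.exists_layer_not_mem A h.conj_mem hne
    have hx1 : sv e x ≠ 1 := fun e' => hxA (hsv_one x hx e')
    obtain ⟨k, hk⟩ := d.exists_μ ha (hsv_sq x hx) hx1
    exact ⟨d.μ k x, hXinv k x hx, by rw [sv_map, hk]⟩
  choose xs hxs hxse using hsv_surj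
  have hcl : ∀ x ∈ X, ∀ y ∈ X, ∀ z ∈ X, dl z (x * y) = dl z x * dl z y := by
    intro x hx y hy z hz
    rw [show dl z (x * y) = dl z x * (x * dl z y * x⁻¹) by simp only [dl]; group,
      hXA' x hx (dl z y) (hdl y hy z), mul_inv_cancel_right]
  have hinvd : ∀ x ∈ X, ∀ y ∈ X, dl x y = dl y x := by
    intro x hx y hy
    rw [show dl x y = (dl y x)⁻¹ by simp only [dl]; group]
    exact inv_eq_of_mul_eq_one_right (hc2 x hx y hy)
  have hD : ∀ z ∈ X, ∀ x ∈ X, ∀ y ∈ X, sv e x = sv e y → dl z x = dl z y := by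
    intro z hz x hx y hy e'
    obtain ⟨c, hc, rfl⟩ := hsame hx hy e'
    rw [hcl y hy c (hAX hc) z hz, hXA z hz c hc, mul_one]
  have hg := alt_equivariant_zero (fun p q => d.co (dl (xs p) (xs q))) ?_ ?_ ?_ ?_
  · have hcomm : ∀ x ∈ X, ∀ y ∈ X, x * y = y * x := by
      intro x hx y hy
      have := hg (d.co (sv e x)) (d.co (sv e y))
      rw [hD _ (hxs _) _ (hxs _) y hy (by rw [hxse, d.e_co (hsv_sq y hy)]), ← hinvd y hy _ (hxs _),
        hD y hy _ (hxs _) x hx (by rw [hxse, d.e_co (hsv_sq x hx)])] at this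
      have e1 := d.eq_one_of_co (hc2 x hx y hy) this
      simp only [dl] at e1
      exact (mul_inv_eq_iff_eq_mul.1 (mul_inv_eq_one.1 e1)).symm
    refine ⟨X, ⟨hcomm, fun x hx => ?_, ?_, hXinv, fun x hx p => ?_⟩, hAX⟩
    · rw [pow_succ', pow_mul, pow_two]
      exact h.expo _ hx.1
    · refine ⟨xs 1, hxs 1, fun e' => d.e_ne one_ne_zero ?_⟩
      rw [← hxse 1, sv, ← pow_two, ← pow_mul, ← pow_succ', show e - 1 + 1 = e + 1 - 1 by omega]
      exact e'
    · -- every element of `A` is a square in `X`
      have hv : dl p x ∈ A := hx.2 p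
      have hye := hxse (d.co (dl p x ^ 2 ^ (e - 1)))
      rw [d.e_co (h.top_sq (by omega) hv), sv] at hye
      set y := xs (d.co (dl p x ^ 2 ^ (e - 1))) with hy
      have hyX : y ∈ X := hxs _
      have hcc : Commute (dl p x) (y * y)⁻¹ := h.comm _ hv _ (inv_mem hyX.1)
      obtain ⟨b, hb, hbe⟩ := h.homocyclic (e - 1) (by omega) (dl p x * (y * y)⁻¹) (mul_mem hv (inv_mem hyX.1)) (by
        rw [hcc.mul_pow, inv_pow, hye, mul_inv_cancel])
      refine ⟨b * y, mul_mem (hAX hb) hyX, ?_⟩
      rw [pow_two, show b * y * (b * y) = b * (y * b) * y by group, hXA' y hyX b hb,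
        show b * (b * y) * y = b * b * (y * y) by group, ← pow_two b, show b ^ 2 = dl p x * (y * y)⁻¹ by
          rw [hbe, show e - (e - 1) = 1 by omega, pow_one], inv_mul_cancel_right]
  · intro p p' q
    rw [hinvd _ (hxs _) _ (hxs _), hD _ (hxs q) (xs (p + p')) (hxs _) (xs p * xs p') (mul_mem (hxs _) (hxs _))
      (by rw [hsv_mul _ (hxs _) _ (hxs _), hxse, hxse, hxse, d.e_add]), hcl _ (hxs _) _ (hxs _) _ (hxs _),
      d.co_mul (hc2 _ (hxs _) _ (hxs _)) (hc2 _ (hxs _) _ (hxs _)), hinvd _ (hxs q) _ (hxs p), hinvd _ (hxs q) _ (hxs p')]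
  · intro p q q'
    rw [hD _ (hxs p) (xs (q + q')) (hxs _) (xs q * xs q') (mul_mem (hxs _) (hxs _))
      (by rw [hsv_mul _ (hxs _) _ (hxs _), hxse, hxse, hxse, d.e_add]), hcl _ (hxs _) _ (hxs _) _ (hxs _),
      d.co_mul (hc2 _ (hxs _) _ (hxs _)) (hc2 _ (hxs _) _ (hxs _))]
  · intro p
    rw [show dl (xs p) (xs p) = 1 by simp only [dl]; group, d.co_one]
  · intro k hk p q
    let k' : Fˣ := Units.mk0 k hk
    have m1 := hXinv k' _ (hxs p)
    have m2 := hXinv k' _ (hxs q)
    have e1 : d.μ k' (dl (xs p) (xs q)) = dl (xs (k * p)) (xs (k * q)) := by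
      rw [dl_map', hD _ m1 _ m2 (xs (k * q)) (hxs _) (by rw [sv_map, hxse, hxse, d.μ_e, Units.val_mk0]),
        hinvd _ m1 _ (hxs _), hD _ (hxs (k * q)) _ m1 (xs (k * p)) (hxs _)
          (by rw [sv_map, hxse, hxse, d.μ_e, Units.val_mk0]), hinvd _ (hxs (k * q)) _ (hxs _)]
    rw [← e1, d.co_μ k' (hc2 _ (hxs _) _ (hxs _)), Units.val_mk0]

variable (d)

include d in
/-- the main theorem: all squares and commutators are central -/
theorem sq_dl_central [Finite P] [Finite F] [CharP F 2] (hF : ∃ k : Fˣ, k ≠ 1)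
    (hnc : ∃ x y : P, x * y ≠ y * x) :
    (∀ x : P, x * x ∈ Subgroup.center P) ∧ ∀ p x : P, dl p x ∈ Subgroup.center P := by
  classical
  have hcsq : ∀ x : P, x * x = 1 → x ∈ Subgroup.center P :=
    fun x hx => Subgroup.mem_center_iff.2 (d.sq_central hx)
  have hzc : ∀ a ∈ Subgroup.center P, ∀ p : P, p * a * p⁻¹ ∈ Subgroup.center P := fun a ha p => by
    rw [Subgroup.mem_center_iff.1 ha p, mul_inv_cancel_right]; exact ha
  set L := layer (Subgroup.center P) hzc with hL
  suffices hall : ∀ x : P, x ∈ L from ⟨fun x => (hall x).1, fun p x => (hall x).2 p⟩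
  by_contra hne
  have hLne : L ≠ ⊤ := fun e => hne fun x => e ▸ Subgroup.mem_top x
  have hLn : ∀ a ∈ L, ∀ p : P, p * a * p⁻¹ ∈ L := fun a ha p => by
    rw [show p * a * p⁻¹ = (p * a * p⁻¹ * a⁻¹) * a by group]
    exact mul_mem (layer_le _ _ (ha.2 p)) ha
  have hLinv : ∀ k, ∀ x ∈ L, d.μ k x ∈ L := fun k x hx =>
    layer_inv _ _ (fun k a ha => d.center_inv k ha) k hx
  have hdz : ∀ p, ∀ x ∈ L, dl p x ∈ Subgroup.center P := fun p x hx => hx.2 p
  -- squares, hence commutators, centralise the layer
  have hsqc : ∀ p : P, p * p ∈ Subgroup.centralizer (L : Set P) := by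
    intro p
    refine Subgroup.mem_centralizer_iff.2 fun x hx => ?_
    have hc := hdz p x hx
    have e1 : p * p * x * (p * p)⁻¹ * x⁻¹ = p * dl p x * p⁻¹ * dl p x := by simp only [dl]; group
    rw [Subgroup.mem_center_iff.1 hc p, mul_inv_cancel_right, d.center_sq hnc hc] at e1
    exact (mul_inv_eq_iff_eq_mul.1 (mul_inv_eq_one.1 e1)).symm
  have hdlc : ∀ p x : P, dl p x ∈ Subgroup.centralizer (L : Set P) := fun p x => by
    rw [show dl p x = (p * p) * ((p⁻¹ * x) * (p⁻¹ * x)) * (x⁻¹ * x⁻¹) by simp only [dl]; group]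
    exact mul_mem (mul_mem (hsqc _) (hsqc _)) (hsqc _)
  set A := L ⊓ Subgroup.centralizer (L : Set P) with hA
  have hAcomm : ∀ a ∈ A, ∀ b ∈ A, a * b = b * a := fun a ha b hb =>
    (Subgroup.mem_centralizer_iff.1 hb.2 a ha.1)
  by_cases hA1 : ∀ a ∈ A, a * a = 1
  · obtain ⟨y, hy, hyL⟩ := d.exists_layer_not_mem L hLn hLne
    exact hyL ⟨hcsq _ (hA1 _ ⟨hy.1, hsqc y⟩), fun p => hcsq _ (hA1 _ ⟨hy.2 p, hdlc p y⟩)⟩
  push Not at hA1
  obtain ⟨a0, ha0, ha01⟩ := hA1
  have ha4 : ∀ a ∈ L, a * a * (a * a) = 1 := fun a ha => d.center_sq hnc ha.1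
  have hAinv : ∀ k, ∀ a ∈ A, d.μ k a ∈ A := by
    intro k a ha
    refine ⟨hLinv k a ha.1, Subgroup.mem_centralizer_iff.2 fun x hx => ?_⟩
    obtain ⟨q, rfl⟩ := (d.μ k).surjective x
    have hq : q ∈ L := by
      have := hLinv k⁻¹ _ hx
      rwa [← MulAut.mul_apply, ← map_mul, inv_mul_cancel, map_one, MulAut.one_apply] at this
    rw [← map_mul, ← map_mul, Subgroup.mem_centralizer_iff.1 ha.2 q hq]
  have hsqrt : ∀ z ∈ Subgroup.center P, ∃ u ∈ A, z = u ^ 2 := by
    intro z hz
    by_cases hz1 : z = 1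
    · exact ⟨1, one_mem _, by rw [hz1, one_pow]⟩
    have hzz := d.center_sq hnc hz
    obtain ⟨k, hk⟩ := d.exists_μ (fun e => hz1 (d.eq_one_of_co hzz e)) (ha4 a0 ha0.1) ha01
    exact ⟨d.μ k a0, hAinv k a0 ha0, by rw [pow_two, ← map_mul, hk, d.e_co hzz]⟩
  have hW : Wk d A 2 := by
    refine ⟨hAcomm, fun a ha => ?_, ⟨a0, ha0, by rwa [pow_one, pow_two]⟩, hAinv,
      fun a ha p => hsqrt _ (hdz p a ha.1)⟩
    rw [show (2 : ℕ) ^ 2 = 2 + 2 by norm_num, pow_add, pow_two]
    exact ha4 a ha.1
  have hLA : L ≤ A := by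
    intro x hx
    obtain ⟨w, hw, hwe⟩ := hsqrt _ hx.1
    have hcw : Commute x w⁻¹ := (Subgroup.mem_centralizer_iff.1 (inv_mem hw.2) x hx)
    have h2 : x * w⁻¹ * (x * w⁻¹) = 1 := by
      rw [← pow_two, hcw.mul_pow, pow_two, hwe, inv_pow, mul_inv_cancel]
    have h3 := mul_mem (hW.inv_mem_of_sq (by omega) h2) hw
    rwa [inv_mul_cancel_right] at h3
  have hgrow : ∀ j, ∃ B : Subgroup P, Wk d B (2 + j) ∧ A ≤ B := by
    intro j
    induction j with
    | zero => exact ⟨A, hW, le_rfl⟩
    | succ j ih =>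
      obtain ⟨B, hB, hAB⟩ := ih
      obtain ⟨C, hC, hBC⟩ := hB.grow hF (by omega) (fun x h1 h2 => hAB (hLA ⟨h1, h2⟩)) fun htop => by
        obtain ⟨x, y, hxy⟩ := hnc
        exact hxy (hB.comm x (htop ▸ Subgroup.mem_top x) y (htop ▸ Subgroup.mem_top y))
      exact ⟨C, hC, hAB.trans hBC⟩
  obtain ⟨B, hB, -⟩ := hgrow (Nat.card P)
  obtain ⟨b, hb, hb1⟩ := hB.top
  obtain ⟨n, hn⟩ := IsPGroup.iff_card.1 d.pg
  refine hb1 ?_
  have hnlt : n ≤ 2 + Nat.card P - 1 := by
    have := Nat.lt_two_pow_self (n := n)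
    omega
  rw [← Nat.add_sub_cancel' hnlt, pow_add, pow_mul, ← hn, pow_card_eq_one', one_pow]

end Data

end Cfsg.Agent.Suzuki.TwoGroup
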