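import Cfsg.Agent.Suzuki.D4TwoUnip

/-! # Involutions of ³D₄ in characteristic two -/

set_option autoImplicit false
set_option maxHeartbeats 1000000
set_option linter.unusedSectionVars false

universe u

namespace Cfsg.Agent.Suzuki.D4Two

open Cfsg.Lie Cfsg.Agent.Chev
open scoped Matrix MatrixGroups

variable {K : Type u} [Field K] [CharP K 2] (τ : K →+* K) (hτ : ∀ x, (τ)^[3] x = x)

local notation "X" => Cert.xu cD

include hτ

theorem tau_three (x : K) : τ (τ (τ x)) = x := hτ x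

theorem two_zero : (2 : K) = 0 := CharTwo.two_eq_zero

/-- Multiplication in coordinates. -/
theorem El_mul {r d r' d' : K} (hr : τ r = r) (hd : τ d = d) (hr' : τ r' = r') (hd' : τ d' = d')
    (u v w z u' v' w' z' : K) :
    El τ u r v w d z * El τ u' r' v' w' d' z' = El τ (u + u') (r + r') (v + v' + r * u')
      (w + w' + τ u' * τ (τ v) + τ (τ u') * τ v + τ u' * τ (τ u') * r)
      (d + d' + (τ u' * τ w + τ (τ u') * τ (τ w) + u' * w) + (τ u' * τ (τ u') * v + τ u' * τ (τ v) * u' +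
        τ (τ u') * τ v * u') + τ u' * τ (τ u') * r * u')
      (z + z' + τ v' * τ w + d * r' + τ (τ v') * τ (τ w) + v' * w + τ u' * τ (τ v) * v + τ u' * τ (τ v) * v'
        + τ u' * τ (τ v') * v + τ u' * τ w * r' + τ (τ u') * τ v * v + τ (τ u') * τ v * v' + τ (τ u') * τ v' * v
        + τ (τ u') * τ (τ w) * r' + τ v * τ (τ v) * u' + τ v * τ (τ v') * u' + τ v' * τ (τ v) * u' + r' * u' * w
        + τ u' * τ (τ u') * r * v + τ u' * τ (τ u') * r * v' + τ u' * τ (τ u') * r' * v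
        + τ u' * τ (τ v) * r * u' + τ u' * τ (τ v) * r' * u' + τ u' * τ (τ v') * r * u' + τ (τ u') * τ v * r * u'
        + τ (τ u') * τ v * r' * u' + τ (τ u') * τ v' * r * u'
        + τ u' * τ (τ u') * r * r * u' + τ u' * τ (τ u') * r * r' * u') := by
  unfold El
  rw [P12_mul]
  refine P12_congr rfl ?_ ?_ rfl rfl ?_ ?_ rfl ?_ ?_ ?_ ?_ <;>
    (try simp only [map_add, map_mul, tau_three τ hτ, hr, hr']) <;> (try ring1)

theorem El_congr {u r v w d z u' r' v' w' d' z' : K} (hu : u = u') (hr : r = r') (hv : v = v') (hw : w = w')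
    (hd : d = d') (hz : z = z') : El τ u r v w d z = El τ u' r' v' w' d' z' := by
  subst_vars; rfl

theorem El_zero : El τ (0 : K) 0 0 0 0 0 = 1 := by simp [El, P12_zero]

local notation "S" => tD4 τ hτ

/-- Conjugacy in the twisted group. -/
def Rel (g h : G K) : Prop := ∃ k ∈ (S).small, k * g = h * k

theorem rel_trans {a b c : G K} (h1 : Rel τ hτ a b) (h2 : Rel τ hτ b c) : Rel τ hτ a c := by
  obtain ⟨k, hk, e⟩ := h1
  obtain ⟨l, hl, e'⟩ := h2
  exact ⟨l * k, mul_mem hl hk, by rw [mul_assoc, e, ← mul_assoc, e', mul_assoc]⟩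

theorem rel_sq {g h : G K} (h1 : Rel τ hτ g h) (h2 : g * g = 1) : h * h = 1 := by
  obtain ⟨k, -, e⟩ := h1
  rw [← eq_mul_inv_iff_mul_eq] at e
  calc h * h = k * (g * g) * k⁻¹ := by rw [show h = k * g * k⁻¹ from (mul_inv_eq_iff_eq_mul.2 (by
        rw [eq_mul_inv_iff_mul_eq] at e; exact e)).symm]; group
    _ = 1 := by rw [h2]; group

theorem mem_small {u r v w d z : K} (hr : τ r = r) (hd : τ d = d) (hz : τ z = z) : El τ u r v w d z ∈ (S).small :=
  (El_mem τ hτ hr hd hz).2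

variable [Finite K]

/-- The short fundamental root leads. -/
theorem caseU {u v w d z : K} (hu : u ≠ 0) (hd : τ d = d) (hz : τ z = z)
    (h2 : El τ u 0 v w d z * El τ u 0 v w d z = 1) : Rel τ hτ (El τ u 0 v w d z) (El τ u 0 0 0 0 0) := by
  have hu1 : τ u ≠ 0 := fun h => hu (τ.injective (h.trans (map_zero τ).symm))
  have hu2 : τ (τ u) ≠ 0 := fun h => hu1 (τ.injective (h.trans (map_zero τ).symm))
  have h0 : τ (0 : K) = 0 := map_zero τ
  have t2 := two_zero τ hτ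
  set N := u * τ u * τ (τ u) with hN
  have hNf : τ N = N := by rw [hN, map_mul, map_mul, tau_three τ hτ]; ring
  have hN0 : N ≠ 0 := mul_ne_zero (mul_ne_zero hu hu1) hu2
  have e := h2
  rw [El_mul τ hτ h0 hd h0 hd, ← El_zero τ hτ] at e
  obtain ⟨-, -, -, ew, -, -⟩ := El_inj τ e
  -- the ratio is fixed
  set ρ := v / u with hρ
  have hv : v = ρ * u := (div_mul_cancel₀ v hu).symm
  have hρf : τ ρ = ρ := by
    have h1 : τ u * τ (τ u) * (τ (τ ρ) + τ ρ) = 0 := by
      rw [hv] at ew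
      simp only [map_mul] at ew
      linear_combination ew - w * t2
    have h3 : τ (τ ρ) = τ ρ := CharTwo.add_eq_zero.1 ((mul_eq_zero.1 h1).resolve_left (mul_ne_zero hu1 hu2))
    exact τ.injective h3
  set w1 := w + τ u * τ (τ u) * ρ with hw1
  set d1 := d + N * ρ with hd1
  set z1 := z + d1 * ρ with hz1
  have hd1f : τ d1 = d1 := by rw [hd1, map_add, map_mul, hd, hNf, hρf]
  have hz1f : τ z1 = z1 := by rw [hz1, map_add, map_mul, hz, hd1f, hρf]
  have step1 : Rel τ hτ (El τ u 0 v w d z) (El τ u 0 0 w1 d1 z1) := by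
    refine ⟨El τ 0 ρ 0 0 0 0, mem_small τ hτ hρf h0 h0, ?_⟩
    rw [El_mul τ hτ hρf h0 h0 hd, El_mul τ hτ h0 hd1f hρf h0]
    refine El_congr τ hτ ?_ ?_ ?_ ?_ ?_ ?_ <;> (try simp only [hv, hw1, hd1, hz1, hN, map_mul, map_add, map_zero, hρf]) <;>
      (try ring1)
    · linear_combination ρ * u * t2
    · linear_combination (u * τ u * τ (τ u) * ρ ^ 2 - d * ρ) * t2
  have e1 := rel_sq τ hτ step1 h2
  rw [El_mul τ hτ h0 hd1f h0 hd1f, ← El_zero τ hτ] at e1
  obtain ⟨-, -, -, -, ed1, -⟩ := El_inj τ e1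
  simp only [map_zero] at ed1
  have htr : τ u * τ w1 + τ (τ u) * τ (τ w1) + u * w1 = 0 := by linear_combination ed1 - d1 * t2
  -- remove the coordinate in the orbit of `17`
  set m := w1 / (τ u * τ (τ u)) with hm
  have hwm : w1 = τ u * τ (τ u) * m := (mul_div_cancel₀ _ (mul_ne_zero hu1 hu2)).symm
  have hTm : m + τ m + τ (τ m) = 0 := by
    have : N * (m + τ m + τ (τ m)) = 0 := by
      rw [hwm] at htr
      simp only [map_mul, tau_three τ hτ] at htr
      rw [hN]; linear_combination htr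
    exact (mul_eq_zero.1 this).resolve_left hN0
  set v2 := u * m with hv2
  set d2 := d1 + (τ u * τ (τ u) * v2 + τ u * τ (τ v2) * u + τ (τ u) * τ v2 * u) with hd2
  set z2 := z1 + (τ u * τ (τ v2) * v2 + τ (τ u) * τ v2 * v2 + τ v2 * τ (τ v2) * u) with hz2
  have hd2f : τ d2 = d2 := by
    rw [hd2]; simp only [map_add, map_mul, tau_three τ hτ, hd1f]; ring
  have hz2f : τ z2 = z2 := by
    rw [hz2]; simp only [map_add, map_mul, tau_three τ hτ, hz1f]; ring
  have step2 : Rel τ hτ (El τ u 0 0 w1 d1 z1) (El τ u 0 0 0 d2 z2) := by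
    refine ⟨El τ 0 0 v2 0 0 0, mem_small τ hτ h0 h0 h0, ?_⟩
    rw [El_mul τ hτ h0 h0 h0 hd1f, El_mul τ hτ h0 hd2f h0 h0]
    refine El_congr τ hτ ?_ ?_ ?_ ?_ ?_ ?_ <;> (try simp only [hd2, hz2, map_zero]) <;> (try ring1)
    rw [hwm, hv2]; simp only [map_mul]; linear_combination τ u * τ (τ u) * hTm
  -- remove the fixed coordinates
  have killD : ∀ d z : K, τ d = d → τ z = z → Rel τ hτ (El τ u 0 0 0 d z) (El τ u 0 0 0 0 z) := by
    intro d z hd hz
    have h1 : τ u * τ (d / u) = d := by rw [← map_mul, mul_div_cancel₀ _ hu, hd]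
    have h2 : τ (τ u) * τ (τ (d / u)) = d := by rw [← map_mul, h1, hd]
    refine ⟨El τ 0 0 0 (d / u) 0 0, mem_small τ hτ h0 h0 h0, ?_⟩
    rw [El_mul τ hτ h0 h0 h0 hd, El_mul τ hτ h0 h0 h0 h0]
    refine El_congr τ hτ ?_ ?_ ?_ ?_ ?_ ?_ <;> (try simp only [map_zero]) <;> (try ring1)
    linear_combination h1 + h2 + mul_div_cancel₀ d hu + 2 * d * t2
  obtain ⟨σ, hσ⟩ : IsSquare (z2 / N) :=
    FiniteField.isSquare_of_char_two (ringChar.eq_iff.mpr inferInstance : ringChar K = 2) _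
  have hσf : τ σ = σ := by
    refine CharTwo.add_eq_zero.1 (mul_self_eq_zero.1 ?_)
    have : τ (z2 / N) = z2 / N := by rw [map_div₀, hz2f, hNf]
    rw [hσ, map_mul] at this
    linear_combination this + (τ σ * σ + σ * σ) * t2
  have hzσ : z2 = N * (σ * σ) := by rw [← hσ, mul_div_cancel₀ _ hN0]
  have step4 : Rel τ hτ (El τ u 0 0 0 0 z2) (El τ u 0 0 0 (N * σ) 0) := by
    refine ⟨El τ 0 0 (σ * u) 0 0 0, mem_small τ hτ h0 h0 h0, ?_⟩
    rw [El_mul τ hτ h0 h0 h0 h0, El_mul τ hτ h0 (by rw [map_mul, hNf, hσf]) h0 h0]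
    refine El_congr τ hτ ?_ ?_ ?_ ?_ ?_ ?_ <;> (try simp only [hzσ, hN, map_mul, map_zero, hσf]) <;> (try ring1)
    · linear_combination σ * τ u * τ (τ u) * t2
    · linear_combination σ * u * τ u * τ (τ u) * t2
    · linear_combination 2 * σ * σ * u * τ u * τ (τ u) * t2
  exact rel_trans τ hτ (rel_trans τ hτ (rel_trans τ hτ step1 step2) (killD d2 z2 hd2f hz2f))
    (rel_trans τ hτ step4 (killD _ _ (by rw [map_mul, hNf, hσf]) h0))

/-- Moving by a fundamental reflection. -/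
theorem weyl_move {i : ℕ} (hi : i < chevD4.rank) :
    ∃ n ∈ (S).small, ∀ r < 24, ∀ t : K, ∀ z : G K,
      n * (X r t * z) = X (act chevD4 (gD4a.oWord [i]) r) t * (n * z) := by
  have hL : ∀ a ∈ [i], a < chevD4.rank := by simpa using hi
  refine ⟨(S).nSeq [i], (S).nSeq_mem hL, fun r hr t z => ?_⟩
  have e := cD.conj_xu_two (F := K) ((S).oWord_lt hL) (show r < chevD4.nroots from hr) t
  rw [← mul_assoc, ← mul_assoc]
  congr 1
  exact mul_inv_eq_iff_eq_mul.1 e

omit hτ in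
theorem act_data :
    (∀ p ∈ ([(14, 22), (17, 19), (20, 16), (21, 15), (22, 14), (23, 23), (19, 17), (16, 20), (15, 21)] : List (ℕ × ℕ)),
      act chevD4 (gD4a.oWord [0]) p.1 = p.2) ∧
    (∀ p ∈ ([(18, 19), (13, 16), (12, 15), (19, 18), (16, 13), (15, 12), (17, 17), (20, 20), (21, 21), (22, 23), (23, 22)] :
      List (ℕ × ℕ)), act chevD4 (gD4a.oWord [1]) p.1 = p.2) ∧ 0 < chevD4.rank ∧ 1 < chevD4.rank := by
  decide +kernel

theorem move_a (r v w : K) (hr : τ r = r) :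
    Rel τ hτ (El τ 0 r v w 0 0) (El τ 0 0 w v r (w * v + τ w * τ v + τ (τ w) * τ (τ v))) := by
  obtain ⟨ha, -, h0, -⟩ := act_data
  obtain ⟨n, hn, hm⟩ := weyl_move τ hτ h0
  refine ⟨n, hn, ?_⟩
  have h00 : τ (0 : K) = 0 := map_zero τ
  have key : El τ 0 0 w v r (w * v + τ w * τ v + τ (τ w) * τ (τ v)) =
      El τ 0 0 0 0 r 0 * (El τ 0 0 0 v 0 0 * El τ 0 0 w 0 0 0) := by
    rw [El_mul τ hτ h00 h00 h00 h00, El_mul τ hτ h00 hr (by simp) (by simp)]
    refine El_congr τ hτ ?_ ?_ ?_ ?_ ?_ ?_ <;> (try simp only [map_zero]) <;> (try ring1)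
  have e' : El τ 0 r v w 0 0 = X 14 r * (X 19 v * (X 16 (τ v) * (X 15 (τ (τ v)) * (X 17 w * (X 20 (τ w) *
      (X 21 (τ (τ w)) * 1)))))) := by simp [El, P12, cD.xu_zero]
  have e'' : El τ 0 0 0 0 r 0 * (El τ 0 0 0 v 0 0 * El τ 0 0 w 0 0 0) = X 22 r * (X 17 v * (X 20 (τ v) *
      (X 21 (τ (τ v)) * (X 19 w * (X 16 (τ w) * X 15 (τ (τ w))))))) := by
    simp [El, P12, cD.xu_zero, mul_assoc]
  rw [key, e', e'']
  have hm' : ∀ r < 24, ∀ t : K, n * X r t = X (act chevD4 (gD4a.oWord [0]) r) t * n := fun r hr t => by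
    simpa using hm r hr t 1
  simp only [hm, hm', Nat.reduceLT, ha (14, 22) (by simp), ha (19, 17) (by simp), ha (16, 20) (by simp),
    ha (15, 21) (by simp), ha (17, 19) (by simp), ha (20, 16) (by simp), ha (21, 15) (by simp), mul_one, mul_assoc]

theorem move_b (u v w d z : K) (h : u = 0 ∨ v = 0) : Rel τ hτ (El τ u 0 v w d z) (El τ v 0 u w z d) := by
  obtain ⟨-, hb, -, h1⟩ := act_data
  obtain ⟨n, hn, hm⟩ := weyl_move τ hτ h1
  refine ⟨n, hn, ?_⟩
  have e : ∀ u v w d z : K, El τ u 0 v w d z = X 18 u * (X 13 (τ u) * (X 12 (τ (τ u)) * (X 19 v * (X 16 (τ v) *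
      (X 15 (τ (τ v)) * (X 17 w * (X 20 (τ w) * (X 21 (τ (τ w)) * (X 22 d * (X 23 z * 1)))))))))) := fun u v w d z => by
    simp [El, P12, cD.xu_zero]
  rw [e, e]
  have hm' : ∀ r < 24, ∀ t : K, n * X r t = X (act chevD4 (gD4a.oWord [1]) r) t * n := fun r hr t => by
    simpa using hm r hr t 1
  simp only [hm, hm', Nat.reduceLT, hb (18, 19) (by simp), hb (13, 16) (by simp), hb (12, 15) (by simp),
    hb (19, 18) (by simp), hb (16, 13) (by simp), hb (15, 12) (by simp), hb (17, 17) (by simp),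
    hb (20, 20) (by simp), hb (21, 21) (by simp), hb (22, 23) (by simp), hb (23, 22) (by simp), mul_one]
  rcases h with rfl | rfl <;>
    simp only [map_zero, cD.xu_zero, one_mul, mul_assoc, w23_22]

/-- Every involution of the Sylow subgroup is conjugate to one of two normal forms. -/
theorem classify {u r v w d z : K} (hr : τ r = r) (hd : τ d = d) (hz : τ z = z)
    (h2 : El τ u r v w d z * El τ u r v w d z = 1) (h1 : El τ u r v w d z ≠ 1) :
    (∃ c : K, c ≠ 0 ∧ τ c = c ∧ Rel τ hτ (El τ u r v w d z) (El τ 0 0 0 0 0 c)) ∨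
      ∃ c : K, c ≠ 0 ∧ Rel τ hτ (El τ u r v w d z) (El τ 0 0 0 c 0 0) := by
  have h0 : τ (0 : K) = 0 := map_zero τ
  have t2 := two_zero τ hτ
  have fromU : ∀ {u v w d z : K}, u ≠ 0 → τ d = d → τ z = z → El τ u 0 v w d z * El τ u 0 v w d z = 1 →
      ∃ c : K, c ≠ 0 ∧ Rel τ hτ (El τ u 0 v w d z) (El τ 0 0 0 c 0 0) := fun {u v w d z} hu hd hz h =>
    ⟨u, hu, rel_trans τ hτ (caseU τ hτ hu hd hz h)
      (rel_trans τ hτ (move_b τ hτ u 0 0 0 0 (Or.inr rfl)) (by simpa using move_a τ hτ 0 u 0 h0))⟩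
  have fromV : ∀ {v w d z : K}, v ≠ 0 → τ d = d → τ z = z → El τ 0 0 v w d z * El τ 0 0 v w d z = 1 →
      ∃ c : K, c ≠ 0 ∧ Rel τ hτ (El τ 0 0 v w d z) (El τ 0 0 0 c 0 0) := fun {v w d z} hv hd hz h => by
    have m := move_b τ hτ 0 v w d z (Or.inl rfl)
    obtain ⟨c, hc, e⟩ := fromU hv hz hd (rel_sq τ hτ m h)
    exact ⟨c, hc, rel_trans τ hτ m e⟩
  have e := h2
  rw [El_mul τ hτ hr hd hr hd, ← El_zero τ hτ] at e
  obtain ⟨-, -, ev, -, -, ez⟩ := El_inj τ e
  have hru : r * u = 0 := by linear_combination ev - v * t2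
  by_cases hu : u = 0
  swap
  · obtain rfl : r = 0 := (mul_eq_zero.1 hru).resolve_right hu
    exact Or.inr (fromU hu hd hz h2)
  subst hu
  by_cases hr0 : r = 0
  · subst hr0
    by_cases hv : v = 0
    swap
    · exact Or.inr (fromV hv hd hz h2)
    subst hv
    by_cases hw : w = 0
    · subst hw
      left
      by_cases hd0 : d = 0
      · subst hd0
        exact ⟨z, fun h => h1 (by rw [h, El_zero τ hτ]), hz, ⟨1, one_mem _, by simp⟩⟩
      · have hs : τ (z / d) = z / d := by rw [map_div₀, hz, hd]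
        have step : Rel τ hτ (El τ 0 0 0 0 d z) (El τ 0 0 0 0 d 0) := by
          refine ⟨El τ 0 (z / d) 0 0 0 0, mem_small τ hτ hs h0 h0, ?_⟩
          rw [El_mul τ hτ hs h0 h0 hd, El_mul τ hτ h0 hd hs h0]
          refine El_congr τ hτ ?_ ?_ ?_ ?_ ?_ ?_ <;> (try simp only [map_zero]) <;> (try ring1)
          linear_combination -(mul_div_cancel₀ z hd0)
        exact ⟨d, hd0, hd, rel_trans τ hτ step (move_b τ hτ 0 0 0 d 0 (Or.inl rfl))⟩
    · right
      have h1' : τ (d / w) * τ w = d := by rw [← map_mul, div_mul_cancel₀ _ hw, hd]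
      have h2' : τ (τ (d / w)) * τ (τ w) = d := by rw [← map_mul, h1', hd]
      have step : Rel τ hτ (El τ 0 0 0 w d z) (El τ 0 0 0 w 0 z) := by
        refine ⟨El τ (d / w) 0 0 0 0 0, mem_small τ hτ h0 h0 h0, ?_⟩
        rw [El_mul τ hτ h0 h0 h0 hd, El_mul τ hτ h0 h0 h0 h0]
        refine El_congr τ hτ ?_ ?_ ?_ ?_ ?_ ?_ <;> (try simp only [map_zero]) <;> (try ring1)
        linear_combination -h1' - h2' - div_mul_cancel₀ d hw - d * t2
      have h1z : τ (z / w) * τ w = z := by rw [← map_mul, div_mul_cancel₀ _ hw, hz]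
      have h2z : τ (τ (z / w)) * τ (τ w) = z := by rw [← map_mul, h1z, hz]
      have step2 : Rel τ hτ (El τ 0 0 0 w 0 z) (El τ 0 0 0 w 0 0) := by
        refine ⟨El τ 0 0 (z / w) 0 0 0, mem_small τ hτ h0 h0 h0, ?_⟩
        rw [El_mul τ hτ h0 h0 h0 h0, El_mul τ hτ h0 h0 h0 h0]
        refine El_congr τ hτ ?_ ?_ ?_ ?_ ?_ ?_ <;> (try simp only [map_zero]) <;> (try ring1)
        linear_combination -h1z - h2z - div_mul_cancel₀ z hw - z * t2
      exact ⟨w, hw, rel_trans τ hτ step step2⟩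
  · -- the long fundamental root leads
    set u0 := v / r with hu0
    have hvr : r * u0 = v := mul_div_cancel₀ _ hr0
    set w' := w + τ u0 * τ (τ u0) * r with hw'
    set d' := d + (τ u0 * τ w' + τ (τ u0) * τ (τ w') + u0 * w') + τ u0 * τ (τ u0) * r * u0 with hd'
    set z' := z + τ u0 * τ (τ u0) * r * r * u0 with hz'
    have hd'f : τ d' = d' := by rw [hd']; simp only [map_add, map_mul, tau_three τ hτ, hd, hr]; ring
    have hz'f : τ z' = z' := by rw [hz']; simp only [map_mul, map_add, tau_three τ hτ, hz, hr]; ring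
    have step : Rel τ hτ (El τ 0 r v w d z) (El τ 0 r 0 w' d' z') := by
      refine ⟨El τ u0 0 0 0 0 0, mem_small τ hτ h0 h0 h0, ?_⟩
      rw [El_mul τ hτ h0 h0 hr hd, El_mul τ hτ hr hd'f h0 h0]
      refine El_congr τ hτ ?_ ?_ ?_ ?_ ?_ ?_ <;> (try simp only [map_zero]) <;> (try ring1)
      · linear_combination -hvr
      · rw [hw']; linear_combination -(τ u0 * τ (τ u0) * r) * t2
      · rw [hd']
        linear_combination -((τ u0 * τ w' + τ (τ u0) * τ (τ w') + u0 * w') + τ u0 * τ (τ u0) * r * u0) * t2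
      · rw [hz']; linear_combination -(τ u0 * τ (τ u0) * r * r * u0) * t2
    have e' := rel_sq τ hτ step h2
    rw [El_mul τ hτ hr hd'f hr hd'f, ← El_zero τ hτ] at e'
    obtain ⟨-, -, -, -, -, ez'⟩ := El_inj τ e'
    simp only [map_zero] at ez'
    have hd0 : d' = 0 := by
      have : d' * r = 0 := by linear_combination ez' - z' * t2
      exact (mul_eq_zero.1 this).resolve_right hr0
    rw [hd0] at step
    have hs : τ (z' / r) = z' / r := by rw [map_div₀, hz'f, hr]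
    have step2 : Rel τ hτ (El τ 0 r 0 w' 0 z') (El τ 0 r 0 w' 0 0) := by
      refine ⟨El τ 0 0 0 0 (z' / r) 0, mem_small τ hτ h0 hs h0, ?_⟩
      rw [El_mul τ hτ h0 hs hr h0, El_mul τ hτ hr h0 h0 hs]
      refine El_congr τ hτ ?_ ?_ ?_ ?_ ?_ ?_ <;> (try simp only [map_zero]) <;> (try ring1)
      linear_combination div_mul_cancel₀ z' hr0 + z' * t2
    have step3 := rel_trans τ hτ (rel_trans τ hτ step step2) (move_a τ hτ r 0 w' hr)
    by_cases hw0 : w' = 0
    · left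
      simp only [hw0, map_zero, mul_zero, add_zero] at step3
      exact ⟨r, hr0, hr, rel_trans τ hτ step3 (move_b τ hτ 0 0 0 r 0 (Or.inl rfl))⟩
    · right
      simp only [map_zero, mul_zero, add_zero] at step3
      obtain ⟨c, hc, e3⟩ := fromV hw0 hr h0 (rel_sq τ hτ step3 h2)
      exact ⟨c, hc, rel_trans τ hτ step3 e3⟩

end Cfsg.Agent.Suzuki.D4Two
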