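import Cfsg.Agent.Suzuki.F4TwoUnip

/-! # Involutions of the maximal unipotent subgroup of ²F₄ -/

set_option autoImplicit false
set_option maxHeartbeats 1000000
set_option maxRecDepth 4000
set_option linter.unusedSectionVars false

universe u

namespace Cfsg.Agent.Suzuki.F4Two

open Cfsg.Lie Cfsg.Agent.Chev Cfsg.Agent.Chev.Ree4
open scoped Matrix MatrixGroups

variable {K : Type u} [Field K] [CharP K 2]

local notation "X" => Cert.xu cF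

/-- Conjugacy in a subgroup. -/
def Rel (S : Subgroup (GG K)) (g h : GG K) : Prop := ∃ k ∈ S, g * k = k * h

theorem rel_trans {S : Subgroup (GG K)} {a b c : GG K} (h1 : Rel S a b) (h2 : Rel S b c) : Rel S a c := by
  obtain ⟨k, hk, e⟩ := h1
  obtain ⟨l, hl, e'⟩ := h2
  exact ⟨k * l, mul_mem hk hl, by rw [← mul_assoc, e, mul_assoc, e', mul_assoc]⟩

theorem rel_sq {S : Subgroup (GG K)} {g h : GG K} (h1 : Rel S g h) (h2 : g * g = 1) : h * h = 1 := by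
  obtain ⟨k, -, e⟩ := h1
  refine mul_left_cancel (a := k) ?_
  rw [← mul_assoc, ← e, mul_assoc, ← e, ← mul_assoc, h2, one_mul, mul_one]

/-- The image under the first fundamental reflection. -/
def refl0 (e : K →+* K) (p : Co K) : Co K :=
  mulC e (⟨0, 0, 0, 0, 0, 0, 0, 0, 0, 0, p.a2, p.b2⟩ : Co K)
    (mulC e (⟨0, 0, 0, 0, 0, 0, 0, 0, 0, p.u3, 0, 0⟩ : Co K)
    (mulC e (⟨0, 0, 0, 0, 0, 0, 0, p.a4, p.b4, 0, 0, 0⟩ : Co K)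
    (mulC e (⟨0, 0, 0, 0, 0, 0, p.u5, 0, 0, 0, 0, 0⟩ : Co K)
    (mulC e (⟨0, 0, 0, 0, p.a6, p.b6, 0, 0, 0, 0, 0, 0⟩ : Co K)
    (mulC e (⟨0, 0, 0, p.u7, 0, 0, 0, 0, 0, 0, 0, 0⟩ : Co K)
    ((⟨0, p.a8, p.b8, 0, 0, 0, 0, 0, 0, 0, 0, 0⟩ : Co K)))))))

/-- The image under the second fundamental reflection. -/
def refl1 (e : K →+* K) (p : Co K) : Co K :=
  mulC e (⟨0, 0, 0, 0, 0, 0, 0, 0, 0, p.u1, 0, 0⟩ : Co K)
    (mulC e (⟨0, 0, 0, 0, 0, 0, 0, p.a2, p.b2, 0, 0, 0⟩ : Co K)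
    (mulC e (⟨0, 0, 0, 0, 0, 0, p.u3, 0, 0, 0, 0, 0⟩ : Co K)
    (mulC e (⟨0, 0, 0, 0, p.a4, p.b4, 0, 0, 0, 0, 0, 0⟩ : Co K)
    (mulC e (⟨0, 0, 0, p.u5, 0, 0, 0, 0, 0, 0, 0, 0⟩ : Co K)
    (mulC e (⟨0, p.a6, p.b6, 0, 0, 0, 0, 0, 0, 0, 0, 0⟩ : Co K)
    ((⟨p.u7, 0, 0, 0, 0, 0, 0, 0, 0, 0, 0, 0⟩ : Co K)))))))

theorem El_zero (e : K →+* K) : El e (Co.zero : Co K) = 1 := by simp [El, Co.zero, Cert.xu_zero]

variable {e : K →+* K}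

/-- Data of the twisted group used in the classification. -/
structure Grp (S : Subgroup (GG K)) (e : K →+* K) : Prop where
  sq : ∀ x, e (e x) = x ^ 2
  surj : Function.Surjective e
  mem : ∀ p : Co K, El e p ∈ S
  refl : ∀ k < 16, nk K k ∈ S

variable {S : Subgroup (GG K)} (D : Grp S e)
include D

theorem move {p q : Co K} (k kinv : Co K) (h0 : mulC e k kinv = Co.zero)
    (h1 : mulC e (mulC e kinv p) k = q) : Rel S (El e p) (El e q) := by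
  refine ⟨El e k, D.mem k, ?_⟩
  have h2 : El e k * El e kinv = 1 := by rw [El_mul D.sq, h0, El_zero]
  rw [← h1, ← El_mul D.sq, ← El_mul D.sq, ← mul_assoc, ← mul_assoc, h2, one_mul]

theorem sq_co {p : Co K} (h : El e p * El e p = 1) : mulC e p p = Co.zero := by
  rw [El_mul D.sq, ← El_zero e] at h
  exact El_inj h

theorem e_ne {x : K} (h : x ≠ 0) : e x ≠ 0 := (map_ne_zero e).2 h

theorem act_data :
    (∀ p ∈ ([(34, 27), (26, 25), (36, 28), (42, 30), (38, 37), (43, 32), (29, 35), (41, 31), (44, 40), (47, 46), (39, 39), (45, 45), (35, 29), (31, 41), (40, 44), (46, 47), (37, 38), (32, 43), (27, 34), (25, 26), (28, 36), (30, 42)] : List (ℕ × ℕ)), act chevF4 (wdF 1) p.1 = p.2) ∧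
    (∀ p ∈ ([(33, 37), (24, 32), (34, 35), (26, 31), (36, 40), (42, 46), (38, 39), (43, 45), (29, 29), (41, 41), (44, 44), (47, 47), (39, 38), (45, 43), (35, 34), (31, 26), (40, 36), (46, 42), (37, 33), (32, 24)] : List (ℕ × ℕ)), act chevF4 (wdF 2) p.1 = p.2) := by
  decide +kernel

theorem move_refl0 {p : Co K} (hu1 : p.u1 = 0) : Rel S (El e p) (El e (refl0 e p)) := by
  refine ⟨(nk K 1)⁻¹, inv_mem (D.refl 1 (by norm_num)), ?_⟩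
  rw [eq_inv_mul_iff_mul_eq, ← mul_assoc, mul_inv_eq_iff_eq_mul]
  have hm : ∀ r < 48, ∀ t : K, ∀ z : GG K, nk K 1 * (X r t * z) = X (act chevF4 (wdF 1) r) t * (nk K 1 * z) :=
    fun r hr t z => by
      have hc : nk K 1 * X r t * (nk K 1)⁻¹ = X (act chevF4 (wdF 1) r) t :=
        cF.conj_xu_two (flatF_lt _) hr t
      rw [← mul_assoc, mul_inv_eq_iff_eq_mul.1 hc, mul_assoc]
  have hm' : ∀ r < 48, ∀ t : K, nk K 1 * X r t = X (act chevF4 (wdF 1) r) t * nk K 1 := fun r hr t => by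
    simpa using hm r hr t 1
  have ha := (act_data D).1
  simp only [refl0, ← El_mul D.sq]
  simp only [El, hu1, map_zero, mul_zero, zero_mul, add_zero, zero_add, Cert.xu_zero, one_mul, mul_one,
    mul_assoc]
  simp only [hm, hm', Nat.reduceLT, ha (34, 27) (by simp), ha (26, 25) (by simp), ha (36, 28) (by simp), ha (42, 30) (by simp), ha (38, 37) (by simp), ha (43, 32) (by simp), ha (29, 35) (by simp), ha (41, 31) (by simp), ha (44, 40) (by simp), ha (47, 46) (by simp), ha (39, 39) (by simp), ha (45, 45) (by simp), ha (35, 29) (by simp), ha (31, 41) (by simp), ha (40, 44) (by simp), ha (46, 47) (by simp), ha (37, 38) (by simp), ha (32, 43) (by simp), ha (27, 34) (by simp), ha (25, 26) (by simp), ha (28, 36) (by simp), ha (30, 42) (by simp), mul_assoc, mul_one, one_mul]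

theorem move_refl1 {p : Co K} (ha8 : p.a8 = 0) (hb8 : p.b8 = 0) : Rel S (El e p) (El e (refl1 e p)) := by
  refine ⟨(nk K 2)⁻¹, inv_mem (D.refl 2 (by norm_num)), ?_⟩
  rw [eq_inv_mul_iff_mul_eq, ← mul_assoc, mul_inv_eq_iff_eq_mul]
  have hm : ∀ r < 48, ∀ t : K, ∀ z : GG K, nk K 2 * (X r t * z) = X (act chevF4 (wdF 2) r) t * (nk K 2 * z) :=
    fun r hr t z => by
      have hc : nk K 2 * X r t * (nk K 2)⁻¹ = X (act chevF4 (wdF 2) r) t :=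
        cF.conj_xu_two (flatF_lt _) hr t
      rw [← mul_assoc, mul_inv_eq_iff_eq_mul.1 hc, mul_assoc]
  have hm' : ∀ r < 48, ∀ t : K, nk K 2 * X r t = X (act chevF4 (wdF 2) r) t * nk K 2 := fun r hr t => by
    simpa using hm r hr t 1
  have ha := (act_data D).2
  simp only [refl1, ← El_mul D.sq]
  simp only [El, ha8, hb8, map_zero, mul_zero, zero_mul, add_zero, zero_add, Cert.xu_zero, one_mul, mul_one,
    mul_assoc]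
  simp only [hm, hm', Nat.reduceLT, ha (33, 37) (by simp), ha (24, 32) (by simp), ha (34, 35) (by simp), ha (26, 31) (by simp), ha (36, 40) (by simp), ha (42, 46) (by simp), ha (38, 39) (by simp), ha (43, 45) (by simp), ha (29, 29) (by simp), ha (41, 41) (by simp), ha (44, 44) (by simp), ha (47, 47) (by simp), ha (39, 38) (by simp), ha (45, 43) (by simp), ha (35, 34) (by simp), ha (31, 26) (by simp), ha (40, 36) (by simp), ha (46, 42) (by simp), ha (37, 33) (by simp), ha (32, 24) (by simp), mul_assoc, mul_one, one_mul]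

/-- The first coordinate leads. -/
theorem caseA {p : Co K} (hu : p.u1 ≠ 0) (ha8 : p.a8 = 0) (hb8 : p.b8 = 0) (h2 : El e p * El e p = 1) :
    Rel S (El e p) (El e ⟨p.u1, 0, 0, 0, 0, 0, 0, 0, 0, 0, 0, 0⟩) := by
  have hu' := e_ne D hu
  have t2 : (2 : K) = 0 := CharTwo.two_eq_zero
  obtain ⟨u1, a2, b2, u3, a4, b4, u5, a6, b6, u7, a8, b8⟩ := p
  simp only at hu hu' ha8 hb8 ⊢
  subst ha8 hb8
  -- a2
  set t := a2 / u1
  have ht : t * u1 = a2 := div_mul_cancel₀ _ hu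
  obtain ⟨q, hq, R1, qa2, qa8, qb8⟩ : ∃ q : Co K, q.u1 = u1 ∧ Rel S (El e ⟨u1, a2, b2, u3, a4, b4, u5, a6, b6, u7, 0, 0⟩) (El e q) ∧
      q.a2 = 0 ∧ q.a8 = 0 ∧ q.b8 = 0 := by
    refine ⟨_, ?_, move D ⟨0, 0, 0, 0, 0, 0, 0, 0, 0, 0, t, 0⟩ ⟨0, 0, 0, 0, 0, 0, 0, 0, 0, 0, t, t * e t⟩ ?_ rfl, ?_, ?_, ?_⟩
    · simp
    · ext <;> simp [Co.zero, D.sq, CharTwo.add_self_eq_zero] <;> grind
    · simp <;> grind
    · simp <;> grind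
    · simp <;> grind
  obtain ⟨qu, qa, b2, u3, a4, b4, u5, a6, b6, u7, qc, qd⟩ := q
  simp only at hq qa2 qa8 qb8
  subst hq qa2 qa8 qb8
  -- a4 and a6
  obtain ⟨t, ht⟩ : ∃ t, t * e qu = a4 := ⟨a4 / e qu, div_mul_cancel₀ _ hu'⟩
  obtain ⟨q, hq, R2, qa2, qa4, qa8, qb8⟩ : ∃ q : Co K, q.u1 = qu ∧
      Rel S (El e ⟨qu, 0, b2, u3, a4, b4, u5, a6, b6, u7, 0, 0⟩) (El e q) ∧
      q.a2 = 0 ∧ q.a4 = 0 ∧ q.a8 = 0 ∧ q.b8 = 0 := by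
    refine ⟨_, ?_, move D ⟨0, 0, 0, 0, 0, 0, 0, 0, 0, 0, 0, t⟩ ⟨0, 0, 0, 0, 0, 0, 0, 0, 0, 0, 0, t⟩ ?_ rfl, ?_, ?_, ?_, ?_⟩
    · simp
    · ext <;> simp [Co.zero, D.sq, CharTwo.add_self_eq_zero] <;> grind
    all_goals (simp <;> grind)
  obtain ⟨u1, qa, b2, u3, qe, b4, u5, a6, b6, u7, qc, qd⟩ := q
  simp only at hq qa2 qa4 qa8 qb8
  subst hq qa2 qa4 qa8 qb8
  have s := sq_co D (rel_sq (rel_trans R1 R2) h2)
  have e1 := congrArg Co.b2 s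
  have e2 := congrArg Co.u3 s
  have e3 := congrArg Co.b4 s
  simp [Co.zero, D.sq, CharTwo.add_self_eq_zero] at e1 e2 e3
  obtain rfl : a6 = 0 := by grind
  obtain rfl : u7 = 0 := by
    simp at e2; grind
  obtain rfl : b6 = 0 := by
    simp at e3; grind
  -- u5
  obtain ⟨t, ht⟩ := D.surj (u5 / u1)
  have ht' : e t * u1 = u5 := by rw [ht, div_mul_cancel₀ _ hu]
  have R3 : Rel S (El e ⟨u1, 0, b2, u3, 0, b4, u5, 0, 0, 0, 0, 0⟩)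
      (El e ⟨u1, 0, b2, (u3 + t * e u1), 0, (b4 + b2 * t), 0, 0, 0, 0, 0, 0⟩) := by
    refine move D ⟨0, 0, 0, 0, 0, 0, 0, 0, 0, t, 0, 0⟩ ⟨0, 0, 0, 0, 0, 0, 0, 0, 0, t, 0, 0⟩ ?_ ?_ <;> ext <;> simp [Co.zero, D.sq, CharTwo.add_self_eq_zero] <;> grind
  generalize u3 + t * e u1 = c, b4 + b2 * t = d at R3
  -- u3
  obtain ⟨t, ht⟩ := D.surj (c / u1)
  have ht' : e t * u1 = c := by rw [ht, div_mul_cancel₀ _ hu]
  have R4 : Rel S (El e ⟨u1, 0, b2, c, 0, d, 0, 0, 0, 0, 0, 0⟩)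
      (El e ⟨u1, 0, (b2 + t * e u1), 0, 0, (d + t * c + t * e t * u1), 0, 0, 0, 0, 0, 0⟩) := by
    refine move D ⟨0, 0, 0, 0, 0, 0, 0, t, 0, 0, 0, 0⟩ ⟨0, 0, 0, 0, 0, 0, 0, t, (t * e t), 0, 0, 0⟩ ?_ ?_ <;> ext <;> simp [Co.zero, D.sq, CharTwo.add_self_eq_zero] <;> grind
  generalize b2 + t * e u1 = b, d + t * c + t * e t * u1 = d' at R4
  -- b2
  obtain ⟨t, ht⟩ : ∃ t, t * u1 = b := ⟨b / u1, div_mul_cancel₀ _ hu⟩
  have R5 : Rel S (El e ⟨u1, 0, b, 0, 0, d', 0, 0, 0, 0, 0, 0⟩) (El e ⟨u1, 0, 0, 0, 0, d', 0, 0, 0, 0, 0, 0⟩) := by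
    refine move D ⟨0, 0, 0, 0, t, 0, 0, 0, 0, 0, 0, 0⟩ ⟨0, 0, 0, 0, t, (t * e t), 0, 0, 0, 0, 0, 0⟩ ?_ ?_ <;> ext <;> simp [Co.zero, D.sq, CharTwo.add_self_eq_zero] <;> grind
  -- b4
  obtain ⟨t, ht⟩ : ∃ t, t * u1 = d' := ⟨d' / u1, div_mul_cancel₀ _ hu⟩
  have R6 : Rel S (El e ⟨u1, 0, 0, 0, 0, d', 0, 0, 0, 0, 0, 0⟩) (El e ⟨u1, 0, 0, 0, 0, 0, 0, 0, 0, 0, 0, 0⟩) := by
    refine move D ⟨0, 0, 0, 0, 0, 0, 0, 0, t, 0, 0, 0⟩ ⟨0, 0, 0, 0, 0, 0, 0, 0, t, 0, 0, 0⟩ ?_ ?_ <;> ext <;> simp [Co.zero, D.sq, CharTwo.add_self_eq_zero] <;> grind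
  exact rel_trans R1 (rel_trans R2 (rel_trans R3 (rel_trans R4 (rel_trans R5 R6))))

/-- The outer coordinate of the second kind leads. -/
theorem caseU7 {p : Co K} (hu : p.u1 = 0) (ha8 : p.a8 = 0) (hb8 : p.b8 = 0) (hu7 : p.u7 ≠ 0)
    (h2 : El e p * El e p = 1) : ∃ c : K, c ≠ 0 ∧ Rel S (El e p) (El e ⟨c, 0, 0, 0, 0, 0, 0, 0, 0, 0, 0, 0⟩) := by
  have R := move_refl1 D ha8 hb8
  have h1 : (refl1 e p).u1 = p.u7 := by simp [refl1, hu, ha8, hb8]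
  refine ⟨p.u7, hu7, rel_trans R ?_⟩
  rw [← h1]
  refine caseA D (by rwa [h1]) ?_ ?_ (rel_sq R h2) <;> simp [refl1, ha8, hb8]

/-- The coordinates of the middle layer. -/
def Mid (p : Co K) : Prop :=
  p.u1 = 0 ∧ p.a2 = 0 ∧ p.a4 = 0 ∧ p.a6 = 0 ∧ p.u7 = 0 ∧ p.a8 = 0 ∧ p.b8 = 0

theorem caseU3 {p : Co K} (hp : Mid p) (hb : p.b2 = 0) (hu3 : p.u3 ≠ 0) (h2 : El e p * El e p = 1) :
    ∃ c : K, c ≠ 0 ∧ Rel S (El e p) (El e ⟨c, 0, 0, 0, 0, 0, 0, 0, 0, 0, 0, 0⟩) := by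
  obtain ⟨h1, ha2, ha4, ha6, hu7, ha8, hb8⟩ := hp
  have R := move_refl0 D h1
  obtain ⟨c, hc, R'⟩ := caseU7 D (p := refl0 e p) (by simp [refl0, h1, ha2, ha4, ha6, hu7, ha8, hb8, hb])
    (by simp [refl0, h1, ha2, ha4, ha6, hu7, ha8, hb8, hb]) (by simp [refl0, h1, ha2, ha4, ha6, hu7, ha8, hb8, hb])
    (by simpa [refl0, h1, ha2, ha4, ha6, hu7, ha8, hb8, hb] using hu3) (rel_sq R h2)
  exact ⟨c, hc, rel_trans R R'⟩

/-- The central coordinate leads. -/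
theorem caseB2 {p : Co K} (hp : Mid p) (hb : p.b2 ≠ 0) (h2 : El e p * El e p = 1) :
    (∃ c : K, c ≠ 0 ∧ Rel S (El e p) (El e ⟨c, 0, 0, 0, 0, 0, 0, 0, 0, 0, 0, 0⟩)) ∨
      ∃ c : K, c ≠ 0 ∧ Rel S (El e p) (El e ⟨0, 0, c, 0, 0, 0, 0, 0, 0, 0, 0, 0⟩) := by
  have hb' := e_ne D hb
  obtain ⟨u1, a2, b2, u3, a4, b4, u5, a6, b6, u7, a8, b8⟩ := p
  obtain ⟨rfl, rfl, rfl, rfl, rfl, rfl, rfl⟩ := hp
  simp only at hb hb' ⊢
  obtain ⟨t, ht⟩ : ∃ t, b2 * t = u3 := ⟨u3 / b2, mul_div_cancel₀ _ hb⟩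
  obtain ⟨x, y, z, R1⟩ : ∃ x y z, Rel S (El e ⟨0, 0, b2, u3, 0, b4, u5, 0, b6, 0, 0, 0⟩)
      (El e ⟨0, 0, b2, 0, 0, x, y, 0, z, 0, 0, 0⟩) := by
    refine ⟨b4 + t * e u3 + e b2 * t * e t, u5 + e t * u3, b6 + t * u5 + t * e t * u3 + b2 * t ^ 2 * e t,
      move D ⟨0, 0, 0, 0, 0, 0, 0, 0, 0, 0, t, 0⟩ ⟨0, 0, 0, 0, 0, 0, 0, 0, 0, 0, t, (t * e t)⟩ ?_ ?_⟩ <;> ext <;> simp [Co.zero, D.sq, CharTwo.add_self_eq_zero] <;> grind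
  obtain ⟨s, hs⟩ := D.surj (z / b2)
  have hs' : b2 * e s = z := by rw [hs, mul_div_cancel₀ _ hb]
  obtain ⟨x', y', R2⟩ : ∃ x' y', Rel S (El e ⟨0, 0, b2, 0, 0, x, y, 0, z, 0, 0, 0⟩)
      (El e ⟨0, 0, b2, 0, 0, x', y', 0, 0, 0, 0, 0⟩) := by
    refine ⟨x + e b2 * s, y + b2 * s, move D ⟨0, 0, 0, 0, 0, 0, 0, 0, 0, 0, 0, s⟩ ⟨0, 0, 0, 0, 0, 0, 0, 0, 0, 0, 0, s⟩ ?_ ?_⟩ <;> ext <;> simp [Co.zero, D.sq, CharTwo.add_self_eq_zero] <;> grind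
  obtain ⟨r, hr⟩ : ∃ r, b2 * r = x' := ⟨x' / b2, mul_div_cancel₀ _ hb⟩
  have R3 : Rel S (El e ⟨0, 0, b2, 0, 0, x', y', 0, 0, 0, 0, 0⟩) (El e ⟨0, 0, b2, 0, 0, 0, y', 0, 0, 0, 0, 0⟩) := by
    refine move D ⟨0, 0, 0, 0, 0, 0, 0, 0, 0, r, 0, 0⟩ ⟨0, 0, 0, 0, 0, 0, 0, 0, 0, r, 0, 0⟩ ?_ ?_ <;> ext <;> simp [Co.zero, D.sq, CharTwo.add_self_eq_zero] <;> grind
  have R := rel_trans R1 (rel_trans R2 R3)
  by_cases hy : y' = 0
  · subst hy; exact Or.inr ⟨b2, hb, R⟩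
  · have R' := rel_trans R (move_refl1 D rfl rfl)
    obtain ⟨c, hc, R''⟩ := caseU3 D (by refine ⟨?_, ?_, ?_, ?_, ?_, ?_, ?_⟩ <;> simp [refl1])
      (by simp [refl1]) (by simpa [refl1] using hy) (rel_sq R' h2)
    exact Or.inl ⟨c, hc, rel_trans R' R''⟩

theorem caseMid {p : Co K} (hp : Mid p) (h1 : p ≠ Co.zero) (h2 : El e p * El e p = 1) :
    (∃ c : K, c ≠ 0 ∧ Rel S (El e p) (El e ⟨c, 0, 0, 0, 0, 0, 0, 0, 0, 0, 0, 0⟩)) ∨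
      ∃ c : K, c ≠ 0 ∧ Rel S (El e p) (El e ⟨0, 0, c, 0, 0, 0, 0, 0, 0, 0, 0, 0⟩) := by
  by_cases hb : p.b2 = 0
  swap
  · exact caseB2 D hp hb h2
  obtain ⟨u1, a2, b2, u3, a4, b4, u5, a6, b6, u7, a8, b8⟩ := p
  obtain ⟨rfl, rfl, rfl, rfl, rfl, rfl, rfl⟩ := hp
  simp only at hb
  subst hb
  by_cases h6 : b6 = 0
  swap
  · have R := move_refl1 D (p := ⟨0, 0, 0, u3, 0, b4, u5, 0, b6, 0, 0, 0⟩) rfl rfl
    rcases caseB2 D (p := refl1 e ⟨0, 0, 0, u3, 0, b4, u5, 0, b6, 0, 0, 0⟩) (by refine ⟨?_, ?_, ?_, ?_, ?_, ?_, ?_⟩ <;> simp [refl0, refl1])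
      (by simpa [refl0, refl1] using h6) (rel_sq R h2) with ⟨c, hc, R'⟩ | ⟨c, hc, R'⟩
    · exact Or.inl ⟨c, hc, rel_trans R R'⟩
    · exact Or.inr ⟨c, hc, rel_trans R R'⟩
  subst h6
  by_cases h3 : u3 = 0
  swap
  · exact Or.inl (caseU3 D ⟨rfl, rfl, rfl, rfl, rfl, rfl, rfl⟩ rfl h3 h2)
  subst h3
  by_cases h5 : u5 = 0
  swap
  · have R := move_refl1 D (p := ⟨0, 0, 0, 0, 0, b4, u5, 0, 0, 0, 0, 0⟩) rfl rfl
    obtain ⟨c, hc, R'⟩ := caseU3 D (p := refl1 e ⟨0, 0, 0, 0, 0, b4, u5, 0, 0, 0, 0, 0⟩) (by refine ⟨?_, ?_, ?_, ?_, ?_, ?_, ?_⟩ <;> simp [refl1])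
      (by simp [refl1]) (by simpa [refl1] using h5) (rel_sq R h2)
    exact Or.inl ⟨c, hc, rel_trans R R'⟩
  subst h5
  refine Or.inr ⟨b4, fun h => h1 ?_, ?_⟩
  · subst h; rfl
  have R := move_refl0 D (p := ⟨0, 0, 0, 0, 0, b4, 0, 0, 0, 0, 0, 0⟩) rfl
  have e0 : refl0 e ⟨0, 0, 0, 0, 0, b4, 0, 0, 0, 0, 0, 0⟩ = (⟨0, 0, 0, 0, 0, 0, 0, 0, b4, 0, 0, 0⟩ : Co K) := by ext <;> simp [refl0]
  rw [e0] at R
  have R' := move_refl1 D (p := ⟨0, 0, 0, 0, 0, 0, 0, 0, b4, 0, 0, 0⟩) rfl rfl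
  have e1 : refl1 e ⟨0, 0, 0, 0, 0, 0, 0, 0, b4, 0, 0, 0⟩ = (⟨0, 0, b4, 0, 0, 0, 0, 0, 0, 0, 0, 0⟩ : Co K) := by ext <;> simp [refl1]
  rw [e1] at R'
  exact rel_trans R R'

/-- Every involution of the Sylow subgroup is conjugate to one of two normal forms. -/
theorem classify {p : Co K} (h1 : El e p ≠ 1) (h2 : El e p * El e p = 1) :
    (∃ c : K, c ≠ 0 ∧ Rel S (El e p) (El e ⟨c, 0, 0, 0, 0, 0, 0, 0, 0, 0, 0, 0⟩)) ∨
      ∃ c : K, c ≠ 0 ∧ Rel S (El e p) (El e ⟨0, 0, c, 0, 0, 0, 0, 0, 0, 0, 0, 0⟩) := by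
  have hp0 : p ≠ Co.zero := fun h => h1 (by rw [h, El_zero])
  have s := sq_co D h2
  obtain ⟨u1, a2, b2, u3, a4, b4, u5, a6, b6, u7, a8, b8⟩ := p
  obtain rfl : a8 = 0 := by
    have := congrArg Co.b8 s; simp [Co.zero, D.sq, CharTwo.add_self_eq_zero] at this; grind
  by_cases hu : u1 = 0
  swap
  · obtain rfl : b8 = 0 := by
      have := congrArg Co.a4 s; have := e_ne D hu; simp [Co.zero, D.sq, CharTwo.add_self_eq_zero] at *; grind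
    exact Or.inl ⟨u1, hu, caseA D hu rfl rfl h2⟩
  subst hu
  obtain rfl : a2 = 0 := by
    have := congrArg Co.b2 s; simp [Co.zero, D.sq, CharTwo.add_self_eq_zero] at this; grind
  by_cases hb : b8 = 0
  · subst hb
    obtain ⟨e4, e5, e6⟩ := (⟨congrArg Co.b4 s, congrArg Co.u5 s, congrArg Co.b6 s⟩ : _ ∧ _ ∧ _)
    simp [Co.zero, D.sq, CharTwo.add_self_eq_zero] at e4 e5 e6
    obtain rfl : a4 = 0 := by
      by_contra h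
      have := e_ne D h
      grind
    obtain rfl : a6 = 0 := by
      by_contra h
      have := e_ne D h
      simp at e6; grind
    by_cases h7 : u7 = 0
    · subst h7; exact caseMid D ⟨rfl, rfl, rfl, rfl, rfl, rfl, rfl⟩ hp0 h2
    · exact Or.inl (caseU7 D rfl rfl rfl h7 h2)
  · have hb' := e_ne D hb
    obtain ⟨t, ht⟩ : ∃ t, b8 * t = a6 := ⟨a6 / b8, mul_div_cancel₀ _ hb⟩
    obtain ⟨q, q8, R1, qu, qa2, qa6, qa8⟩ : ∃ q : Co K, q.b8 = b8 ∧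
        Rel S (El e ⟨0, 0, b2, u3, a4, b4, u5, a6, b6, u7, 0, b8⟩) (El e q) ∧
        q.u1 = 0 ∧ q.a2 = 0 ∧ q.a6 = 0 ∧ q.a8 = 0 := by
      refine ⟨_, ?_, move D ⟨t, 0, 0, 0, 0, 0, 0, 0, 0, 0, 0, 0⟩ ⟨t, 0, 0, 0, 0, 0, 0, 0, 0, 0, 0, 0⟩ ?_ rfl, ?_, ?_, ?_, ?_⟩
      · simp <;> grind
      · ext <;> simp [Co.zero, D.sq, CharTwo.add_self_eq_zero] <;> grind
      all_goals (simp <;> grind)
    obtain ⟨qb, qc, b2, u3, a4, b4, u5, qe, b6, u7, qf, b8'⟩ := q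
    simp only at q8 qu qa2 qa6 qa8
    subst q8 qu qa2 qa6 qa8
    have s := sq_co D (rel_sq R1 h2)
    have e5 := congrArg Co.u5 s
    simp [Co.zero, D.sq, CharTwo.add_self_eq_zero] at e5
    obtain rfl : b2 = 0 := by grind
    have e4 := congrArg Co.b4 s
    simp [Co.zero, D.sq, CharTwo.add_self_eq_zero] at e4
    obtain rfl : a4 = 0 := by
      by_contra h
      have := e_ne D h
      grind
    have e6 := congrArg Co.b6 s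
    simp [Co.zero, D.sq, CharTwo.add_self_eq_zero] at e6
    obtain rfl : u3 = 0 := by grind
    have R := move_refl0 D (p := ⟨0, 0, 0, 0, 0, b4, u5, 0, b6, u7, 0, b8'⟩) rfl
    have h2' := rel_sq (rel_trans R1 R) h2
    rcases caseB2 D (p := refl0 e ⟨0, 0, 0, 0, 0, b4, u5, 0, b6, u7, 0, b8'⟩) (by refine ⟨?_, ?_, ?_, ?_, ?_, ?_, ?_⟩ <;> simp [refl0, refl1])
      (by simpa [refl0, refl1] using hb) h2' with ⟨c, hc, R'⟩ | ⟨c, hc, R'⟩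
    · exact Or.inl ⟨c, hc, rel_trans R1 (rel_trans R R')⟩
    · exact Or.inr ⟨c, hc, rel_trans R1 (rel_trans R R')⟩

end Cfsg.Agent.Suzuki.F4Two
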