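import Cfsg.Agent.Suzuki.F4TwoBase

/-! # The Sylow 2-subgroup of ²F₄ in coordinates -/

set_option autoImplicit false
set_option maxHeartbeats 1000000
set_option linter.unusedSectionVars false

universe u

namespace Cfsg.Agent.Suzuki.F4Two

open Cfsg.Lie Cfsg.Agent.Chev Cfsg.Agent.Chev.Ree4
open scoped Matrix MatrixGroups

variable {K : Type u} [Field K]

local notation "X" => Cert.xu cF

/-- The order of the roots in the coordinates. -/
def order : List ℕ := [33, 24, 34, 26, 36, 42, 38, 43, 29, 41, 44, 47, 39, 45, 35, 31, 40, 46, 37, 32, 27, 25, 28, 30]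

theorem order_closed : ∀ t ∈ order.tails, (∀ r ∈ t, r ∈ chevF4.posRoots) ∧
    (∀ r ∈ t, ∀ s ∈ t, ∀ c ∈ chevF4.commTerms r s, c.1 ∈ t) ∧
    (∀ r ∈ t, ∀ c ∈ chevF4.commTerms r r, c.1 = r) := by decide +kernel

theorem order_nodup : order.Nodup := by decide

theorem pos_of_mem {t : List ℕ} (ht : t ∈ order.tails) {r : ℕ} (hr : r ∈ t) : chevF4.IsPosRoot r :=
  Cert.mem_posRoots.1 ((order_closed t ht).1 r hr)

theorem wu_inj : ∀ l : List ℕ, (∀ t ∈ l.tails, t ∈ order.tails) → l.Nodup → ∀ f g : ℕ → K,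
    cF.wu (l.map fun r => (r, f r)) = cF.wu (l.map fun r => (r, g r)) → ∀ r ∈ l, f r = g r
  | [], _, _, _, _, _ => by simp
  | a :: l, hl, hnd, f, g, h => by
    have hal : a :: l ∈ order.tails := hl _ (by simp [List.tails])
    have hl' : l ∈ order.tails := hl _ (by cases l <;> simp [List.tails])
    simp only [List.map_cons, cF.wu_cons] at h
    have hmem : ∀ f : ℕ → K, cF.wu (l.map fun r => (r, f r)) ∈ spanGroup chevF4 K (fun r => r ∈ l) := fun f =>
      cF.wu_mem_span _ fun p hp => by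
        obtain ⟨r, hr, rfl⟩ := List.mem_map.1 hp
        exact hr
    have e : (X a (g a))⁻¹ * X a (f a) =
        cF.wu (l.map fun r => (r, g r)) * (cF.wu (l.map fun r => (r, f r)))⁻¹ := by
      rw [inv_mul_eq_iff_eq_mul, ← mul_assoc, ← h, mul_inv_cancel_right]
    have h1 : (X a (g a))⁻¹ * X a (f a) ∈ spanGroup chevF4 K (fun s => s = a) :=
      mul_mem (inv_mem (cF.xu_mem_span (P := fun s => s = a) rfl _)) (cF.xu_mem_span (P := fun s => s = a) rfl _)
    have h2 := cF.span_inf (P := fun s => s = a) (Q := fun r => r ∈ l) (⟨fun s e => e ▸ pos_of_mem hal List.mem_cons_self, fun x y hx hy => by subst hx; subst hy; exact (order_closed _ hal).2.2 _ List.mem_cons_self⟩) (⟨fun _ hr => pos_of_mem hl' hr, fun r s hr hs => (order_closed _ hl').2.1 r hr s hs⟩) h1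
      (e ▸ mul_mem (hmem g) (inv_mem (hmem f)))
    rw [cF.span_empty fun s (hs : s = a ∧ s ∈ l) => (List.nodup_cons.1 hnd).1 (hs.1 ▸ hs.2), Subgroup.mem_bot, inv_mul_eq_one] at h2
    have ha : g a = f a := Cert.xu_inj cF (pos_of_mem hal List.mem_cons_self).1 h2
    rw [ha] at h
    intro r hr
    rcases List.mem_cons.1 hr with rfl | hr
    · exact ha.symm
    · exact wu_inj l (fun t ht => hl t (by simp only [List.tails, List.mem_cons]; exact Or.inr ht))
        (List.nodup_cons.1 hnd).2 f g (mul_left_cancel h) r hr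

variable [CharP K 2] {m : ℕ}

theorem El_inj {e : K →+* K} {p q : Co K} (h : El e p = El e q) : p = q := by
  let F : Co K → ℕ → K := fun p i => if i = 33 then p.u1 else if i = 24 then e p.u1 else if i = 34 then p.a2 else if i = 26 then e p.a2 else if i = 36 then p.a2 * e p.a2 + p.b2 else if i = 42 then e p.b2 else if i = 38 then p.u3 else if i = 43 then e p.u3 else if i = 29 then p.a4 else if i = 41 then e p.a4 else if i = 44 then p.a4 * e p.a4 + p.b4 else if i = 47 then e p.b4 else if i = 39 then p.u5 else if i = 45 then e p.u5 else if i = 35 then p.a6 else if i = 31 then e p.a6 else if i = 40 then p.a6 * e p.a6 + p.b6 else if i = 46 then e p.b6 else if i = 37 then p.u7 else if i = 32 then e p.u7 else if i = 27 then p.a8 else if i = 25 then e p.a8 else if i = 28 then p.a8 * e p.a8 + p.b8 else if i = 30 then e p.b8 else 0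
  have w := wu_inj order (fun t ht => ht) order_nodup (F p) (F q)
    (by simpa [order, Cert.wu, El, F, mul_assoc] using h)
  have hu1 : p.u1 = q.u1 := by simpa [F] using w 33 (by simp [order])
  have ha2 : p.a2 = q.a2 := by simpa [F] using w 34 (by simp [order])
  have hb2 : p.b2 = q.b2 := by
    have := w 36 (by simp [order]); simpa [F, ha2] using this
  have hu3 : p.u3 = q.u3 := by simpa [F] using w 38 (by simp [order])
  have ha4 : p.a4 = q.a4 := by simpa [F] using w 29 (by simp [order])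
  have hb4 : p.b4 = q.b4 := by
    have := w 44 (by simp [order]); simpa [F, ha4] using this
  have hu5 : p.u5 = q.u5 := by simpa [F] using w 39 (by simp [order])
  have ha6 : p.a6 = q.a6 := by simpa [F] using w 35 (by simp [order])
  have hb6 : p.b6 = q.b6 := by
    have := w 40 (by simp [order]); simpa [F, ha6] using this
  have hu7 : p.u7 = q.u7 := by simpa [F] using w 37 (by simp [order])
  have ha8 : p.a8 = q.a8 := by simpa [F] using w 27 (by simp [order])
  have hb8 : p.b8 = q.b8 := by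
    have := w 28 (by simp [order]); simpa [F, ha8] using this
  ext <;> assumption

/-- The field endomorphism on the long roots. -/
noncomputable def eHom (K : Type u) [Field K] [CharP K 2] (m : ℕ) : K →+* K :=
  haveI : ExpChar K 2 := ExpChar.prime Nat.prime_two
  iterateFrobenius K 2 (m + 1)

theorem eHom_apply (x : K) : eHom K m x = x ^ (2 * 2 ^ m) := by
  rw [← pow_succ']; rfl

variable (h : Ctx K m)
include h

theorem eHom_sq (x : K) : eHom K m (eHom K m x) = x ^ 2 := by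
  rw [eHom_apply, eHom_apply, mul_comm 2 (2 ^ m), pow_mul ((x : K) ^ (2 ^ m * 2)), mul_comm (2 ^ m) 2, pow_ee h]

theorem eHom_theta (x : K) : eHom K m (x ^ 2 ^ m) = x := by rw [eHom_apply, pow_ee' h]

theorem pow_eHom (x : K) : (eHom K m x) ^ 2 ^ m = x := by rw [eHom_apply, pow_ee h]

theorem El_mem (p : Co K) : El (eHom K m) p ∈ chevF4.posUnipotent K ⊓ tw K m := by
  refine ⟨?_, ?_⟩
  · have hp : ∀ r ∈ order, ∀ t : K, X r t ∈ chevF4.posUnipotent K := fun r hr t =>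
      cF.xu_mem_span (pos_of_mem (List.mem_tails _ _ |>.2 (List.suffix_refl order)) hr) t
    simp only [El]
    iterate 24 refine mul_mem (hp _ (by simp [order]) _) ?_
    exact one_mem _
  · have hx : ∀ k x, x < 48 → ∀ t : K, nk K k * X x t * (nk K k)⁻¹ = X (act chevF4 (wdF k) x) t :=
      fun k x hx t => cF.conj_xu_two (flatF_lt _) hx t
    have hact : act chevF4 (wdF 0) 33 = 33 ∧ act chevF4 (wdF 0) 24 = 24 ∧ act chevF4 (wdF 1) 27 = 34 ∧ act chevF4 (wdF 1) 25 = 26 ∧ act chevF4 (wdF 1) 28 = 36 ∧ act chevF4 (wdF 1) 30 = 42 ∧ act chevF4 (wdF 4) 33 = 38 ∧ act chevF4 (wdF 4) 24 = 43 ∧ act chevF4 (wdF 5) 27 = 29 ∧ act chevF4 (wdF 5) 25 = 41 ∧ act chevF4 (wdF 5) 28 = 44 ∧ act chevF4 (wdF 5) 30 = 47 ∧ act chevF4 (wdF 6) 33 = 39 ∧ act chevF4 (wdF 6) 24 = 45 ∧ act chevF4 (wdF 3) 27 = 35 ∧ act chevF4 (wdF 3) 25 = 31 ∧ act chevF4 (wdF 3) 28 = 40 ∧ act chevF4 (wdF 3) 30 = 46 ∧ act chevF4 (wdF 2) 33 = 37 ∧ act chevF4 (wdF 2) 24 = 32 ∧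 act chevF4 (wdF 0) 27 = 27 ∧ act chevF4 (wdF 0) 25 = 25 ∧ act chevF4 (wdF 0) 28 = 28 ∧ act chevF4 (wdF 0) 30 = 30 := by decide +kernel
    obtain ⟨a0, a1, a2, a3, a4, a5, a6, a7, a8, a9, a10, a11, a12, a13, a14, a15, a16, a17, a18, a19, a20, a21, a22, a23⟩ := hact
    have g0 : X 33 p.u1 * X 24 (eHom K m p.u1) ∈ tw K m := by
      have := mul_mem (mul_mem (nk_mem m 0) (pE_pos_mem m (eHom K m p.u1))) (inv_mem (nk_mem (K := K) m 0))
      rwa [pE, pow_eHom h, show nk K 0 * (X 33 p.u1 * X 24 (eHom K m p.u1)) * (nk K 0)⁻¹ =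
        (nk K 0 * X 33 p.u1 * (nk K 0)⁻¹) * (nk K 0 * X 24 (eHom K m p.u1) * (nk K 0)⁻¹) by group,
        hx 0 33 (by norm_num), hx 0 24 (by norm_num), a0, a1] at this
    have g1 : X 34 p.a2 * X 26 (eHom K m p.a2) * X 36 (p.a2 * eHom K m p.a2 + p.b2) * X 42 (eHom K m p.b2) ∈ tw K m := by
      have := mul_mem (mul_mem (nk_mem m 1) (bE_pos_mem m (eHom K m p.a2) p.b2)) (inv_mem (nk_mem (K := K) m 1))
      rwa [bE, ← eHom_apply, pow_succ, pow_eHom h,
        show nk K 1 * (X 27 p.a2 * X 25 (eHom K m p.a2) * X 28 (p.a2 * eHom K m p.a2 + p.b2) * X 30 (eHom K m p.b2)) * (nk K 1)⁻¹ =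
          (nk K 1 * X 27 p.a2 * (nk K 1)⁻¹) * (nk K 1 * X 25 (eHom K m p.a2) * (nk K 1)⁻¹) *
          (nk K 1 * X 28 (p.a2 * eHom K m p.a2 + p.b2) * (nk K 1)⁻¹) * (nk K 1 * X 30 (eHom K m p.b2) * (nk K 1)⁻¹) by group,
        hx 1 27 (by norm_num), hx 1 25 (by norm_num), hx 1 28 (by norm_num), hx 1 30 (by norm_num),
        a2, a3, a4, a5] at this
    have g2 : X 38 p.u3 * X 43 (eHom K m p.u3) ∈ tw K m := by
      have := mul_mem (mul_mem (nk_mem m 4) (pE_pos_mem m (eHom K m p.u3))) (inv_mem (nk_mem (K := K) m 4))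
      rwa [pE, pow_eHom h, show nk K 4 * (X 33 p.u3 * X 24 (eHom K m p.u3)) * (nk K 4)⁻¹ =
        (nk K 4 * X 33 p.u3 * (nk K 4)⁻¹) * (nk K 4 * X 24 (eHom K m p.u3) * (nk K 4)⁻¹) by group,
        hx 4 33 (by norm_num), hx 4 24 (by norm_num), a6, a7] at this
    have g3 : X 29 p.a4 * X 41 (eHom K m p.a4) * X 44 (p.a4 * eHom K m p.a4 + p.b4) * X 47 (eHom K m p.b4) ∈ tw K m := by
      have := mul_mem (mul_mem (nk_mem m 5) (bE_pos_mem m (eHom K m p.a4) p.b4)) (inv_mem (nk_mem (K := K) m 5))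
      rwa [bE, ← eHom_apply, pow_succ, pow_eHom h,
        show nk K 5 * (X 27 p.a4 * X 25 (eHom K m p.a4) * X 28 (p.a4 * eHom K m p.a4 + p.b4) * X 30 (eHom K m p.b4)) * (nk K 5)⁻¹ =
          (nk K 5 * X 27 p.a4 * (nk K 5)⁻¹) * (nk K 5 * X 25 (eHom K m p.a4) * (nk K 5)⁻¹) *
          (nk K 5 * X 28 (p.a4 * eHom K m p.a4 + p.b4) * (nk K 5)⁻¹) * (nk K 5 * X 30 (eHom K m p.b4) * (nk K 5)⁻¹) by group,
        hx 5 27 (by norm_num), hx 5 25 (by norm_num), hx 5 28 (by norm_num), hx 5 30 (by norm_num),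
        a8, a9, a10, a11] at this
    have g4 : X 39 p.u5 * X 45 (eHom K m p.u5) ∈ tw K m := by
      have := mul_mem (mul_mem (nk_mem m 6) (pE_pos_mem m (eHom K m p.u5))) (inv_mem (nk_mem (K := K) m 6))
      rwa [pE, pow_eHom h, show nk K 6 * (X 33 p.u5 * X 24 (eHom K m p.u5)) * (nk K 6)⁻¹ =
        (nk K 6 * X 33 p.u5 * (nk K 6)⁻¹) * (nk K 6 * X 24 (eHom K m p.u5) * (nk K 6)⁻¹) by group,
        hx 6 33 (by norm_num), hx 6 24 (by norm_num), a12, a13] at this
    have g5 : X 35 p.a6 * X 31 (eHom K m p.a6) * X 40 (p.a6 * eHom K m p.a6 + p.b6) * X 46 (eHom K m p.b6) ∈ tw K m := by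
      have := mul_mem (mul_mem (nk_mem m 3) (bE_pos_mem m (eHom K m p.a6) p.b6)) (inv_mem (nk_mem (K := K) m 3))
      rwa [bE, ← eHom_apply, pow_succ, pow_eHom h,
        show nk K 3 * (X 27 p.a6 * X 25 (eHom K m p.a6) * X 28 (p.a6 * eHom K m p.a6 + p.b6) * X 30 (eHom K m p.b6)) * (nk K 3)⁻¹ =
          (nk K 3 * X 27 p.a6 * (nk K 3)⁻¹) * (nk K 3 * X 25 (eHom K m p.a6) * (nk K 3)⁻¹) *
          (nk K 3 * X 28 (p.a6 * eHom K m p.a6 + p.b6) * (nk K 3)⁻¹) * (nk K 3 * X 30 (eHom K m p.b6) * (nk K 3)⁻¹) by group,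
        hx 3 27 (by norm_num), hx 3 25 (by norm_num), hx 3 28 (by norm_num), hx 3 30 (by norm_num),
        a14, a15, a16, a17] at this
    have g6 : X 37 p.u7 * X 32 (eHom K m p.u7) ∈ tw K m := by
      have := mul_mem (mul_mem (nk_mem m 2) (pE_pos_mem m (eHom K m p.u7))) (inv_mem (nk_mem (K := K) m 2))
      rwa [pE, pow_eHom h, show nk K 2 * (X 33 p.u7 * X 24 (eHom K m p.u7)) * (nk K 2)⁻¹ =
        (nk K 2 * X 33 p.u7 * (nk K 2)⁻¹) * (nk K 2 * X 24 (eHom K m p.u7) * (nk K 2)⁻¹) by group,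
        hx 2 33 (by norm_num), hx 2 24 (by norm_num), a18, a19] at this
    have g7 : X 27 p.a8 * X 25 (eHom K m p.a8) * X 28 (p.a8 * eHom K m p.a8 + p.b8) * X 30 (eHom K m p.b8) ∈ tw K m := by
      have := mul_mem (mul_mem (nk_mem m 0) (bE_pos_mem m (eHom K m p.a8) p.b8)) (inv_mem (nk_mem (K := K) m 0))
      rwa [bE, ← eHom_apply, pow_succ, pow_eHom h,
        show nk K 0 * (X 27 p.a8 * X 25 (eHom K m p.a8) * X 28 (p.a8 * eHom K m p.a8 + p.b8) * X 30 (eHom K m p.b8)) * (nk K 0)⁻¹ =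
          (nk K 0 * X 27 p.a8 * (nk K 0)⁻¹) * (nk K 0 * X 25 (eHom K m p.a8) * (nk K 0)⁻¹) *
          (nk K 0 * X 28 (p.a8 * eHom K m p.a8 + p.b8) * (nk K 0)⁻¹) * (nk K 0 * X 30 (eHom K m p.b8) * (nk K 0)⁻¹) by group,
        hx 0 27 (by norm_num), hx 0 25 (by norm_num), hx 0 28 (by norm_num), hx 0 30 (by norm_num),
        a20, a21, a22, a23] at this
    have := mul_mem (mul_mem (mul_mem (mul_mem (mul_mem (mul_mem (mul_mem g0 g1) g2) g3) g4) g5) g6) g7
    show El (eHom K m) p ∈ tw K m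
    simpa only [El, mul_assoc, mul_one] using this

theorem El_surj {g : GG K} (hg : g ∈ chevF4.posUnipotent K ⊓ tw K m) : ∃ p : Co K, g = El (eHom K m) p := by
  have := h.finite
  let Φ : (Fin 12 → K) → ↥(chevF4.posUnipotent K ⊓ tw K m) := fun f =>
    ⟨El (eHom K m) ⟨f 0, f 1, f 2, f 3, f 4, f 5, f 6, f 7, f 8, f 9, f 10, f 11⟩, El_mem h _⟩
  have hΦ : Function.Injective Φ := by
    intro f f' e
    have := El_inj (congrArg Subtype.val e)
    simp only [Co.mk.injEq] at this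
    funext i
    fin_cases i <;> simp_all
  have hc : Nat.card (Fin 12 → K) = Nat.card ↥(chevF4.posUnipotent K ⊓ tw K m) := by
    rw [card_pos_tw h, Nat.card_fun, h.card, Nat.card_fin]
  obtain ⟨f, hf⟩ := ((Nat.bijective_iff_injective_and_card Φ).2 ⟨hΦ, hc⟩).2 ⟨g, hg⟩
  exact ⟨_, (congrArg Subtype.val hf).symm⟩

end Cfsg.Agent.Suzuki.F4Two
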