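import Cfsg.Agent.Suzuki.G2MinCount

/-! # The bound in characteristic other than three -/

set_option autoImplicit false
set_option maxHeartbeats 800000

universe u v

namespace Cfsg.Agent.Suzuki.G2Min

open Cfsg.Lie Cfsg.Agent.Chev
open Cfsg.Agent.Suzuki.ReeDeg Cfsg.Agent.Suzuki.TraceProj

variable {F : Type u} [Field F] [Fintype F] [DecidableEq F] {V : Type v} [AddCommGroup V] [Module ℂ V]
  [FiniteDimensional ℂ V] (ρ : Representation ℂ ↥(chevG2.group F) V) {ψ : AddChar F ℂ}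
  (hψ : ∀ c : F, c ≠ 0 → ∑ b : F, ψ (c * b) = 0)

include hψ

local notation "T" => LinearMap.trace ℂ V

/-- The multiplicity of a pair of values on the two long root subgroups. -/
noncomputable def R (a d : F) : ℕ := ∑ u, ∑ c, M ρ hψ (a, u, c, d)

/-- The multiplicity of a value on a long root subgroup. -/
noncomputable def mu : ℕ := ∑ d, R ρ hψ 1 d

theorem sum_R (a : F) : ∑ u, ∑ c, ∑ d, M ρ hψ (a, u, c, d) = ∑ d, R ρ hψ a d := by
  simp only [R]
  rw [Finset.sum_comm (γ := F)]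
  refine (Finset.sum_congr rfl fun c _ => Finset.sum_comm).trans ?_
  rw [Finset.sum_comm]
  exact Finset.sum_congr rfl fun d _ => Finset.sum_comm

theorem trace_q0_six (a : F) : T (q0 ρ ψ * pr ρ ψ 6 a) = ((∑ d, R ρ hψ a d : ℕ) : ℂ) := by
  rw [trace_six ρ hψ, ← sum_R]
  push_cast
  rfl

theorem row_eq {a : F} (ha : a ≠ 0) : ∑ d, R ρ hψ a d = mu ρ hψ := by
  have h1 := centre_eq ρ hψ ha
  have h2 := centre_eq ρ hψ (one_ne_zero : (1 : F) ≠ 0)
  rw [h1, trace_q0_six, trace_q0_six] at h2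
  have hq : (Fintype.card F : ℂ) ≠ 0 := by exact_mod_cast Fintype.card_ne_zero
  exact_mod_cast mul_left_cancel₀ hq h2

theorem centre_mu : T (pr ρ ψ 11 1) = ((Fintype.card F * mu ρ hψ : ℕ) : ℂ) := by
  rw [centre_eq ρ hψ (one_ne_zero : (1 : F) ≠ 0), trace_q0_six, Nat.cast_mul]
  rfl

/-- If the centre has no moved vectors it acts trivially. -/
theorem centre_trivial (h : T (pr ρ ψ 11 1) = 0) (t : F) : op ρ 11 t = 1 := by
  refine eq_one_of_bot hψ (op_add ρ 11) (op_zero ρ 11) (fun c hc => ?_) t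
  obtain ⟨n, hn, hn0⟩ := idem_trace (prj_idem hψ (op_add ρ 11) c)
  have hP : prj ψ (op ρ 11) c = 0 := hn0 (by
    have := hn.symm.trans ((trace_centre ρ hc).trans h)
    exact_mod_cast this)
  rw [Submodule.eq_bot_iff]
  intro v hv
  have := prj_fix hψ c c hv
  rw [if_pos rfl, hP] at this
  simpa using this.symm

theorem degree_eq :
    Module.finrank ℂ V = (Fintype.card F - 1) * (Fintype.card F * mu ρ hψ) +
      ((Fintype.card F - 1) * mu ρ hψ + ∑ d, R ρ hψ 0 d) := by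
  have hS : T (q0 ρ ψ) = ∑ a, T (q0 ρ ψ * pr ρ ψ 6 a) := by
    rw [← map_sum, ← Finset.mul_sum, pr_sum ρ hψ, mul_one]
  have h := finrank_eq ρ hψ
  rw [hS, ← Finset.add_sum_erase _ _ (Finset.mem_univ (0 : F)),
    Finset.sum_congr rfl fun a ha => (trace_q0_six ρ hψ a).trans (by rw [row_eq ρ hψ (Finset.ne_of_mem_erase ha)]),
    Finset.sum_const, Finset.card_erase_of_mem (Finset.mem_univ _), Finset.card_univ, nsmul_eq_mul,
    trace_q0_six ρ hψ, centre_mu ρ hψ] at h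
  have h1 : (1 : ℕ) ≤ Fintype.card F := Fintype.card_pos
  have : (Module.finrank ℂ V : ℂ) = (((Fintype.card F - 1) * (Fintype.card F * mu ρ hψ) +
      ((Fintype.card F - 1) * mu ρ hψ + ∑ d, R ρ hψ 0 d) : ℕ) : ℂ) := by
    rw [h]; push_cast [h1]; ring
  exact_mod_cast this

/-- Away from characteristic three the centre eigenspaces have dimension divisible by `q²`. -/
theorem exists_L (h3 : (3 : F) ≠ 0) (hnt : op ρ 11 1 ≠ 1) :
    ∃ L : ℕ, 1 ≤ L ∧ mu ρ hψ = Fintype.card F * L := by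
  have c68 : Commute (pr ρ ψ 6 0) (pr ρ ψ 8 0) := pr_commute ρ (commute_pairs (by simp)) 0 0
  have c116 : Commute (pr ρ ψ 11 1) (pr ρ ψ 6 0) := pr_commute ρ (commute_pairs (by simp)) 1 0
  have c118 : Commute (pr ρ ψ 11 1) (pr ρ ψ 8 0) := pr_commute ρ (commute_pairs (by simp)) 1 0
  have i1 : pr ρ ψ 11 1 * pr ρ ψ 11 1 = pr ρ ψ 11 1 := prj_idem hψ (op_add ρ 11) 1
  have i6 : pr ρ ψ 6 0 * pr ρ ψ 6 0 = pr ρ ψ 6 0 := prj_idem hψ (op_add ρ 6) 0
  have i8 : pr ρ ψ 8 0 * pr ρ ψ 8 0 = pr ρ ψ 8 0 := prj_idem hψ (op_add ρ 8) 0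
  obtain ⟨L, hL, -⟩ := idem_trace (idem_mul i1 (idem_mul i6 i8 c68.symm) (c116.mul_right c118).symm)
  have e6 := shift_six ρ hψ (one_ne_zero : (1 : F) ≠ 0) (pr ρ ψ 8 0)
    (fun t => commute_prj (fun b => (commute_pairs (r := 10) (s := 8) (by simp) t b).map ρ) 0) 0
  have e8 := shift_eight ρ hψ h3 (one_ne_zero : (1 : F) ≠ 0) 1 (fun _ => Commute.one_right _) 0
  rw [mul_one, mul_one] at e8
  rw [hL] at e6
  have hq : (Fintype.card F : ℂ) ≠ 0 := by exact_mod_cast Fintype.card_ne_zero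
  have h : (mu ρ hψ : ℂ) = ((Fintype.card F * L : ℕ) : ℂ) := by
    refine mul_left_cancel₀ hq ?_
    have := centre_mu ρ hψ
    push_cast at this ⊢
    rw [← this, ← e8, ← e6]
  refine ⟨L, Nat.one_le_iff_ne_zero.2 fun h0 => hnt (centre_trivial ρ hψ ?_ 1), by exact_mod_cast h⟩
  rw [centre_mu ρ hψ, show mu ρ hψ = Fintype.card F * L by exact_mod_cast h, h0]
  simp

/-- The torus scales the two long coordinates. -/
theorem R_torus {a b : F} (ha : a ≠ 0) (hb : b ≠ 0) (x d : F) :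
    R ρ hψ (b * x) (a ^ 3 * b * d) = R ρ hψ x d := by
  simp only [R]
  refine (Fintype.sum_equiv (Equiv.mulLeft₀ (a * b) (mul_ne_zero ha hb)) _ _ fun u => ?_).symm
  refine Fintype.sum_equiv (Equiv.mulLeft₀ (a ^ 2 * b) (mul_ne_zero (pow_ne_zero _ ha) hb)) _ _ fun c => ?_
  exact (M_torus ρ hψ ha hb x u c d).symm

/-- Exchanging the two long root subgroups. -/
theorem R_zero_col {d : F} (hd : d ≠ 0) : R ρ hψ 0 d = R ρ hψ 1 0 := by
  have h : act chevG2 [0] 11 = 11 ∧ act chevG2 [0] 6 = 10 ∧ act chevG2 [0] 10 = 6 ∧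
      ∀ i ∈ [0], i < chevG2.rank := by decide +kernel
  obtain ⟨e11, e6, e10, hL⟩ := h
  obtain ⟨n, hn⟩ := exists_weyl (F := F) hL
  obtain ⟨z, hz, ez⟩ := hn 11 (by norm_num)
  obtain ⟨x, hx, ex⟩ := hn 6 (by norm_num)
  obtain ⟨y, hy, ey⟩ := hn 10 (by norm_num)
  rw [e11] at ez
  rw [e6] at ex
  rw [e10] at ey
  have hsw : ∀ f g : F, q0 ρ ψ * (pr ρ ψ 10 f * pr ρ ψ 6 g) = q0 ρ ψ * (pr ρ ψ 6 g * pr ρ ψ 10 f) := by
    intro f g
    have hb : ∀ r s, q0 ρ ψ * (op ρ 10 r * op ρ 6 s) = q0 ρ ψ * (op ρ 6 s * op ρ 10 r) := by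
      intro r s
      rw [q0_left ρ (by norm_num), q0_left ρ (by norm_num), ← (q0_comm ρ 6 (by norm_num) s).eq,
        ← (q0_comm ρ 10 (by norm_num) r).eq, swap_q0 ρ (by simp) (by simp)]
    simp only [pr, prj, smul_mul_assoc, mul_smul_comm, Finset.sum_mul, Finset.mul_sum, Finset.smul_sum, smul_smul, hb]
    rw [Finset.sum_comm]
    refine Finset.sum_congr rfl fun r _ => Finset.sum_congr rfl fun s _ => ?_
    congr 1
    ring
  have e : (R ρ hψ 0 d : ℂ) = R ρ hψ (d / y) 0 := by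
    have t0 : T (q0 ρ ψ * (pr ρ ψ 6 0 * pr ρ ψ 10 d)) = T (q0 ρ ψ * (pr ρ ψ 6 (d / y) * pr ρ ψ 10 (0 / x))) := by
      rw [← hsw (0 / x) (d / y)]
      refine op_trace ρ n ?_
      have m1 := move_pr ρ (ψ := ψ) hz ez 0
      rw [zero_div] at m1
      rw [q0, ← mul_assoc, m1, mul_assoc, ← mul_assoc (ρ n), move_pr ρ (ψ := ψ) hx ex 0, mul_assoc,
        move_pr ρ (ψ := ψ) hy ey d]
      simp only [mul_assoc]
    rw [zero_div, trace_six_ten ρ hψ, trace_six_ten ρ hψ] at t0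
    simp only [R]
    push_cast
    exact t0
  have e' : R ρ hψ 0 d = R ρ hψ (d / y) 0 := by exact_mod_cast e
  rw [e']
  have := R_torus ρ hψ one_ne_zero (div_ne_zero hd hy) 1 0
  rw [mul_one, mul_zero] at this
  exact this

theorem fixed_ge : (Fintype.card F - 1) * R ρ hψ 1 0 + R ρ hψ 0 0 = ∑ d, R ρ hψ 0 d := by
  rw [← Finset.add_sum_erase _ _ (Finset.mem_univ (0 : F)),
    Finset.sum_congr rfl fun d hd => R_zero_col ρ hψ (Finset.ne_of_mem_erase hd), Finset.sum_const,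
    Finset.card_erase_of_mem (Finset.mem_univ _), Finset.card_univ, smul_eq_mul, add_comm]

theorem bound_two (h3 : (3 : F) ≠ 0) (hnt : op ρ 11 1 ≠ 1) (hq : Fintype.card F % 3 = 2)
    (hq2 : 2 < Fintype.card F) : Fintype.card F ^ 3 - 1 ≤ Module.finrank ℂ V := by
  obtain ⟨L, hL1, hL⟩ := exists_L ρ hψ h3 hnt
  have hk := degree_eq ρ hψ
  rw [hL, ← fixed_ge ρ hψ] at hk
  set q := Fintype.card F with hqdef
  obtain ⟨p, hp⟩ : ∃ p, q = p + 3 := ⟨q - 3, by omega⟩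
  by_cases hL2 : 2 ≤ L
  · obtain ⟨l, rfl⟩ : ∃ l, L = l + 2 := ⟨L - 2, by omega⟩
    rw [hk, hp, show p + 3 - 1 = p + 2 by omega]
    have : 1 ≤ (p + 3) ^ 3 := Nat.one_le_pow _ _ (by omega)
    zify [this]
    nlinarith [Int.natCast_nonneg p, Int.natCast_nonneg l, mul_nonneg (Int.natCast_nonneg p) (Int.natCast_nonneg l),
      sq_nonneg (p : ℤ), Int.natCast_nonneg (R ρ hψ 1 0), Int.natCast_nonneg (R ρ hψ 0 0)]
  have hL1' : L = 1 := by omega
  subst hL1'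
  -- every element is a cube
  have hcube : ∀ d : F, d ≠ 0 → ∃ a : F, a ≠ 0 ∧ a ^ 3 = d := by
    intro d hd
    have hco : Nat.Coprime 3 (Nat.card Fˣ) := by
      rw [Nat.card_eq_fintype_card, Fintype.card_units, Nat.coprime_iff_gcd_eq_one, Nat.gcd_rec, ← hqdef,
        show (q - 1) % 3 = 1 by omega]
      rfl
    obtain ⟨a, ha⟩ := (powCoprime hco.symm).surjective (Units.mk0 d hd)
    exact ⟨a, a.ne_zero, by simpa using congrArg Units.val ha⟩
  have hR : ∀ d : F, d ≠ 0 → R ρ hψ 1 d = R ρ hψ 1 1 := by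
    intro d hd
    obtain ⟨a, ha, rfl⟩ := hcube d hd
    have := R_torus ρ hψ ha one_ne_zero 1 1
    simpa using this
  have hμ : q = R ρ hψ 1 0 + (q - 1) * R ρ hψ 1 1 := by
    have e : mu ρ hψ = q := by rw [hL, mul_one]
    conv_lhs => rw [← e]
    rw [mu, ← Finset.add_sum_erase _ _ (Finset.mem_univ (0 : F)),
      Finset.sum_congr rfl fun d hd => hR d (Finset.ne_of_mem_erase hd), Finset.sum_const,
      Finset.card_erase_of_mem (Finset.mem_univ _), Finset.card_univ, smul_eq_mul]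
  have hR1 : 1 ≤ R ρ hψ 1 0 := by
    by_contra h0
    rw [show R ρ hψ 1 0 = 0 by omega, zero_add] at hμ
    rcases Nat.lt_or_ge (R ρ hψ 1 1) 2 with h | h
    · interval_cases R ρ hψ 1 1 <;> omega
    · have := Nat.mul_le_mul_left (q - 1) h
      omega
  have h1 : q - 1 ≤ (q - 1) * R ρ hψ 1 0 := Nat.le_mul_of_pos_right _ hR1
  rw [hk, hp, show p + 3 - 1 = p + 2 by omega]
  rw [hp, show p + 3 - 1 = p + 2 by omega] at h1
  have : 1 ≤ (p + 3) ^ 3 := Nat.one_le_pow _ _ (by omega)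
  zify [this] at h1 ⊢
  nlinarith [Int.natCast_nonneg (R ρ hψ 0 0)]

end Cfsg.Agent.Suzuki.G2Min
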