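import Cfsg.Agent.Suzuki.G2MinShear

/-! # Multiplicities of characters of the radical -/

set_option autoImplicit false
set_option maxHeartbeats 800000

universe u v

namespace Cfsg.Agent.Suzuki.G2Min

open Cfsg.Lie Cfsg.Agent.Chev
open Cfsg.Agent.Suzuki.ReeDeg Cfsg.Agent.Suzuki.TraceProj

variable {F : Type u} [Field F] [Fintype F] {V : Type v} [AddCommGroup V] [Module ℂ V] [FiniteDimensional ℂ V]
  (ρ : Representation ℂ ↥(chevG2.group F) V) {ψ : AddChar F ℂ}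
  (hψ : ∀ c : F, c ≠ 0 → ∑ b : F, ψ (c * b) = 0)

local notation "T" => LinearMap.trace ℂ V

omit [Fintype F] in
theorem op_trace (g : ↥(chevG2.group F)) {X Y : Module.End ℂ V} (h : ρ g * X = Y * ρ g) : T X = T Y :=
  trace_conj (by rw [← map_mul, mul_inv_cancel, map_one]) (by rw [← map_mul, inv_mul_cancel, map_one]) h

variable [DecidableEq F]

include hψ in
theorem P_idem (w : W4 F) : P ρ ψ w * P ρ ψ w = P ρ ψ w := by rw [P_mul ρ hψ, if_pos rfl]

/-- The multiplicity of a character. -/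
noncomputable def M (w : W4 F) : ℕ := (idem_trace (P_idem ρ hψ w)).choose

theorem M_spec (w : W4 F) : T (P ρ ψ w) = M ρ hψ w := (idem_trace (P_idem ρ hψ w)).choose_spec.1

theorem M_zero {w : W4 F} (h : M ρ hψ w = 0) : P ρ ψ w = 0 := (idem_trace (P_idem ρ hψ w)).choose_spec.2 h

theorem M_shT (t : F) (w : W4 F) : M ρ hψ (shT t w) = M ρ hψ w := by
  have : (M ρ hψ (shT t w) : ℂ) = M ρ hψ w := by
    rw [← M_spec, ← M_spec]
    exact (op_trace ρ (xg 7 t) (P_T ρ hψ t w).symm).symm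
  exact_mod_cast this

theorem M_shS (t : F) (w : W4 F) : M ρ hψ (shS t w) = M ρ hψ w := by
  have : (M ρ hψ (shS t w) : ℂ) = M ρ hψ w := by
    rw [← M_spec, ← M_spec]
    exact (op_trace ρ (xg 4 t) (P_S ρ hψ t w).symm).symm
  exact_mod_cast this

theorem M_torus {a b : F} (ha : a ≠ 0) (hb : b ≠ 0) (x u c d : F) :
    M ρ hψ (b * x, a * b * u, a ^ 2 * b * c, a ^ 3 * b * d) = M ρ hψ (x, u, c, d) := by
  obtain ⟨h, hh⟩ := exists_torus ha hb
  have : (M ρ hψ (b * x, a * b * u, a ^ 2 * b * c, a ^ 3 * b * d) : ℂ) = M ρ hψ (x, u, c, d) := by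
    rw [← M_spec, ← M_spec]
    exact op_trace ρ h (P_torus ρ ha hb h hh (x, u, c, d))
  exact_mod_cast this

/-! ### Marginals -/

omit [FiniteDimensional ℂ V] [DecidableEq F] in
include hψ in
theorem pr_sum (r : ℕ) : ∑ c, pr ρ ψ r c = 1 := prj_sum hψ (op_zero ρ r)

theorem trace_q0 : T (q0 ρ ψ) = ∑ w, (M ρ hψ w : ℂ) := by
  simp only [← M_spec, ← map_sum, sum_P ρ hψ]

theorem trace_six (a : F) : T (q0 ρ ψ * pr ρ ψ 6 a) = ∑ u, ∑ c, ∑ d, (M ρ hψ (a, u, c, d) : ℂ) := by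
  simp only [← M_spec, ← map_sum, P_factor, ← Finset.mul_sum, ← Finset.sum_mul, pr_sum ρ hψ, mul_one]

theorem trace_six_eight (a u : F) :
    T (q0 ρ ψ * (pr ρ ψ 6 a * pr ρ ψ 8 u)) = ∑ c, ∑ d, (M ρ hψ (a, u, c, d) : ℂ) := by
  simp only [← M_spec, ← map_sum, P_factor, ← Finset.mul_sum, pr_sum ρ hψ, mul_one]

theorem trace_nine (c : F) : T (q0 ρ ψ * pr ρ ψ 9 c) = ∑ a, ∑ u, ∑ d, (M ρ hψ (a, u, c, d) : ℂ) := by
  simp only [← M_spec, ← map_sum, P_factor, ← Finset.mul_sum, ← Finset.sum_mul, pr_sum ρ hψ, mul_one, one_mul]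

theorem trace_six_nine (a c : F) :
    T (q0 ρ ψ * (pr ρ ψ 6 a * pr ρ ψ 9 c)) = ∑ u, ∑ d, (M ρ hψ (a, u, c, d) : ℂ) := by
  simp only [← M_spec, ← map_sum, P_factor, ← Finset.mul_sum, ← Finset.sum_mul, pr_sum ρ hψ, mul_one, one_mul]

theorem trace_six_ten (a d : F) :
    T (q0 ρ ψ * (pr ρ ψ 6 a * pr ρ ψ 10 d)) = ∑ u, ∑ c, (M ρ hψ (a, u, c, d) : ℂ) := by
  simp only [← M_spec, ← map_sum, P_factor, ← Finset.mul_sum, ← Finset.sum_mul, pr_sum ρ hψ, mul_one, one_mul]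

/-! ### Shifts and moves -/

omit [FiniteDimensional ℂ V] [DecidableEq F] in
theorem pr_commute {r s : ℕ} (h : ∀ a b, Commute (xg (F := F) r a) (xg s b)) (c d : F) :
    Commute (pr ρ ψ r c) (pr ρ ψ s d) :=
  commute_prj (fun b => (commute_prj (fun a => ((h a b).map ρ).symm) c).symm) d

include hψ in
omit [DecidableEq F] in
/-- A root subgroup paired into the centre shifts the characters of its partner. -/
theorem shift {k r g : ℕ} {κ : F} (hκ : κ ≠ 0)
    (hgr : ∀ b t : F, xg g t * xg r b = xg r b * xg g t * xg k (κ * (t * b))) (hg11 : ∀ a b, Commute (xg (F := F) k a) (xg g b))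
    (hr11 : ∀ a b, Commute (xg (F := F) k a) (xg r b))
    {z : F} (hz : z ≠ 0) (X : Module.End ℂ V) (hX : ∀ t, Commute (op ρ g t) X) (c : F) :
    (Fintype.card F : ℂ) * T (pr ρ ψ k z * (pr ρ ψ r c * X)) = T (pr ρ ψ k z * X) := by
  classical
  have eq : ∀ e : F, T (pr ρ ψ k z * (pr ρ ψ r e * X)) = T (pr ρ ψ k z * (pr ρ ψ r 0 * X)) := by
    intro e
    set t := e / (z * κ) with ht
    have cz : Commute (op ρ g t) (pr ρ ψ k z) := commute_prj (fun b => ((hg11 b t).map ρ).symm) z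
    refine op_trace ρ (xg g t) ?_
    have h0 : ∀ b, op ρ g t * (pr ρ ψ k z * (op ρ r b * X)) =
        ψ (e * b) • ((pr ρ ψ k z * (op ρ r b * X)) * op ρ g t) := by
      intro b
      have e1 : op ρ g t * op ρ r b = op ρ r b * op ρ k (κ * (t * b)) * op ρ g t := by
        rw [op, op, op, ← map_mul, hgr, mul_assoc, ← (hg11 _ _).eq, ← mul_assoc, map_mul, map_mul]
      have c2 : Commute (op ρ r b) (pr ρ ψ k z) := commute_prj (fun x => ((hr11 x b).map ρ).symm) z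
      rw [← mul_assoc, cz.eq, mul_assoc, ← mul_assoc (op ρ g t), e1]
      simp only [mul_assoc]
      rw [(hX t).eq, ← mul_assoc (pr ρ ψ k z) (op ρ r b), ← c2.eq, mul_assoc (op ρ r b),
        ← mul_assoc (pr ρ ψ k z) (op ρ k (κ * (t * b))),
        ← (show Commute (op ρ k (κ * (t * b))) (pr ρ ψ k z) from
          commute_prj (fun x => commute_of_add (op_add ρ k) (κ * (t * b)) x) z).eq,
        show op ρ k (κ * (t * b)) * pr ρ ψ k z = ψ (z * (κ * (t * b))) • pr ρ ψ k z from mul_prj (op_add ρ k) _ _, smul_mul_assoc, mul_smul_comm, ← mul_assoc (pr ρ ψ k z) (op ρ r b), ← c2.eq]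
      simp only [mul_assoc]
      rw [show z * (κ * (t * b)) = e * b by rw [ht]; field_simp]
    show op ρ g t * (pr ρ ψ k z * (pr ρ ψ r e * X)) = pr ρ ψ k z * (pr ρ ψ r 0 * X) * op ρ g t
    have ex : ∀ f : F, pr ρ ψ k z * (pr ρ ψ r f * X) =
        (Fintype.card F : ℂ)⁻¹ • ∑ b, ψ (-(f * b)) • (pr ρ ψ k z * (op ρ r b * X)) := fun f => by
      conv_lhs => rw [show pr ρ ψ r f = prj ψ (op ρ r) f from rfl, prj]
      simp only [smul_mul_assoc, mul_smul_comm, Finset.sum_mul, Finset.mul_sum]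
    rw [ex e, ex 0]
    simp only [mul_smul_comm, smul_mul_assoc, Finset.mul_sum, Finset.sum_mul, h0, smul_smul]
    congr 1
    refine Finset.sum_congr rfl fun b _ => ?_
    rw [← AddChar.map_add_eq_mul, neg_add_cancel]
    simp
  have hsum : T (pr ρ ψ k z * X) = ∑ e, T (pr ρ ψ k z * (pr ρ ψ r e * X)) := by
    rw [← map_sum, ← Finset.mul_sum, ← Finset.sum_mul, pr_sum ρ hψ, one_mul]
  rw [hsum, Finset.sum_congr rfl fun e _ => eq e, Finset.sum_const, Finset.card_univ, nsmul_eq_mul, eq c]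

omit [Fintype F] [DecidableEq F] in
theorem rel_six_ten (b t : F) : xg 10 t * xg 6 b = xg 6 b * xg 10 t * xg 11 (-1 * (t * b)) := by
  have h : chevG2.commTerms 6 10 = [(11, 1, 1, 1)] := by decide +kernel
  have e := xg_comm (F := F) (r := 6) (s := 10) (by decide +kernel) b t
  simp only [ChevalleyDatum.commWord, h, List.map_cons, List.map_nil, List.prod_cons, List.prod_nil, mul_one,
    pow_one, Int.cast_one, one_mul] at e
  rw [e]; congr 2; ring

omit [Fintype F] [DecidableEq F] in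
theorem rel_eight_nine (b t : F) : xg 9 t * xg 8 b = xg 8 b * xg 9 t * xg 11 (-3 * (t * b)) := by
  have h : chevG2.commTerms 8 9 = [(11, 3, 1, 1)] := by decide +kernel
  have e := xg_comm (F := F) (r := 8) (s := 9) (by decide +kernel) b t
  simp only [ChevalleyDatum.commWord, h, List.map_cons, List.map_nil, List.prod_cons, List.prod_nil, mul_one,
    pow_one, Int.cast_ofNat] at e
  rw [e]; congr 2; ring

omit [Fintype F] [DecidableEq F] in
theorem commute_pairs {r s : ℕ} (h : (r, s) ∈ [(11, 6), (11, 8), (11, 9), (11, 10), (11, 7), (6, 8), (6, 9),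
    (8, 10), (9, 10), (10, 8), (9, 6), (10, 9), (7, 10), (8, 6)]) (a b : F) : Commute (xg r a) (xg s b) := by
  have key : ∀ p ∈ [(11, 6), (11, 8), (11, 9), (11, 10), (11, 7), (6, 8), (6, 9), (8, 10), (9, 10), (10, 8), (9, 6),
    (10, 9), (7, 10), (8, 6)], (p.1 < 12 ∧ p.2 < 12 ∧ p.2 ≠ p.1 ∧ p.2 ≠ chevG2.neg p.1) ∧
      chevG2.commTerms p.1 p.2 = [] := by decide +kernel
  exact xg_commute (key _ h).1 (key _ h).2 a b

omit [DecidableEq F] in
include hψ in
theorem shift_six {z : F} (hz : z ≠ 0) (X : Module.End ℂ V) (hX : ∀ t, Commute (op ρ 10 t) X) (c : F) :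
    (Fintype.card F : ℂ) * T (pr ρ ψ 11 z * (pr ρ ψ 6 c * X)) = T (pr ρ ψ 11 z * X) :=
  shift ρ hψ (neg_ne_zero.2 one_ne_zero) rel_six_ten (commute_pairs (by simp)) (commute_pairs (by simp)) hz X hX c

omit [DecidableEq F] in
include hψ in
theorem shift_eight (h3 : (3 : F) ≠ 0) {z : F} (hz : z ≠ 0) (X : Module.End ℂ V) (hX : ∀ t, Commute (op ρ 9 t) X)
    (c : F) : (Fintype.card F : ℂ) * T (pr ρ ψ 11 z * (pr ρ ψ 8 c * X)) = T (pr ρ ψ 11 z * X) :=
  shift ρ hψ (neg_ne_zero.2 h3) rel_eight_nine (commute_pairs (by simp)) (commute_pairs (by simp)) hz X hX c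

omit [FiniteDimensional ℂ V] [DecidableEq F] in
/-- A conjugation carrying root subgroups to root subgroups carries their projections along. -/
theorem move_pr {g : ↥(chevG2.group F)} {r r' : ℕ} {c : F} (hc : c ≠ 0)
    (h : ∀ t, g * xg r t = xg r' (c * t) * g) (e : F) :
    ρ g * pr ρ ψ r e = pr ρ ψ r' (e / c) * ρ g :=
  conj_prj hc (fun b => by rw [op, op, ← map_mul, h, map_mul]) e

omit [Fintype F] [DecidableEq F] in
theorem exists_move : ∃ (n : ↥(chevG2.group F)) (x y w : F), x ≠ 0 ∧ y ≠ 0 ∧ w ≠ 0 ∧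
    (∀ t, n * xg 11 t = xg 6 (x * t) * n) ∧ (∀ t, n * xg 9 t = xg 8 (y * t) * n) ∧
    ∀ t, n * xg 7 t = xg 9 (w * t) * n := by
  have h : act chevG2 [0, 1] 11 = 6 ∧ act chevG2 [0, 1] 9 = 8 ∧ act chevG2 [0, 1] 7 = 9 ∧
      ∀ i ∈ [0, 1], i < chevG2.rank := by decide +kernel
  obtain ⟨a, b, c, hL⟩ := h
  obtain ⟨n, hn⟩ := exists_weyl (F := F) hL
  obtain ⟨x, hx, ex⟩ := hn 11 (by norm_num)
  obtain ⟨y, hy, ey⟩ := hn 9 (by norm_num)
  obtain ⟨w, hw, ew⟩ := hn 7 (by norm_num)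
  rw [a] at ex
  rw [b] at ey
  rw [c] at ew
  exact ⟨n, x, y, w, hx, hy, hw, ex, ey, ew⟩

omit [DecidableEq F] in
theorem trace_centre {z : F} (hz : z ≠ 0) : T (pr ρ ψ 11 z) = T (pr ρ ψ 11 1) := by
  obtain ⟨h, hh⟩ := exists_torus (a := z⁻¹) (b := z ^ 2) (inv_ne_zero hz) (pow_ne_zero _ hz)
  refine op_trace ρ h ?_
  have e := move_pr ρ (ψ := ψ) (mul_ne_zero (pow_ne_zero _ (inv_ne_zero hz)) (pow_ne_zero _ (pow_ne_zero _ hz)))
    (fun t => (hh t).2.2.2.2.2) z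
  rwa [show z / (z⁻¹ ^ 3 * (z ^ 2) ^ 2) = 1 by field_simp] at e

omit [DecidableEq F] in
theorem trace_long {a : F} (ha : a ≠ 0) : T (pr ρ ψ 6 a) = T (pr ρ ψ 11 1) := by
  obtain ⟨n, x, -, -, hx, -, -, hn, -, -⟩ := exists_move (F := F)
  rw [← trace_centre ρ (mul_ne_zero ha hx)]
  have e := move_pr ρ (ψ := ψ) hx hn (a * x)
  rw [mul_div_cancel_right₀ _ hx] at e
  exact (op_trace ρ n e).symm

omit [DecidableEq F] in
include hψ in
theorem centre_eq {a : F} (ha : a ≠ 0) :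
    T (pr ρ ψ 11 1) = (Fintype.card F : ℂ) * T (q0 ρ ψ * pr ρ ψ 6 a) := by
  classical
  have h1 : T (pr ρ ψ 6 a) = ∑ z, T (pr ρ ψ 11 z * pr ρ ψ 6 a) := by
    rw [← map_sum, ← Finset.sum_mul, pr_sum ρ hψ, one_mul]
  rw [← Finset.add_sum_erase _ _ (Finset.mem_univ (0 : F)), trace_long ρ ha] at h1
  have h2 : ∀ z ∈ (Finset.univ : Finset F).erase 0, T (pr ρ ψ 11 z * pr ρ ψ 6 a) =
      (Fintype.card F : ℂ)⁻¹ * T (pr ρ ψ 11 1) := by
    intro z hz
    have hq : (Fintype.card F : ℂ) ≠ 0 := by exact_mod_cast Fintype.card_ne_zero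
    have e := shift_six ρ hψ (Finset.ne_of_mem_erase hz) 1 (fun _ => Commute.one_right _) a
    rw [mul_one, mul_one, trace_centre ρ (Finset.ne_of_mem_erase hz)] at e
    rw [← e]; field_simp
  rw [Finset.sum_congr rfl h2, Finset.sum_const, Finset.card_erase_of_mem (Finset.mem_univ _), Finset.card_univ,
    nsmul_eq_mul, Nat.cast_sub Fintype.card_pos, Nat.cast_one, show pr ρ ψ 11 0 = q0 ρ ψ from rfl] at h1
  have hq : (Fintype.card F : ℂ) ≠ 0 := by exact_mod_cast Fintype.card_ne_zero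
  field_simp at h1
  linear_combination h1

omit [DecidableEq F] in
include hψ in
theorem finrank_eq :
    (Module.finrank ℂ V : ℂ) = ((Fintype.card F : ℂ) - 1) * T (pr ρ ψ 11 1) + T (q0 ρ ψ) := by
  classical
  rw [← LinearMap.trace_one (R := ℂ) (M := V), ← pr_sum ρ hψ 11, map_sum,
    ← Finset.add_sum_erase _ _ (Finset.mem_univ (0 : F)),
    Finset.sum_congr rfl fun z hz => trace_centre ρ (Finset.ne_of_mem_erase hz), Finset.sum_const,
    Finset.card_erase_of_mem (Finset.mem_univ _), Finset.card_univ, nsmul_eq_mul, Nat.cast_sub Fintype.card_pos,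
    Nat.cast_one, show pr ρ ψ 11 0 = q0 ρ ψ from rfl]
  ring

end Cfsg.Agent.Suzuki.G2Min
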