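import Cfsg.Agent.Suzuki.G2MinCoprime

/-!
# The case `q ≡ 1 (mod 3)`: tools

For the remaining degrees the space fixed by the two long root subgroups `X₁₁`, `X₆` has small dimension.  We study
its images under the opposite translation group `X₀ X₅`.
-/

set_option autoImplicit false
set_option maxHeartbeats 800000

universe u v

namespace Cfsg.Agent.Suzuki.G2Min

open Cfsg.Lie Cfsg.Agent.Chev Cfsg.Agent.Chev.TwoGenTools
open Cfsg.Agent.Suzuki.ReeDeg Cfsg.Agent.Suzuki.TraceProj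
open scoped Matrix MatrixGroups

variable {F : Type u} [Field F]

/-- A torus element centralising the long root subgroups. -/
theorem exists_h0 {x : F} (hx : x ^ 3 = 1) :
    ∃ h : ↥(chevG2.group F), h ^ 3 = 1 ∧ (∀ t, h * xg 2 t = xg 2 (x * t) * h) ∧
      (∀ g : ↥(chevG2.group F), (g : GL chevG2.Idx F) ∈ chevG2.diagonalSubgroup F → Commute h g) ∧
      ∀ r ∈ [0, 1, 5, 6, 9, 10, 11], r ≠ 9 → ∀ t : F, Commute h (xg r t) := by
  have hx0 : x ≠ 0 := fun h => by simp [h] at hx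
  let y : Fˣ := Units.mk0 x hx0
  have hy : y ^ 3 = 1 := Units.ext (by simp [y, hx])
  let c : Fin chevG2.rank → Fˣ := (![y ^ 2, 1] : Fin 2 → Fˣ)
  have hc : chevG2.cartan 0 0 = 0 ∧ chevG2.cartan 0 1 = -3 ∧ chevG2.cartan 0 5 = 3 ∧ chevG2.cartan 0 6 = -3 ∧
      chevG2.cartan 0 10 = 3 ∧ chevG2.cartan 0 11 = 0 ∧ chevG2.cartan 0 2 = -1 := by
    decide +kernel
  obtain ⟨c0, c1, c5, c6, c10, c11, c8⟩ := hc
  set h : ↥(chevG2.group F) := ⟨cG.torusHom c, cG.borel_le_group (cG.diagonal_le_borel (cG.torusHom_mem c))⟩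
  have key : ∀ r < 12, ∀ v : F, (((y ^ 2) ^ chevG2.cartan 0 r : Fˣ) : F) = v →
      ∀ t, h * xg r t = xg r (v * t) * h := by
    intro r hr v hv t
    refine Subtype.ext (mul_inv_eq_iff_eq_mul.1 ?_)
    have e := torusHom_conj cG c hr t
    have ht : tchar (D := chevG2) c r = (y ^ 2) ^ chevG2.cartan 0 r := by
      show ∏ k : Fin 2, c k ^ chevG2.cartan (k : ℕ) r = _
      rw [Fin.prod_univ_two]
      show (y ^ 2) ^ chevG2.cartan 0 r * (1 : Fˣ) ^ chevG2.cartan 1 r = _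
      rw [one_zpow, mul_one]
    rw [ht, hv] at e
    exact e
  have h6 : (y ^ 2) ^ (3 : ℤ) = 1 := by rw [show (3 : ℤ) = ((3 : ℕ) : ℤ) from rfl, zpow_natCast, ← pow_mul, mul_comm,
    pow_mul, hy, one_pow]
  refine ⟨h, ?_, key 2 (by norm_num) x ?_, fun g hg => ?_, fun r hr hr9 t => ?_⟩
  · refine Subtype.ext ?_
    show cG.torusHom c ^ 3 = 1
    rw [← map_pow, show c ^ 3 = 1 from funext fun k => ?_, map_one]
    fin_cases k
    · show (y ^ 2) ^ 3 = 1
      rw [← pow_mul, mul_comm, pow_mul, hy, one_pow]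
    · exact one_pow 3
  · rw [c8, zpow_neg_one, show (y ^ 2)⁻¹ = y from inv_eq_of_mul_eq_one_right (by rw [← pow_succ, hy])]
    rfl
  · obtain ⟨d, hd⟩ := cG.exists_torusHom hg
    refine Subtype.ext ?_
    show cG.torusHom c * (g : GL chevG2.Idx F) = (g : GL chevG2.Idx F) * cG.torusHom c
    rw [← hd, ← map_mul, ← map_mul, mul_comm]
  · have e : ((y ^ 2) ^ chevG2.cartan 0 r : Fˣ) = 1 := by
      simp only [List.mem_cons, List.not_mem_nil, or_false] at hr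
      rcases hr with rfl | rfl | rfl | rfl | rfl | rfl | rfl
      · rw [c0, zpow_zero]
      · rw [c1, zpow_neg, h6, inv_one]
      · rw [c5, h6]
      · rw [c6, zpow_neg, h6, inv_one]
      · exact absurd rfl hr9
      · rw [c10, h6]
      · rw [c11, zpow_zero]
    have hr' : r < 12 := by simp only [List.mem_cons, List.not_mem_nil, or_false] at hr; omega
    have := key r hr' 1 (by rw [e, Units.val_one]) t
    rwa [one_mul] at this

/-- The torus on the negative long roots. -/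
theorem exists_torus_neg {a b : F} (ha : a ≠ 0) (hb : b ≠ 0) :
    ∃ h : ↥(chevG2.group F), (h : GL chevG2.Idx F) ∈ chevG2.diagonalSubgroup F ∧ ∀ t, h * xg 11 t = xg 11 (a ^ 3 * b ^ 2 * t) * h ∧ h * xg 6 t = xg 6 (b * t) * h ∧
      h * xg 10 t = xg 10 (a ^ 3 * b * t) * h ∧ h * xg 5 t = xg 5 (b⁻¹ * t) * h ∧
      h * xg 1 t = xg 1 ((a ^ 3 * b)⁻¹ * t) * h := by
  let x : Fˣ := Units.mk0 a ha
  let y : Fˣ := Units.mk0 b hb
  let c : Fin 2 → Fˣ := ![x ^ 2 * y, x ^ 3 * y ^ 2]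
  have hc : chevG2.cartan 0 11 = 0 ∧ chevG2.cartan 1 11 = 1 ∧ chevG2.cartan 0 6 = -3 ∧ chevG2.cartan 1 6 = 2 ∧
      chevG2.cartan 0 10 = 3 ∧ chevG2.cartan 1 10 = -1 ∧ chevG2.cartan 0 5 = 3 ∧ chevG2.cartan 1 5 = -2 ∧
      chevG2.cartan 0 1 = -3 ∧ chevG2.cartan 1 1 = 1 := by decide +kernel
  obtain ⟨a11, b11, a6, b6, a10, b10, a5, b5, a1, b1⟩ := hc
  refine ⟨⟨cG.torusHom c, cG.borel_le_group (cG.diagonal_le_borel (cG.torusHom_mem c))⟩, cG.torusHom_mem c,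
    fun t => ?_⟩
  have key : ∀ r < 12, ∀ v : F, ((x ^ 2 * y) ^ chevG2.cartan 0 r * (x ^ 3 * y ^ 2) ^ chevG2.cartan 1 r : Fˣ) = (v : F) →
      (⟨cG.torusHom c, cG.borel_le_group (cG.diagonal_le_borel (cG.torusHom_mem c))⟩ : ↥(chevG2.group F)) * xg r t =
        xg r (v * t) * ⟨cG.torusHom c, cG.borel_le_group (cG.diagonal_le_borel (cG.torusHom_mem c))⟩ := by
    intro r hr v hv
    refine Subtype.ext (mul_inv_eq_iff_eq_mul.1 ?_)
    have e := torusHom_conj cG c hr t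
    have ht : tchar (D := chevG2) c r = (x ^ 2 * y) ^ chevG2.cartan 0 r * (x ^ 3 * y ^ 2) ^ chevG2.cartan 1 r := by
      show ∏ k : Fin 2, c k ^ chevG2.cartan (k : ℕ) r = _
      rw [Fin.prod_univ_two]
      rfl
    rw [ht, hv] at e
    exact e
  refine ⟨key 11 (by norm_num) _ ?_, key 6 (by norm_num) _ ?_, key 10 (by norm_num) _ ?_, key 5 (by norm_num) _ ?_,
    key 1 (by norm_num) _ ?_⟩ <;>
    simp only [a11, b11, a6, b6, a10, b10, a5, b5, a1, b1, Units.val_mul, Units.val_zpow_eq_zpow_val,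
      Units.val_inv_eq_inv_val, Units.val_pow_eq_pow_val, x, y, Units.val_mk0, zpow_neg, zpow_ofNat, zpow_one,
      zpow_zero, one_mul, mul_one] <;>
    field_simp

/-- The element reversing the root `b`. -/
noncomputable def nb : ↥(chevG2.group F) := xg 6 1 * xg 5 (-1) * xg 6 1

theorem nb_spec (r : ℕ) (hr : r < 12) :
    ∃ c : F, c ≠ 0 ∧ ∀ t, (nb : ↥(chevG2.group F)) * xg r t = xg (act chevG2 [1] r) (c * t) * nb := by
  have hL : (∀ i ∈ [1], i < chevG2.rank) ∧ chevG2.simple 1 = 6 ∧ chevG2.neg 6 = 5 := by decide +kernel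
  obtain ⟨hL, h6, h5⟩ := hL
  obtain ⟨c, hc, e⟩ := cG.nWordElt_conj_xu (F := F) hL hr
  refine ⟨c, hc, fun t => Subtype.ext ?_⟩
  have hn : ((nb : ↥(chevG2.group F)) : GL chevG2.Idx F) = cG.nWordElt F [1] := by
    rw [Cert.nWordElt, List.map_cons, List.map_nil, List.prod_cons, List.prod_nil, mul_one, h6, cG.nu_eq, h5, inv_one]
    rfl
  show ((nb : ↥(chevG2.group F)) : GL chevG2.Idx F) * _ = _ * ((nb : ↥(chevG2.group F)) : GL chevG2.Idx F)
  rw [hn]
  exact mul_inv_eq_iff_eq_mul.1 (e t)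

theorem rel_conj {r g u : ℕ} {k : ℤ} (h : r < 12 ∧ g < 12 ∧ g ≠ r ∧ g ≠ chevG2.neg r)
    (hc : chevG2.commTerms r g = [(u, k, 1, 1)]) (b t : F) :
    xg g t * xg r b = xg r b * xg g t * xg u (-(k : F) * (t * b)) := by
  have e := xg_comm h b t
  simp only [ChevalleyDatum.commWord, hc, List.map_cons, List.map_nil, List.prod_cons, List.prod_nil, mul_one,
    pow_one] at e
  rw [e]; congr 2; ring

theorem commute_long {r s : ℕ} (h : (r, s) ∈ [(0, 5), (10, 5), (1, 0), (1, 6), (11, 10), (11, 6)]) (a b : F) :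
    Commute (xg r a) (xg s b) := by
  have key : ∀ p ∈ [(0, 5), (10, 5), (1, 0), (1, 6), (11, 10), (11, 6)],
      (p.1 < 12 ∧ p.2 < 12 ∧ p.2 ≠ p.1 ∧ p.2 ≠ chevG2.neg p.1) ∧ chevG2.commTerms p.1 p.2 = [] := by decide +kernel
  exact xg_commute (key _ h).1 (key _ h).2 a b

variable [Fintype F] {V : Type v} [AddCommGroup V] [Module ℂ V]
  (ρ : Representation ℂ ↥(chevG2.group F) V) {ψ : AddChar F ℂ}

/-- The projection on the vectors fixed by `X₁₁` and `X₆`. -/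
noncomputable def PE (ψ : AddChar F ℂ) : Module.End ℂ V := q0 ρ ψ * pr ρ ψ 6 0

theorem pr_zero_absorb (r : ℕ) (t : F) : op ρ r t * pr ρ ψ r 0 = pr ρ ψ r 0 := by
  rw [pr, mul_prj (op_add ρ r), zero_mul, AddChar.map_zero_eq_one, one_smul]

theorem op_six_PE (t : F) : op ρ 6 t * PE ρ ψ = PE ρ ψ := by
  rw [PE, ← mul_assoc, (q0_comm ρ 6 (by norm_num) t).eq, mul_assoc, pr_zero_absorb]

theorem PE_op_six (t : F) : PE ρ ψ * op ρ 6 t = PE ρ ψ := by
  have c : Commute (op ρ 6 t) (pr ρ ψ 6 0) := commute_prj (fun b => commute_of_add (op_add ρ 6) t b) 0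
  rw [PE, mul_assoc, ← c.eq, pr_zero_absorb]

theorem op_eleven_PE (t : F) : op ρ 11 t * PE ρ ψ = PE ρ ψ := by
  rw [PE, ← mul_assoc, q0_eleven]

/-- Elements normalising the group `X₁₁ X₆` commute with its projection. -/
theorem PE_commute_ten (t : F) : Commute (op ρ 10 t) (PE ρ ψ) := by
  have hb : ∀ b, op ρ 10 t * (q0 ρ ψ * op ρ 6 b) = q0 ρ ψ * op ρ 6 b * op ρ 10 t := by
    intro b
    rw [← (q0_comm ρ 6 (by norm_num) b).eq, swap_q0 ρ (by simp) (by simp), mul_assoc]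
    exact congrArg (op ρ 6 b * ·) (q0_comm ρ 10 (by norm_num) t).eq
  show op ρ 10 t * PE ρ ψ = PE ρ ψ * op ρ 10 t
  simp only [PE, pr, prj, zero_mul, neg_zero, AddChar.map_zero_eq_one, one_smul, mul_smul_comm, smul_mul_assoc,
    Finset.mul_sum, Finset.sum_mul, hb]

theorem PE_commute_one (t : F) : Commute (op ρ 1 t) (PE ρ ψ) := by
  have h : (11 < 12 ∧ 1 < 12 ∧ 1 ≠ 11 ∧ 1 ≠ chevG2.neg 11) ∧ chevG2.commTerms 11 1 = [(6, 1, 1, 1)] := by
    decide +kernel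
  have c6 : Commute (op ρ 1 t) (pr ρ ψ 6 0) :=
    commute_prj (fun b => (commute_long (r := 1) (s := 6) (by simp) t b).map ρ) 0
  have hz : ∀ z, op ρ 1 t * op ρ 11 z * pr ρ ψ 6 0 = op ρ 11 z * pr ρ ψ 6 0 * op ρ 1 t := by
    intro z
    rw [op, op, ← map_mul, rel_conj h.1 h.2, map_mul, map_mul, mul_assoc (_ * _),
      show ρ (xg 6 (-((1 : ℤ) : F) * (t * z))) * pr ρ ψ 6 0 = pr ρ ψ 6 0 from pr_zero_absorb ρ 6 _, mul_assoc,
      show ρ (xg 1 t) * pr ρ ψ 6 0 = pr ρ ψ 6 0 * ρ (xg 1 t) from c6, ← mul_assoc]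
  show op ρ 1 t * PE ρ ψ = PE ρ ψ * op ρ 1 t
  have eq : ∀ X : Module.End ℂ V, q0 ρ ψ * X = (Fintype.card F : ℂ)⁻¹ • ∑ z, op ρ 11 z * X := fun X => by
    simp [q0, pr, prj, Finset.sum_mul]
  rw [PE, eq]
  simp only [mul_smul_comm, smul_mul_assoc, Finset.mul_sum, Finset.sum_mul, ← mul_assoc, hz]

/-- The operator of a translation, cut down to `PE`. -/
noncomputable def Otr (ψ : AddChar F ℂ) (z d : F) : Module.End ℂ V :=
  PE ρ ψ * (op ρ 0 z * op ρ 5 d) * PE ρ ψ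

end Cfsg.Agent.Suzuki.G2Min
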