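import Cfsg.Agent.Suzuki.G2MinOneA

/-!
# The case `q ≡ 1 (mod 3)`

If the degree is smaller than `q³ + 1`, the space fixed by the two long root subgroups has dimension at most `q`.
Its image in an eigenspace of the opposite translation group is then nearly the whole of it, while an element of
order three centralising the long root subgroups confines that image to about a third of the eigenspace.
-/

set_option autoImplicit false
set_option maxHeartbeats 800000
set_option linter.unusedSectionVars false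

universe u v

namespace Cfsg.Agent.Suzuki.G2Min

open Cfsg.Lie Cfsg.Agent.Chev
open Cfsg.Agent.Suzuki.ReeDeg Cfsg.Agent.Suzuki.TraceProj

section Rank

variable {V : Type v} [AddCommGroup V] [Module ℂ V] [FiniteDimensional ℂ V]

/-- The rank of an endomorphism. -/
noncomputable def rk (X : Module.End ℂ V) : ℕ := Module.finrank ℂ (LinearMap.range X)

theorem rk_add (X Y : Module.End ℂ V) : rk (X + Y) ≤ rk X + rk Y :=
  (Submodule.finrank_mono (LinearMap.range_add_le X Y)).trans (Submodule.finrank_add_le_finrank_add_finrank _ _)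

theorem rk_mul_left (X Y : Module.End ℂ V) : rk (X * Y) ≤ rk X :=
  Submodule.finrank_mono (by rintro _ ⟨v, rfl⟩; exact ⟨Y v, rfl⟩)

theorem rk_mul_right (X Y : Module.End ℂ V) : rk (X * Y) ≤ rk Y := by
  rw [rk, Module.End.mul_eq_comp, LinearMap.range_comp]
  exact Submodule.finrank_map_le _ _

theorem rk_smul (a : ℂ) (X : Module.End ℂ V) : rk (a • X) ≤ rk X := by
  rw [show a • X = (a • (1 : Module.End ℂ V)) * X by rw [smul_mul_assoc, one_mul]]
  exact rk_mul_right _ _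

theorem rk_idem {P : Module.End ℂ V} (hP : P * P = P) {n : ℕ} (hn : LinearMap.trace ℂ V P = n) : rk P = n := by
  have e := (LinearMap.IsIdempotentElem.isProj_range _ (show IsIdempotentElem P from hP)).trace.symm.trans hn
  exact_mod_cast e

/-- An idempotent of trace at most one sandwiches every operator to a scalar. -/
theorem sand {P : Module.End ℂ V} (hP : P * P = P) {n : ℕ} (hn : LinearMap.trace ℂ V P = n) (h1 : n ≤ 1)
    (X : Module.End ℂ V) : P * X * P = LinearMap.trace ℂ V (P * X) • P := by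
  rcases Nat.le_one_iff_eq_zero_or_eq_one.1 h1 with rfl | rfl
  · obtain ⟨m, hm, h0⟩ := idem_trace hP
    rw [h0 (by exact_mod_cast hm.symm.trans hn)]
    simp
  · exact sandwich hP (by simpa using hn) X

end Rank

/-- A function on the units invariant under a subgroup sums to a multiple of its order. -/
theorem card_dvd_sum {A : Type u} [CommGroup A] [Fintype A] (H : Subgroup A) (f : A → ℕ)
    (hf : ∀ h ∈ H, ∀ u, f (u * h) = f u) : Nat.card H ∣ ∑ u, f u := by
  classical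
  rw [← Finset.sum_fiberwise Finset.univ (fun u => (QuotientGroup.mk u : A ⧸ H)) f]
  refine Finset.dvd_sum fun c _ => ?_
  obtain ⟨a, rfl⟩ := QuotientGroup.mk_surjective c
  have hval : ∀ u ∈ Finset.univ.filter (fun u => (QuotientGroup.mk u : A ⧸ H) = QuotientGroup.mk a), f u = f a := by
    intro u hu
    simpa using hf _ (QuotientGroup.eq.1 (Finset.mem_filter.1 hu).2.symm) a
  rw [Finset.sum_congr rfl hval, Finset.sum_const, smul_eq_mul]
  refine Dvd.dvd.mul_right (dvd_of_eq ?_) _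
  rw [Nat.card_eq_fintype_card, ← Finset.card_univ]
  refine Finset.card_bij (fun h _ => a * (h : A)) (fun h _ => ?_) (fun h _ h' _ e => ?_) fun u hu => ?_
  · refine Finset.mem_filter.2 ⟨Finset.mem_univ _, (QuotientGroup.eq.2 ?_).symm⟩
    simpa using h.2
  · exact Subtype.ext (mul_left_cancel e)
  · exact ⟨⟨a⁻¹ * u, QuotientGroup.eq.1 (Finset.mem_filter.1 hu).2.symm⟩, Finset.mem_univ _, by simp⟩

variable {F : Type u} [Field F] [Fintype F] [DecidableEq F] {V : Type v} [AddCommGroup V] [Module ℂ V]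
  [FiniteDimensional ℂ V] (ρ : Representation ℂ ↥(chevG2.group F) V) {ψ : AddChar F ℂ}
  (hψ : ∀ c : F, c ≠ 0 → ∑ b : F, ψ (c * b) = 0)

local notation "T" => LinearMap.trace ℂ V

theorem cancel_rho (g : ↥(chevG2.group F)) {X Y : Module.End ℂ V} (h : X * ρ g = Y * ρ g) : X = Y := by
  simpa [mul_assoc, ← map_mul] using congrArg (· * ρ g⁻¹) h

theorem move_op {g : ↥(chevG2.group F)} {r r' : ℕ} {c : F} (h : ∀ t, g * xg r t = xg r' (c * t) * g) (t : F) :
    ρ g * op ρ r t = op ρ r' (c * t) * ρ g := by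
  rw [op, op, ← map_mul, h, map_mul]

theorem PE_move {g : ↥(chevG2.group F)} {c c' : F} (hc : c ≠ 0) (hc' : c' ≠ 0)
    (h11 : ∀ t, g * xg 11 t = xg 11 (c * t) * g) (h6 : ∀ t, g * xg 6 t = xg 6 (c' * t) * g) :
    ρ g * PE ρ ψ = PE ρ ψ * ρ g := by
  rw [PE, q0, ← mul_assoc, move_pr ρ hc h11 0, mul_assoc, move_pr ρ hc' h6 0, zero_div, zero_div, ← mul_assoc]

theorem PE_pr_ten (d : F) : Commute (PE ρ ψ) (pr ρ ψ 10 d) :=
  commute_prj (fun b => (PE_commute_ten ρ b).symm) d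

theorem PE_pr_one (a : F) : Commute (PE ρ ψ) (pr ρ ψ 1 a) :=
  commute_prj (fun b => (PE_commute_one ρ b).symm) a

/-- The projection fixed by `X₁₁`, `X₆` and `X₁₀`. -/
noncomputable def e0p (ψ : AddChar F ℂ) : Module.End ℂ V := PE ρ ψ * pr ρ ψ 10 0

include hψ

theorem pr_idem (r : ℕ) (c : F) : pr ρ ψ r c * pr ρ ψ r c = pr ρ ψ r c := prj_idem hψ (op_add ρ r) c

theorem PE_idem : PE ρ ψ * PE ρ ψ = PE ρ ψ :=
  idem_mul (q0_idem ρ hψ) (pr_idem ρ hψ 6 0) (pr_commute ρ (commute_pairs (by simp)) 0 0).symm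

theorem trace_PE_ten (d : F) : T (PE ρ ψ * pr ρ ψ 10 d) = R ρ hψ 0 d := by
  rw [PE, mul_assoc, trace_six_ten ρ hψ, R]
  push_cast
  rfl

theorem R_zero_le (h10 : R ρ hψ 1 0 = 1) (h00 : R ρ hψ 0 0 ≤ 1) (d : F) : R ρ hψ 0 d ≤ 1 := by
  rcases eq_or_ne d 0 with rfl | hd
  · exact h00
  · rw [R_zero_col ρ hψ hd, h10]

theorem e0p_idem : e0p ρ ψ * e0p ρ ψ = e0p ρ ψ :=
  idem_mul (PE_idem ρ hψ) (pr_idem ρ hψ 10 0) (PE_pr_ten ρ 0).symm

/-- The translations along `X₅`, cut down to `PE`. -/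
theorem Otr_five (h00 : R ρ hψ 0 0 ≤ 1) :
    ∃ s : ℂ, (∀ d : F, d ≠ 0 → PE ρ ψ * op ρ 5 d * PE ρ ψ = s • e0p ρ ψ) ∧
      ((Fintype.card F : ℂ) * s ^ 2) • e0p ρ ψ = (1 + ((Fintype.card F : ℂ) - 1) * s) • e0p ρ ψ ∧
      T (e0p ρ ψ * pr ρ ψ 5 0) = s ^ 2 * R ρ hψ 0 0 := by
  have hh : act chevG2 [1] 11 = 10 ∧ act chevG2 [1] 6 = 5 := by decide +kernel
  obtain ⟨a11, a6⟩ := hh
  obtain ⟨c, hc, ec⟩ := nb_spec (F := F) 11 (by norm_num)
  obtain ⟨c', hc', ec'⟩ := nb_spec (F := F) 6 (by norm_num)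
  rw [a11] at ec
  rw [a6] at ec'
  set P := PE ρ ψ with hP
  set e := e0p ρ ψ with he
  set D := pr ρ ψ 10 0 with hD
  set X := D * pr ρ ψ 5 0 with hX
  have hDP : D * P = P * D := (PE_pr_ten ρ 0).eq.symm
  have hnb : ρ nb * P = X * ρ nb := by
    rw [hP, PE, q0, ← mul_assoc, move_pr ρ hc ec 0, mul_assoc, move_pr ρ hc' ec' 0, zero_div, zero_div, ← mul_assoc]
  have hnb' : ρ (nb : ↥(chevG2.group F))⁻¹ * X = P * ρ (nb : ↥(chevG2.group F))⁻¹ := by
    refine cancel_rho ρ nb ?_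
    rw [mul_assoc, ← hnb, ← mul_assoc, ← map_mul, inv_mul_cancel, map_one, one_mul, mul_assoc, ← map_mul,
      inv_mul_cancel, map_one, mul_one]
  have ne1 : ρ (nb : ↥(chevG2.group F)) = op ρ 6 1 * op ρ 5 (-1) * op ρ 6 1 := by
    rw [nb, map_mul, map_mul]; rfl
  have hinv : ∀ (r : ℕ) (t : F), (xg r t)⁻¹ = xg r (-t) := fun r t => by
    rw [inv_eq_iff_mul_eq_one, xg_add, add_neg_cancel, xg_zero]
  have ne2 : ρ (nb : ↥(chevG2.group F))⁻¹ = op ρ 6 (-1) * op ρ 5 1 * op ρ 6 (-1) := by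
    rw [nb, mul_inv_rev, mul_inv_rev, hinv, hinv, neg_neg, ← mul_assoc, map_mul, map_mul]; rfl
  have hO : P * op ρ 5 (-1) * P = P * X * ρ nb := by
    rw [mul_assoc P X, ← hnb, ne1, ← mul_assoc, ← mul_assoc, ← mul_assoc, PE_op_six, mul_assoc _ (op ρ 6 1),
      op_six_PE]
  have hO' : P * op ρ 5 1 * P = ρ (nb : ↥(chevG2.group F))⁻¹ * X * P := by
    rw [hnb', ne2, ← mul_assoc, ← mul_assoc, PE_op_six, mul_assoc _ (op ρ 6 (-1)), op_six_PE]
  have hDX : D * X = X := by rw [hX, ← mul_assoc, hD, pr_idem ρ hψ]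
  have hXX : X * X = X :=
    idem_mul (pr_idem ρ hψ 10 0) (pr_idem ρ hψ 5 0) (pr_commute ρ (commute_long (by simp)) 0 0).symm
  have hfix : D * (P * op ρ 5 (-1) * P) = P * op ρ 5 (-1) * P := by
    rw [hO, ← mul_assoc, ← mul_assoc, hDP, mul_assoc P D, hDX]
  have hOe : P * op ρ 5 (-1) * P = e * op ρ 5 (-1) * e := by
    have hc5 : Commute D (op ρ 5 (-1)) :=
      (commute_prj (fun b => ((commute_long (r := 10) (s := 5) (by simp) b (-1)).map ρ).symm) 0).symm
    have hcD : Commute D (P * op ρ 5 (-1) * P) := ((PE_pr_ten ρ 0).symm.mul_right hc5).mul_right (PE_pr_ten ρ 0).symm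
    calc P * op ρ 5 (-1) * P = D * (D * (P * op ρ 5 (-1) * P)) := ((congrArg (D * ·) hfix).trans hfix).symm
      _ = D * (P * op ρ 5 (-1) * P * D) := by rw [hcD.eq]
      _ = (D * P) * op ρ 5 (-1) * (P * D) := by simp only [mul_assoc]
      _ = _ := by rw [hDP]; rfl
  have hTe : T e = R ρ hψ 0 0 := trace_PE_ten ρ hψ 0
  set s := T (e * op ρ 5 (-1)) with hs
  have hsand : P * op ρ 5 (-1) * P = s • e := by rw [hOe]; exact sand (e0p_idem ρ hψ) hTe h00 _
  have all : ∀ d : F, d ≠ 0 → P * op ρ 5 d * P = s • e := by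
    intro d hd
    obtain ⟨h, -, hh⟩ := exists_torus_neg (F := F) one_ne_zero (inv_ne_zero (neg_ne_zero.2 hd))
    have m11 : ∀ t, h * xg 11 t = xg 11 (1 ^ 3 * (-d)⁻¹ ^ 2 * t) * h := fun t => (hh t).1
    have m6 : ∀ t, h * xg 6 t = xg 6 ((-d)⁻¹ * t) * h := fun t => (hh t).2.1
    have m10 : ∀ t, h * xg 10 t = xg 10 (1 ^ 3 * (-d)⁻¹ * t) * h := fun t => (hh t).2.2.1
    have m5 : ∀ t, h * xg 5 t = xg 5 ((-d)⁻¹⁻¹ * t) * h := fun t => (hh t).2.2.2.1
    have hn : (-d)⁻¹ ≠ 0 := inv_ne_zero (neg_ne_zero.2 hd)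
    have hP' : ρ h * P = P * ρ h := PE_move ρ (by simp [hd]) hn m11 m6
    have he' : ρ h * e = e * ρ h := by
      rw [he, e0p, ← hP, ← mul_assoc, hP', mul_assoc, move_pr ρ (by simp [hd]) m10 0, zero_div, ← mul_assoc]
    have h5 := move_op ρ m5 (-1)
    rw [inv_inv, mul_neg, mul_one, neg_neg] at h5
    refine cancel_rho ρ h ?_
    calc P * op ρ 5 d * P * ρ h = P * (op ρ 5 d * ρ h) * P := by simp only [mul_assoc, hP']
      _ = P * ρ h * op ρ 5 (-1) * P := by rw [← h5]; simp only [mul_assoc]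
      _ = ρ h * (P * op ρ 5 (-1) * P) := by rw [← hP']; simp only [mul_assoc]
      _ = s • e * ρ h := by rw [hsand, mul_smul_comm, he', smul_mul_assoc]
  have hq : (Fintype.card F : ℂ) ≠ 0 := by exact_mod_cast Fintype.card_ne_zero
  -- the projection on the fixed vectors of `X₅`, cut down
  have hmid : P * pr ρ ψ 5 0 * P = (Fintype.card F : ℂ)⁻¹ • (P + (((Fintype.card F : ℂ) - 1) * s) • e) := by
    simp only [pr, prj, zero_mul, neg_zero, AddChar.map_zero_eq_one, one_smul, mul_smul_comm, smul_mul_assoc,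
      Finset.mul_sum, Finset.sum_mul]
    congr 1
    rw [← Finset.add_sum_erase _ _ (Finset.mem_univ (0 : F)),
      Finset.sum_congr rfl fun d hd => all d (Finset.ne_of_mem_erase hd), Finset.sum_const,
      Finset.card_erase_of_mem (Finset.mem_univ _), Finset.card_univ, op_zero, mul_one, hP, PE_idem ρ hψ, ← hP,
      ← Nat.cast_smul_eq_nsmul ℂ, Nat.cast_sub Fintype.card_pos, Nat.cast_one, smul_smul]
  have hPe : P * e = e := by rw [he, e0p, ← hP, ← mul_assoc, hP, PE_idem ρ hψ]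
  have hDe : D * e = e := by rw [he, e0p, ← hP, ← mul_assoc, hDP, mul_assoc, hD, pr_idem ρ hψ]
  have hDmid : D * (P * pr ρ ψ 5 0 * P) = (s ^ 2) • e := by
    have hlhs : (P * op ρ 5 (-1) * P) * (P * op ρ 5 1 * P) = (s ^ 2) • e := by
      rw [all 1 one_ne_zero, hsand, smul_mul_smul_comm, e0p_idem ρ hψ, pow_two]
    rw [← hlhs, hO, hO', ← mul_assoc (P * X * ρ nb), ← mul_assoc (P * X * ρ nb), mul_assoc (P * X) (ρ nb),
      ← map_mul, mul_inv_cancel, map_one, mul_one, mul_assoc P X X, hXX, hX, ← mul_assoc P D, ← hDP]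
    simp only [mul_assoc]
  refine ⟨s, all, ?_, ?_⟩
  · have := hDmid
    rw [hmid, mul_smul_comm, mul_add, mul_smul_comm, hDe, hDP] at this
    rw [show P * D = e from rfl] at this
    rw [mul_smul, ← this, smul_smul, mul_inv_cancel₀ hq, one_smul, add_smul, one_smul]
  · calc T (e * pr ρ ψ 5 0) = T (D * (P * pr ρ ψ 5 0)) := by rw [he, e0p, ← hP, ← hDP, mul_assoc]
      _ = T (D * (P * pr ρ ψ 5 0 * P)) := by
        rw [← mul_assoc D (P * _) P, LinearMap.trace_mul_comm ℂ (D * (P * _)) P, ← mul_assoc P D, ← hDP,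
          mul_assoc D P (P * _), ← mul_assoc P P, hP, PE_idem ρ hψ]
      _ = _ := by rw [hDmid, map_smul, hTe, smul_eq_mul]

/-- The key decomposition. -/
theorem mid_decomp (h10 : R ρ hψ 1 0 = 1) (h00 : R ρ hψ 0 0 ≤ 1) (hq : 2 < Fintype.card F) :
    ∃ c α β : ℂ, c ≠ 0 ∧ T (PE ρ ψ * pr ρ ψ 1 0) = R ρ hψ 0 0 ∧ c • PE ρ ψ =
      ((Fintype.card F : ℂ) ^ 2) • (PE ρ ψ * (pr ρ ψ 0 1 * pr ρ ψ 5 0) * PE ρ ψ) +
        α • (PE ρ ψ * pr ρ ψ 1 0) + β • e0p ρ ψ := by
  have hh : act chevG2 [0, 1, 0] 5 = 0 ∧ act chevG2 [0, 1, 0] 11 = 6 ∧ act chevG2 [0, 1, 0] 6 = 11 ∧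
      act chevG2 [0, 1, 0] 10 = 1 ∧ (∀ i ∈ [0, 1, 0], i < chevG2.rank) ∧
      act chevG2 [0] 11 = 11 ∧ act chevG2 [0] 6 = 10 ∧ act chevG2 [0] 10 = 6 ∧ act chevG2 [0] 1 = 5 ∧
      (∀ i ∈ [0], i < chevG2.rank) ∧ (5 < 12 ∧ 1 < 12 ∧ 1 ≠ 5 ∧ 1 ≠ chevG2.neg 5) ∧
      chevG2.commTerms 5 1 = [(0, -1, 1, 1)] := by decide +kernel
  obtain ⟨a5, a11, a6, a10, hL, b11, b6, b10, b1, hL', hr, hterms⟩ := hh
  obtain ⟨s, hfive, hs2, hτe⟩ := Otr_five ρ hψ h00
  set q := (Fintype.card F : ℂ) with hqdef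
  have hq0 : q ≠ 0 := by rw [hqdef]; exact_mod_cast Fintype.card_ne_zero
  set P := PE ρ ψ with hP
  set e := e0p ρ ψ with he
  set A : F → Module.End ℂ V := fun a => P * pr ρ ψ 1 a with hA
  have hPP : P * P = P := PE_idem ρ hψ
  have hPe : P * e = e := by rw [he, e0p, ← hP, ← mul_assoc, hPP]
  have heP : e * P = e := by rw [he, e0p, ← hP, mul_assoc, ← (PE_pr_ten ρ (ψ := ψ) 0).eq, ← hP, ← mul_assoc, hPP]
  have hTe : T e = R ρ hψ 0 0 := trace_PE_ten ρ hψ 0
  -- the reflection carrying `X₅` to `X₀`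
  obtain ⟨w, hw⟩ := exists_weyl (F := F) hL
  obtain ⟨c5, hc5, e5⟩ := hw 5 (by norm_num)
  obtain ⟨c11, hc11, e11⟩ := hw 11 (by norm_num)
  obtain ⟨c6, hc6, e6⟩ := hw 6 (by norm_num)
  obtain ⟨c10, hc10, e10⟩ := hw 10 (by norm_num)
  rw [a5] at e5; rw [a11] at e11; rw [a6] at e6; rw [a10] at e10
  have hwP : ρ w * P = P * ρ w := by
    rw [hP, PE, q0, ← mul_assoc, move_pr ρ hc11 e11 0, mul_assoc, move_pr ρ hc6 e6 0, zero_div, zero_div, ← mul_assoc,
      ← (pr_commute ρ (ψ := ψ) (commute_pairs (r := 11) (s := 6) (by simp)) 0 0).eq]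
  have hwA : ∀ d, ρ w * (P * pr ρ ψ 10 d) = A (d / c10) * ρ w := fun d => by
    rw [hA, ← mul_assoc, hwP, mul_assoc, move_pr ρ hc10 e10 d, ← mul_assoc]
  have hTA : ∀ a, T (A a) = R ρ hψ 0 (a * c10) := fun a => by
    rw [← trace_PE_ten ρ hψ, ← hP]
    refine (op_trace ρ w ?_).symm
    rw [hwA, mul_div_cancel_right₀ _ hc10]
  have hAA : ∀ a, A a * A a = A a := fun a => idem_mul hPP (pr_idem ρ hψ 1 a) (PE_pr_one ρ a).symm
  have hAsand : ∀ a, A a * e * A a = T (A a * e) • A a := fun a =>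
    sand (hAA a) (hTA a) (R_zero_le ρ hψ h10 h00 _) e
  have hOz : ∀ z : F, z ≠ 0 → Otr ρ ψ z 0 = s • A 0 := by
    intro z hz
    refine cancel_rho ρ w ?_
    have h5 := move_op ρ e5 (z / c5)
    rw [mul_div_cancel₀ z hc5] at h5
    have hwe : ρ w * e = A 0 * ρ w := by rw [he, e0p, ← hP, hwA, zero_div]
    calc Otr ρ ψ z 0 * ρ w = P * (op ρ 0 z * ρ w) * P := by
          rw [Otr, op_zero, mul_one, ← hP]; simp only [mul_assoc, hwP]
      _ = ρ w * (P * op ρ 5 (z / c5) * P) := by rw [← h5, ← mul_assoc P, ← hwP]; simp only [mul_assoc]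
      _ = _ := by rw [hfive _ (div_ne_zero hz hc5), mul_smul_comm, hwe, smul_mul_assoc]
  set Y : F → Module.End ℂ V := fun t => op ρ 1 t * e * op ρ 1 (-t) with hY
  have hOd : ∀ t d : F, d ≠ 0 → Otr ρ ψ (t * d) d = s • Y t := by
    intro t d hd
    have hg : xg 1 t * xg 5 d * xg 1 (-t) = xg 0 (t * d) * xg 5 d := by
      rw [rel_conj hr hterms, mul_assoc, ← (commute_long (r := 1) (s := 0) (by simp) _ _).eq, mul_assoc, ← mul_assoc (xg 1 t), xg_add,
        add_neg_cancel, xg_zero, one_mul, ← (commute_long (r := 0) (s := 5) (by simp) _ _).eq]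
      simp
    calc Otr ρ ψ (t * d) d = P * ρ (xg 1 t * xg 5 d * xg 1 (-t)) * P := by rw [hg, map_mul]; rfl
      _ = op ρ 1 t * (P * op ρ 5 d * P) * op ρ 1 (-t) := by
        rw [map_mul, map_mul]
        show P * (op ρ 1 t * op ρ 5 d * op ρ 1 (-t)) * P = _
        simp only [hP, ← mul_assoc]
        rw [(PE_commute_one ρ (ψ := ψ) t).eq]
        simp only [mul_assoc]
        rw [(PE_commute_one ρ (ψ := ψ) (-t)).eq]
      _ = _ := by rw [hfive d hd, mul_smul_comm, smul_mul_assoc]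
  -- the sum over the conjugates
  set S := ∑ t, Y t with hS
  have hS1 : ∀ a, pr ρ ψ 1 a * S = q • (A a * e * A a) := by
    intro a
    have e1 : ∀ t, pr ρ ψ 1 a * op ρ 1 t = ψ (a * t) • pr ρ ψ 1 a := fun t => by
      rw [← (show Commute (op ρ 1 t) (pr ρ ψ 1 a) from commute_prj (fun b => commute_of_add (op_add ρ 1) t b) a).eq]
      exact mul_prj (op_add ρ 1) t a
    have e2 : ∑ t, ψ (a * t) • op ρ 1 (-t) = q • pr ρ ψ 1 a := by
      rw [pr, prj, smul_smul, ← hqdef, mul_inv_cancel₀ hq0, one_smul]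
      refine Fintype.sum_equiv (Equiv.neg F) _ _ fun t => ?_
      simp
    calc pr ρ ψ 1 a * S = ∑ t, (pr ρ ψ 1 a * op ρ 1 t) * e * op ρ 1 (-t) := by
          simp only [hS, hY, Finset.mul_sum, mul_assoc]
      _ = pr ρ ψ 1 a * e * ∑ t, ψ (a * t) • op ρ 1 (-t) := by
          simp only [e1, Finset.mul_sum, smul_mul_assoc, mul_smul_comm]
      _ = q • (pr ρ ψ 1 a * (P * e * P) * pr ρ ψ 1 a) := by rw [e2, mul_smul_comm, hPe, heP]
      _ = _ := by
          congr 1
          simp only [hA, hP, ← mul_assoc]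
          rw [← (PE_pr_one ρ (ψ := ψ) a).eq]
  set τ : F → ℂ := fun a => T (A a * e) with hτ
  have hSsum : S = ∑ a, (q * τ a) • A a := by
    conv_lhs => rw [← one_mul S, ← pr_sum ρ hψ 1, Finset.sum_mul]
    exact Finset.sum_congr rfl fun a _ => by rw [hS1, hAsand, smul_smul]
  have hτc : ∀ a : F, a ≠ 0 → τ a = τ 1 := by
    intro a ha
    obtain ⟨h, -, hh⟩ := exists_torus_neg (F := F) one_ne_zero ha
    have hP' : ρ h * P = P * ρ h := PE_move ρ (by simp [ha]) ha (fun t => (hh t).1) (fun t => (hh t).2.1)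
    refine (op_trace ρ h ?_).symm
    rw [hA, he, e0p, ← hP]
    simp only [← mul_assoc]
    rw [hP', mul_assoc P (ρ h), move_pr ρ (by simp [ha]) (fun t => (hh t).2.2.2.2) 1, ← mul_assoc]
    rw [mul_assoc _ (ρ h) P, hP', ← mul_assoc, mul_assoc _ (ρ h) (pr ρ ψ 10 0),
      move_pr ρ (by simp [ha]) (fun t => (hh t).2.2.1) 0, ← mul_assoc]
    simp
  have hτ0 : τ 0 = s ^ 2 * R ρ hψ 0 0 := by
    obtain ⟨n, hn⟩ := exists_weyl (F := F) hL'
    obtain ⟨d11, hd11, f11⟩ := hn 11 (by norm_num)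
    obtain ⟨d6, hd6, f6⟩ := hn 6 (by norm_num)
    obtain ⟨d10, hd10, f10⟩ := hn 10 (by norm_num)
    obtain ⟨d1, hd1, f1⟩ := hn 1 (by norm_num)
    rw [b11] at f11; rw [b6] at f6; rw [b10] at f10; rw [b1] at f1
    have hne : ρ n * e = e * ρ n := by
      have e' : e = q0 ρ ψ * pr ρ ψ 10 0 * pr ρ ψ 6 0 := by
        have c : Commute (q0 ρ ψ) (pr ρ ψ 10 0) :=
          commute_prj (fun b => (q0_comm ρ (ψ := ψ) 10 (by norm_num) b).symm) 0
        rw [he, e0p, (PE_pr_ten ρ 0).eq, PE, ← mul_assoc, c.eq]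
      conv_lhs => rw [he, e0p, PE, q0, ← mul_assoc, ← mul_assoc, move_pr ρ hd11 f11 0, mul_assoc _ (ρ n),
        move_pr ρ hd6 f6 0, ← mul_assoc, mul_assoc _ (ρ n), move_pr ρ hd10 f10 0, ← mul_assoc, zero_div, zero_div,
        zero_div]
      rw [e']
      rfl
    rw [← hτe]
    calc τ 0 = T (e * pr ρ ψ 1 0) := by
          rw [hτ]; simp only [hA]
          rw [LinearMap.trace_mul_comm, ← mul_assoc, heP]
      _ = _ := op_trace ρ n (by rw [← mul_assoc, hne, mul_assoc, move_pr ρ hd1 f1 0, zero_div, ← mul_assoc])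
  have hsum : τ 0 + (q - 1) * τ 1 = R ρ hψ 0 0 := by
    have h1 : ∑ a, τ a = T e := by
      simp only [hτ, hA, ← map_sum, ← Finset.sum_mul, ← Finset.mul_sum, pr_sum ρ hψ, mul_one, hPe]
    rw [← Finset.add_sum_erase _ _ (Finset.mem_univ (0 : F)),
      Finset.sum_congr rfl fun a ha => hτc a (Finset.ne_of_mem_erase ha), Finset.sum_const,
      Finset.card_erase_of_mem (Finset.mem_univ _), Finset.card_univ, nsmul_eq_mul, Nat.cast_sub Fintype.card_pos,
      Nat.cast_one, hTe] at h1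
    exact h1
  have hAsum : ∑ a ∈ (Finset.univ : Finset F).erase 0, A a = P - A 0 := by
    rw [eq_sub_iff_add_eq, Finset.sum_erase_add _ _ (Finset.mem_univ _)]
    simp only [hA, ← Finset.mul_sum, pr_sum ρ hψ, mul_one]
  have hS2 : S = (q * τ 0) • A 0 + (q * τ 1) • (P - A 0) := by
    rw [hSsum, ← Finset.add_sum_erase _ _ (Finset.mem_univ (0 : F)),
      Finset.sum_congr rfl fun a ha => by rw [hτc a (Finset.ne_of_mem_erase ha)], ← Finset.smul_sum, hAsum]
  -- expansion of the projection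
  have hG : (q ^ 2) • (P * (pr ρ ψ 0 1 * pr ρ ψ 5 0) * P) = P - s • A 0 + s • (q • e - S) := by
    have h0 : (q ^ 2) • (P * (pr ρ ψ 0 1 * pr ρ ψ 5 0) * P) = ∑ d, ∑ z, ψ (-z) • Otr ρ ψ z d := by
      simp only [Otr, ← hP, pr, prj, zero_mul, neg_zero, AddChar.map_zero_eq_one, one_smul, one_mul, mul_smul_comm,
        smul_mul_assoc, Finset.mul_sum, Finset.sum_mul, smul_smul, ← hqdef]
      rw [Finset.smul_sum]
      refine Finset.sum_congr rfl fun d _ => ?_
      rw [smul_smul, show q ^ 2 * q⁻¹ * q⁻¹ = 1 by field_simp, one_smul]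
    have hd : ∀ d ∈ (Finset.univ : Finset F).erase 0,
        ∑ z, ψ (-z) • Otr ρ ψ z d = s • ∑ t, ψ (-t * d) • Y t := by
      intro d hd
      have hd := Finset.ne_of_mem_erase hd
      rw [Finset.smul_sum]
      refine (Fintype.sum_equiv (Equiv.mulRight₀ d hd) _ _ fun t => ?_).symm
      show s • ψ (-t * d) • Y t = ψ (-(t * d)) • Otr ρ ψ (t * d) d
      rw [hOd t d hd, smul_comm, neg_mul]
    have hz : ∑ z, ψ (-z) • Otr ρ ψ z 0 = P - s • A 0 := by
      have h1 : ∑ z ∈ (Finset.univ : Finset F).erase 0, ψ (-z) = -1 := by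
        have := hψ (-1) (neg_ne_zero.2 one_ne_zero)
        simp only [neg_mul, one_mul] at this
        rw [← Finset.add_sum_erase _ _ (Finset.mem_univ (0 : F)), neg_zero, AddChar.map_zero_eq_one] at this
        linear_combination this
      rw [← Finset.add_sum_erase _ _ (Finset.mem_univ (0 : F)),
        Finset.sum_congr rfl fun z hz => by rw [hOz z (Finset.ne_of_mem_erase hz)], ← Finset.sum_smul, h1, neg_zero,
        AddChar.map_zero_eq_one, one_smul, Otr, op_zero, op_zero, ← hP, mul_one, mul_one, hPP, neg_one_smul,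
        sub_eq_add_neg]
    rw [h0, ← Finset.add_sum_erase _ _ (Finset.mem_univ (0 : F)), hz, Finset.sum_congr rfl hd, ← Finset.smul_sum]
    congr 2
    have hall : ∑ d, ∑ t, ψ (-t * d) • Y t = q • e := by
      rw [Finset.sum_comm, Finset.sum_eq_single (0 : F) (fun t _ ht => ?_) (by simp)]
      · simp only [neg_zero, zero_mul, AddChar.map_zero_eq_one, one_smul, Finset.sum_const, Finset.card_univ, hY,
          op_zero, one_mul, mul_one, hqdef, Nat.cast_smul_eq_nsmul]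
      · rw [← Finset.sum_smul, hψ _ (neg_ne_zero.2 ht), zero_smul]
    rw [← hall, ← Finset.add_sum_erase _ _ (Finset.mem_univ (0 : F))]
    simp only [mul_zero, AddChar.map_zero_eq_one, one_smul, ← hS, add_sub_cancel_left]
  refine ⟨1 - s * q * τ 1, s + s * q * τ 0 - s * q * τ 1, -(s * q), ?_, ?_, ?_⟩
  · intro hc
    have hqs : s * q * τ 1 = 1 := by linear_combination -hc
    rcases Nat.le_one_iff_eq_zero_or_eq_one.1 h00 with h0 | h0
    · have : e = 0 := by
        obtain ⟨m, hm, hz⟩ := idem_trace (e0p_idem ρ hψ)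
        refine hz ?_
        have h1 := hm.symm.trans hTe
        rw [h0] at h1
        exact_mod_cast h1
      simp [hτ, this] at hqs
    · rw [h0, Nat.cast_one] at hTe hsum hτ0
      have h2 : q * s ^ 2 = 1 + (q - 1) * s := by
        have := congrArg T hs2
        simpa [hTe] using this
      have hf : (s - 1) * (q * s + 1) = 0 := by linear_combination h2
      have hq1 : (q - 1) ≠ 0 := by
        rw [sub_ne_zero, hqdef]; exact_mod_cast (by omega : Fintype.card F ≠ 1)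
      have key : q - 1 = s * q * (1 - s ^ 2) := by linear_combination (q - 1) * (-hqs) + s * q * (hsum - hτ0)
      rcases mul_eq_zero.1 hf with h | h
      · exact hq1 (by rw [key, show s = 1 by linear_combination h]; ring)
      · have hs : s = -q⁻¹ := by field_simp; linear_combination h
        rw [hs] at key
        field_simp at key
        have : (q - 1) * (q ^ 2 + q + 1) = 0 := by linear_combination key
        have hpos : q ^ 2 + q + 1 ≠ 0 := by
          rw [hqdef]; exact_mod_cast (by positivity : Fintype.card F ^ 2 + Fintype.card F + 1 ≠ 0)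
        exact hq1 ((mul_eq_zero.1 this).resolve_right hpos)
  · have := hTA 0
    rwa [zero_mul] at this
  · rw [hG, hS2]
    show _ = _ + _ • A 0 + _ • e
    module

end Cfsg.Agent.Suzuki.G2Min
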