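import Cfsg.Agent.Suzuki.TraceProj
import Cfsg.Agent.Chev.Certs
import Cfsg.Agent.Chev.BN
import Cfsg.Agent.Chev.TwistTwoGenTools

/-!
# Root subgroup operators of a representation of G₂

The unipotent radical of the parabolic belonging to the long root is special with centre the highest root subgroup.
On the fixed space of the centre it acts through a vector space of dimension four, whose characters are permuted
like binary cubic forms.
-/

set_option autoImplicit false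
set_option maxHeartbeats 800000

universe u v

namespace Cfsg.Agent.Suzuki.G2Min

open Cfsg.Lie Cfsg.Agent.Chev Cfsg.Agent.Chev.TwoGenTools
open Cfsg.Agent.Suzuki.ReeDeg Cfsg.Agent.Suzuki.TraceProj
open scoped Matrix MatrixGroups

variable {F : Type u} [Field F]

/-- The certificate of type G₂. -/
noncomputable abbrev cG : Cert.{u} chevG2 := certG2

/-- A root element of the group. -/
noncomputable def xg (r : ℕ) (t : F) : ↥(chevG2.group F) := ⟨cG.xu r t, cG.xu_mem_group r t⟩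

theorem xg_add (r : ℕ) (s t : F) : xg r s * xg r t = xg r (s + t) := Subtype.ext (cG.xu_add r s t)

theorem xg_zero (r : ℕ) : xg r (0 : F) = 1 := Subtype.ext (cG.xu_zero r)

theorem xg_comm {r s : ℕ} (h : r < 12 ∧ s < 12 ∧ s ≠ r ∧ s ≠ chevG2.neg r) (t v : F) :
    xg s v * xg r t = xg r t * xg s v * ((chevG2.commWord F r s t v).map fun p => xg p.1 p.2).prod := by
  refine Subtype.ext ?_
  rw [Subgroup.coe_mul, Subgroup.coe_mul, Subgroup.coe_mul, Subgroup.val_list_prod, List.map_map]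
  exact cG.xu_comm h.1 h.2.1 h.2.2.1 h.2.2.2 t v

theorem xg_inj {r : ℕ} (hr : r < 12) {s t : F} (h : xg r s = xg r t) : s = t :=
  cG.xu_inj hr (congrArg Subtype.val h)

theorem xg_commute {r s : ℕ} (h : r < 12 ∧ s < 12 ∧ s ≠ r ∧ s ≠ chevG2.neg r) (hc : chevG2.commTerms r s = [])
    (t v : F) : Commute (xg r t) (xg s v) := by
  have e := xg_comm h t v
  simp only [ChevalleyDatum.commWord, hc, List.map_nil, List.prod_nil, mul_one] at e
  exact e.symm

/-- The torus element with prescribed values on the simple roots. -/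
theorem exists_torus {a b : F} (ha : a ≠ 0) (hb : b ≠ 0) :
    ∃ h : ↥(chevG2.group F), ∀ t, h * xg 7 t = xg 7 (a * t) * h ∧ h * xg 6 t = xg 6 (b * t) * h ∧
      h * xg 8 t = xg 8 (a * b * t) * h ∧ h * xg 9 t = xg 9 (a ^ 2 * b * t) * h ∧
      h * xg 10 t = xg 10 (a ^ 3 * b * t) * h ∧ h * xg 11 t = xg 11 (a ^ 3 * b ^ 2 * t) * h := by
  let x : Fˣ := Units.mk0 a ha
  let y : Fˣ := Units.mk0 b hb
  let c : Fin 2 → Fˣ := ![x ^ 2 * y, x ^ 3 * y ^ 2]
  have hc : chevG2.cartan 0 7 = 2 ∧ chevG2.cartan 1 7 = -1 ∧ chevG2.cartan 0 6 = -3 ∧ chevG2.cartan 1 6 = 2 ∧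
      chevG2.cartan 0 8 = -1 ∧ chevG2.cartan 1 8 = 1 ∧ chevG2.cartan 0 9 = 1 ∧ chevG2.cartan 1 9 = 0 ∧
      chevG2.cartan 0 10 = 3 ∧ chevG2.cartan 1 10 = -1 ∧ chevG2.cartan 0 11 = 0 ∧ chevG2.cartan 1 11 = 1 := by
    decide +kernel
  obtain ⟨a7, b7, a6, b6, a8, b8, a9, b9, a10, b10, a11, b11⟩ := hc
  refine ⟨⟨cG.torusHom c, cG.borel_le_group (cG.diagonal_le_borel (cG.torusHom_mem c))⟩, fun t => ?_⟩
  have key : ∀ r < 12, ∀ v : F, ((x ^ 2 * y) ^ chevG2.cartan 0 r * (x ^ 3 * y ^ 2) ^ chevG2.cartan 1 r : Fˣ) = (v : F) →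
      (⟨cG.torusHom c, cG.borel_le_group (cG.diagonal_le_borel (cG.torusHom_mem c))⟩ : ↥(chevG2.group F)) * xg r t =
        xg r (v * t) * ⟨cG.torusHom c, cG.borel_le_group (cG.diagonal_le_borel (cG.torusHom_mem c))⟩ := by
    intro r hr v hv
    refine Subtype.ext (mul_inv_eq_iff_eq_mul.1 ?_)
    have e := torusHom_conj cG c hr t
    have ht : tchar (D := chevG2) c r = (x ^ 2 * y) ^ chevG2.cartan 0 r * (x ^ 3 * y ^ 2) ^ chevG2.cartan 1 r := by
      show ∏ k : Fin 2, c k ^ chevG2.cartan (k : ℕ) r = _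
      rw [Fin.prod_univ_two]
      rfl
    rw [ht, hv] at e
    exact e
  refine ⟨key 7 (by norm_num) _ ?_, key 6 (by norm_num) _ ?_, key 8 (by norm_num) _ ?_, key 9 (by norm_num) _ ?_,
    key 10 (by norm_num) _ ?_, key 11 (by norm_num) _ ?_⟩ <;>
    simp only [a7, b7, a6, b6, a8, b8, a9, b9, a10, b10, a11, b11, Units.val_mul, Units.val_zpow_eq_zpow_val, Units.val_inv_eq_inv_val,
      Units.val_pow_eq_pow_val, x, y, Units.val_mk0, zpow_neg, zpow_ofNat, zpow_one, zpow_zero, one_mul, mul_one] <;>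
    field_simp

/-- Weyl elements. -/
theorem exists_weyl {L : List ℕ} (hL : ∀ i ∈ L, i < chevG2.rank) :
    ∃ n : ↥(chevG2.group F), ∀ r < 12, ∃ c : F, c ≠ 0 ∧ ∀ t, n * xg r t = xg (act chevG2 L r) (c * t) * n := by
  refine ⟨⟨cG.nWordElt F L, cG.monomial_le_group (cG.nWordElt_mem hL)⟩, fun r hr => ?_⟩
  obtain ⟨c, hc, e⟩ := cG.nWordElt_conj_xu (F := F) hL hr
  exact ⟨c, hc, fun t => Subtype.ext (mul_inv_eq_iff_eq_mul.1 (e t))⟩

variable [Fintype F] {V : Type v} [AddCommGroup V] [Module ℂ V]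
  (ρ : Representation ℂ ↥(chevG2.group F) V) (ψ : AddChar F ℂ)

/-- The operator of a root element. -/
noncomputable def op (r : ℕ) (t : F) : Module.End ℂ V := ρ (xg r t)

/-- The projection belonging to a character of a root subgroup. -/
noncomputable def pr (r : ℕ) (c : F) : Module.End ℂ V := prj ψ (op ρ r) c

/-- The projection on the fixed space of the highest root subgroup. -/
noncomputable def q0 : Module.End ℂ V := pr ρ ψ 11 0

omit [Fintype F] in
theorem op_add (r : ℕ) (s t : F) : op ρ r s * op ρ r t = op ρ r (s + t) := by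
  rw [op, op, op, ← map_mul, xg_add]

omit [Fintype F] in
theorem op_zero (r : ℕ) : op ρ r (0 : F) = 1 := by rw [op, xg_zero, map_one]

/-- Four-dimensional vectors. -/
abbrev W4 (F : Type u) := F × F × F × F

/-- The pairing. -/
def dot (w x : W4 F) : F := w.1 * x.1 + w.2.1 * x.2.1 + w.2.2.1 * x.2.2.1 + w.2.2.2 * x.2.2.2

/-- The operator of an element of the radical modulo its centre, on the fixed space of the centre. -/
noncomputable def pw (x : W4 F) : Module.End ℂ V :=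
  q0 ρ ψ * (op ρ 6 x.1 * (op ρ 8 x.2.1 * (op ρ 9 x.2.2.1 * op ρ 10 x.2.2.2)))

/-- The projection belonging to a character of the radical modulo its centre. -/
noncomputable def P (w : W4 F) : Module.End ℂ V :=
  ((Fintype.card F : ℂ) ^ 4)⁻¹ • ∑ x : W4 F, ψ (-dot w x) • pw ρ ψ x

variable {ψ} (hψ : ∀ c : F, c ≠ 0 → ∑ b : F, ψ (c * b) = 0)

theorem q0_eleven (t : F) : op ρ 11 t * q0 ρ ψ = q0 ρ ψ := by
  rw [q0, pr, mul_prj (op_add ρ 11), zero_mul, AddChar.map_zero_eq_one, one_smul]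

theorem q0_comm (r : ℕ) (h : r = 11 ∨ r = 4 ∨ r = 7 ∨ r = 6 ∨ r = 8 ∨ r = 9 ∨ r = 10) (t : F) :
    Commute (op ρ r t) (q0 ρ ψ) := by
  refine commute_prj (fun b => ?_) 0
  rcases h with rfl | rfl | rfl | rfl | rfl | rfl | rfl
  · exact commute_of_add (op_add ρ 11) t b
  all_goals exact ((xg_commute (by decide +kernel) (by decide +kernel) b t).map ρ).symm

/-- A product in the centre is absorbed. -/
theorem q0_word (L : List (ℕ × F)) (hL : ∀ p ∈ L, p.1 = 11) :
    ρ (L.map fun p => xg p.1 p.2).prod * q0 ρ ψ = q0 ρ ψ := by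
  induction L with
  | nil => simp
  | cons p L ih =>
    rw [List.map_cons, List.prod_cons, map_mul, mul_assoc, ih fun x hx => hL x (List.mem_cons_of_mem _ hx),
      hL p List.mem_cons_self]
    exact q0_eleven ρ p.2

theorem swap_q0 {r s : ℕ} (hr : r ∈ [6, 8, 9, 10]) (hs : s ∈ [6, 8, 9, 10]) (t v : F) :
    op ρ s v * (op ρ r t * q0 ρ ψ) = op ρ r t * (op ρ s v * q0 ρ ψ) := by
  by_cases hrs : s = r
  · subst hrs
    rw [← mul_assoc, ← mul_assoc, (commute_of_add (op_add ρ s) v t).eq]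
  have key : ∀ r ∈ [6, 8, 9, 10], ∀ s ∈ [6, 8, 9, 10], s ≠ r →
      (r < 12 ∧ s < 12 ∧ s ≠ r ∧ s ≠ chevG2.neg r) ∧ ∀ c ∈ chevG2.commTerms r s, c.1 = 11 := by decide +kernel
  obtain ⟨h1, h2⟩ := key r hr s hs hrs
  rw [← mul_assoc, op, op, ← map_mul, xg_comm h1, map_mul, map_mul, mul_assoc, mul_assoc, q0_word ρ]
  intro p hp
  simp only [ChevalleyDatum.commWord, List.mem_map] at hp
  obtain ⟨c, hc, rfl⟩ := hp
  exact h2 c hc

include hψ in
theorem q0_idem : q0 ρ ψ * q0 ρ ψ = q0 ρ ψ := prj_idem hψ (op_add ρ 11) 0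

theorem q0_left {r : ℕ} (h : r = 11 ∨ r = 4 ∨ r = 7 ∨ r = 6 ∨ r = 8 ∨ r = 9 ∨ r = 10) (t : F) (X : Module.End ℂ V) :
    q0 ρ ψ * (op ρ r t * X) = op ρ r t * (q0 ρ ψ * X) := by
  rw [← mul_assoc, ← (q0_comm ρ r h t).eq, mul_assoc]

theorem pw_eq (x : W4 F) :
    pw ρ ψ x = op ρ 6 x.1 * (op ρ 8 x.2.1 * (op ρ 9 x.2.2.1 * (op ρ 10 x.2.2.2 * q0 ρ ψ))) := by
  rw [pw, q0_left ρ (by norm_num), q0_left ρ (by norm_num), q0_left ρ (by norm_num), (q0_comm ρ 10 (by norm_num) _).eq]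

include hψ in
theorem pw_mul (x y : W4 F) : pw ρ ψ x * pw ρ ψ y = pw ρ ψ (x + y) := by
  obtain ⟨a, b, c, d⟩ := x
  obtain ⟨a', b', c', d'⟩ := y
  simp only [pw_eq, Prod.mk_add_mk, mul_assoc]
  have qq : ∀ X : Module.End ℂ V, q0 ρ ψ * (q0 ρ ψ * X) = q0 ρ ψ * X := fun X => by rw [← mul_assoc, q0_idem ρ hψ]
  have s6 : ∀ (u : F) (X : Module.End ℂ V), q0 ρ ψ * (op ρ 6 u * X) = op ρ 6 u * (q0 ρ ψ * X) :=
    fun u X => q0_left ρ (by norm_num) u X
  have s8 : ∀ (u : F) (X : Module.End ℂ V), q0 ρ ψ * (op ρ 8 u * X) = op ρ 8 u * (q0 ρ ψ * X) :=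
    fun u X => q0_left ρ (by norm_num) u X
  have s9 : ∀ (u : F) (X : Module.End ℂ V), q0 ρ ψ * (op ρ 9 u * X) = op ρ 9 u * (q0 ρ ψ * X) :=
    fun u X => q0_left ρ (by norm_num) u X
  have s10 : ∀ (u : F) (X : Module.End ℂ V), q0 ρ ψ * (op ρ 10 u * X) = op ρ 10 u * (q0 ρ ψ * X) :=
    fun u X => q0_left ρ (by norm_num) u X
  simp only [s6, s8, s9, s10, q0_idem ρ hψ]
  -- bring the factors of `y` to their places
  have move : ∀ r ∈ [6, 8, 9, 10], ∀ s ∈ [6, 8, 9, 10], ∀ t v : F, ∀ X : Module.End ℂ V, q0 ρ ψ * X = X →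
      op ρ s v * (op ρ r t * X) = op ρ r t * (op ρ s v * X) := by
    intro r hr s hs t v X hX
    rw [← hX, ← mul_assoc (op ρ r t), ← mul_assoc (op ρ s v), swap_q0 ρ hr hs, ← mul_assoc (op ρ s v) (q0 ρ ψ),
      mul_assoc]
  have e10 : q0 ρ ψ * (op ρ 10 d' * q0 ρ ψ) = op ρ 10 d' * q0 ρ ψ := by rw [s10, q0_idem ρ hψ]
  have e9 : q0 ρ ψ * (op ρ 9 c' * (op ρ 10 d' * q0 ρ ψ)) = op ρ 9 c' * (op ρ 10 d' * q0 ρ ψ) := by rw [s9, e10]
  have e8 : q0 ρ ψ * (op ρ 8 b' * (op ρ 9 c' * (op ρ 10 d' * q0 ρ ψ))) =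
      op ρ 8 b' * (op ρ 9 c' * (op ρ 10 d' * q0 ρ ψ)) := by rw [s8, e9]
  rw [move 6 (by simp) 10 (by simp) a' d _ e8]
  rw [move 6 (by simp) 9 (by simp) a' c _ (by rw [s10, e8])]
  rw [move 6 (by simp) 8 (by simp) a' b _ (by rw [s9, s10, e8])]
  rw [← mul_assoc (op ρ 6 a), op_add]
  rw [move 8 (by simp) 10 (by simp) b' d _ e9, move 8 (by simp) 9 (by simp) b' c _ (by rw [s10, e9]),
    ← mul_assoc (op ρ 8 b), op_add, move 9 (by simp) 10 (by simp) c' d _ e10, ← mul_assoc (op ρ 9 c), op_add,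
    ← mul_assoc (op ρ 10 d), op_add]

theorem pw_zero : pw ρ ψ 0 = q0 ρ ψ := by
  simp [pw, op_zero]

/-! ### The projections -/

include hψ in
theorem pw_P (x w : W4 F) : pw ρ ψ x * P ρ ψ w = ψ (dot w x) • P ρ ψ w := by
  rw [P, mul_smul_comm, Finset.mul_sum, smul_comm (ψ (dot w x))]
  congr 1
  rw [Finset.smul_sum]
  refine Fintype.sum_equiv (Equiv.addLeft x) _ _ fun y => ?_
  rw [Equiv.coe_addLeft, mul_smul_comm, pw_mul ρ hψ, smul_smul, ← AddChar.map_add_eq_mul]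
  congr 2
  simp only [dot, Prod.fst_add, Prod.snd_add]
  ring

include hψ in
theorem sum_dot {x : W4 F} (hx : x ≠ 0) : ∑ w : W4 F, ψ (dot w x) = 0 := by
  simp only [dot, Fintype.sum_prod_type, AddChar.map_add_eq_mul, ← Finset.mul_sum, ← Finset.sum_mul]
  simp only [mul_comm _ x.1, mul_comm _ x.2.1, mul_comm _ x.2.2.1, mul_comm _ x.2.2.2]
  obtain ⟨a, b, c, d⟩ := x
  by_cases ha : a = 0
  · by_cases hb : b = 0
    · by_cases hc : c = 0
      · have hd : d ≠ 0 := fun h => hx (by rw [ha, hb, hc, h]; rfl)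
        simp [hψ d hd]
      · simp [hψ c hc]
    · simp [hψ b hb]
  · simp [hψ a ha]

include hψ in
theorem sum_P : ∑ w : W4 F, P ρ ψ w = q0 ρ ψ := by
  classical
  simp only [P, ← Finset.smul_sum]
  rw [Finset.sum_comm, Finset.sum_eq_single (0 : W4 F) (fun x _ hx => ?_) (by simp)]
  · have hq : (Fintype.card F : ℂ) ≠ 0 := by exact_mod_cast Fintype.card_ne_zero
    simp only [show ∀ w : W4 F, dot w 0 = 0 from fun w => by simp [dot], neg_zero, AddChar.map_zero_eq_one, one_smul,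
      pw_zero, Finset.sum_const, Finset.card_univ, Fintype.card_prod]
    rw [← Nat.cast_smul_eq_nsmul ℂ, smul_smul]
    push_cast
    rw [show ((Fintype.card F : ℂ) ^ 4)⁻¹ * ((Fintype.card F : ℂ) * ((Fintype.card F : ℂ) *
      ((Fintype.card F : ℂ) * (Fintype.card F : ℂ)))) = 1 by field_simp, one_smul]
  · rw [← Finset.sum_smul]
    have h := sum_dot hψ (neg_ne_zero.2 hx)
    rw [show ∑ w : W4 F, ψ (-dot w x) = 0 by
      rw [← h]; exact Finset.sum_congr rfl fun w _ => by congr 1; simp only [dot, Prod.fst_neg, Prod.snd_neg]; ring,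
      zero_smul]

include hψ in
theorem P_mul [DecidableEq F] (v w : W4 F) : P ρ ψ v * P ρ ψ w = if v = w then P ρ ψ w else 0 := by
  have hq : (Fintype.card F : ℂ) ≠ 0 := by exact_mod_cast Fintype.card_ne_zero
  conv_lhs => rw [P]
  rw [smul_mul_assoc, Finset.sum_mul]
  simp only [smul_mul_assoc, pw_P ρ hψ, smul_smul, ← AddChar.map_add_eq_mul, ← Finset.sum_smul]
  have e : ∀ x : W4 F, -dot v x + dot w x = dot x (w - v) := fun x => by
    simp only [dot, Prod.fst_sub, Prod.snd_sub]; ring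
  simp only [e]
  by_cases h : v = w
  · subst h
    simp only [if_true, sub_self, show ∀ x : W4 F, dot x 0 = 0 from fun x => by simp [dot],
      AddChar.map_zero_eq_one, Finset.sum_const, Finset.card_univ, Fintype.card_prod, nsmul_eq_mul, mul_one,
      smul_smul]
    push_cast
    rw [show ((Fintype.card F : ℂ) ^ 4)⁻¹ * ((Fintype.card F : ℂ) * ((Fintype.card F : ℂ) *
      ((Fintype.card F : ℂ) * (Fintype.card F : ℂ)))) = 1 by field_simp, one_smul]
  · rw [if_neg h, sum_dot hψ (sub_ne_zero.2 (Ne.symm h)), mul_zero, zero_smul]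

/-- Transport of the projections. -/
theorem P_conj (J : Module.End ℂ V) (f : W4 F → W4 F) (hf : Function.Injective f)
    (h : ∀ x, pw ρ ψ x * J = J * pw ρ ψ (f x)) {w w' : W4 F} (hw : ∀ x, dot w' (f x) = dot w x) :
    P ρ ψ w * J = J * P ρ ψ w' := by
  simp only [P, smul_mul_assoc, mul_smul_comm, Finset.sum_mul, Finset.mul_sum]
  congr 1
  refine Fintype.sum_equiv (Equiv.ofBijective f (Finite.injective_iff_bijective.1 hf)) _ _ fun x => ?_
  show ψ (-dot w x) • (pw ρ ψ x * J) = ψ (-dot w' (f x)) • (J * pw ρ ψ (f x))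
  rw [h, hw]

theorem P_factor (a u c d : F) :
    P ρ ψ (a, u, c, d) = q0 ρ ψ * (pr ρ ψ 6 a * (pr ρ ψ 8 u * (pr ρ ψ 9 c * pr ρ ψ 10 d))) := by
  simp only [P, pr, prj, pw, dot, Fintype.sum_prod_type, smul_mul_assoc, mul_smul_comm, Finset.mul_sum,
    Finset.sum_mul, Finset.smul_sum, smul_smul]
  have rev : ∀ f : F → F → F → F → Module.End ℂ V,
      ∑ s, ∑ t, ∑ r, ∑ z, f s t r z = ∑ z, ∑ r, ∑ t, ∑ s, f s t r z := fun f => by
    rw [Finset.sum_comm]
    refine (Finset.sum_congr rfl fun t _ => Finset.sum_comm).trans ?_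
    refine (Finset.sum_congr rfl fun t _ => Finset.sum_congr rfl fun r _ => Finset.sum_comm).trans ?_
    rw [Finset.sum_comm]
    refine (Finset.sum_congr rfl fun r _ => Finset.sum_comm).trans ?_
    rw [Finset.sum_comm]
  rw [rev]
  refine Finset.sum_congr rfl fun s _ => Finset.sum_congr rfl fun t _ => Finset.sum_congr rfl fun r _ =>
    Finset.sum_congr rfl fun z _ => ?_
  congr 1
  rw [neg_add, neg_add, neg_add, AddChar.map_add_eq_mul, AddChar.map_add_eq_mul, AddChar.map_add_eq_mul]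
  ring

end Cfsg.Agent.Suzuki.G2Min
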