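import Cfsg.Agent.Suzuki.G2MinOps

/-! # The action of the Levi factor on the characters of the radical -/

set_option autoImplicit false
set_option maxHeartbeats 800000

universe u v

namespace Cfsg.Agent.Suzuki.G2Min

open Cfsg.Lie Cfsg.Agent.Chev
open Cfsg.Agent.Suzuki.ReeDeg Cfsg.Agent.Suzuki.TraceProj

variable {F : Type u} [Field F] [Fintype F] {V : Type v} [AddCommGroup V] [Module ℂ V]
  (ρ : Representation ℂ ↥(chevG2.group F) V) {ψ : AddChar F ℂ}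
  (hψ : ∀ c : F, c ≠ 0 → ∑ b : F, ψ (c * b) = 0)

/-- The action of `x₇(t)`. -/
def shT (t : F) (w : W4 F) : W4 F :=
  (w.1 + t * w.2.1 + t ^ 2 * w.2.2.1 - t ^ 3 * w.2.2.2, w.2.1 + 2 * t * w.2.2.1 - 3 * t ^ 2 * w.2.2.2,
    w.2.2.1 - 3 * t * w.2.2.2, w.2.2.2)

/-- The action of `x₄(t)`. -/
def shS (t : F) (w : W4 F) : W4 F :=
  (w.1, w.2.1 + 3 * t * w.1, w.2.2.1 + 2 * t * w.2.1 + 3 * t ^ 2 * w.1,
    w.2.2.2 - t * w.2.2.1 - t ^ 2 * w.2.1 - t ^ 3 * w.1)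

include hψ in
theorem op_pw {r : ℕ} (v : F) (y : W4 F) :
    (r = 6 → op ρ r v * pw ρ ψ y = pw ρ ψ ((v, 0, 0, 0) + y)) ∧
    (r = 8 → op ρ r v * pw ρ ψ y = pw ρ ψ ((0, v, 0, 0) + y)) ∧
    (r = 9 → op ρ r v * pw ρ ψ y = pw ρ ψ ((0, 0, v, 0) + y)) ∧
    (r = 10 → op ρ r v * pw ρ ψ y = pw ρ ψ ((0, 0, 0, v) + y)) ∧
    (r = 11 → op ρ r v * pw ρ ψ y = pw ρ ψ y) := by
  have hQ : q0 ρ ψ * pw ρ ψ y = pw ρ ψ y := by rw [pw, ← mul_assoc, q0_idem ρ hψ]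
  refine ⟨?_, ?_, ?_, ?_, ?_⟩ <;> rintro rfl
  case refine_5 => rw [← hQ, ← mul_assoc, q0_eleven]
  all_goals
    conv_lhs => rw [← hQ, ← mul_assoc]
    rw [← pw_mul ρ hψ]
    congr 1
    simp [pw_eq, op_zero]

include hψ in
theorem op_six (v : F) (y : W4 F) : op ρ 6 v * pw ρ ψ y = pw ρ ψ ((v, 0, 0, 0) + y) := (op_pw ρ hψ v y).1 rfl

include hψ in
theorem op_eight (v : F) (y : W4 F) : op ρ 8 v * pw ρ ψ y = pw ρ ψ ((0, v, 0, 0) + y) := (op_pw ρ hψ v y).2.1 rfl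

include hψ in
theorem op_nine (v : F) (y : W4 F) : op ρ 9 v * pw ρ ψ y = pw ρ ψ ((0, 0, v, 0) + y) := (op_pw ρ hψ v y).2.2.1 rfl

include hψ in
theorem op_ten (v : F) (y : W4 F) : op ρ 10 v * pw ρ ψ y = pw ρ ψ ((0, 0, 0, v) + y) := (op_pw ρ hψ v y).2.2.2.1 rfl

include hψ in
theorem op_eleven (v : F) (y : W4 F) : op ρ 11 v * pw ρ ψ y = pw ρ ψ y := (op_pw ρ hψ v y).2.2.2.2 rfl

/-- One root element moved across `xg g t`. -/
theorem op_move {g r : ℕ} (hg : g = 4 ∨ g = 7) (h : g < 12 ∧ r < 12 ∧ r ≠ g ∧ r ≠ chevG2.neg g) (t v : F)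
    {y : W4 F} (e : op ρ r v * ρ ((chevG2.commWord F g r t v).map fun p => xg p.1 p.2).prod * pw ρ ψ 0 = pw ρ ψ y) :
    op ρ r v * op ρ g t * q0 ρ ψ = op ρ g t * pw ρ ψ y := by
  rw [op, op, ← map_mul, xg_comm h, map_mul, map_mul, ← e, pw_zero]
  simp only [op, mul_assoc]

include hψ in
theorem shear (g : ℕ) (hg : g = 4 ∨ g = 7) (t : F) (f : W4 F → W4 F)
    (hf : ∀ x y, f (x + y) = f x + f y)
    (h6 : ∀ v, op ρ 6 v * op ρ g t * q0 ρ ψ = op ρ g t * pw ρ ψ (f (v, 0, 0, 0)))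
    (h8 : ∀ v, op ρ 8 v * op ρ g t * q0 ρ ψ = op ρ g t * pw ρ ψ (f (0, v, 0, 0)))
    (h9 : ∀ v, op ρ 9 v * op ρ g t * q0 ρ ψ = op ρ g t * pw ρ ψ (f (0, 0, v, 0)))
    (h10 : ∀ v, op ρ 10 v * op ρ g t * q0 ρ ψ = op ρ g t * pw ρ ψ (f (0, 0, 0, v))) (x : W4 F) :
    pw ρ ψ x * op ρ g t = op ρ g t * pw ρ ψ (f x) := by
  have cg : Commute (op ρ g t) (q0 ρ ψ) := q0_comm ρ g (by omega) t
  have one : ∀ (y : W4 F) (X : Module.End ℂ V), pw ρ ψ y = X * q0 ρ ψ →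
      X * op ρ g t * q0 ρ ψ = op ρ g t * pw ρ ψ (f y) → pw ρ ψ y * op ρ g t = op ρ g t * pw ρ ψ (f y) := by
    intro y X hX hy
    rw [hX, mul_assoc, ← cg.eq, ← mul_assoc, hy]
  obtain ⟨a, b, c, d⟩ := x
  have e : ((a, b, c, d) : W4 F) = ((a, 0, 0, 0) + ((0, b, 0, 0) + ((0, 0, c, 0) + (0, 0, 0, d)))) := by simp
  rw [e, hf, hf, hf, ← pw_mul ρ hψ, ← pw_mul ρ hψ, ← pw_mul ρ hψ, ← pw_mul ρ hψ, ← pw_mul ρ hψ, ← pw_mul ρ hψ,
    mul_assoc, mul_assoc, mul_assoc, one _ _ (by simp [pw_eq, op_zero]) (h10 d),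
    ← mul_assoc (pw ρ ψ (0, 0, c, 0)), one _ _ (by simp [pw_eq, op_zero]) (h9 c), mul_assoc,
    ← mul_assoc (pw ρ ψ (0, b, 0, 0)), one _ _ (by simp [pw_eq, op_zero]) (h8 b), mul_assoc,
    ← mul_assoc (pw ρ ψ (a, 0, 0, 0)), one _ _ (by simp [pw_eq, op_zero]) (h6 a), mul_assoc]

/-- The substitution belonging to `x₇(t)`. -/
def fT (t : F) (x : W4 F) : W4 F :=
  (x.1, x.2.1 + t * x.1, x.2.2.1 + 2 * t * x.2.1 + t ^ 2 * x.1,
    x.2.2.2 - 3 * t * x.2.2.1 - 3 * t ^ 2 * x.2.1 - t ^ 3 * x.1)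

/-- The substitution belonging to `x₄(t)`. -/
def fS (t : F) (x : W4 F) : W4 F :=
  (x.1 + 3 * t * x.2.1 + 3 * t ^ 2 * x.2.2.1 - t ^ 3 * x.2.2.2, x.2.1 + 2 * t * x.2.2.1 - t ^ 2 * x.2.2.2,
    x.2.2.1 - t * x.2.2.2, x.2.2.2)

omit [Fintype F] in
theorem fT_inj (t : F) : Function.Injective (fT t) := fun x y h => by
  simp only [fT, Prod.mk.injEq] at h
  obtain ⟨h1, h2, h3, h4⟩ := h
  have e1 : x.2.1 = y.2.1 := by linear_combination h2 - t * h1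
  have e2 : x.2.2.1 = y.2.2.1 := by linear_combination h3 - 2 * t * e1 - t ^ 2 * h1
  exact Prod.ext h1 (Prod.ext e1 (Prod.ext e2 (by linear_combination h4 + 3 * t * e2 + 3 * t ^ 2 * e1 + t ^ 3 * h1)))

omit [Fintype F] in
theorem fS_inj (t : F) : Function.Injective (fS t) := fun x y h => by
  simp only [fS, Prod.mk.injEq] at h
  obtain ⟨h1, h2, h3, h4⟩ := h
  have e2 : x.2.2.1 = y.2.2.1 := by linear_combination h3 + t * h4
  have e1 : x.2.1 = y.2.1 := by linear_combination h2 - 2 * t * e2 + t ^ 2 * h4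
  exact Prod.ext (by linear_combination h1 - 3 * t * e1 - 3 * t ^ 2 * e2 + t ^ 3 * h4) (Prod.ext e1 (Prod.ext e2 h4))

omit [Fintype F] in
theorem comm_tables :
    chevG2.commTerms 7 6 = [(8, -1, 1, 1), (9, 1, 2, 1), (10, 1, 3, 1), (11, 1, 3, 2)] ∧
    chevG2.commTerms 7 8 = [(9, -2, 1, 1), (10, -3, 2, 1), (11, 3, 1, 2)] ∧
    chevG2.commTerms 7 9 = [(10, 3, 1, 1)] ∧ chevG2.commTerms 7 10 = [] ∧
    chevG2.commTerms 4 10 = [(9, 1, 1, 1), (8, -1, 2, 1), (6, 1, 3, 1), (11, -1, 3, 2)] ∧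
    chevG2.commTerms 4 9 = [(8, -2, 1, 1), (6, 3, 2, 1), (11, -3, 1, 2)] ∧
    chevG2.commTerms 4 8 = [(6, -3, 1, 1)] ∧ chevG2.commTerms 4 6 = [] := by
  refine ⟨?_, ?_, ?_, ?_, ?_, ?_, ?_, ?_⟩ <;> decide +kernel

include hψ in
theorem pw_T (t : F) (x : W4 F) : pw ρ ψ x * op ρ 7 t = op ρ 7 t * pw ρ ψ (fT t x) := by
  obtain ⟨t6, t8, t9, t10, -, -, -, -⟩ := comm_tables
  refine shear ρ hψ 7 (Or.inr rfl) t _ (fun x y => ?_) (fun v => ?_) (fun v => ?_) (fun v => ?_) (fun v => ?_) x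
  · simp only [fT, Prod.fst_add, Prod.snd_add, Prod.mk_add_mk, Prod.mk.injEq]
    refine ⟨trivial, ?_, ?_, ?_⟩ <;> ring
  all_goals
    refine op_move ρ (Or.inr rfl) (by decide +kernel) t v ?_
    simp only [ChevalleyDatum.commWord, t6, t8, t9, t10, List.map_cons, List.map_nil, List.prod_cons, List.prod_nil,
      map_mul, map_one, mul_one, mul_assoc, one_mul, pow_one, Int.cast_neg, Int.cast_one, Int.cast_ofNat]
    simp only [← op.eq_def, op_six ρ hψ, op_eight ρ hψ, op_nine ρ hψ, op_ten ρ hψ, op_eleven ρ hψ, fT,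
      Prod.mk_add_mk, add_zero, zero_add]
    congr 1
    simp only [Prod.mk.injEq]
    refine ⟨?_, ?_, ?_, ?_⟩ <;> first | trivial | ring

include hψ in
theorem pw_S (t : F) (x : W4 F) : pw ρ ψ x * op ρ 4 t = op ρ 4 t * pw ρ ψ (fS t x) := by
  obtain ⟨-, -, -, -, t10, t9, t8, t6⟩ := comm_tables
  refine shear ρ hψ 4 (Or.inl rfl) t _ (fun x y => ?_) (fun v => ?_) (fun v => ?_) (fun v => ?_) (fun v => ?_) x
  · simp only [fS, Prod.fst_add, Prod.snd_add, Prod.mk_add_mk, Prod.mk.injEq]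
    refine ⟨?_, ?_, ?_, trivial⟩ <;> ring
  all_goals
    refine op_move ρ (Or.inl rfl) (by decide +kernel) t v ?_
    simp only [ChevalleyDatum.commWord, t6, t8, t9, t10, List.map_cons, List.map_nil, List.prod_cons, List.prod_nil,
      map_mul, map_one, mul_one, mul_assoc, one_mul, pow_one, Int.cast_neg, Int.cast_one, Int.cast_ofNat]
    simp only [← op.eq_def, op_six ρ hψ, op_eight ρ hψ, op_nine ρ hψ, op_ten ρ hψ, op_eleven ρ hψ, fS,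
      Prod.mk_add_mk, add_zero, zero_add]
    congr 1
    simp only [Prod.mk.injEq]
    refine ⟨?_, ?_, ?_, ?_⟩ <;> first | trivial | ring

include hψ in
theorem P_T (t : F) (w : W4 F) : P ρ ψ (shT t w) * op ρ 7 t = op ρ 7 t * P ρ ψ w :=
  P_conj ρ _ _ (fT_inj t) (pw_T ρ hψ t) fun x => by simp only [dot, fT, shT]; ring

include hψ in
theorem P_S (t : F) (w : W4 F) : P ρ ψ (shS t w) * op ρ 4 t = op ρ 4 t * P ρ ψ w :=
  P_conj ρ _ _ (fS_inj t) (pw_S ρ hψ t) fun x => by simp only [dot, fS, shS]; ring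

/-- The torus scales the characters. -/
theorem P_torus {a b : F} (ha : a ≠ 0) (hb : b ≠ 0) (h : ↥(chevG2.group F))
    (hh : ∀ t, h * xg 7 t = xg 7 (a * t) * h ∧ h * xg 6 t = xg 6 (b * t) * h ∧
      h * xg 8 t = xg 8 (a * b * t) * h ∧ h * xg 9 t = xg 9 (a ^ 2 * b * t) * h ∧
      h * xg 10 t = xg 10 (a ^ 3 * b * t) * h ∧ h * xg 11 t = xg 11 (a ^ 3 * b ^ 2 * t) * h)
    (w : W4 F) :
    ρ h * P ρ ψ (b * w.1, a * b * w.2.1, a ^ 2 * b * w.2.2.1, a ^ 3 * b * w.2.2.2) = P ρ ψ w * ρ h := by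
  have hz : a ^ 3 * b ^ 2 ≠ 0 := mul_ne_zero (pow_ne_zero _ ha) (pow_ne_zero _ hb)
  have cq : ρ h * q0 ρ ψ = q0 ρ ψ * ρ h := by
    have := conj_prj (ψ := ψ) (J := ρ h) (z := op ρ 11) (z' := op ρ 11) hz (fun t => by
      rw [op, op, ← map_mul, (hh t).2.2.2.2.2, map_mul]) 0
    rwa [zero_div] at this
  refine (P_conj ρ (ρ h) (fun x => (b⁻¹ * x.1, (a * b)⁻¹ * x.2.1, (a ^ 2 * b)⁻¹ * x.2.2.1, (a ^ 3 * b)⁻¹ * x.2.2.2))
    ?_ (fun x => ?_) fun x => ?_).symm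
  · intro x y e
    simp only [Prod.mk.injEq, mul_eq_mul_left_iff, inv_eq_zero, mul_eq_zero, pow_eq_zero_iff', ha, hb, false_and,
      or_false] at e
    exact Prod.ext e.1 (Prod.ext e.2.1 (Prod.ext e.2.2.1 e.2.2.2))
  · have m : ∀ (r : ℕ) (c v : F) (X : Module.End ℂ V), c ≠ 0 → (∀ t, h * xg r t = xg r (c * t) * h) →
        op ρ r v * (ρ h * X) = ρ h * (op ρ r (c⁻¹ * v) * X) := by
      intro r c v X hc he
      rw [← mul_assoc, ← mul_assoc, op, op, ← map_mul, ← map_mul, he, ← mul_assoc, mul_inv_cancel₀ hc, one_mul]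
    rw [pw_eq, pw_eq]
    simp only [mul_assoc]
    rw [← cq, m 10 _ _ _ (mul_ne_zero (pow_ne_zero _ ha) hb) (fun t => (hh t).2.2.2.2.1),
      m 9 _ _ _ (mul_ne_zero (pow_ne_zero _ ha) hb) (fun t => (hh t).2.2.2.1),
      m 8 _ _ _ (mul_ne_zero ha hb) (fun t => (hh t).2.2.1), m 6 _ _ _ hb (fun t => (hh t).2.1)]
  · simp only [dot]
    field_simp

end Cfsg.Agent.Suzuki.G2Min
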