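import Cfsg.Agent.Suzuki.G2MinCoprime

/-!
# Characteristic three: the eigenspaces of the centre of a Sylow subgroup

Here the short root subgroup belonging to `2a + b` is central as well, and the two central root subgroups cut out
eigenspaces of dimension `q² L`.
-/

set_option autoImplicit false
set_option maxHeartbeats 800000

universe u v

namespace Cfsg.Agent.Suzuki.G2Min

open Cfsg.Lie Cfsg.Agent.Chev
open Cfsg.Agent.Suzuki.ReeDeg Cfsg.Agent.Suzuki.TraceProj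

variable {F : Type u} [Field F] [Fintype F] [DecidableEq F] {V : Type v} [AddCommGroup V] [Module ℂ V]
  [FiniteDimensional ℂ V] (ρ : Representation ℂ ↥(chevG2.group F) V) {ψ : AddChar F ℂ}
  (hψ : ∀ c : F, c ≠ 0 → ∑ b : F, ψ (c * b) = 0) (h3 : (3 : F) = 0)

include hψ

local notation "T" => LinearMap.trace ℂ V

omit [FiniteDimensional ℂ V] [Fintype F] [DecidableEq F] hψ in
include h3 in
theorem two_ne_three : (2 : F) ≠ 0 := fun h => one_ne_zero (α := F) (by linear_combination h3 - h)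

omit [FiniteDimensional ℂ V] [Fintype F] [DecidableEq F] hψ in
include h3 in
theorem commute_eight_nine (a b : F) : Commute (xg 8 a) (xg 9 b) := by
  have e := rel_eight_nine (F := F) a b
  rw [show (-3 : F) * (b * a) = 0 by rw [show (-3 : F) = 0 by rw [h3, neg_zero]]; ring, xg_zero, mul_one] at e
  exact e.symm

omit [FiniteDimensional ℂ V] [Fintype F] [DecidableEq F] hψ in
include h3 in
theorem rel_seven_eight (b t : F) : xg 7 t * xg 8 b = xg 8 b * xg 7 t * xg 9 (-2 * (t * b)) := by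
  have h : chevG2.commTerms 8 7 = [(9, 2, 1, 1), (11, 3, 2, 1), (10, -3, 1, 2)] := by decide +kernel
  have e := xg_comm (F := F) (r := 8) (s := 7) (by decide +kernel) b t
  simp only [ChevalleyDatum.commWord, h, List.map_cons, List.map_nil, List.prod_cons, List.prod_nil, mul_one,
    pow_one, Int.cast_neg, Int.cast_ofNat, h3, neg_zero, zero_mul, xg_zero] at e
  rw [e]; congr 2; ring

omit [FiniteDimensional ℂ V] [Fintype F] [DecidableEq F] hψ in
include h3 in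
theorem commute_seven_nine (a b : F) : Commute (xg 9 a) (xg 7 b) := by
  have h : chevG2.commTerms 7 9 = [(10, 3, 1, 1)] := by decide +kernel
  have e := xg_comm (F := F) (r := 7) (s := 9) (by decide +kernel) b a
  simp only [ChevalleyDatum.commWord, h, List.map_cons, List.map_nil, List.prod_cons, List.prod_nil, mul_one,
    Int.cast_ofNat, h3, zero_mul, xg_zero] at e
  exact e

theorem op_trivial (r : ℕ) (h : ∀ c : F, c ≠ 0 → T (pr ρ ψ r c) = 0) (t : F) : op ρ r t = 1 := by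
  refine eq_one_of_bot hψ (op_add ρ r) (op_zero ρ r) (fun c hc => ?_) t
  obtain ⟨n, hn, hn0⟩ := idem_trace (prj_idem hψ (op_add ρ r) c)
  have hP : prj ψ (op ρ r) c = 0 := hn0 (by
    have := hn.symm.trans (h c hc)
    exact_mod_cast this)
  rw [Submodule.eq_bot_iff]
  intro v hv
  have := prj_fix hψ c c hv
  rw [if_pos rfl, hP] at this
  simpa using this.symm

theorem trace_eight (u : F) : T (q0 ρ ψ * pr ρ ψ 8 u) = ∑ a, ∑ c, ∑ d, (M ρ hψ (a, u, c, d) : ℂ) := by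
  simp only [← M_spec, ← map_sum, P_factor, ← Finset.mul_sum, ← Finset.sum_mul, pr_sum ρ hψ, mul_one, one_mul]

include h3 in
/-- The common multiplicities in the eigenspaces of the two central root subgroups. -/
theorem exists_central : ∃ L n : ℕ, (∀ z c : F, z ≠ 0 → c ≠ 0 →
      T (pr ρ ψ 11 z * pr ρ ψ 9 c) = ((Fintype.card F ^ 2 * L : ℕ) : ℂ)) ∧
    (∀ z c u : F, z ≠ 0 → c ≠ 0 →
      T (pr ρ ψ 11 z * (pr ρ ψ 9 c * pr ρ ψ 8 u)) = ((Fintype.card F * L : ℕ) : ℂ)) ∧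
    (∀ z u : F, z ≠ 0 → u ≠ 0 →
      T (pr ρ ψ 11 z * (pr ρ ψ 9 0 * pr ρ ψ 8 u)) = ((Fintype.card F * n : ℕ) : ℂ)) := by
  have hq : (Fintype.card F : ℂ) ≠ 0 := by exact_mod_cast Fintype.card_ne_zero
  have c68 : ∀ a u, Commute (pr ρ ψ 6 a) (pr ρ ψ 8 u) := pr_commute ρ (commute_pairs (by simp))
  have c96 : ∀ c a, Commute (pr ρ ψ 9 c) (pr ρ ψ 6 a) := pr_commute ρ (commute_pairs (by simp))
  have c89 : ∀ u c, Commute (pr ρ ψ 8 u) (pr ρ ψ 9 c) := pr_commute ρ (commute_eight_nine h3)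
  have c116 : ∀ z a, Commute (pr ρ ψ 11 z) (pr ρ ψ 6 a) := pr_commute ρ (commute_pairs (by simp))
  have c118 : ∀ z u, Commute (pr ρ ψ 11 z) (pr ρ ψ 8 u) := pr_commute ρ (commute_pairs (by simp))
  have c119 : ∀ z c, Commute (pr ρ ψ 11 z) (pr ρ ψ 9 c) := pr_commute ρ (commute_pairs (by simp))
  have idem : ∀ z a c u : F, ∃ k : ℕ,
      T (pr ρ ψ 11 z * (pr ρ ψ 6 a * (pr ρ ψ 9 c * pr ρ ψ 8 u))) = k := fun z a c u => by
    obtain ⟨k, hk, -⟩ := idem_trace (idem_mul (prj_idem hψ (op_add ρ 11) z)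
      (idem_mul (prj_idem hψ (op_add ρ 6) a)
        (idem_mul (prj_idem hψ (op_add ρ 9) c) (prj_idem hψ (op_add ρ 8) u) (c89 u c))
        ((c96 c a).symm.mul_right (c68 a u)).symm)
      ((c116 z a).mul_right ((c119 z c).mul_right (c118 z u))).symm)
    exact ⟨k, hk⟩
  have six : ∀ z a c u : F, z ≠ 0 → (Fintype.card F : ℂ) *
      T (pr ρ ψ 11 z * (pr ρ ψ 6 a * (pr ρ ψ 9 c * pr ρ ψ 8 u))) = T (pr ρ ψ 11 z * (pr ρ ψ 9 c * pr ρ ψ 8 u)) :=
    fun z a c u hz => shift_six ρ hψ hz _ (fun t => Commute.mul_right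
      (commute_prj (fun b => (commute_pairs (r := 10) (s := 9) (by simp) t b).map ρ) c)
      (commute_prj (fun b => (commute_pairs (r := 10) (s := 8) (by simp) t b).map ρ) u)) a
  have eight : ∀ z c u : F, c ≠ 0 → (Fintype.card F : ℂ) * T (pr ρ ψ 11 z * (pr ρ ψ 9 c * pr ρ ψ 8 u)) =
      T (pr ρ ψ 11 z * pr ρ ψ 9 c) := by
    intro z c u hc
    have e := shift ρ hψ (k := 9) (r := 8) (g := 7) (κ := -2) (neg_ne_zero.2 (two_ne_three h3)) (rel_seven_eight h3)
      (commute_seven_nine h3) (fun a b => (commute_eight_nine h3 b a).symm) hc (pr ρ ψ 11 z)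
      (fun t => commute_prj (fun b => ((commute_pairs (r := 11) (s := 7) (by simp) b t).map ρ).symm) z) u
    rw [← (c118 z u).eq, ← mul_assoc, ← (c119 z c).eq, mul_assoc] at e
    exact e
  have scale : ∀ z c : F, z ≠ 0 → c ≠ 0 →
      T (pr ρ ψ 11 z * pr ρ ψ 9 c) = T (pr ρ ψ 11 1 * pr ρ ψ 9 1) := by
    intro z c hz hc
    have ha : c ^ 2 / z ≠ 0 := div_ne_zero (pow_ne_zero _ hc) hz
    have hb : z ^ 2 / c ^ 3 ≠ 0 := div_ne_zero (pow_ne_zero _ hz) (pow_ne_zero _ hc)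
    obtain ⟨h, hh⟩ := exists_torus ha hb
    refine op_trace ρ h ?_
    rw [← mul_assoc, move_pr ρ (ψ := ψ) (mul_ne_zero (pow_ne_zero _ ha) (pow_ne_zero _ hb))
      (fun t => (hh t).2.2.2.2.2) z, mul_assoc, move_pr ρ (ψ := ψ) (mul_ne_zero (pow_ne_zero _ ha) hb)
      (fun t => (hh t).2.2.2.1) c, ← mul_assoc]
    congr 3
    · field_simp
    · field_simp
  have scale0 : ∀ z u : F, z ≠ 0 → u ≠ 0 → T (pr ρ ψ 11 z * (pr ρ ψ 9 0 * pr ρ ψ 8 u)) =
      T (pr ρ ψ 11 1 * (pr ρ ψ 9 0 * pr ρ ψ 8 1)) := by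
    intro z u hz hu
    have ha : z / u ^ 2 ≠ 0 := div_ne_zero hz (pow_ne_zero _ hu)
    have hb : u ^ 3 / z ≠ 0 := div_ne_zero (pow_ne_zero _ hu) hz
    obtain ⟨h, hh⟩ := exists_torus ha hb
    refine op_trace ρ h ?_
    rw [← mul_assoc, move_pr ρ (ψ := ψ) (mul_ne_zero (pow_ne_zero _ ha) (pow_ne_zero _ hb))
      (fun t => (hh t).2.2.2.2.2) z, mul_assoc, ← mul_assoc (ρ h),
      move_pr ρ (ψ := ψ) (mul_ne_zero (pow_ne_zero _ ha) hb) (fun t => (hh t).2.2.2.1) 0, mul_assoc,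
      move_pr ρ (ψ := ψ) (mul_ne_zero ha hb) (fun t => (hh t).2.2.1) u, zero_div]
    simp only [← mul_assoc]
    congr 4
    · field_simp
    · field_simp
  obtain ⟨L, hL⟩ := idem 1 0 1 0
  obtain ⟨n, hn⟩ := idem 1 0 0 1
  have hLq : T (pr ρ ψ 11 1 * pr ρ ψ 9 1) = ((Fintype.card F ^ 2 * L : ℕ) : ℂ) := by
    rw [← eight 1 1 0 one_ne_zero, ← six 1 0 1 0 one_ne_zero, hL]
    push_cast; ring
  refine ⟨L, n, fun z c hz hc => (scale z c hz hc).trans hLq, fun z c u hz hc => ?_, fun z u hz hu => ?_⟩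
  · refine mul_left_cancel₀ hq ?_
    rw [eight z c u hc, (scale z c hz hc).trans hLq]
    push_cast; ring
  · rw [scale0 z u hz hu, ← six 1 0 0 1 one_ne_zero, hn]
    push_cast; ring

end Cfsg.Agent.Suzuki.G2Min
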