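import Cfsg.Agent.Suzuki.G2MinThreeA

/-! # Characteristic three: the characters on the fixed space of the centre -/

set_option autoImplicit false
set_option maxHeartbeats 1600000

universe u v

namespace Cfsg.Agent.Suzuki.G2Min

open Cfsg.Lie Cfsg.Agent.Chev
open Cfsg.Agent.Suzuki.ReeDeg Cfsg.Agent.Suzuki.TraceProj

variable {F : Type u} [Field F] [Fintype F] [DecidableEq F] {V : Type v} [AddCommGroup V] [Module ℂ V]
  [FiniteDimensional ℂ V] (ρ : Representation ℂ ↥(chevG2.group F) V) {ψ : AddChar F ℂ}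
  (hψ : ∀ c : F, c ≠ 0 → ∑ b : F, ψ (c * b) = 0) (h3 : (3 : F) = 0)

local notation "T" => LinearMap.trace ℂ V

/-- The total over the two long coordinates. -/
noncomputable def fib (u c : F) : ℕ := ∑ a, ∑ d, M ρ hψ (a, u, c, d)

include h3

theorem two_ne : (2 : F) ≠ 0 := fun h => one_ne_zero (α := F) (by linear_combination h3 - h)

include hψ

theorem fib_scale {a b : F} (ha : a ≠ 0) (hb : b ≠ 0) (u c : F) :
    fib ρ hψ (a * b * u) (a ^ 2 * b * c) = fib ρ hψ u c := by
  simp only [fib]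
  refine (Fintype.sum_equiv (Equiv.mulLeft₀ b hb) _ _ fun x => ?_).symm
  refine Fintype.sum_equiv (Equiv.mulLeft₀ (a ^ 3 * b) (mul_ne_zero (pow_ne_zero _ ha) hb)) _ _ fun d => ?_
  exact (M_torus ρ hψ ha hb x u c d).symm

theorem fib_shS (t u c : F) : fib ρ hψ u (c + 2 * t * u) = fib ρ hψ u c := by
  simp only [fib]
  refine (Finset.sum_congr rfl fun a _ => ?_)
  refine (Fintype.sum_equiv (Equiv.addRight (-t * c - t ^ 2 * u - t ^ 3 * a)) _ _ fun d => ?_).symm
  rw [← M_shS ρ hψ t (a, u, c, d)]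
  congr 1
  simp only [shS, h3, zero_mul, add_zero, Equiv.coe_addRight, Prod.mk.injEq, true_and]
  ring

theorem fib_shT (t u c : F) : fib ρ hψ (u + 2 * t * c) c = fib ρ hψ u c := by
  simp only [fib]
  rw [Finset.sum_comm (γ := F)]
  conv_rhs => rw [Finset.sum_comm]
  refine Finset.sum_congr rfl fun d _ => ?_
  refine (Fintype.sum_equiv (Equiv.addRight (t * u + t ^ 2 * c - t ^ 3 * d)) _ _ fun a => ?_).symm
  rw [← M_shT ρ hψ t (a, u, c, d)]
  congr 1
  simp only [shT, h3, zero_mul, sub_zero, Equiv.coe_addRight, Prod.mk.injEq, and_true]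
  ring

theorem fib_const {u c : F} (h : u ≠ 0 ∨ c ≠ 0) : fib ρ hψ u c = fib ρ hψ 1 0 := by
  have h2 := two_ne h3
  have base : ∀ {u : F} (c : F), u ≠ 0 → fib ρ hψ u c = fib ρ hψ 1 0 := by
    intro u c hu
    have e1 := fib_shS ρ hψ h3 (c / (2 * u)) u 0
    rw [zero_add, show 2 * (c / (2 * u)) * u = c by field_simp] at e1
    rw [e1]
    have e2 := fib_scale ρ hψ h3 one_ne_zero hu 1 0
    rwa [one_mul, mul_one, mul_zero] at e2
  by_cases hu : u = 0
  · have hc : c ≠ 0 := h.resolve_left (not_not.2 hu)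
    subst hu
    have e := fib_shT ρ hψ h3 (1 / (2 * c)) 0 c
    rw [zero_add, show 2 * (1 / (2 * c)) * c = 1 by field_simp] at e
    rw [← e]
    exact base c one_ne_zero
  · exact base c hu

theorem total_eq : ∑ w, M ρ hψ w =
    fib ρ hψ 0 0 + (Fintype.card F ^ 2 - 1) * fib ρ hψ 1 0 := by
  have e : ∑ w, M ρ hψ w = ∑ p : F × F, fib ρ hψ p.1 p.2 := by
    simp only [fib, Fintype.sum_prod_type]
    rw [Finset.sum_comm]
    exact Finset.sum_congr rfl fun u _ => Finset.sum_comm
  rw [e, ← Finset.add_sum_erase _ _ (Finset.mem_univ ((0 : F), (0 : F))), Finset.sum_congr rfl fun p hp =>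
    fib_const ρ hψ h3 (by
      by_contra hc
      push Not at hc
      exact Finset.ne_of_mem_erase hp (Prod.ext hc.1 hc.2)), Finset.sum_const,
    Finset.card_erase_of_mem (Finset.mem_univ _), Finset.card_univ, Fintype.card_prod, smul_eq_mul, ← pow_two]

/-- Sum over the last coordinate, moved to the standard position. -/
theorem sum_last {a u : F} (ha : a ≠ 0) (hu : u ≠ 0) (c : F) :
    ∑ d, M ρ hψ (a, u, c, d) = ∑ d, M ρ hψ (1, 1, 0, d) := by
  have h2 := two_ne h3
  set t := c / (2 * u) with ht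
  have e1 : ∑ d, M ρ hψ (a, u, c, d) = ∑ d, M ρ hψ (a, u, 0, d) := by
    refine (Fintype.sum_equiv (Equiv.addRight (-t ^ 2 * u - t ^ 3 * a)) _ _ fun d => ?_).symm
    rw [← M_shS ρ hψ t (a, u, 0, d)]
    congr 1
    simp only [shS, h3, zero_mul, add_zero, zero_add, mul_zero, sub_zero, Equiv.coe_addRight, Prod.mk.injEq,
      true_and]
    constructor
    · rw [ht]; field_simp
    · ring
  rw [e1]
  have hs : u / a ≠ 0 := div_ne_zero hu ha
  refine (Fintype.sum_equiv (Equiv.mulLeft₀ ((u / a) ^ 3 * a) (mul_ne_zero (pow_ne_zero _ hs) ha)) _ _ fun d => ?_).symm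
  rw [← M_torus ρ hψ hs ha 1 1 0 d]
  congr 1
  simp only [mul_one, mul_zero, Equiv.mulLeft₀_apply, Prod.mk.injEq, true_and, and_true]
  field_simp

/-- The characters with all short coordinates zero. -/
theorem M_line {a d : F} (h : a ≠ 0 ∨ d ≠ 0) : M ρ hψ (a, 0, 0, d) = M ρ hψ (1, 0, 0, 0) := by
  have hcube : ∀ x : F, ∃ t, t ^ 3 = x := by
    have : CharP F 3 := (CharP.charP_iff_prime_eq_zero Nat.prime_three).2 (by exact_mod_cast h3)
    have : ExpChar F 3 := ExpChar.prime Nat.prime_three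
    intro x
    exact (Finite.injective_iff_surjective.1 (frobenius_inj F 3)) x
  have move : ∀ {a : F} (d : F), a ≠ 0 → M ρ hψ (a, 0, 0, d) = M ρ hψ (1, 0, 0, 0) := by
    intro a d ha
    obtain ⟨t, ht⟩ := hcube (d / a)
    have e := M_shS ρ hψ t (a, 0, 0, d)
    simp only [shS, h3, zero_mul, add_zero, mul_zero, sub_zero, ht, div_mul_cancel₀ d ha, sub_self] at e
    rw [← e]
    have e2 := M_torus ρ hψ one_ne_zero ha 1 0 0 0
    simp only [mul_one, mul_zero] at e2
    exact e2
  by_cases ha : a = 0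
  · subst ha
    have hd : d ≠ 0 := h.resolve_left (fun h => h rfl)
    have e := M_shT ρ hψ 1 (0, 0, 0, d)
    simp only [shT, h3, zero_mul, mul_zero, sub_zero, add_zero, zero_sub, one_pow, one_mul] at e
    rw [← e]
    exact move d (neg_ne_zero.2 hd)
  · exact move d ha

/-- The degree formula. -/
theorem mu_three : mu ρ hψ =
    (Fintype.card F - 1) * (Fintype.card F * ∑ d, M ρ hψ (1, 1, 0, d)) +
      ∑ c ∈ (Finset.univ : Finset F).erase 0, ∑ d, M ρ hψ (1, 0, c, d) + Fintype.card F * M ρ hψ (1, 0, 0, 0) := by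
  rw [mu, ← sum_R ρ hψ, ← Finset.add_sum_erase _ _ (Finset.mem_univ (0 : F)),
    Finset.sum_congr rfl fun u hu => Finset.sum_congr rfl fun c _ =>
      sum_last ρ hψ h3 one_ne_zero (Finset.ne_of_mem_erase hu) c,
    Finset.sum_const, Finset.card_erase_of_mem (Finset.mem_univ _), Finset.sum_const, Finset.card_univ, smul_eq_mul,
    smul_eq_mul, ← Finset.add_sum_erase _ _ (Finset.mem_univ (0 : F)),
    Finset.sum_congr rfl fun d (_ : d ∈ Finset.univ) => M_line ρ hψ h3 (a := 1) (d := d) (Or.inl one_ne_zero),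
    Finset.sum_const, Finset.card_univ, smul_eq_mul]
  ring

theorem fib_zero :
    fib ρ hψ 0 0 = M ρ hψ 0 + (Fintype.card F ^ 2 - 1) * M ρ hψ (1, 0, 0, 0) := by
  have e : fib ρ hψ 0 0 = ∑ p : F × F, M ρ hψ (p.1, 0, 0, p.2) := by simp only [fib, Fintype.sum_prod_type]
  rw [e, ← Finset.add_sum_erase _ _ (Finset.mem_univ ((0 : F), (0 : F))), Finset.sum_congr rfl fun p hp =>
    M_line ρ hψ h3 (by
      by_contra hc
      push Not at hc
      exact Finset.ne_of_mem_erase hp (Prod.ext hc.1 hc.2)), Finset.sum_const,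
    Finset.card_erase_of_mem (Finset.mem_univ _), Finset.card_univ, Fintype.card_prod, smul_eq_mul, ← pow_two]
  rfl

omit hψ h3 in
theorem exists_nonroot (P : Polynomial F) (hP : P ≠ 0) (hd : P.natDegree < Fintype.card F) :
    ∃ t, P.eval t ≠ 0 := by
  by_contra h
  push Not at h
  exact hP (Polynomial.eq_zero_of_natDegree_lt_card_of_eval_eq_zero' P Finset.univ (fun i _ => h i) hd)

/-- If the standard fibre is empty, so is every fibre away from the long coordinates. -/
theorem vanish (hq : 9 ≤ Fintype.card F) (h : ∑ d, M ρ hψ (1, 1, 0, d) = 0) {u c : F} (huc : u ≠ 0 ∨ c ≠ 0)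
    (a d : F) : M ρ hψ (a, u, c, d) = 0 := by
  have h2 := two_ne h3
  let P : Polynomial F := (Polynomial.C (-d) * Polynomial.X ^ 3 + Polynomial.C c * Polynomial.X ^ 2 +
    Polynomial.C u * Polynomial.X + Polynomial.C a) * (Polynomial.C (2 * c) * Polynomial.X + Polynomial.C u)
  have hP : P ≠ 0 := by
    refine mul_ne_zero (fun e => ?_) (fun e => ?_)
    · have e1 := congrArg (fun p => Polynomial.coeff p 1) e
      have e2 := congrArg (fun p => Polynomial.coeff p 2) e
      simp [Polynomial.coeff_X, Polynomial.coeff_C] at e1 e2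
      exact huc.elim (fun h => h e1) (fun h => h e2)
    · have e1 := congrArg (fun p => Polynomial.coeff p 1) e
      have e0 := congrArg (fun p => Polynomial.coeff p 0) e
      simp [Polynomial.coeff_X, Polynomial.coeff_C, h2] at e1 e0
      exact huc.elim (fun h => h e0) (fun h => h e1)
  have hd : P.natDegree < Fintype.card F := by
    have : P.natDegree ≤ 4 := by simp only [P]; compute_degree
    omega
  obtain ⟨t, ht⟩ := exists_nonroot P hP hd
  simp only [P, Polynomial.eval_mul, Polynomial.eval_add, Polynomial.eval_C, Polynomial.eval_pow,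
    Polynomial.eval_X, mul_ne_zero_iff] at ht
  rw [← M_shT ρ hψ t (a, u, c, d)]
  simp only [shT, h3, zero_mul, sub_zero]
  have hz := sum_last ρ hψ h3 (a := a + t * u + t ^ 2 * c - t ^ 3 * d) (u := u + 2 * t * c)
    (fun e => ht.1 (by linear_combination e)) (fun e => ht.2 (by linear_combination e)) c
  rw [h, Finset.sum_eq_zero_iff] at hz
  exact hz d (Finset.mem_univ _)

end Cfsg.Agent.Suzuki.G2Min
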