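import Cfsg.Agent.KnownB.Proj.Symp.Transv
import Mathlib

/-!
Root elements of the symplectic groups, indexed by orthogonal pairs of basis vectors.
-/

set_option autoImplicit false

namespace Cfsg.Agent.Suzuki.SpSt

open Matrix
open Cfsg.Agent.KnownB.Proj.Symp
open scoped commutatorElement

universe u

variable {m : ℕ} {F : Type u} [Field F]

local notation "Vm" => (Fin m ⊕ Fin m → F)
local notation "Spm" => Matrix.symplecticGroup (Fin m) F
local notation "B" => Cfsg.sympForm m F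

/-- the opposite index -/
def bar (p : Fin m ⊕ Fin m) : Fin m ⊕ Fin m := p.swap

/-- the class of an index -/
def cls (p : Fin m ⊕ Fin m) : Fin m := Sum.elim id id p

/-- the sign of an index -/
def sg (p : Fin m ⊕ Fin m) : F := Sum.elim (fun _ => (-1 : F)) (fun _ => 1) p

theorem bar_bar (p : Fin m ⊕ Fin m) : bar (bar p) = p := Sum.swap_swap p

theorem bar_ne (p : Fin m ⊕ Fin m) : bar p ≠ p := by rcases p with p | p <;> simp [bar]

theorem cls_bar (p : Fin m ⊕ Fin m) : cls (bar p) = cls p := by rcases p with p | p <;> rfl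

theorem eq_or_bar {p r : Fin m ⊕ Fin m} (h : cls p = cls r) : p = r ∨ p = bar r := by
  rcases p with p | p <;> rcases r with r | r <;> simp_all [cls, bar]

theorem ne_bar_of_cls {p r : Fin m ⊕ Fin m} (h : cls p ≠ cls r) : r ≠ bar p := fun e => h (by rw [e, cls_bar])

theorem ne_of_cls {p r : Fin m ⊕ Fin m} (h : cls p ≠ cls r) : p ≠ r := fun e => h (by rw [e])

theorem bar_inj {p r : Fin m ⊕ Fin m} : bar p = bar r ↔ p = r :=
  ⟨fun h => by rw [← bar_bar p, h, bar_bar], congrArg bar⟩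

theorem bar_symm {p r : Fin m ⊕ Fin m} (h : r ≠ bar p) : p ≠ bar r := fun e => h (by rw [e, bar_bar])

theorem sg_mul_self (p : Fin m ⊕ Fin m) : (sg p : F) * sg p = 1 := by rcases p with p | p <;> simp [sg]

theorem sg_bar (p : Fin m ⊕ Fin m) : (sg (bar p) : F) = -sg p := by rcases p with p | p <;> simp [sg, bar]

theorem sg_ne (p : Fin m ⊕ Fin m) : (sg p : F) ≠ 0 := left_ne_zero_of_mul_eq_one (sg_mul_self p)

/-- a basis vector -/
def e (p : Fin m ⊕ Fin m) : Vm := Pi.single p 1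

theorem e_apply (p r : Fin m ⊕ Fin m) : (e p : Vm) r = if r = p then 1 else 0 := Pi.single_apply p 1 r

theorem e_self (p : Fin m ⊕ Fin m) : (e p : Vm) p = 1 := Pi.single_eq_same p 1

theorem e_ne {p r : Fin m ⊕ Fin m} (h : r ≠ p) : (e p : Vm) r = 0 := Pi.single_eq_of_ne h 1

theorem e_ne_zero (p : Fin m ⊕ Fin m) : (e p : Vm) ≠ 0 := fun h => one_ne_zero ((e_self p).symm.trans (congrFun h p))

theorem B_e_left (p : Fin m ⊕ Fin m) (v : Vm) : B (e p) v = sg p * v (bar p) := by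
  rw [Forms.sympForm_eq]
  rcases p with i | i <;>
  · rw [Finset.sum_eq_single i]
    · simp [e, bar, sg]
    · intro j _ hj; simp [e, hj]
    · intro h; exact absurd (Finset.mem_univ i) h

theorem B_e_right (v : Vm) (p : Fin m ⊕ Fin m) : B v (e p) = -(sg p * v (bar p)) := by
  rw [B_swap, B_e_left]

theorem B_e_e {p r : Fin m ⊕ Fin m} (h : r ≠ bar p) : B (e p) (e r) = 0 := by
  rw [B_e_left, e_ne (fun e' => h e'.symm), mul_zero]

theorem coord_eq (v : Vm) (p : Fin m ⊕ Fin m) : v p = sg (bar p) * B (e (bar p)) v := by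
  rw [B_e_left, bar_bar, ← mul_assoc, sg_mul_self, one_mul]

theorem mulVec_e_coord (g : Spm) (x : Vm) {p : Fin m ⊕ Fin m} (h : g.1 *ᵥ e (bar p) = e (bar p)) :
    (g.1 *ᵥ x) p = x p := by
  conv_lhs => rw [coord_eq (g.1 *ᵥ x) p, ← h, sp_B]
  rw [← coord_eq]

theorem sp_ext_e {g h : Spm} (H : ∀ p, g.1 *ᵥ e p = h.1 *ᵥ e p) : g = h :=
  Subtype.ext (Matrix.ext_of_mulVec_single H)

/-- the short root element of two orthogonal vectors -/
def S (u w : Vm) (c : F) : Spm := T (u + w) c * T u (-c) * T w (-c)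

theorem S_mulVec {u w : Vm} (h : B u w = 0) (c : F) (x : Vm) :
    (S u w c).1 *ᵥ x = x + c • (B x u • w + B x w • u) := by
  have h' : B w u = 0 := by rw [B_swap, h, neg_zero]
  rw [S, sp_mul_mulVec, sp_mul_mulVec, T_mulVec, T_mulVec, T_mulVec]
  simp only [B_add_left, B_add_right, B_smul_left, B_smul_right, B_self, h, h', mul_zero, add_zero, zero_add]
  module

theorem S_symm {u w : Vm} (h : B u w = 0) (c : F) : S u w c = S w u c := sp_ext fun x => by
  rw [S_mulVec h, S_mulVec (by rw [B_swap, h, neg_zero]), add_comm (B x u • w)]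

theorem S_add {u w : Vm} (h : B u w = 0) (a b : F) : S u w a * S u w b = S u w (a + b) := sp_ext fun x => by
  have h' : B w u = 0 := by rw [B_swap, h, neg_zero]
  rw [sp_mul_mulVec, S_mulVec h, S_mulVec h, S_mulVec h]
  simp only [B_add_left, B_smul_left, B_self, h, h', mul_zero, add_zero]
  module

theorem T_conj' (g : Spm) (v : Vm) (c : F) : g * T v c * g⁻¹ = T (g.1 *ᵥ v) c := T_conj g v c

theorem S_conj (g : Spm) (u w : Vm) (c : F) : g * S u w c * g⁻¹ = S (g.1 *ᵥ u) (g.1 *ᵥ w) c := by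
  rw [S, S, show ∀ a b d : Spm, g * (a * b * d) * g⁻¹ = (g * a * g⁻¹) * (g * b * g⁻¹) * (g * d * g⁻¹) from
    fun a b d => by group, T_conj, T_conj, T_conj, Matrix.mulVec_add]

theorem S_smul_left {u w : Vm} (h : B u w = 0) (k c : F) : S (k • u) w c = S u w (k * c) := sp_ext fun x => by
  rw [S_mulVec (by rw [B_smul_left, h, mul_zero]), S_mulVec h, B_smul_right]
  module

theorem S_add_left {u u' w : Vm} (h : B u w = 0) (h' : B u' w = 0) (h'' : B u u' = 0) (c : F) :
    S (u + u') w c = S u w c * S u' w c := sp_ext fun x => by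
  have k : B w u' = 0 := by rw [B_swap, h', neg_zero]
  have k' : B u' u = 0 := by rw [B_swap, h'', neg_zero]
  have k'' : B w u = 0 := by rw [B_swap, h, neg_zero]
  rw [sp_mul_mulVec, S_mulVec h', S_mulVec h, S_mulVec (by rw [B_add_left, h, h', add_zero])]
  simp only [B_add_left, B_add_right, B_smul_left, B_self, h', k', k'', mul_zero, add_zero]
  module

theorem S_add_right' {u w w' : Vm} (h : B u w = 0) (h' : B u w' = 0) (c : F) :
    S u (w + w') c = T u (-(c * c * B w' w)) * (S u w c * S u w' c) := sp_ext fun x => by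
  have k : B w u = 0 := by rw [B_swap, h, neg_zero]
  have k' : B w' u = 0 := by rw [B_swap, h', neg_zero]
  rw [sp_mul_mulVec, sp_mul_mulVec, T_mulVec, S_mulVec h', S_mulVec h,
    S_mulVec (by rw [B_add_right, h, h', add_zero])]
  simp only [B_add_left, B_add_right, B_smul_left, B_self, h, h', k, k', mul_zero, add_zero]
  module

theorem T_comm {u w : Vm} (h : B u w = 0) (a b : F) : T u a * T w b = T w b * T u a := by
  rw [← mul_inv_eq_iff_eq_mul, T_conj, T_mulVec, B_swap, h, neg_zero, mul_zero, zero_smul, add_zero]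

/-- the root element of a pair of indices -/
def Y (p r : Fin m ⊕ Fin m) (c : F) : Spm := if p = r then T (e p) c else S (e p) (e r) c

theorem Y_long (p : Fin m ⊕ Fin m) (c : F) : Y p p c = (T (e p) c : Spm) := if_pos rfl

theorem Y_short {p r : Fin m ⊕ Fin m} (h : p ≠ r) (c : F) : Y p r c = (S (e p) (e r) c : Spm) := if_neg h

theorem Y_mulVec_short {p r : Fin m ⊕ Fin m} (h : r ≠ bar p) (hpr : p ≠ r) (c : F) (x : Vm) :
    (Y p r c).1 *ᵥ x = x + c • (B x (e p) • e r + B x (e r) • e p) := by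
  rw [Y_short hpr, S_mulVec (B_e_e h)]

theorem Y_mulVec_long (p : Fin m ⊕ Fin m) (c : F) (x : Vm) :
    (Y p p c).1 *ᵥ x = x + (c * B x (e p)) • e p := by rw [Y_long, T_mulVec]

theorem Y_symm {p r : Fin m ⊕ Fin m} (h : r ≠ bar p) (c : F) : (Y p r c : Spm) = Y r p c := by
  by_cases hpr : p = r
  · rw [hpr]
  · rw [Y_short hpr, Y_short (Ne.symm hpr), S_symm (B_e_e h)]

theorem Y_add {p r : Fin m ⊕ Fin m} (h : r ≠ bar p) (a b : F) : (Y p r a * Y p r b : Spm) = Y p r (a + b) := by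
  by_cases hpr : p = r
  · subst hpr; rw [Y_long, Y_long, Y_long, T_add]
  · rw [Y_short hpr, Y_short hpr, Y_short hpr, S_add (B_e_e h)]

theorem Y_zero {p r : Fin m ⊕ Fin m} (h : r ≠ bar p) : (Y p r 0 : Spm) = 1 := by
  have h0 : (Y p r 0 * Y p r 0 : Spm) = Y p r 0 := by rw [Y_add h, add_zero]
  exact mul_eq_left.1 h0

theorem Y_inv {p r : Fin m ⊕ Fin m} (h : r ≠ bar p) (a : F) : ((Y p r a)⁻¹ : Spm) = Y p r (-a) :=
  inv_eq_of_mul_eq_one_right (by rw [Y_add h, add_neg_cancel, Y_zero h])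

theorem Y_fix {p r : Fin m ⊕ Fin m} (h : r ≠ bar p) (c : F) {x : Vm} (hp : x (bar p) = 0) (hr : x (bar r) = 0) :
    (Y p r c).1 *ᵥ x = x := by
  by_cases hpr : p = r
  · subst hpr; rw [Y_mulVec_long, B_e_right, hp]; simp
  · rw [Y_mulVec_short h hpr, B_e_right, B_e_right, hp, hr]; simp

theorem Y_fix_e {p r : Fin m ⊕ Fin m} (h : r ≠ bar p) (c : F) {k : Fin m ⊕ Fin m} (hp : k ≠ bar p) (hr : k ≠ bar r) :
    (Y p r c).1 *ᵥ e k = (e k : Vm) :=
  Y_fix h c (e_ne (Ne.symm hp)) (e_ne (Ne.symm hr))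

theorem Y_conj_fix {g : Spm} {p r : Fin m ⊕ Fin m} (hp : g.1 *ᵥ e p = e p) (hr : g.1 *ᵥ e r = e r) (c : F) :
    g * Y p r c * g⁻¹ = Y p r c := by
  by_cases hpr : p = r
  · subst hpr; rw [Y_long, T_conj, hp]
  · rw [Y_short hpr, S_conj, hp, hr]

/-- the commutation condition on two roots -/
def Free (p r p' r' : Fin m ⊕ Fin m) : Prop := p' ≠ bar p ∧ p' ≠ bar r ∧ r' ≠ bar p ∧ r' ≠ bar r

theorem Y_comm {p r p' r' : Fin m ⊕ Fin m} (h : r ≠ bar p) (hf : Free p r p' r') (a b : F) :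
    (Y p r a * Y p' r' b : Spm) = Y p' r' b * Y p r a := by
  rw [← mul_inv_eq_iff_eq_mul]
  exact Y_conj_fix (Y_fix_e h a hf.1 hf.2.1) (Y_fix_e h a hf.2.2.1 hf.2.2.2) b

theorem Y_conj_out {p r s : Fin m ⊕ Fin m} (hpr : cls p ≠ cls r) (hrs : cls r ≠ cls s) (hps : cls p ≠ cls s) (a b : F) :
    (Y p r a * Y (bar r) s b * (Y p r a)⁻¹ : Spm) = Y p s (sg (bar r) * a * b) * Y (bar r) s b := by
  have h1 : bar r ≠ s := ne_of_cls (by rw [cls_bar]; exact hrs)
  have hb : B (e (bar r)) (e s) = 0 := B_e_e (ne_bar_of_cls (by rw [cls_bar]; exact hrs))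
  have hb' : B (e p) (e s) = 0 := B_e_e (ne_bar_of_cls hps)
  rw [Y_short h1, S_conj, Y_fix_e (ne_bar_of_cls hpr) a (ne_bar_of_cls hps) (ne_bar_of_cls hrs),
    Y_mulVec_short (ne_bar_of_cls hpr) (ne_of_cls hpr), B_e_left, B_e_left, bar_bar, e_self,
    e_ne (ne_of_cls hpr).symm, Y_short (ne_of_cls hps)]
  rw [show (e (bar r) : Vm) + a • (((sg (bar r) : F) * 0) • e r + ((sg (bar r) : F) * 1) • e p) =
    ((sg (bar r) : F) * a) • e p + e (bar r) by module]
  rw [S_add_left (by rw [B_smul_left, hb', mul_zero]) hb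
    (by rw [B_smul_left, B_e_e (fun e' => ne_of_cls hpr (bar_inj.1 e').symm), mul_zero]), S_smul_left hb']

theorem Y_comm3 {p r s : Fin m ⊕ Fin m} (hpr : cls p ≠ cls r) (hrs : cls r ≠ cls s) (hps : cls p ≠ cls s) (a b : F) :
    (⁅Y p r a, Y (bar r) s b⁆ : Spm) = Y p s (sg (bar r) * a * b) := by
  rw [commutatorElement_def, Y_conj_out hpr hrs hps, mul_inv_cancel_right]

/-- vectors supported on the classes in `t` -/
def Supp (t : Finset (Fin m)) (x : Vm) : Prop := ∀ p, cls p ∉ t → x p = 0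

/-- the isometries fixing all basis vectors outside the classes in `t` -/
def spOn (t : Finset (Fin m)) : Subgroup Spm where
  carrier := {g | ∀ p, cls p ∉ t → g.1 *ᵥ e p = e p}
  one_mem' := fun p _ => sp_one_mulVec _
  mul_mem' := fun {a b} ha hb p hp => by rw [sp_mul_mulVec, hb p hp, ha p hp]
  inv_mem' := fun {a} ha p hp => by
    conv_lhs => rw [← ha p hp]
    exact sp_inv_mulVec a _

theorem spOn_coord {t : Finset (Fin m)} {g : Spm} (hg : g ∈ spOn t) (x : Vm) {p : Fin m ⊕ Fin m} (hp : cls p ∉ t) :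
    (g.1 *ᵥ x) p = x p := mulVec_e_coord g x (hg _ (by rwa [cls_bar]))

theorem spOn_fix {t : Finset (Fin m)} {g : Spm} (hg : g ∈ spOn t) {x : Vm}
    (hx : ∀ p, cls p ∈ t → x p = 0) : g.1 *ᵥ x = x := by
  funext p
  by_cases hp : cls p ∈ t
  · rw [coord_eq (g.1 *ᵥ x) p, hx p hp]
    have h0 : B ((g⁻¹ : Spm).1 *ᵥ e (bar p)) x = 0 := by
      rw [Forms.sympForm_eq]
      refine Finset.sum_eq_zero fun i _ => ?_
      by_cases hi : i ∈ t
      · rw [hx (.inl i) hi, hx (.inr i) hi, mul_zero, mul_zero, sub_zero]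
      · have hne : ∀ r : Fin m ⊕ Fin m, cls r = i → r ≠ bar p := fun r hr h => hi (by
          rw [← hr, h, cls_bar]; exact hp)
        rw [spOn_coord (inv_mem hg) _ (p := .inr i) hi, spOn_coord (inv_mem hg) _ (p := .inl i) hi,
          e_ne (hne (.inl i) rfl), e_ne (hne (.inr i) rfl)]
        ring
    rw [← sp_B g, sp_mulVec_inv] at h0
    rw [h0, mul_zero]
  · exact spOn_coord hg x hp

theorem spOn_commute {s t : Finset (Fin m)} (hd : Disjoint s t) {g h : Spm} (hg : g ∈ spOn s) (hh : h ∈ spOn t) :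
    g * h = h * g := by
  refine sp_ext_e fun p => ?_
  rw [sp_mul_mulVec, sp_mul_mulVec]
  by_cases hp : cls p ∈ t
  · have hps : cls p ∉ s := fun h => Finset.disjoint_left.1 hd h hp
    rw [hg p hps]
    refine spOn_fix hg fun r hr => ?_
    rw [spOn_coord hh _ (fun h => Finset.disjoint_left.1 hd hr h), e_ne (fun e' => hps (by rw [← e']; exact hr))]
  · rw [hh p hp]
    symm
    refine spOn_fix hh fun r hr => ?_
    by_cases hs : cls p ∈ s
    · rw [spOn_coord hg _ (fun h => Finset.disjoint_left.1 hd h hr), e_ne (fun e' => hp (by rw [← e']; exact hr))]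
    · rw [hg p hs, e_ne (fun e' => hp (by rw [← e']; exact hr))]

theorem Y_mem_spOn {t : Finset (Fin m)} {p r : Fin m ⊕ Fin m} (h : r ≠ bar p) (hp : cls p ∈ t) (hr : cls r ∈ t) (c : F) :
    (Y p r c : Spm) ∈ spOn t := fun k hk =>
  Y_fix_e h c (fun e' => hk (by rw [e', cls_bar]; exact hp)) (fun e' => hk (by rw [e', cls_bar]; exact hr))

end Cfsg.Agent.Suzuki.SpSt
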