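import Cfsg.Agent.Suzuki.SpGen
import Mathlib

/-!
Symplectic groups of smaller rank on selected classes of indices.
-/

set_option autoImplicit false

namespace Cfsg.Agent.Suzuki.SpSt

open Matrix
open Cfsg.Agent.KnownB.Proj.Symp

universe u

variable {k m : ℕ} {F : Type u} [Field F]

local notation "Spk" => Matrix.symplecticGroup (Fin k) F
local notation "Spm" => Matrix.symplecticGroup (Fin m) F

/-- the projection onto the selected coordinates -/
def projM (e : Fin k → Fin m) : Matrix (Fin k ⊕ Fin k) (Fin m ⊕ Fin m) F :=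
  (1 : Matrix (Fin m ⊕ Fin m) (Fin m ⊕ Fin m) F).submatrix (Sum.map e e) id

theorem projM_mul_transpose {e : Fin k → Fin m} (he : Function.Injective e) :
    ((projM (F := F) e) : Matrix (Fin k ⊕ Fin k) (Fin m ⊕ Fin m) F) * ((projM (F := F) e))ᵀ = 1 := by
  ext i j
  simp only [projM, Matrix.mul_apply, Matrix.transpose_apply, Matrix.submatrix_apply, id_eq, Matrix.one_apply,
    mul_ite, mul_one, mul_zero, Finset.sum_ite_eq, Finset.mem_univ, if_true]
  simp only [(he.sumMap he).eq_iff]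

theorem projM_J {e : Fin k → Fin m} (he : Function.Injective e) :
    ((projM (F := F) e) : Matrix (Fin k ⊕ Fin k) (Fin m ⊕ Fin m) F) * Matrix.J (Fin m) F = Matrix.J (Fin k) F * (projM (F := F) e) := by
  ext i j
  rw [Matrix.mul_apply, Matrix.mul_apply, Fintype.sum_sum_type, Fintype.sum_sum_type]
  rcases i with i | i <;> rcases j with j | j <;>
    simp [projM, Matrix.J, Matrix.one_apply, Finset.sum_ite_eq, eq_comm] <;>
    (rw [Finset.sum_eq_single i] <;> simp +contextual [eq_comm, apply_ite])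

theorem projM_mulVec (e : Fin k → Fin m) (x : Fin m ⊕ Fin m → F) (i : Fin k ⊕ Fin k) :
    (((projM (F := F) e) : Matrix (Fin k ⊕ Fin k) (Fin m ⊕ Fin m) F) *ᵥ x) i = x (Sum.map e e i) := by
  simp [projM, Matrix.mulVec, dotProduct, Matrix.one_apply]

theorem transpose_mulVec_e (e' : Fin k → Fin m) (p : Fin k ⊕ Fin k) :
    (((projM (F := F) e') : Matrix (Fin k ⊕ Fin k) (Fin m ⊕ Fin m) F))ᵀ *ᵥ SpSt.e p = SpSt.e (Sum.map e' e' p) := by
  funext i
  simp [projM, Matrix.mulVec, dotProduct, Matrix.one_apply, SpSt.e, Pi.single_apply, eq_comm]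

/-- the symplectic group of the selected classes -/
def ext (e : Fin k → Fin m) (he : Function.Injective e) : Spk →* Spm where
  toFun g := ⟨1 + ((projM (F := F) e))ᵀ * (g.1 - 1) * (projM (F := F) e), by
    rw [SymplecticGroup.mem_iff]
    have hg := SymplecticGroup.mem_iff.1 g.2
    have hPJ := projM_J (F := F) he
    have hJQ : Matrix.J (Fin m) F * ((projM (F := F) e))ᵀ = ((projM (F := F) e) : Matrix (Fin k ⊕ Fin k) (Fin m ⊕ Fin m) F)ᵀ * Matrix.J (Fin k) F := by
      have := congrArg Matrix.transpose hPJ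
      rw [Matrix.transpose_mul, Matrix.transpose_mul, Matrix.J_transpose, Matrix.J_transpose, Matrix.neg_mul,
        Matrix.mul_neg, neg_inj] at this
      exact this
    set P : Matrix (Fin k ⊕ Fin k) (Fin m ⊕ Fin m) F := (projM (F := F) e)
    set A := g.1 - 1 with hA
    have key : A * Matrix.J (Fin k) F + Matrix.J (Fin k) F * Aᵀ + A * Matrix.J (Fin k) F * Aᵀ = 0 := by
      have e' : (1 + A) * Matrix.J (Fin k) F * (1 + A)ᵀ = Matrix.J (Fin k) F := by rw [hA, add_sub_cancel]; exact hg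
      rw [Matrix.transpose_add, Matrix.transpose_one] at e'
      simp only [Matrix.add_mul, Matrix.one_mul, Matrix.mul_add, Matrix.mul_one] at e'
      rw [← sub_eq_zero] at e'
      rw [← e']; abel
    simp only [Matrix.transpose_add, Matrix.transpose_one, Matrix.transpose_mul, Matrix.transpose_transpose,
      Matrix.add_mul, Matrix.one_mul, Matrix.mul_add, Matrix.mul_one]
    have e1 : Pᵀ * A * P * Matrix.J (Fin m) F = Pᵀ * (A * Matrix.J (Fin k) F) * P := by
      simp only [Matrix.mul_assoc]; rw [hPJ]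
    have e2 : Matrix.J (Fin m) F * (Pᵀ * (Aᵀ * P)) = Pᵀ * (Matrix.J (Fin k) F * Aᵀ) * P := by
      rw [← Matrix.mul_assoc, hJQ]; simp only [Matrix.mul_assoc]
    have e3 : Pᵀ * (A * Matrix.J (Fin k) F) * P * (Pᵀ * (Aᵀ * P)) = Pᵀ * (A * Matrix.J (Fin k) F * Aᵀ) * P := by
      rw [show Pᵀ * (A * Matrix.J (Fin k) F) * P * (Pᵀ * (Aᵀ * P)) =
        Pᵀ * (A * Matrix.J (Fin k) F) * (P * Pᵀ) * (Aᵀ * P) by simp only [Matrix.mul_assoc],
        projM_mul_transpose he, Matrix.mul_one]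
      simp only [Matrix.mul_assoc]
    rw [e1, e3, e2]
    calc Matrix.J (Fin m) F + Pᵀ * (A * Matrix.J (Fin k) F) * P + (Pᵀ * (Matrix.J (Fin k) F * Aᵀ) * P +
          Pᵀ * (A * Matrix.J (Fin k) F * Aᵀ) * P) = Matrix.J (Fin m) F + Pᵀ * (A * Matrix.J (Fin k) F +
          Matrix.J (Fin k) F * Aᵀ + A * Matrix.J (Fin k) F * Aᵀ) * P := by
          simp only [Matrix.mul_add, Matrix.add_mul]; abel
      _ = _ := by rw [key]; simp⟩
  map_one' := Subtype.ext (by simp)
  map_mul' g h := Subtype.ext (by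
    show 1 + ((projM (F := F) e))ᵀ * ((g.1 * h.1) - 1) * (projM (F := F) e) =
      (1 + ((projM (F := F) e))ᵀ * (g.1 - 1) * (projM (F := F) e)) * (1 + ((projM (F := F) e))ᵀ * (h.1 - 1) * (projM (F := F) e))
    set P : Matrix (Fin k ⊕ Fin k) (Fin m ⊕ Fin m) F := (projM (F := F) e)
    rw [show g.1 * h.1 - 1 = (g.1 - 1) + (h.1 - 1) + (g.1 - 1) * (h.1 - 1) by
      simp only [Matrix.sub_mul, Matrix.mul_sub, Matrix.mul_one, Matrix.one_mul]; abel]
    simp only [Matrix.mul_add, Matrix.add_mul, Matrix.one_mul, Matrix.mul_one]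
    rw [show Pᵀ * (g.1 - 1) * P * (Pᵀ * (h.1 - 1) * P) = Pᵀ * (g.1 - 1) * (P * Pᵀ) * ((h.1 - 1) * P) by
      simp only [Matrix.mul_assoc], projM_mul_transpose he, Matrix.mul_one]
    simp only [Matrix.mul_assoc]
    abel)

theorem ext_val (e : Fin k → Fin m) (he : Function.Injective e) (g : Spk) :
    (ext e he g).1 = 1 + ((projM (F := F) e))ᵀ * (g.1 - 1) * (projM (F := F) e) := rfl

theorem ext_injective (e : Fin k → Fin m) (he : Function.Injective e) :
    Function.Injective (ext (F := F) e he) := by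
  intro g h hgh
  have h1 := congrArg (fun x : Spm => (projM (F := F) e) * (x.1 - 1) * ((projM (F := F) e))ᵀ) hgh
  simp only [ext_val, add_sub_cancel_left] at h1
  have hr : ∀ A : Matrix (Fin k ⊕ Fin k) (Fin k ⊕ Fin k) F,
      ((projM (F := F) e) : Matrix (Fin k ⊕ Fin k) (Fin m ⊕ Fin m) F) * (((projM (F := F) e))ᵀ * A * (projM (F := F) e)) * ((projM (F := F) e))ᵀ = A := fun A => by
    rw [show ((projM (F := F) e) : Matrix (Fin k ⊕ Fin k) (Fin m ⊕ Fin m) F) * (((projM (F := F) e))ᵀ * A * (projM (F := F) e)) * ((projM (F := F) e))ᵀ =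
      ((projM (F := F) e) * ((projM (F := F) e))ᵀ) * A * ((projM (F := F) e) * ((projM (F := F) e))ᵀ) by simp only [Matrix.mul_assoc], projM_mul_transpose he,
      Matrix.one_mul, Matrix.mul_one]
  rw [hr, hr] at h1
  exact Subtype.ext (sub_left_inj.1 h1)

theorem sympForm_transpose {e : Fin k → Fin m} (he : Function.Injective e) (x : Fin m ⊕ Fin m → F) (v : Fin k ⊕ Fin k → F) :
    Cfsg.sympForm m F x (((projM (F := F) e))ᵀ *ᵥ v) = Cfsg.sympForm k F ((projM (F := F) e) *ᵥ x) v := by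
  have h : Matrix.J (Fin m) F * ((projM (F := F) e))ᵀ = ((projM (F := F) e) : Matrix (Fin k ⊕ Fin k) (Fin m ⊕ Fin m) F)ᵀ * Matrix.J (Fin k) F := by
    have := congrArg Matrix.transpose (projM_J (F := F) he)
    rw [Matrix.transpose_mul, Matrix.transpose_mul, Matrix.J_transpose, Matrix.J_transpose, Matrix.neg_mul,
      Matrix.mul_neg, neg_inj] at this
    exact this
  rw [Cfsg.sympForm, Cfsg.sympForm, Matrix.mulVec_mulVec, h, ← Matrix.mulVec_mulVec, Matrix.dotProduct_mulVec,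
    Matrix.vecMul_transpose]

theorem ext_mulVec (e : Fin k → Fin m) (he : Function.Injective e) (g : Spk) (x : Fin m ⊕ Fin m → F) :
    (ext e he g).1 *ᵥ x = x + ((projM (F := F) e))ᵀ *ᵥ ((g.1 *ᵥ ((projM (F := F) e) *ᵥ x)) - (projM (F := F) e) *ᵥ x) := by
  rw [ext_val, Matrix.add_mulVec, Matrix.one_mulVec, ← Matrix.mulVec_mulVec, ← Matrix.mulVec_mulVec,
    Matrix.sub_mulVec, Matrix.one_mulVec]

theorem ext_T (e : Fin k → Fin m) (he : Function.Injective e) (v : Fin k ⊕ Fin k → F) (c : F) :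
    ext e he (T v c) = T (((projM (F := F) e))ᵀ *ᵥ v) c := sp_ext fun x => by
  rw [ext_mulVec, T_mulVec, T_mulVec, add_sub_cancel_left, Matrix.mulVec_smul, sympForm_transpose he]

theorem ext_Y (e : Fin k → Fin m) (he : Function.Injective e) (p r : Fin k ⊕ Fin k) (c : F) :
    ext e he (Y p r c) = Y (Sum.map e e p) (Sum.map e e r) c := by
  by_cases h : p = r
  · subst h; rw [Y_long, Y_long, ext_T, transpose_mulVec_e]
  · rw [Y_short h, Y_short (fun h' => h (he.sumMap he h'))]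
    simp only [S, map_mul, ext_T, Matrix.mulVec_add, transpose_mulVec_e]

theorem bar_map (e : Fin k → Fin m) (p : Fin k ⊕ Fin k) : bar (Sum.map e e p) = Sum.map e e (bar p) := by
  rcases p with p | p <;> rfl

theorem cls_map (e : Fin k → Fin m) (p : Fin k ⊕ Fin k) : cls (Sum.map e e p) = e (cls p) := by
  rcases p with p | p <;> rfl

theorem exists_map (e : Fin k → Fin m) {p : Fin m ⊕ Fin m} (h : cls p ∈ Finset.univ.image e) :
    ∃ p', Sum.map e e p' = p := by
  obtain ⟨i, -, hi⟩ := Finset.mem_image.1 h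
  rcases p with p | p
  · exact ⟨.inl i, congrArg Sum.inl hi⟩
  · exact ⟨.inr i, congrArg Sum.inr hi⟩

theorem range_ext (e : Fin k → Fin m) (he : Function.Injective e) :
    (ext (F := F) e he).range = spOn (Finset.univ.image e) := by
  refine le_antisymm ?_ ((spOn_le_Ys _).trans ?_)
  · rw [MonoidHom.range_eq_map, ← Ys_univ, Subgroup.map_le_iff_le_comap, Ys, Subgroup.closure_le]
    rintro _ ⟨p, r, c, -, -, hne, rfl⟩
    show ext e he (Y p r c) ∈ spOn (Finset.univ.image e)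
    rw [ext_Y]
    refine Y_mem_spOn (fun h => hne (he.sumMap he (h.trans (bar_map e p)))) ?_ ?_ c <;>
      rw [cls_map] <;> exact Finset.mem_image_of_mem e (Finset.mem_univ _)
  · rw [Ys, Subgroup.closure_le]
    rintro _ ⟨p, r, c, hp, hr, -, rfl⟩
    obtain ⟨p', rfl⟩ := exists_map e hp
    obtain ⟨r', rfl⟩ := exists_map e hr
    exact ⟨Y p' r' c, ext_Y e he p' r' c⟩

/-- an isometry of a set of classes with prescribed images of an opposite pair -/
theorem exists_pair {t : Finset (Fin m)} {b : Fin m ⊕ Fin m} (hb : cls b ∈ t) {v w : Fin m ⊕ Fin m → F}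
    (hv : Supp t v) (hw : Supp t w) (hvw : Cfsg.sympForm m F v w = sg b) :
    ∃ g ∈ Ys t, g.1 *ᵥ SpSt.e b = v ∧ g.1 *ᵥ SpSt.e (bar b) = w := by
  have hv0 : v ≠ 0 := fun h => by
    rw [h, B_zero_left] at hvw
    exact sg_ne b hvw.symm
  obtain ⟨h, hh, eh⟩ := trans_vec hb hv hv0
  have hs : Supp t ((h⁻¹).1 *ᵥ w) := supp_spOn (inv_mem (Ys_le_spOn _ hh)) hw
  have h1 : ((h⁻¹).1 *ᵥ w) (bar b) = 1 := by
    rw [coord_eq ((h⁻¹).1 *ᵥ w) (bar b), bar_bar, ← sp_B h, eh, sp_mulVec_inv, hvw, sg_mul_self]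
  obtain ⟨n, hn, en⟩ := exists_Ns hb hs h1
  exact ⟨h * n, mul_mem hh (Ns_le_Ys hb hn), by rw [sp_mul_mulVec, Ns_fix hn, eh],
    by rw [sp_mul_mulVec, en, sp_mulVec_inv]⟩

end Cfsg.Agent.Suzuki.SpSt
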