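import Cfsg.Agent.Suzuki.StLiftExponents

/-!
Central extensions of the Steinberg groups of type B2, D4 split.
-/

set_option autoImplicit false

universe u v

namespace Cfsg.Agent.Suzuki.StLift

open Cfsg.Lie

variable {K : Type u} [Field K]

theorem comm_b2_even : commCheck chevB2 (upTo 2) 1 (fun g => g == 1 || g == 2) = true := by decide +kernel
theorem comm_b2_odd : commCheck chevB2 (upTo 2) 2 (fun g => g == 1) = true := by decide +kernel
theorem term_b2 : termCheck chevB2 (upTo 2) = true := by decide +kernel
theorem root_b2 : rootCheck chevB2 (upTo 2) = true := by decide +kernel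
theorem comm_d4 : commCheck chevD4 (upTo 2) 1 (fun _ => false) = true := by decide +kernel
theorem term_d4 : termCheck chevD4 (upTo 1) = true := by decide +kernel
theorem root_d4 : rootCheck chevD4 (upTo 1) = true := by decide +kernel

theorem splits_b2_big (hK : ∃ s : Finset K, 4 < s.card) : Splits.{u, v} (chevB2.SteinbergCover K) := by
  intro E _ π hπ hk
  obtain ⟨C⟩ := Cfsg.Agent.Chev.nonempty_cert.{u} (D := chevB2) (by simp)
  obtain ⟨M, hM⟩ := Cfsg.Agent.Chev.exists_cox (D := chevB2) (by simp)
  have hc := Cfsg.Agent.KnownA.Cover.corner_of_mem (D := chevB2) (by simp)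
  have hperf : commutator (chevB2.SteinbergCover K) = ⊤ := Cfsg.Agent.KnownA.CoverPerfect.cover_perfect (by simp) (fun _ => by
    classical
    obtain ⟨s, hs⟩ := hK
    obtain ⟨x, hx, hx'⟩ := Finset.exists_mem_notMem_of_card_lt_card (s := ({0, 1} : Finset K)) (t := s)
      (lt_of_le_of_lt Finset.card_le_two (by omega))
    exact ⟨x, by simpa using hx'⟩)
  have h3 : ∃ s : Finset K, 2 + 1 < s.card := hK.imp fun s hs => by omega
  by_cases h2 : (2 : K) = 0
  · exact exists_section hk C hc hM (sc := fun g => g == 1 || g == 2) (ok_upTo' h3) (ok_upTo' h3) (ok_upTo' h3)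
      coef_one' (sc_two hK h2) comm_b2_even term_b2 root_b2 hperf hπ
  · exact exists_section hk C hc hM (sc := fun g => g == 1) (ok_upTo' h3) (ok_upTo' h3) (ok_upTo' h3)
      (coef_odd h2) (sc_one hK) comm_b2_odd term_b2 root_b2 hperf hπ

theorem splits_d4_big (hK : ∃ s : Finset K, 3 < s.card) : Splits.{u, v} (chevD4.SteinbergCover K) := by
  intro E _ π hπ hk
  obtain ⟨C⟩ := Cfsg.Agent.Chev.nonempty_cert.{u} (D := chevD4) (by simp)
  obtain ⟨M, hM⟩ := Cfsg.Agent.Chev.exists_cox (D := chevD4) (by simp)
  have hc := Cfsg.Agent.KnownA.Cover.corner_of_mem (D := chevD4) (by simp)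
  have hperf : commutator (chevD4.SteinbergCover K) = ⊤ := Cfsg.Agent.KnownA.CoverPerfect.cover_perfect (by simp) (fun h => absurd h (fun h => by
      have : chevD4.rank = 2 := by
        simp only [List.mem_cons, List.not_mem_nil, or_false] at h
        rcases h with e | e <;> rw [e] <;> rfl
      exact absurd this (by decide +kernel)))
  exact exists_section hk C hc hM (sc := fun _ => false) (ok_upTo' (g := 2) hK)
    (ok_upTo' (g := 1) (hK.imp fun s hs => by omega)) (ok_upTo' (g := 1) (hK.imp fun s hs => by omega))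
    coef_one' (fun g hn => absurd hn Bool.false_ne_true) comm_d4 term_d4 root_d4 hperf hπ

end Cfsg.Agent.Suzuki.StLift
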