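import Cfsg.Agent.Suzuki.StLiftMultiplier

/-!
Field facts for the splitting criterion.
-/

set_option autoImplicit false

universe u

namespace Cfsg.Agent.Suzuki.StLift

variable {K : Type u} [Field K] [Fintype K]

theorem exists_pow_ne {n : ℕ} (hn : ¬ Fintype.card K - 1 ∣ n) : ∃ a : K, a ≠ 0 ∧ a ^ n ≠ 1 := by
  obtain ⟨g, hg⟩ := IsCyclic.exists_ofOrder_eq_natCard (α := Kˣ)
  refine ⟨g, g.ne_zero, fun e => hn ?_⟩
  have : g ^ n = 1 := Units.ext (by rw [Units.val_pow_eq_pow_val, e, Units.val_one])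
  have h := orderOf_dvd_of_pow_eq_one this
  rwa [hg, Nat.card_units, Nat.card_eq_fintype_card] at h

theorem ok_upTo {g : ℕ} (h : g + 1 < Fintype.card K) : ∀ n, upTo g n = true → ∃ a : K, a ≠ 0 ∧ a ^ n ≠ 1 := by
  intro n hn
  simp only [upTo, Bool.and_eq_true, decide_eq_true_eq] at hn
  exact exists_pow_ne fun hd => by
    have := Nat.le_of_dvd (by omega) hd
    omega

theorem ok_odd (h : 3 ≤ Fintype.card K) (hodd : Fintype.card K = 3) :
    ∀ n, (n % 2 == 1) = true → ∃ a : K, a ≠ 0 ∧ a ^ n ≠ 1 := by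
  intro n hn
  rw [beq_iff_eq] at hn
  exact exists_pow_ne fun hd => by rw [hodd] at hd; omega

theorem coef_one : ∀ x : ℤ, 1 ≤ x.natAbs → x.natAbs ≤ 1 → (x : K) ≠ 0 := fun x h1 h2 => by
  rcases Int.natAbs_eq x with e | e <;> rw [e, show x.natAbs = 1 by omega] <;> simp

theorem coef_two (h : Fintype.card K = 3) : ∀ x : ℤ, 1 ≤ x.natAbs → x.natAbs ≤ 2 → (x : K) ≠ 0 := by
  have : CharP K 3 := by
    have hc := FiniteField.cast_card_eq_zero K
    rw [h] at hc
    exact CharP.charP_iff_prime_eq_zero Nat.prime_three |>.2 hc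
  intro x h1 h2 e
  rw [CharP.intCast_eq_zero_iff K 3] at e
  omega

theorem two_elements (h : Fintype.card K = 2) : ∀ a : K, a = 0 ∨ a = 1 := by
  classical
  intro a
  by_contra hc
  push Not at hc
  have h3 : ({0, 1, a} : Finset K).card = 3 := by
    rw [Finset.card_insert_of_notMem, Finset.card_insert_of_notMem, Finset.card_singleton]
    · simp [hc.2.symm]
    · simp [hc.1.symm]
  have := Finset.card_le_univ ({0, 1, a} : Finset K)
  omega

section Big

variable {F : Type u} [Field F]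

theorem ok_upTo' {g : ℕ} (h : ∃ s : Finset F, g + 1 < s.card) :
    ∀ n, upTo g n = true → ∃ a : F, a ≠ 0 ∧ a ^ n ≠ 1 := by
  classical
  intro n hn
  simp only [upTo, Bool.and_eq_true, decide_eq_true_eq] at hn
  obtain ⟨s, hs⟩ := h
  by_contra hc
  push Not at hc
  have hsub : s.erase 0 ⊆ (Polynomial.X ^ n - Polynomial.C (1 : F)).roots.toFinset := by
    intro a ha
    simp only [Finset.mem_erase] at ha
    rw [Multiset.mem_toFinset, Polynomial.mem_roots (Polynomial.X_pow_sub_C_ne_zero hn.1 _), Polynomial.IsRoot,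
      Polynomial.eval_sub, Polynomial.eval_pow, Polynomial.eval_X, Polynomial.eval_C, hc a ha.1, sub_self]
  have h1 := Finset.card_le_card hsub
  have h2 := (Multiset.toFinset_card_le (Polynomial.X ^ n - Polynomial.C (1 : F)).roots).trans (Polynomial.card_roots' _)
  rw [Polynomial.natDegree_X_pow_sub_C] at h2
  have h3 := Finset.pred_card_le_card_erase (a := (0 : F)) (s := s)
  omega

/-- scalars for weights of greatest common divisor one -/
theorem sc_one (h : ∃ s : Finset F, 4 < s.card) : ∀ g : ℕ, (g == 1) = true →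
    ∃ a b : F, a ≠ 0 ∧ b ≠ 0 ∧ a ^ g + 1 = b ^ g ∧ a ^ g * a ^ g + a ^ g + 1 ≠ 0 := by
  intro g hg
  rw [beq_iff_eq] at hg
  subst hg
  obtain ⟨x, h0, h1, h2⟩ := exists_scalar h
  exact ⟨x, x + 1, h0, h1, by simp, by simpa using h2⟩

/-- scalars in characteristic two -/
theorem sc_two (h : ∃ s : Finset F, 4 < s.card) (h2 : (2 : F) = 0) : ∀ g : ℕ, (g == 1 || g == 2) = true →
    ∃ a b : F, a ≠ 0 ∧ b ≠ 0 ∧ a ^ g + 1 = b ^ g ∧ a ^ g * a ^ g + a ^ g + 1 ≠ 0 := by
  intro g hg
  obtain ⟨x, h0, h1, hx⟩ := exists_scalar h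
  refine ⟨x, x + 1, h0, h1, ?_, ?_⟩
  · simp only [Bool.or_eq_true, beq_iff_eq] at hg
    rcases hg with rfl | rfl
    · simp
    · linear_combination -x * h2
  · simp only [Bool.or_eq_true, beq_iff_eq] at hg
    rcases hg with rfl | rfl
    · simpa using hx
    · intro e
      have : (x * x + x + 1) ^ 2 = 0 := by linear_combination e + (x * x * x + x * x + x) * h2
      exact hx ((pow_eq_zero_iff two_ne_zero).1 this)

theorem coef_odd (h2 : (2 : F) ≠ 0) : ∀ x : ℤ, 1 ≤ x.natAbs → x.natAbs ≤ 2 → (x : F) ≠ 0 := fun x h1 h2' => by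
  rcases (show x.natAbs = 1 ∨ x.natAbs = 2 by omega) with hn | hn <;>
    rcases Int.natAbs_eq x with e | e <;> rw [e, hn] <;> simp [h2]

theorem coef_one' : ∀ x : ℤ, 1 ≤ x.natAbs → x.natAbs ≤ 1 → (x : F) ≠ 0 := fun x h1 h2 => by
  rcases Int.natAbs_eq x with e | e <;> rw [e, show x.natAbs = 1 by omega] <;> simp

theorem big_of_card [Fintype F] {n : ℕ} (h : n < Fintype.card F) : ∃ s : Finset F, n < s.card :=
  ⟨Finset.univ, by rwa [Finset.card_univ]⟩

end Big

end Cfsg.Agent.Suzuki.StLift
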