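import Cfsg.Agent.Suzuki.StLiftTwo
import Cfsg.Agent.KnownA.CoverPerfect
import Cfsg.Agent.FGS2.SchurTools
import Cfsg.Agent.S1077
import Cfsg.Agent.S2397

/-!
Schur multipliers from groups all of whose central extensions split.
-/

set_option autoImplicit false

universe u v

namespace Cfsg.Agent.Suzuki.StLift

open Cfsg.Lie
open scoped commutatorElement

/-- every central extension of `S` splits -/
def Splits (S : Type u) [Group S] : Prop :=
  ∀ (E : Type v) [Group E] (π : E →* S), Function.Surjective π → π.ker ≤ Subgroup.center E →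
    ∃ σ : S →* E, ∀ x, π (σ x) = x

theorem Splits.of_mulEquiv {S T : Type u} [Group S] [Group T] (e : S ≃* T) (h : Splits.{u, v} S) : Splits.{u, v} T := by
  intro E _ π hπ hk
  obtain ⟨σ, hσ⟩ := h E (e.symm.toMonoidHom.comp π) (e.symm.surjective.comp hπ) (fun x hx => hk (by
    rw [MonoidHom.mem_ker] at hx ⊢
    exact e.symm.injective (hx.trans (map_one _).symm)))
  exact ⟨σ.comp e.symm.toMonoidHom, fun x => e.symm.injective (hσ (e.symm x))⟩

theorem commutator_central {G : Type*} [Group G] {a b z w : G} (hz : z ∈ Subgroup.center G) (hw : w ∈ Subgroup.center G) :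
    ⁅a, b⁆ = ⁅a * z, b * w⁆ := by
  have h1 : ∀ x, z * x * z⁻¹ = x := fun x => by rw [← Subgroup.mem_center_iff.1 hz x, mul_inv_cancel_right]
  have h2 : ∀ x, w * x * w⁻¹ = x := fun x => by rw [← Subgroup.mem_center_iff.1 hw x, mul_inv_cancel_right]
  calc ⁅a, b⁆ = a * b * a⁻¹ * b⁻¹ := rfl
    _ = a * (b * (w * (a⁻¹) * w⁻¹)) * b⁻¹ := by rw [h2]; group
    _ = a * (z * (b * w * (a⁻¹)) * z⁻¹) * (w⁻¹ * b⁻¹) := by rw [h1]; group
    _ = a * z * (b * w) * (a⁻¹ * z⁻¹) * (b * w)⁻¹ := by group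
    _ = a * z * (b * w) * (a * z)⁻¹ * (b * w)⁻¹ := by
      rw [show a⁻¹ * z⁻¹ = (a * z)⁻¹ by rw [mul_inv_rev, Subgroup.mem_center_iff.1 (inv_mem hz) a⁻¹]]
    _ = ⁅a * z, b * w⁆ := rfl

/-- the multiplier of the quotient by a central subgroup -/
theorem hasCyclic_of_splits {S : Type u} [Group S] [Finite S] (hS : Splits.{u, u} S) (hperf : commutator S = ⊤)
    {Q : Type u} [Group Q] {τ : S →* Q} (hτ : Function.Surjective τ) (hc : τ.ker ≤ Subgroup.center S)
    {n : ℕ} (e : Multiplicative (ZMod n) ≃* τ.ker) : Cfsg.HasCyclicSchurMultiplier Q n := by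
  refine ⟨⟨S, inferInstance, inferInstance, τ, ⟨hτ, hc, by rw [hperf]; exact le_top⟩, ⟨e.symm⟩⟩, ?_⟩
  intro Γ _ _ σ hσ
  let P : Subgroup (S × Γ) :=
    { carrier := {p | τ p.1 = σ p.2}
      one_mem' := by simp
      mul_mem' := fun {a b} ha hb => by
        show τ (a.1 * b.1) = σ (a.2 * b.2)
        rw [map_mul, map_mul, show τ a.1 = σ a.2 from ha, show τ b.1 = σ b.2 from hb]
      inv_mem' := fun {a} ha => by
        show τ a.1⁻¹ = σ a.2⁻¹
        rw [map_inv, map_inv, show τ a.1 = σ a.2 from ha] }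
  let π : P →* S := (MonoidHom.fst S Γ).comp P.subtype
  have hπ : Function.Surjective π := fun x => by
    obtain ⟨y, hy⟩ := hσ.1 (τ x)
    exact ⟨⟨(x, y), hy.symm⟩, rfl⟩
  have hk : π.ker ≤ Subgroup.center P := by
    rintro ⟨⟨x, y⟩, hxy⟩ h
    have hx : x = 1 := h
    subst hx
    have hy : σ y = 1 := (map_one τ).symm.trans hxy |>.symm
    refine Subgroup.mem_center_iff.2 fun w => Subtype.ext (Prod.ext ?_ ?_)
    · simp
    · exact Subgroup.mem_center_iff.1 (hσ.2.1 (MonoidHom.mem_ker.2 hy)) _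
  obtain ⟨s, hs⟩ := hS P π hπ hk
  let ρ : S →* Γ := (MonoidHom.snd S Γ).comp (P.subtype.comp s)
  have hρ : ∀ x, σ (ρ x) = τ x := fun x => by
    have := (s x).2
    change τ (s x).1.1 = σ (s x).1.2 at this
    rw [show (s x).1.1 = x from hs x] at this
    exact this.symm
  have hsurj : Function.Surjective ρ := by
    rw [← MonoidHom.range_eq_top]
    have hdec : ∀ g : Γ, ∃ x, ∃ z ∈ Subgroup.center Γ, g = ρ x * z := fun g => by
      obtain ⟨x, hx⟩ := hτ (σ g)
      exact ⟨x, (ρ x)⁻¹ * g, hσ.2.1 (by rw [MonoidHom.mem_ker, map_mul, map_inv, hρ, hx, inv_mul_cancel]), by group⟩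
    have hcomm : commutator Γ ≤ ρ.range := by
      rw [commutator_def, Subgroup.commutator_le]
      intro a _ b _
      obtain ⟨x, z, hz, rfl⟩ := hdec a
      obtain ⟨y, w, hw, rfl⟩ := hdec b
      refine ⟨⁅x, y⁆, ?_⟩
      rw [map_commutatorElement]
      exact commutator_central hz hw
    refine eq_top_iff.2 fun g _ => ?_
    obtain ⟨x, hx⟩ := hτ (σ g)
    have hz : (ρ x)⁻¹ * g ∈ commutator Γ := hσ.2.2 (by rw [MonoidHom.mem_ker, map_mul, map_inv, hρ, hx, inv_mul_cancel])
    rw [show g = ρ x * ((ρ x)⁻¹ * g) by group]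
    exact mul_mem ⟨x, rfl⟩ (hcomm hz)
  let r : τ.ker →* σ.ker := (ρ.comp τ.ker.subtype).codRestrict _ fun x => by
    rw [MonoidHom.mem_ker, MonoidHom.comp_apply, Subgroup.coe_subtype, hρ]
    exact x.2
  refine ⟨r.comp e.toMonoidHom, fun z => ?_⟩
  obtain ⟨x, hx⟩ := hsurj z.1
  refine ⟨e.symm ⟨x, MonoidHom.mem_ker.2 (by rw [← hρ, hx]; exact z.2)⟩, Subtype.ext ?_⟩
  simp [r, hx]

/-- cyclic groups of small order -/
theorem exists_equiv_zmod {G : Type*} [Group G] {n : ℕ} (hn : n = 1 ∨ n.Prime) (hG : Nat.card G = n) :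
    Nonempty (Multiplicative (ZMod n) ≃* G) := by
  have : IsCyclic G := by
    rcases hn with rfl | hp
    · have : Subsingleton G := (Nat.card_eq_one_iff_unique.1 hG).1
      exact isCyclic_of_subsingleton
    · have := Fact.mk hp
      exact isCyclic_of_prime_card hG
  exact ⟨mulEquivOfCyclicCardEq (by rw [hG, Nat.card_congr Multiplicative.toAdd, Nat.card_zmod])⟩

/-- the multiplier of an adjoint group -/
theorem hasCyclic_group {K : Type u} [Field K] [Fintype K] {D : ChevalleyDatum}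
    (hD : D ∈ [chevG2, chevB2, chevD4, chevF4, chevE6, chevE7, chevE8])
    (hK : D ∈ [chevB2, chevG2] → ∃ x : K, x ≠ 0 ∧ x ≠ 1)
    (hs : Splits.{u, u} (D.SteinbergCover K)) {n : ℕ} (hn : n = 1 ∨ n.Prime)
    (hcard : Nat.card (Subgroup.center (D.SteinbergGroup K)) = n) :
    Cfsg.HasCyclicSchurMultiplier ↥(D.group K) n := by
  obtain ⟨e, -⟩ := Cfsg.Agent.S2397.result (K := K) D hD hK
  obtain ⟨θ, hθ, hker, -⟩ := Cfsg.Agent.S1077.result (K := K) D hD
  have hperf : commutator (D.SteinbergGroup K) = ⊤ := by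
    have := congrArg (Subgroup.map e.toMonoidHom) (Cfsg.Agent.KnownA.CoverPerfect.cover_perfect hD hK)
    rw [commutator_def, Subgroup.map_commutator, Subgroup.map_top_of_surjective _ e.surjective] at this
    rw [commutator_def]
    exact this
  have : Finite (θ.ker : Subgroup (D.SteinbergGroup K)) := by
    rw [hker]
    refine Nat.finite_of_card_ne_zero ?_
    rw [hcard]
    rcases hn with rfl | hp
    · exact one_ne_zero
    · exact hp.ne_zero
  have : Finite ↥(D.group K) := inferInstance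
  have : Finite (D.SteinbergGroup K ⧸ θ.ker) := Finite.of_equiv _ (QuotientGroup.quotientKerEquivOfSurjective θ hθ).symm.toEquiv
  have : Finite (D.SteinbergGroup K) := Finite.of_equiv _ (Subgroup.groupEquivQuotientProdSubgroup (s := θ.ker)).symm
  obtain ⟨ez⟩ := exists_equiv_zmod hn (show Nat.card θ.ker = n by rw [hker]; exact hcard)
  exact hasCyclic_of_splits (hs.of_mulEquiv e) hperf hθ (by rw [hker]) ez

end Cfsg.Agent.Suzuki.StLift
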