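import Cfsg.Agent.Suzuki.StLiftSection
import Cfsg.Agent.Suzuki.StLiftMultiplier
import Cfsg.Agent.Suzuki.StLiftExponents

/-!
Central extensions of Steinberg's group of type B2 over the field with four elements split.
-/

set_option autoImplicit false

universe u v

namespace Cfsg.Agent.Suzuki.StLift

open Cfsg.Lie Cfsg.Agent.Chev Cfsg.Agent.KnownA.Cover
open scoped commutatorElement

/-- commuting pairs apart from equal pairs -/
def commCheckFour : Bool :=
  (List.range 2).all fun i => (List.range 8).all fun s =>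
    let p := chevB2.simple i
    s == chevB2.neg p || !(tIds chevB2 p s).isEmpty || s == p || minorOK chevB2 (fun m => m % 3 != 0) p s

theorem comm_b2_four : commCheckFour = true := by decide +kernel
theorem term_b2_four : termCheck chevB2 (fun m => m % 3 != 0) = true := by decide +kernel
theorem root_b2_four : rootCheck chevB2 (fun m => m % 3 != 0) = true := by decide +kernel
theorem minor_four : (minorOK chevB2 (fun m => m % 3 != 0) 5 3 && minorOK chevB2 (fun m => m % 3 != 0) 5 6 &&
    minorOK chevB2 (fun m => m % 3 != 0) 5 7 &&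
    minorOK chevB2 (fun m => m % 3 != 0) 4 0 && minorOK chevB2 (fun m => m % 3 != 0) 4 6 &&
    minorOK chevB2 (fun m => m % 3 != 0) 4 2) = true := by decide +kernel
theorem simple_four : chevB2.simple 0 = 5 ∧ chevB2.simple 1 = 4 := by decide +kernel

variable {K : Type u} [Field K]

theorem ok_four [Fintype K] (h : Fintype.card K = 4) (n : ℕ) (hn : (n % 3 != 0) = true) : ∃ a : K, a ≠ 0 ∧ a ^ n ≠ 1 :=
  exists_pow_ne (by rw [h]; simp only [bne_iff_ne, ne_eq] at hn; omega)

section Ext

variable {E : Type v} [Group E] {π : E →* chevB2.SteinbergCover K} (hπ : Function.Surjective π)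
  (hk : π.ker ≤ Subgroup.center E)

include hk

theorem lc_dec {s a b h1 h2 : chevB2.SteinbergCover K} (ea : lc hπ s a = 1) (eb : lc hπ s b = 1)
    (e1 : lc hπ s h1 = 1) (e2 : lc hπ s h2 = 1) : lc hπ s (h1 * ⁅a, b⁆ * h2) = 1 := by
  have key : ∀ g, lc hπ s g = 1 → Commute (lift hπ s) (lift hπ g) := fun g hg =>
    lift_commute hπ hk (by rw [map_lift, map_lift]; exact hg)
  have hcomm : Commute (lift hπ s) (lift hπ h1 * ⁅lift hπ a, lift hπ b⁆ * lift hπ h2) :=
    ((key _ e1).mul_right (commute_commutator (key _ ea) (key _ eb))).mul_right (key _ e2)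
  have e := lc_map hπ hk (lift hπ s) (lift hπ h1 * ⁅lift hπ a, lift hπ b⁆ * lift hπ h2)
  rw [map_mul, map_mul, map_commutatorElement, map_lift, map_lift, map_lift, map_lift, map_lift] at e
  rw [← e]
  exact commutatorElement_eq_one_iff_mul_comm.2 hcomm.eq

theorem zero_of_comm_minor (C : Cert.{u} chevB2) (hc : cornerCheck chevB2 = true) {ok : ℕ → Bool}
    (hok : ∀ n, ok n = true → ∃ a : K, a ≠ 0 ∧ a ^ n ≠ 1) {r s : ℕ}
    (hr : r < chevB2.nroots) (hs : s < chevB2.nroots)
    (hcm : ∀ t v : K, chevB2.scGen K r t * chevB2.scGen K s v = chevB2.scGen K s v * chevB2.scGen K r t)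
    (hm : minorOK chevB2 ok r s = true) : Zero hπ r s := by
  obtain ⟨γ, -, b, hb, e1, e2⟩ := exists_weight C hc hok hr hs hm
  obtain ⟨g, rfl⟩ := hπ γ
  refine biadd_zero_of_weight _ (fun a c c' => ?_) (fun a c c' => ?_) hb (fun a c => ?_)
  · show lc hπ _ _ = _
    rw [← y_add, lc_mul_right hπ hk, lc_central hπ hk (hcm a c')]
  · exact (mul_inv_eq_iff_eq_mul.1 (lc_central hπ hk (hcm a c) _)).symm
  · show lc hπ (chevB2.scGen K r a) (chevB2.scGen K s (b * c)) = lc hπ (chevB2.scGen K r a) (chevB2.scGen K s c)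
    rw [← lc_central hπ hk (hcm a c) g, lc_conj hπ hk, e1, e2]

end Ext

theorem splits_b2_four [Fintype K] (h : Fintype.card K = 4) : Splits.{u, v} (chevB2.SteinbergCover K) := by
  intro E _ π hπ hk
  classical
  obtain ⟨C⟩ := Cfsg.Agent.Chev.nonempty_cert.{u} (D := chevB2) (by simp)
  obtain ⟨M, hM⟩ := exists_cox (D := chevB2) (by simp)
  have hc := corner_of_mem (D := chevB2) (by simp)
  have hperf : commutator (chevB2.SteinbergCover K) = ⊤ := Cfsg.Agent.KnownA.CoverPerfect.cover_perfect (by simp)
    (fun _ => by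
      obtain ⟨a, ha, ha'⟩ := ok_four (K := K) h 1 (by decide)
      exact ⟨a, ha, by simpa using ha'⟩)
  have h2 : (2 : K) = 0 := by
    have hc := FiniteField.cast_card_eq_zero K
    rw [h] at hc
    have e : (2 : K) * 2 = 0 := by linear_combination hc
    exact mul_self_eq_zero.1 e
  have hn : chevB2.nroots = 8 := by decide +kernel
  have hl : chevB2.rank = 2 := by decide +kernel
  have cm : ∀ r < 8, ∀ s < 8, s ≠ r → s ≠ chevB2.neg r → (∀ c ∈ chevB2.commTerms r s, c.2.1 % 2 = 0) →
      ∀ t v : K, chevB2.scGen K r t * chevB2.scGen K s v = chevB2.scGen K s v * chevB2.scGen K r t := by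
    intro r hr s hs h1 h1' hev t v
    rw [y_comm (by omega) (by omega) h1 h1']
    have : wy chevB2 (chevB2.commWord K r s t v) = 1 := by
      refine List.prod_eq_one fun x hx => ?_
      obtain ⟨w, hw, rfl⟩ := List.mem_map.1 hx
      obtain ⟨c, hc', rfl⟩ := List.mem_map.1 hw
      obtain ⟨k, hk'⟩ := Int.dvd_of_emod_eq_zero (hev c hc')
      rw [show ((c.2.1 : ℤ) : K) = 0 by rw [hk']; push_cast; rw [h2, zero_mul], zero_mul, zero_mul, y_zero]
    rw [this, mul_one]
  have hzm : ∀ r < 8, ∀ s < 8, s ≠ r → s ≠ chevB2.neg r → (∀ c ∈ chevB2.commTerms r s, c.2.1 % 2 = 0) →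
      minorOK chevB2 (fun m => m % 3 != 0) r s = true → Zero hπ r s := fun r hr s hs h1 h1' hev hm =>
    zero_of_comm_minor hπ hk C hc (ok_four h) (by omega) (by omega) (cm r hr s hs h1 h1' hev) hm
  have hm := minor_four
  simp only [Bool.and_eq_true] at hm
  obtain ⟨⟨⟨⟨⟨m53, m56⟩, m57⟩, m40⟩, m46⟩, m42⟩ := hm
  have z53 := hzm 5 (by decide) 3 (by decide) (by decide) (by decide +kernel) (by decide +kernel) m53
  have z56 := hzm 5 (by decide) 6 (by decide) (by decide) (by decide +kernel) (by decide +kernel) m56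
  have z57 := hzm 5 (by decide) 7 (by decide) (by decide) (by decide +kernel) (by decide +kernel) m57
  have z40 := hzm 4 (by decide) 0 (by decide) (by decide) (by decide +kernel) (by decide +kernel) m40
  have z46 := hzm 4 (by decide) 6 (by decide) (by decide) (by decide +kernel) (by decide +kernel) m46
  have z42 := hzm 4 (by decide) 2 (by decide) (by decide) (by decide +kernel) (by decide +kernel) m42
  have self5 : Zero hπ 5 5 := by
    intro t v
    have e := y_comm (D := chevB2) (K := K) (r := 3) (s := 6) (by omega) (by omega) (by decide) (by decide +kernel) (-v) 1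
    simp only [ChevalleyDatum.commWord, show chevB2.commTerms 3 6 = [(5, 1, 1, 1), (7, 1, 1, 2)] by decide +kernel,
      List.map_cons, List.map_nil, wy, List.prod_cons, List.prod_nil, mul_one, neg_neg, pow_one, one_pow, Int.cast_one,
      one_mul] at e
    rw [show chevB2.scGen K 5 v = 1 * ⁅chevB2.scGen K 6 (-1), chevB2.scGen K 3 v⁆ * chevB2.scGen K 7 (-v) by
      rw [one_mul, commutatorElement_def, y_inv, y_inv, neg_neg, mul_assoc (chevB2.scGen K 6 (-1) * chevB2.scGen K 3 v), e,
        show ∀ a b c d e f : chevB2.SteinbergCover K, a * b * (c * d * (e * f)) = a * (b * c) * d * e * f by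
          intros; simp only [mul_assoc],
        y_add, add_neg_cancel, y_zero, mul_one, y_add, neg_add_cancel, y_zero, one_mul, mul_assoc, y_add,
        add_neg_cancel, y_zero, mul_one]]
    exact lc_dec hπ hk (z56 _ _) (z53 _ _) (by rw [lc_swap hπ, lc_one_left hπ hk, inv_one]) (z57 _ _)
  have self4 : Zero hπ 4 4 := by
    intro t v
    have e := y_comm (D := chevB2) (K := K) (r := 0) (s := 6) (by omega) (by omega) (by decide) (by decide +kernel) (-v) 1
    simp only [ChevalleyDatum.commWord, show chevB2.commTerms 0 6 = [(2, -1, 1, 1), (4, 1, 1, 2)] by decide +kernel,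
      List.map_cons, List.map_nil, wy, List.prod_cons, List.prod_nil, mul_one, neg_neg, pow_one, one_pow, Int.cast_one,
      Int.cast_neg, neg_mul, one_mul] at e
    rw [show chevB2.scGen K 4 v = chevB2.scGen K 2 v * ⁅chevB2.scGen K 6 (-1), chevB2.scGen K 0 v⁆ * 1 by
      rw [mul_one, commutatorElement_def, y_inv, y_inv, neg_neg, mul_assoc (chevB2.scGen K 6 (-1) * chevB2.scGen K 0 v), e,
        show ∀ a b c d e f : chevB2.SteinbergCover K, a * b * (c * d * (e * f)) = a * (b * c) * d * e * f by
          intros; simp only [mul_assoc],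
        y_add, add_neg_cancel, y_zero, mul_one, y_add, neg_add_cancel, y_zero, one_mul, ← mul_assoc, y_add,
        add_neg_cancel, y_zero, one_mul]]
    exact lc_dec hπ hk (z46 _ _) (z40 _ _) (z42 _ _) (by rw [lc_swap hπ, lc_one_left hπ hk, inv_one])
  have hz : ∀ r < chevB2.nroots, ∀ s < chevB2.nroots, s ≠ chevB2.neg r → tIds chevB2 r s = [] → Zero hπ r s := by
    refine zero_of_base hπ hk C hc fun i hi s hs hne hnil => ?_
    have hc' := comm_b2_four
    simp only [commCheckFour, List.all_eq_true, List.mem_range] at hc'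
    have hb := hc' i (by omega) s (by omega)
    simp only [Bool.or_eq_true, beq_iff_eq, hnil, List.isEmpty_nil, Bool.not_true, Bool.false_eq_true, or_false, hne, false_or] at hb
    rcases hb with rfl | hb
    · rcases (show i = 0 ∨ i = 1 by omega) with rfl | rfl
      · rw [simple_four.1]; exact self5
      · rw [simple_four.2]; exact self4
    · exact zero_of_minor hπ hk C hc (ok_four h) (C.simple_lt i hi) hs hne hnil hb
  obtain ⟨X, hmap, hadd, htor, hwe⟩ := exists_roots hπ hk C hc hM hperf (ok_four h) root_b2_four hz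
  exact exists_section_of_rel C hmap hadd fun r hr s hs _ hneg =>
    rel_all hπ hk C hc hM (ok_four h) term_b2_four hz hmap hadd htor hwe _ r hr s hs hneg rfl

end Cfsg.Agent.Suzuki.StLift
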