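import Cfsg.Agent.Suzuki.StLiftThree
import Cfsg.Agent.Suzuki.StLiftMultiplier
import Cfsg.Agent.Suzuki.StLiftExponents
import Cfsg.Agent.Chev.VerifyD4

/-!
Central extensions of Steinberg's group of type D4 over the field with three elements split.
-/

set_option autoImplicit false

universe u v

namespace Cfsg.Agent.Suzuki.StLift

open Cfsg.Lie Cfsg.Agent.Chev

/-- Weyl words for the orthogonal pairs of D4 -/
def wordsD4 : List (List ℕ) :=
  [[3, 2], [3, 0], [2, 0], [1, 3, 0, 1], [1, 2, 0, 1], [1, 3, 2, 1], [0, 1, 3, 2, 1, 0], [0, 1, 2, 0, 1, 0],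
    [0, 1, 3, 0, 1, 0], [2, 1, 3, 0, 1, 2], [2, 1, 3, 1, 2, 1], [3, 1, 2, 0, 1, 3]]

theorem comm_d4_three : commCheckThree chevD4 (fun m => m % 2 == 1) tabD4.etaI wordsD4 = true := by decide +kernel
theorem term_d4_three : termCheck chevD4 (fun m => m % 2 == 1) = true := by decide +kernel
theorem root_d4_three : rootCheck chevD4 (fun m => m % 2 == 1) = true := by decide +kernel

variable {K : Type u} [Field K]

theorem ok_three (h : Three K) (n : ℕ) (hn : (n % 2 == 1) = true) : ∃ a : K, a ≠ 0 ∧ a ^ n ≠ 1 :=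
  ⟨-1, neg_ne_zero.2 one_ne_zero, by
    rw [Odd.neg_one_pow (Nat.odd_iff.2 (by simpa using hn))]
    exact fun e => h.2.2 (by linear_combination -e)⟩

theorem splits_d4_three (h : Three K) : Splits.{u, v} (chevD4.SteinbergCover K) := by
  intro E _ π hπ hk
  let C : Cert.{u} chevD4 := certD4
  obtain ⟨M, hM⟩ := exists_cox (D := chevD4) (by simp)
  have hc := Cfsg.Agent.KnownA.Cover.corner_of_mem (D := chevD4) (by simp)
  have hperf : commutator (chevD4.SteinbergCover K) = ⊤ := Cfsg.Agent.KnownA.CoverPerfect.cover_perfect (by simp)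
    (fun _ => ⟨-1, neg_ne_zero.2 one_ne_zero, fun e => h.2.2 (by linear_combination -e)⟩)
  have hz := zero_all_three hπ hk C hc h (ok_three h) (eta := tabD4.etaI) rfl comm_d4_three
  obtain ⟨X, hmap, hadd, htor, hwe⟩ := exists_roots hπ hk C hc hM hperf (ok_three h) root_d4_three hz
  exact exists_section_of_rel C hmap hadd fun r hr s hs _ hneg =>
    rel_all hπ hk C hc hM (ok_three h) term_d4_three hz hmap hadd htor hwe _ r hr s hs hneg rfl

end Cfsg.Agent.Suzuki.StLift
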