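import Cfsg.Agent.Suzuki.StLiftRootsOn
import Cfsg.Agent.Suzuki.StLiftMultiplier
import Cfsg.Agent.Suzuki.StLiftCasesD4Three
import Cfsg.Agent.Chev.VerifyB2

/-!
Central extensions of Steinberg's group of type B2 over the field with three elements split: the root elements
of short roots are normalised by the torus, those of long roots are commutators of short ones.
-/

set_option autoImplicit false

universe u v

namespace Cfsg.Agent.Suzuki.StLift

open Cfsg.Lie Cfsg.Agent.Chev Cfsg.Agent.KnownA.Cover
open scoped commutatorElement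

/-- short roots of B2 -/
def shortB (r : ℕ) : Bool := (List.range 2).any fun i => (chevB2.cartan i r).natAbs % 2 == 1

/-- the chosen decomposition of a long root -/
def decB (c : ℕ) : Option (ℕ × ℕ × ℤ) :=
  ((List.range 8).flatMap fun a => (List.range 8).filterMap fun b =>
    match chevB2.commTerms a b with
    | [(c', x, 1, 1)] => if c' == c && shortB a && shortB b then some (a, b, x) else none
    | _ => none).head?

/-- the check on the decompositions -/
def decCheckB : Bool :=
  (List.range 8).all fun c =>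
    (shortB c || (match decB c with
      | some (a, b, x) => decide (a < 8) && decide (b < 8) && shortB a && shortB b && b != a && b != chevB2.neg a &&
          c != chevB2.neg a && c != chevB2.neg b && (tIds chevB2 a c).isEmpty && (tIds chevB2 b c).isEmpty &&
          (chevB2.commTerms a b == [(c, x, 1, 1)]) && decide (1 ≤ x.natAbs) && decide (x.natAbs ≤ 2)
      | none => false)) &&
    (List.range 8).all fun d => !(shortB c && shortB d) || d == c || d == chevB2.neg c || (tIds chevB2 c d).isEmpty ||
      (match tIds chevB2 c d with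
        | [e] => decide (e < 8) && !shortB e && (match decB e with
            | some (a, b, _) => (c == a && d == b) || (c == b && d == a)
            | none => false)
        | _ => false)

/-- reflections preserve the lengths -/
def lenCheckB : Bool := (List.range 2).all fun i => (List.range 8).all fun r => shortB (chevB2.reflectRoot i r) == shortB r

/-- pairs with terms over the field with three elements -/
def termCheckB : Bool :=
  (List.range 2).all fun i => (List.range 8).all fun s =>
    let p := chevB2.simple i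
    s == chevB2.neg p || (tIds chevB2 p s).isEmpty || (shortB p && shortB s && s != p) ||
      (pairInd chevB2 p s && (List.range 2).any fun k => (chevB2.cartan k p + chevB2.cartan k s).natAbs % 2 == 1)

theorem comm_b2_three : commCheckThree chevB2 (fun m => m % 2 == 1) tabB2.etaI [[1, 1], [1, 0, 1], [0]] = true := by decide +kernel
theorem dec_b2 : decCheckB = true := by decide +kernel
theorem len_b2 : lenCheckB = true := by decide +kernel
theorem term_b2_three : termCheckB = true := by decide +kernel

variable {K : Type u} [Field K]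

theorem short_weight {r : ℕ} (h : shortB r = true) : ∃ i < chevB2.rank, ((chevB2.cartan i r).natAbs % 2 == 1) = true := by
  simp only [shortB, List.any_eq_true, List.mem_range] at h
  exact h

theorem commutator_terms {D : ChevalleyDatum} {a b c : ℕ} {x : ℤ} (ha : a < D.nroots) (hb : b < D.nroots)
    (h1 : b ≠ a) (h2 : b ≠ D.neg a) (h : D.commTerms a b = [(c, x, 1, 1)]) (u w : K) :
    ⁅D.scGen K a u, D.scGen K b w⁆ = D.scGen K c ((x : K) * u * w) := by
  have e := y_comm (K := K) ha hb h1 h2 (-u) (-w)
  simp only [ChevalleyDatum.commWord, h, List.map_cons, List.map_nil, wy, List.prod_cons, List.prod_nil, mul_one,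
    pow_one, neg_neg] at e
  have e' := congrArg (·⁻¹) e
  simp only [mul_inv_rev, y_inv, neg_neg, mul_neg] at e'
  rw [commutatorElement_def, y_inv, y_inv, e']
  simp only [mul_assoc]
  rw [← mul_assoc (D.scGen K a u) (D.scGen K a (-u)), y_add, add_neg_cancel, y_zero, one_mul, y_add, add_neg_cancel,
    y_zero, mul_one]

theorem splits_b2_three (h : Three K) : Splits.{u, v} (chevB2.SteinbergCover K) := by
  intro E _ π hπ hk
  classical
  let C : Cert.{u} chevB2 := certB2
  obtain ⟨M, hM⟩ := exists_cox (D := chevB2) (by simp)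
  have hc := Cfsg.Agent.KnownA.Cover.corner_of_mem (D := chevB2) (by simp)
  have hperf : commutator (chevB2.SteinbergCover K) = ⊤ := Cfsg.Agent.KnownA.CoverPerfect.cover_perfect (by simp)
    (fun _ => ⟨-1, neg_ne_zero.2 one_ne_zero, fun e => h.2.2 (by linear_combination -e)⟩)
  have hz := zero_all_three hπ hk C hc h (ok_three h) (eta := tabB2.etaI) rfl comm_b2_three
  obtain ⟨X0, hmap0, hadd0, htor0, hwe0⟩ := exists_roots_on hπ hk C hc hM hperf (ok_three h)
    (S := fun r => shortB r = true) (fun r _ hr => short_weight hr) hz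
  have hn : chevB2.nroots = 8 := by decide +kernel
  have hl : chevB2.rank = 2 := by decide +kernel
  have hdc := dec_b2
  simp only [decCheckB, List.all_eq_true, List.mem_range, Bool.and_eq_true] at hdc
  have hdec : ∀ r < 8, shortB r = false → ∃ a b, ∃ x : ℤ, decB r = some (a, b, x) ∧ a < 8 ∧ b < 8 ∧
      shortB a = true ∧ shortB b = true ∧ b ≠ a ∧ b ≠ chevB2.neg a ∧ r ≠ chevB2.neg a ∧ r ≠ chevB2.neg b ∧
      tIds chevB2 a r = [] ∧ tIds chevB2 b r = [] ∧ chevB2.commTerms a b = [(r, x, 1, 1)] ∧ (x : K) ≠ 0 := by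
    intro r hr hrs
    have h1 := (hdc r hr).1
    simp only [hrs, Bool.false_or] at h1
    split at h1
    swap
    · simp at h1
    rename_i a b x hd
    simp only [Bool.and_eq_true, decide_eq_true_eq, bne_iff_ne, ne_eq, List.isEmpty_iff, beq_iff_eq] at h1
    obtain ⟨⟨⟨⟨⟨⟨⟨⟨⟨⟨⟨⟨q1, q2⟩, q3⟩, q4⟩, q5⟩, q6⟩, q7⟩, q8⟩, q9⟩, q10⟩, q11⟩, q12⟩, q13⟩ := h1
    refine ⟨a, b, x, hd, q1, q2, q3, q4, q5, q6, q7, q8, q9, q10, q11, ?_⟩
    rcases Int.natAbs_eq x with e | e <;> rw [e]
    all_goals rcases (show x.natAbs = 1 ∨ x.natAbs = 2 by omega) with e' | e' <;> rw [e'] <;>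
      simp [h.2.2]
  choose! da db dx hd using hdec
  let f : ℕ → K → K → E := fun r u w => lc hπ (chevB2.scGen K (da r) u) (chevB2.scGen K (db r) w)
  have hf : ∀ r < 8, shortB r = false → Biadd (f r) := by
    intro r hr hrs
    obtain ⟨-, ha, hb, -, -, h1, h2, h3, h4, h5, h6, h7, -⟩ := hd r hr hrs
    rw [← hn] at ha hb hr
    have himg : ∀ u w, π (f r u w) = chevB2.scGen K r ((dx r : K) * u * w) := fun u w => by
      rw [map_lc]; exact commutator_terms ha hb h1 h2 h7 u w
    refine ⟨fun t t' v => ?_, fun t v v' => ?_⟩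
    · show lc hπ _ _ = _
      rw [← y_add, lc_mul_left hπ hk]
      have e1 : lift hπ (chevB2.scGen K (da r) t) * f r t' v = f r t' v * lift hπ (chevB2.scGen K (da r) t) :=
        lift_commute hπ hk (by rw [map_lift, himg]; exact hz _ ha _ hr h3 h5 _ _)
      change lift hπ (chevB2.scGen K (da r) t) * f r t' v * _ * f r t v = f r t v * f r t' v
      rw [e1, mul_inv_cancel_right]
      exact lift_commute hπ hk (by rw [himg, himg]; exact zero_self hπ hk C hc h hr _ _)
    · show lc hπ _ _ = _
      rw [← y_add, lc_mul_right hπ hk]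
      have e1 : lift hπ (chevB2.scGen K (db r) v) * f r t v' = f r t v' * lift hπ (chevB2.scGen K (db r) v) :=
        lift_commute hπ hk (by rw [map_lift, himg]; exact hz _ hb _ hr h4 h6 _ _)
      change f r t v * (lift hπ (chevB2.scGen K (db r) v) * f r t v' * _) = f r t v * f r t v'
      rw [e1, mul_inv_cancel_right]
  let X : ℕ → K → E := fun r t =>
    if shortB r then X0 r t else if r < 8 then f r (t / (dx r : K)) 1 else 1
  have hXs : ∀ r, shortB r = true → ∀ t, X r t = X0 r t := fun r hr t => if_pos hr
  have hXl : ∀ r < 8, shortB r = false → ∀ t, X r t = f r (t / (dx r : K)) 1 := fun r hr hrs t => by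
    simp [X, hr, hrs]
  have hmap : ∀ r t, π (X r t) = chevB2.scGen K r t := by
    intro r t
    rcases Bool.eq_false_or_eq_true (shortB r) with hrs | hrs
    · rw [hXs r hrs]; exact hmap0 r hrs t
    by_cases hr : r < 8
    · obtain ⟨-, ha, hb, -, -, h1, h2, -, -, -, -, h7, hx⟩ := hd r hr hrs
      rw [hXl r hr hrs, map_lc, commutator_terms (by omega) (by omega) h1 h2 h7, mul_one, mul_div_cancel₀ _ hx]
    · simp only [X, hrs, hr, if_false, Bool.false_eq_true, map_one]
      exact (y_of_le (by omega) t).symm
  have hadd : ∀ r t t', X r (t + t') = X r t * X r t' := by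
    intro r t t'
    rcases Bool.eq_false_or_eq_true (shortB r) with hrs | hrs
    · simp only [hXs r hrs]; exact hadd0 r hrs t t'
    by_cases hr : r < 8
    · rw [hXl r hr hrs, hXl r hr hrs, hXl r hr hrs, add_div, (hf r hr hrs).left]
    · simp [X, hr, hrs]
  -- commutators of short root elements
  have long_eq : ∀ a < 8, ∀ b < 8, shortB a = true → shortB b = true → b ≠ a → b ≠ chevB2.neg a →
      ∀ r, tIds chevB2 a b = [r] → shortB r = false ∧ ∀ u w z,
        ⁅chevB2.scGen K a u, chevB2.scGen K b w⁆ = chevB2.scGen K r z →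
        lc hπ (chevB2.scGen K a u) (chevB2.scGen K b w) = X r z := by
    intro a ha b hb hsa hsb h1 h2 r hab
    have h3 := (hdc a ha).2 b hb
    simp only [hsa, hsb, Bool.and_self, Bool.not_true, Bool.false_or, Bool.or_eq_true, beq_iff_eq, h1, h2, hab,
      List.isEmpty_cons, Bool.false_eq_true, Bool.and_eq_true, decide_eq_true_eq, Bool.not_eq_true'] at h3
    obtain ⟨⟨hr, hrs⟩, h3⟩ := h3.resolve_left (by simp)
    obtain ⟨hdr, ha', hb', -, -, q1, q2, -, -, -, -, q7, hx⟩ := hd r hr hrs
    rw [hdr] at h3
    simp only [Bool.or_eq_true, Bool.and_eq_true, beq_iff_eq] at h3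
    refine ⟨hrs, fun u w z hz' => ?_⟩
    have hF := hf r hr hrs
    rw [hXl r hr hrs]
    rcases h3 with ⟨rfl, rfl⟩ | ⟨rfl, rfl⟩
    · rw [commutator_terms (by omega) (by omega) q1 q2 q7] at hz'
      rw [← y_inj C (by omega) hz', mul_assoc, mul_div_cancel_left₀ _ hx, ← hF.eq_mul h]
    · rw [← commutatorElement_inv, commutator_terms (by omega) (by omega) q1 q2 q7, y_inv] at hz'
      rw [← y_inj C (by omega) hz', lc_swap hπ, neg_div, mul_assoc, mul_div_cancel_left₀ _ hx, hF.neg_left,
        ← hF.eq_mul h]
  have htor : ∀ (g : E), π g ∈ torY chevB2 K → ∀ r < chevB2.nroots, ∀ b : K,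
      (∀ v, π g * chevB2.scGen K r v * (π g)⁻¹ = chevB2.scGen K r (b * v)) → ∀ t, g * X r t * g⁻¹ = X r (b * t) := by
    intro g hg r hr b hb t
    rcases Bool.eq_false_or_eq_true (shortB r) with hrs | hrs
    · simp only [hXs r hrs]; exact htor0 g hg r hr hrs b hb t
    have hr8 : r < 8 := by omega
    obtain ⟨-, ha', hb', hsa, hsb, q1, q2, -, -, -, -, q7, hx⟩ := hd r hr8 hrs
    obtain ⟨α, -, eα⟩ := torY_conj C hc hg (show da r < chevB2.nroots by omega)
    obtain ⟨β, -, eβ⟩ := torY_conj C hc hg (show db r < chevB2.nroots by omega)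
    rw [hXl r hr8 hrs, lc_conj hπ hk, eα, eβ]
    refine (long_eq _ ha' _ hb' hsa hsb q1 q2 r (by simp [tIds, q7])).2 _ _ _ ?_
    rw [← eα, ← eβ, ← conjugate_commutatorElement, commutator_terms (by omega) (by omega) q1 q2 q7, mul_one,
      mul_div_cancel₀ _ hx, hb]
  have hwe : ∀ i < chevB2.rank, ∀ (g : E), π g = wEl chevB2 i 1 → ∀ r < chevB2.nroots,
      ∀ t, g * X r t * g⁻¹ = X (chevB2.reflectRoot i r) (kap C i 1 r * t) := by
    intro i hi g hg r hr t
    have hlen := len_b2
    simp only [lenCheckB, List.all_eq_true, List.mem_range, beq_iff_eq] at hlen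
    rcases Bool.eq_false_or_eq_true (shortB r) with hrs | hrs
    · have hrs' := (hlen i (by omega) r (by omega)).trans hrs
      rw [hXs r hrs, hXs _ hrs']
      exact hwe0 i hi g hg r hr hrs hrs' t
    have hr8 : r < 8 := by omega
    obtain ⟨-, ha', hb', hsa, hsb, q1, q2, -, -, -, -, q7, hx⟩ := hd r hr8 hrs
    have la := C.refl_lt i hi _ (show da r < chevB2.nroots by omega)
    have lb := C.refl_lt i hi _ (show db r < chevB2.nroots by omega)
    rw [hXl r hr8 hrs, lc_conj hπ hk, hg, wEl_conj C hc hi (by omega) one_ne_zero, wEl_conj C hc hi (by omega) one_ne_zero]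
    refine (long_eq _ (by omega) _ (by omega) ((hlen i (by omega) _ ha').trans hsa) ((hlen i (by omega) _ hb').trans hsb)
      (fun e => q1 (by rw [← C.refl_refl hi (show db r < chevB2.nroots by omega), e, C.refl_refl hi (show da r < chevB2.nroots by omega)]))
      (fun e => q2 (by rw [← C.refl_refl hi (show db r < chevB2.nroots by omega), e, C.refl_neg hi (C.refl_lt i hi _ (show da r < chevB2.nroots by omega)), C.refl_refl hi (show da r < chevB2.nroots by omega)]))
      _ (by rw [tIds_refl C K hi (by omega) (by omega), show tIds chevB2 (da r) (db r) = [r] by simp [tIds, q7], List.map_cons, List.map_nil])).2 _ _ _ ?_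
    rw [← wEl_conj C hc hi (by omega) one_ne_zero, ← wEl_conj C hc hi (by omega) one_ne_zero, ← conjugate_commutatorElement,
      commutator_terms (by omega) (by omega) q1 q2 q7, mul_one, mul_div_cancel₀ _ hx, wEl_conj C hc hi hr one_ne_zero]
  refine exists_section_of_rel C hmap hadd fun r hr s hs _ hneg => ?_
  refine rel_all_gen hπ hk C hc hz hmap hadd htor hwe (fun i hi s hs hne hnil => ?_) _ r hr s hs hneg rfl
  have ht := term_b2_three
  simp only [termCheckB, List.all_eq_true, List.mem_range] at ht
  have hb := ht i (by omega) s (by omega)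
  simp only [Bool.or_eq_true, beq_iff_eq, hne, List.isEmpty_iff, hnil, false_or, Bool.and_eq_true, bne_iff_ne, ne_eq,
    List.any_eq_true, List.mem_range] at hb
  rcases hb with ⟨⟨hps, hss⟩, hsp⟩ | ⟨hind, k, hk2, hodd⟩
  · left
    have hp := C.simple_lt i hi
    rcases he : tIds chevB2 (chevB2.simple i) s with _ | ⟨c, rest⟩
    · exact absurd he hnil
    have h3 := (hdc _ (show chevB2.simple i < 8 by omega)).2 s (by omega)
    simp only [hps, hss, Bool.and_self, Bool.not_true, Bool.false_or, Bool.or_eq_true, beq_iff_eq, hsp, hne, he,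
      List.isEmpty_cons, Bool.false_eq_true] at h3
    rcases rest with _ | ⟨d, rest⟩
    swap
    · simp at h3
    obtain ⟨hcs, hle⟩ := long_eq _ (show chevB2.simple i < 8 by omega) s (by omega) hps hss hsp hne c he
    intro t v
    rw [← inv_mul_eq_iff_eq_mul]
    have e := y_comm (K := K) hp hs hsp hne t v
    obtain ⟨z, hw⟩ : ∃ z, chevB2.commWord K (chevB2.simple i) s t v = [(c, z)] := by
      have h1 := commWord_fst (D := chevB2) (K := K) (chevB2.simple i) s t v
      rw [he] at h1
      match hm : chevB2.commWord K (chevB2.simple i) s t v, h1 with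
      | [(a, z)], h1 => simp at h1; exact ⟨z, by rw [h1]⟩
    rw [hw] at e ⊢
    simp only [wy, wx, List.map_cons, List.map_nil, List.prod_cons, List.prod_nil, mul_one] at e ⊢
    have h4 : ⁅X s (-v), X (chevB2.simple i) (-t)⁆ = X c z := by
      rw [lc_map hπ hk, hmap, hmap, lc_swap hπ, hle (-t) (-v) (-z) (by
        rw [← y_inv, ← y_inv, ← y_inv, ← commutatorElement_inv, inv_inj, commutatorElement_def, inv_inv, inv_inv]
        rw [mul_assoc, e]; group)]
      exact inv_eq_of_mul_eq_one_right (by rw [← hadd, neg_add_cancel, x_zero hadd c])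
    rw [← h4, commutatorElement_def, x_inv hadd, neg_neg, x_inv hadd, neg_neg, mul_inv_rev, x_inv hadd, x_inv hadd]
    simp only [mul_assoc]
  · right
    refine ⟨hind, hEl chevB2 k (-1 : K), hEl_mem (by omega) (neg_ne_zero.2 one_ne_zero), (-1) ^ chevB2.cartan k (chevB2.simple i),
      (-1) ^ chevB2.cartan k s, hEl_conj C hc (by omega) (C.simple_lt i hi) (neg_ne_zero.2 one_ne_zero),
      hEl_conj C hc (by omega) hs (neg_ne_zero.2 one_ne_zero), fun g hl hr _ _ hinv => ?_⟩
    refine (Biadd.mk hl hr).trivial_of_fix h ?_ (hinv 1 1)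
    rw [← zpow_add₀ (neg_ne_zero.2 one_ne_zero)]
    refine Odd.neg_one_zpow ?_
    rw [Int.odd_iff]
    omega

end Cfsg.Agent.Suzuki.StLift
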