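import Cfsg.Agent.Suzuki.StLiftMultiplier
import Cfsg.Agent.KnownA.Cover.TorusSt

/-!
The multiplier of Steinberg's group over a finite field.
-/

set_option autoImplicit false

universe u

namespace Cfsg.Agent.Suzuki.StLift

open Cfsg.Lie Cfsg.Agent.Chev

theorem hasCyclic_steinberg {K : Type u} [Field K] [Fintype K] {D : ChevalleyDatum}
    (hD : D ∈ [chevG2, chevB2, chevD4, chevF4, chevE6, chevE7, chevE8])
    (hK : D ∈ [chevB2, chevG2] → ∃ x : K, x ≠ 0 ∧ x ≠ 1) (e : D.SteinbergCover K ≃* D.SteinbergGroup K)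
    (hS : Splits.{u, u} (D.SteinbergCover K)) : Cfsg.HasCyclicSchurMultiplier (D.SteinbergGroup K) 1 := by
  obtain ⟨C⟩ := Cfsg.Agent.Chev.nonempty_cert.{u} hD
  obtain ⟨M, hM⟩ := Cfsg.Agent.Chev.exists_cox hD
  have hc := Cfsg.Agent.KnownA.Cover.corner_of_mem hD
  have hperf : commutator (D.SteinbergGroup K) = ⊤ := by
    have := congrArg (Subgroup.map e.toMonoidHom) (Cfsg.Agent.KnownA.CoverPerfect.cover_perfect hD hK)
    rw [commutator_def, Subgroup.map_commutator, Subgroup.map_top_of_surjective _ e.surjective] at this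
    rw [commutator_def]
    exact this
  set θ := Cfsg.Agent.KnownA.Cover.thetaSt C (K := K)
  have hle := (Cfsg.Agent.KnownA.Cover.ker_thetaSt (K := K) C hc hM).2
  rw [← Cfsg.Agent.KnownA.Cover.range_torusHom C hc] at hle
  have : Finite (Cfsg.Agent.KnownA.Cover.torusHom C hc (K := K)).range :=
    Finite.of_surjective _ (MonoidHom.rangeRestrict_surjective _)
  have : Finite θ.ker := Finite.of_injective _ (Subgroup.inclusion_injective hle)
  have : Finite ↥(D.group K) := inferInstance
  have : Finite (D.SteinbergGroup K ⧸ θ.ker) := Finite.of_equiv _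
    (QuotientGroup.quotientKerEquivOfSurjective θ (Cfsg.Agent.KnownA.Cover.thetaSt_surjective C)).symm.toEquiv
  have : Finite (D.SteinbergGroup K) := Finite.of_equiv _ (Subgroup.groupEquivQuotientProdSubgroup (s := θ.ker)).symm
  obtain ⟨ez⟩ := exists_equiv_zmod (G := ↥(MonoidHom.id (D.SteinbergGroup K)).ker) (n := 1) (Or.inl rfl)
    (by rw [MonoidHom.ker_id]; exact Subgroup.card_bot)
  exact hasCyclic_of_splits (hS.of_mulEquiv e) hperf (τ := MonoidHom.id _) (fun x => ⟨x, rfl⟩)
    (by rw [MonoidHom.ker_id]; exact bot_le) ez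

end Cfsg.Agent.Suzuki.StLift
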