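import Cfsg.Agent.Suzuki.StLiftMultiplier
import Mathlib

/-!
Universality: unique lifts through central extensions.
-/

set_option autoImplicit false

universe u v w

namespace Cfsg.Agent.Suzuki.StLift

open scoped commutatorElement

theorem exists_unique_lift {S : Type u} [Group S] (hS : Splits.{u, max u w} S) (hperf : commutator S = ⊤)
    {G₁ : Type v} {E : Type w} [Group G₁] [Group E] (π₁ : E →* G₁) (hπ : Function.Surjective π₁)
    (hc : π₁.ker ≤ Subgroup.center E) (σ : S →* G₁) : ∃! τ : S →* E, π₁.comp τ = σ := by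
  let P : Subgroup (S × E) :=
    { carrier := {p | σ p.1 = π₁ p.2}
      one_mem' := by simp
      mul_mem' := fun {a b} ha hb => by
        show σ (a.1 * b.1) = π₁ (a.2 * b.2)
        rw [map_mul, map_mul, show σ a.1 = π₁ a.2 from ha, show σ b.1 = π₁ b.2 from hb]
      inv_mem' := fun {a} ha => by
        show σ a.1⁻¹ = π₁ a.2⁻¹
        rw [map_inv, map_inv, show σ a.1 = π₁ a.2 from ha] }
  let π : P →* S := (MonoidHom.fst S E).comp P.subtype
  have hπ' : Function.Surjective π := fun x => by
    obtain ⟨y, hy⟩ := hπ (σ x)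
    exact ⟨⟨(x, y), hy.symm⟩, rfl⟩
  have hk : π.ker ≤ Subgroup.center P := by
    rintro ⟨⟨x, y⟩, hxy⟩ h
    have hx : x = 1 := h
    subst hx
    have hy : π₁ y = 1 := ((map_one σ).symm.trans hxy).symm
    refine Subgroup.mem_center_iff.2 fun w => Subtype.ext (Prod.ext ?_ ?_)
    · simp
    · exact Subgroup.mem_center_iff.1 (hc (MonoidHom.mem_ker.2 hy)) _
  obtain ⟨s, hs⟩ := hS P π hπ' hk
  let τ : S →* E := (MonoidHom.snd S E).comp (P.subtype.comp s)
  have hτ : ∀ x, π₁ (τ x) = σ x := fun x => by
    have := (s x).2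
    change σ (s x).1.1 = π₁ (s x).1.2 at this
    rw [show (s x).1.1 = x from hs x] at this
    exact this.symm
  refine ⟨τ, MonoidHom.ext hτ, fun τ' hτ' => ?_⟩
  have hd : ∀ x, (τ x)⁻¹ * τ' x ∈ Subgroup.center E := fun x => hc (by
    rw [MonoidHom.mem_ker, map_mul, map_inv, hτ]
    rw [show π₁ (τ' x) = σ x from DFunLike.congr_fun hτ' x, inv_mul_cancel])
  ext x
  have hx : x ∈ commutator S := by rw [hperf]; exact Subgroup.mem_top x
  rw [commutator_eq_closure] at hx
  induction hx using Subgroup.closure_induction with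
  | mem g hg =>
    obtain ⟨a, b, rfl⟩ := hg
    rw [map_commutatorElement, map_commutatorElement, commutator_central (hd a) (hd b) (a := τ a) (b := τ b),
      mul_inv_cancel_left, mul_inv_cancel_left]
  | one => rw [map_one, map_one]
  | mul g h _ _ hg hh => rw [map_mul, map_mul, hg, hh]
  | inv g _ hg => rw [map_inv, map_inv, hg]

end Cfsg.Agent.Suzuki.StLift
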