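import Cfsg.Agent.S2397
import Cfsg.Agent.S0269
import Cfsg.Agent.S0246
import Cfsg.Agent.Forms.SpFourAdjoint
import Cfsg.Agent.KnownA.Cover.Cases
import Cfsg.Agent.KnownA.Cover.TorusSt
import Cfsg.Agent.Suzuki.StLiftUniversal
import Cfsg.Agent.Suzuki.StLiftSteinberg
import Cfsg.Agent.Suzuki.StLiftCasesB2D4
import Cfsg.Agent.Suzuki.StLiftCasesB2Three
import Cfsg.Agent.Suzuki.StLiftCasesB2Four

/-!
Central extensions of the four-dimensional symplectic groups split, apart from the smallest one.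
-/

set_option autoImplicit false

universe u v

namespace Cfsg.Agent.Suzuki.SpSt

open scoped commutatorElement
open Cfsg.Lie Cfsg.Agent.Chev Cfsg.Agent.KnownA Cfsg.Agent.KnownA.Cover Cfsg.Agent.Suzuki.StLift

theorem cartan_B2 : chevB2.rank = 2 ∧ chevB2.cartan 0 (chevB2.simple 0) = 2 ∧ chevB2.cartan 1 (chevB2.simple 0) = -1 ∧
    chevB2.cartan 0 (chevB2.simple 1) = -2 ∧ chevB2.cartan 1 (chevB2.simple 1) = 2 := by decide +kernel

theorem card_center_B2_le {K : Type u} [Field K] [Fintype K] :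
    Nat.card (Subgroup.center (chevB2.SteinbergGroup K)) ≤ Nat.gcd 2 (Fintype.card K - 1) := by
  classical
  obtain ⟨hr, a00, a10, a01, a11⟩ := cartan_B2
  rw [center_eq_map certB2 cornerB2 coxB2]
  let S := (torusMap Kˣ (cartMat chevB2)).ker
  have key : ∀ c ∈ S, c ⟨0, by omega⟩ ^ 2 = 1 ∧ c ⟨1, by omega⟩ = c ⟨0, by omega⟩ ^ 2 := by
    intro c hc
    have hu : ∀ g : Fin chevB2.rank → Kˣ, ∏ k, g k = g ⟨0, by omega⟩ * g ⟨1, by omega⟩ := by
      intro g
      rw [Fintype.prod_eq_mul (⟨0, by omega⟩ : Fin chevB2.rank) ⟨1, by omega⟩ (by simp)]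
      intro x hx
      exfalso
      have := x.isLt
      rcases (show x.val = 0 ∨ x.val = 1 by omega) with h | h
      · exact hx.1 (Fin.ext h)
      · exact hx.2 (Fin.ext h)
    have h0 := congrFun (MonoidHom.mem_ker.1 hc) ⟨0, by omega⟩
    have h1 := congrFun (MonoidHom.mem_ker.1 hc) ⟨1, by omega⟩
    rw [torusMap_apply, hu] at h0 h1
    simp only [cartMat, Matrix.of_apply, a00, a10, a01, a11, Pi.one_apply] at h0 h1
    rw [zpow_ofNat, zpow_neg_one, mul_inv_eq_one] at h0
    rw [zpow_neg, zpow_ofNat, zpow_ofNat, inv_mul_eq_one, ← h0] at h1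
    refine ⟨?_, h0.symm⟩
    exact mul_eq_left.1 ((pow_two (c ⟨0, by omega⟩ ^ 2)).symm.trans h1.symm)
  have hS : Nat.card S ≤ Nat.gcd 2 (Fintype.card K - 1) := by
    have hr2 : Nat.card ↥(rootsOfUnity 2 K) = Nat.gcd 2 (Fintype.card K - 1) := by
      rw [show Fintype.card K - 1 = Nat.card Kˣ by rw [Nat.card_units, Nat.card_eq_fintype_card],
        Nat.gcd_comm, ← IsCyclic.card_powMonoidHom_ker]
      rfl
    rw [← hr2]
    refine Nat.card_le_card_of_injective (fun c : S => (⟨c.1 ⟨0, by omega⟩, (key c.1 c.2).1⟩ : rootsOfUnity 2 K)) ?_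
    intro c d h
    have h0 : c.1 ⟨0, by omega⟩ = d.1 ⟨0, by omega⟩ := congrArg Subtype.val h
    refine Subtype.ext (funext fun k => ?_)
    have := k.isLt
    rcases (show k.val = 0 ∨ k.val = 1 by omega) with e | e
    · rw [show k = ⟨0, by omega⟩ from Fin.ext e, h0]
    · rw [show k = ⟨1, by omega⟩ from Fin.ext e, (key c.1 c.2).2, (key d.1 d.2).2, h0]
  exact le_trans (Nat.le_of_dvd Nat.card_pos (Subgroup.card_map_dvd _ _)) hS

theorem splits_Sp4 {F : Type u} [Field F] [Fintype F] (hq : 3 ≤ Fintype.card F) :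
    StLift.Splits.{u, v} (Matrix.symplecticGroup (Fin 2) F) := by
  classical
  have hD : chevB2 ∈ [chevG2, chevB2, chevD4, chevF4, chevE6, chevE7, chevE8] := by simp
  have hx : chevB2 ∈ [chevB2, chevG2] → ∃ x : F, x ≠ 0 ∧ x ≠ 1 := fun _ =>
    Forms.exists_ne_zero_one hq
  obtain ⟨e, -⟩ := Cfsg.Agent.S2397.result (K := F) chevB2 hD hx
  have hSC : ∀ {E : Type v} [Group E] (π : E →* chevB2.SteinbergCover F), Function.Surjective π →
      π.ker ≤ Subgroup.center E → ∃ σ : chevB2.SteinbergCover F →* E, ∀ x, π (σ x) = x := by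
    intro E _ π h1 h2
    rcases (show Fintype.card F = 3 ∨ Fintype.card F = 4 ∨ 4 < Fintype.card F by omega) with h | h | h
    · exact splits_b2_three (three_of_card h) E π h1 h2
    · exact splits_b2_four h E π h1 h2
    · exact splits_b2_big (big_of_card h) E π h1 h2
  have hSC' : StLift.Splits.{u, u} (chevB2.SteinbergCover F) := by
    rcases (show Fintype.card F = 3 ∨ Fintype.card F = 4 ∨ 4 < Fintype.card F by omega) with h | h | h
    · exact splits_b2_three (three_of_card h)
    · exact splits_b2_four h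
    · exact splits_b2_big (big_of_card h)
  have hperfS : commutator (Matrix.symplecticGroup (Fin 2) F) = ⊤ :=
    Cfsg.Agent.S0269.result 2 (Or.inr (Or.inl ⟨rfl, hq⟩))
  have hperfG : commutator (chevB2.SteinbergGroup F) = ⊤ := by
    have := congrArg (Subgroup.map e.toMonoidHom) (Cfsg.Agent.KnownA.CoverPerfect.cover_perfect hD hx)
    rw [commutator_def, Subgroup.map_commutator, Subgroup.map_top_of_surjective _ e.surjective] at this
    rw [commutator_def]
    exact this
  let π₁ := ((Forms.chevB2EquivPSp (F := F)).toMonoidHom).comp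
    (QuotientGroup.mk' (Subgroup.center (Matrix.symplecticGroup (Fin 2) F)))
  have hπ₁ : Function.Surjective π₁ :=
    (Forms.chevB2EquivPSp (F := F)).surjective.comp (QuotientGroup.mk'_surjective _)
  have hk₁ : π₁.ker = Subgroup.center (Matrix.symplecticGroup (Fin 2) F) := by
    ext x
    simp [π₁, MonoidHom.mem_ker]
  obtain ⟨θ, hθ, hθk, -⟩ := Cfsg.Agent.S1077.result (K := F) chevB2 hD
  obtain ⟨τ, hτ, -⟩ := exists_unique_lift.{u, u, u} (hSC'.of_mulEquiv e) hperfG π₁ hπ₁ hk₁.le θ
  have hτθ : ∀ x, π₁ (τ x) = θ x := DFunLike.congr_fun hτ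
  have hsurj : Function.Surjective τ := by
    rw [← MonoidHom.range_eq_top]
    have hcomm : commutator (Matrix.symplecticGroup (Fin 2) F) ≤ τ.range := by
      rw [commutator_def, Subgroup.commutator_le]
      have hdec : ∀ g, ∃ x, ∃ z ∈ Subgroup.center (Matrix.symplecticGroup (Fin 2) F), g = τ x * z := by
        intro g
        obtain ⟨x, hx'⟩ := hθ (π₁ g)
        refine ⟨x, (τ x)⁻¹ * g, ?_, by group⟩
        rw [← hk₁, MonoidHom.mem_ker, map_mul, map_inv, hτθ, hx', inv_mul_cancel]
      intro a _ b _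
      obtain ⟨x, z, hz, rfl⟩ := hdec a
      obtain ⟨y, w, hw, rfl⟩ := hdec b
      exact ⟨⁅x, y⁆, by rw [map_commutatorElement]; exact commutator_central hz hw⟩
    rwa [hperfS, top_le_iff] at hcomm
  have hc2 : Nat.card (Subgroup.center (Matrix.symplecticGroup (Fin 2) F)) = Nat.gcd 2 (Fintype.card F - 1) :=
    Cfsg.Agent.S0246.result rfl 2 (by norm_num)
  have : Finite θ.ker := by
    rw [hθk, center_eq_map certB2 cornerB2 coxB2]
    exact Finite.of_surjective _ (MonoidHom.subgroupMap_surjective _ _)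
  have : Finite ↥(chevB2.group F) := inferInstance
  have : Finite (chevB2.SteinbergGroup F ⧸ θ.ker) :=
    Finite.of_equiv _ (QuotientGroup.quotientKerEquivOfSurjective θ hθ).symm.toEquiv
  have : Finite (chevB2.SteinbergGroup F) :=
    Finite.of_equiv _ (Subgroup.groupEquivQuotientProdSubgroup (s := θ.ker)).symm
  have hcard : Nat.card (chevB2.SteinbergGroup F) ≤ Nat.card (Matrix.symplecticGroup (Fin 2) F) := by
    rw [Subgroup.card_eq_card_quotient_mul_card_subgroup θ.ker,
      Subgroup.card_eq_card_quotient_mul_card_subgroup π₁.ker,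
      Nat.card_congr (QuotientGroup.quotientKerEquivOfSurjective θ hθ).toEquiv,
      Nat.card_congr (QuotientGroup.quotientKerEquivOfSurjective π₁ hπ₁).toEquiv, hθk, hk₁, hc2]
    exact Nat.mul_le_mul_left _ card_center_B2_le
  have : Finite (Matrix.symplecticGroup (Fin 2) F) := inferInstance
  have hbij : Function.Bijective τ :=
    hsurj.bijective_of_nat_card_le hcard
  exact StLift.Splits.of_mulEquiv (e.trans (MulEquiv.ofBijective τ hbij)) (fun E _ π h1 h2 => hSC π h1 h2)

end Cfsg.Agent.Suzuki.SpSt
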