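import Cfsg.Agent.Suzuki.SpBase
import Mathlib

/-!
Root elements generate the symplectic groups of sets of classes.
-/

set_option autoImplicit false

namespace Cfsg.Agent.Suzuki.SpSt

open Matrix
open Cfsg.Agent.KnownB.Proj.Symp

universe u

variable {m : ℕ} {F : Type u} [Field F]

local notation "Vm" => (Fin m ⊕ Fin m → F)
local notation "Spm" => Matrix.symplecticGroup (Fin m) F
local notation "B" => Cfsg.sympForm m F

/-- the subgroup generated by the root elements of the classes in `t` -/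
def Ys (t : Finset (Fin m)) : Subgroup Spm :=
  Subgroup.closure {g | ∃ p r c, cls p ∈ t ∧ cls r ∈ t ∧ r ≠ bar p ∧ g = Y p r c}

theorem Y_mem_Ys {t : Finset (Fin m)} {p r : Fin m ⊕ Fin m} (h : r ≠ bar p) (hp : cls p ∈ t) (hr : cls r ∈ t) (c : F) :
    (Y p r c : Spm) ∈ Ys t :=
  Subgroup.subset_closure ⟨p, r, c, hp, hr, h, rfl⟩

theorem Ys_mono {s t : Finset (Fin m)} (h : s ⊆ t) : (Ys s : Subgroup Spm) ≤ Ys t := by
  rw [Ys, Subgroup.closure_le]
  rintro _ ⟨p, r, c, hp, hr, hne, rfl⟩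
  exact Y_mem_Ys hne (h hp) (h hr) c

theorem Ys_le_spOn (t : Finset (Fin m)) : (Ys t : Subgroup Spm) ≤ spOn t := by
  rw [Ys, Subgroup.closure_le]
  rintro _ ⟨p, r, c, hp, hr, hne, rfl⟩
  exact Y_mem_spOn hne hp hr c

theorem Y_long_coord (p : Fin m ⊕ Fin m) (c : F) (x : Vm) (i : Fin m ⊕ Fin m) :
    ((Y p p c).1 *ᵥ x) i = x i + (if i = p then -(c * sg p * x (bar p)) else 0) := by
  rw [Y_mulVec_long, B_e_right]
  simp only [Pi.add_apply, Pi.smul_apply, e_apply, smul_eq_mul]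
  split_ifs <;> ring

theorem Y_short_coord {p r : Fin m ⊕ Fin m} (h : r ≠ bar p) (hpr : p ≠ r) (c : F) (x : Vm) (i : Fin m ⊕ Fin m) :
    ((Y p r c).1 *ᵥ x) i = x i + (if i = r then -(c * sg p * x (bar p)) else 0) +
      (if i = p then -(c * sg r * x (bar r)) else 0) := by
  rw [Y_mulVec_short h hpr, B_e_right, B_e_right]
  simp only [Pi.add_apply, Pi.smul_apply, e_apply, smul_eq_mul]
  split_ifs <;> ring

theorem plane_one {t : Finset (Fin m)} {b : Fin m ⊕ Fin m} (hb : cls b ∈ t) {v : Vm}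
    (hs : Supp {cls b} v) (hv : v b ≠ 0 ∨ v (bar b) ≠ 0) : ∃ g ∈ Ys t, g.1 *ᵥ e b = v := by
  have hlong : ∀ p, cls p = cls b → ∀ c, (Y p p c : Spm) ∈ Ys t := fun p hp c =>
    Y_mem_Ys (Ne.symm (bar_ne p)) (hp ▸ hb) (hp ▸ hb) c
  have hb1 := hlong b rfl
  have hb2 := hlong (bar b) (cls_bar b)
  have hsb : (sg b : F) ≠ 0 := sg_ne b
  have hsb' : (sg (bar b) : F) ≠ 0 := sg_ne (bar b)
  have hne := bar_ne b
  have hne' := Ne.symm hne
  have hoff : ∀ i, i ≠ b → i ≠ bar b → v i = 0 := fun i h1 h2 => hs i (by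
    rw [Finset.mem_singleton]
    exact fun h => (eq_or_bar h).elim h1 h2)
  suffices main : ∀ α β : F, β ≠ 0 → ∃ g ∈ Ys t, g.1 *ᵥ e b = (α • e b + β • e (bar b) : Vm) by
    have hdec : v = v b • e b + v (bar b) • e (bar b) := by
      funext i
      simp only [Pi.add_apply, Pi.smul_apply, e_apply, smul_eq_mul]
      by_cases h1 : i = b
      · subst h1; simp [hne']
      by_cases h2 : i = bar b
      · subst h2; simp [hne]
      simp [h1, h2, hoff i h1 h2]
    by_cases hβ : v (bar b) = 0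
    · have hα : v b ≠ 0 := hv.resolve_right (fun h => h hβ)
      obtain ⟨g, hg, e1⟩ := main (v b) 1 one_ne_zero
      refine ⟨Y (bar b) (bar b) (1 / (sg (bar b) * v b)) * g, mul_mem (hb2 _) hg, ?_⟩
      rw [sp_mul_mulVec, e1]
      funext i
      rw [Y_long_coord]
      simp only [Pi.add_apply, Pi.smul_apply, e_apply, smul_eq_mul, bar_bar]
      rw [hdec]
      simp only [Pi.add_apply, Pi.smul_apply, e_apply, smul_eq_mul, hβ]
      by_cases h2 : i = bar b
      · subst h2; simp [hne, hne', hβ]; field_simp; ring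
      · simp [h2]
    · obtain ⟨g, hg, e1⟩ := main (v b) (v (bar b)) hβ
      exact ⟨g, hg, e1.trans hdec.symm⟩
  intro α β hβ
  refine ⟨Y b b (-(α - 1) / (sg b * β)) * Y (bar b) (bar b) (-β / sg (bar b)), mul_mem (hb1 _) (hb2 _), ?_⟩
  funext i
  rw [sp_mul_mulVec, Y_long_coord, Y_long_coord, Y_long_coord]
  simp only [Pi.add_apply, Pi.smul_apply, e_apply, smul_eq_mul, bar_bar]
  by_cases h1 : i = b
  · subst h1; simp [hne, hne']; field_simp; ring
  by_cases h2 : i = bar b
  · subst h2; simp [hne]; field_simp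
  simp [h1, h2]

theorem reach {t : Finset (Fin m)} {b : Fin m ⊕ Fin m} (hb : cls b ∈ t) {w : Vm} (hw : Supp t w)
    (hwb : ∀ p, cls p = cls b → w p = 0) : ∃ g ∈ Ys t, g.1 *ᵥ e b = e b + w := by
  classical
  suffices H : ∀ S : Finset (Fin m), S ⊆ t → cls b ∉ S → ∀ w : Vm, Supp S w →
      ∃ g ∈ Ys t, g.1 *ᵥ e b = e b + w by
    refine H (t.erase (cls b)) (Finset.erase_subset _ _) (Finset.notMem_erase _ _) w fun p hp => ?_
    by_cases h : cls p = cls b
    · exact hwb p h
    · exact hw p (fun h' => hp (Finset.mem_erase.2 ⟨h, h'⟩))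
  intro S
  induction S using Finset.induction_on with
  | empty =>
    intro _ _ w hw
    have : w = 0 := funext fun p => hw p (Finset.notMem_empty _)
    exact ⟨1, one_mem _, by rw [this, add_zero, sp_one_mulVec]⟩
  | @insert d S hd ih =>
    intro hSt hbS w hw
    rw [Finset.mem_insert, not_or] at hbS
    have hdt : d ∈ t := hSt (Finset.mem_insert_self d S)
    let w0 : Vm := fun p => if cls p = d then 0 else w p
    let wd : Vm := fun p => if cls p = d then w p else 0
    have hw0 : Supp S w0 := fun p hp => by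
      by_cases h : cls p = d
      · exact if_pos h
      · exact (if_neg h).trans (hw p (by rw [Finset.mem_insert, not_or]; exact ⟨h, hp⟩))
    have hsum : w = w0 + wd := by
      funext p; simp only [w0, wd, Pi.add_apply]; split_ifs <;> simp
    obtain ⟨g, hg, e1⟩ := ih (fun x hx => hSt (Finset.mem_insert_of_mem hx)) hbS.2 w0 hw0
    by_cases hz : wd = 0
    · exact ⟨g, hg, by rw [e1, hsum, hz, add_zero]⟩
    have hwd : Supp {d} wd := fun p hp => if_neg (by simpa using hp)
    let p : Fin m ⊕ Fin m := Sum.inl d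
    have hp : cls p = d := rfl
    have hne : wd p ≠ 0 ∨ wd (bar p) ≠ 0 := by
      by_contra hc
      push Not at hc
      apply hz
      funext i
      by_cases hi : cls i = d
      · rcases eq_or_bar (hi.trans hp.symm) with rfl | rfl
        · exact hc.1
        · exact hc.2
      · exact hwd i (by simpa using hi)
    obtain ⟨k, hk, e2⟩ := plane_one (t := {d}) (b := p) (by simp [hp]) (by rw [hp]; exact hwd) hne
    have hpb : cls p ≠ cls (bar b) := by rw [cls_bar, hp]; exact fun h => hbS.1 h.symm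
    refine ⟨k * Y p (bar b) (-(1 / sg (bar b))) * g,
      mul_mem (mul_mem (Ys_mono (by simpa using hdt) hk) (Y_mem_Ys (ne_bar_of_cls hpb) (hp ▸ hdt)
        (by rw [cls_bar]; exact hb) _)) hg, ?_⟩
    rw [sp_mul_mulVec, sp_mul_mulVec, e1]
    have key : (Y p (bar b) (-(1 / sg (bar b)))).1 *ᵥ (e b + w0) = (e b + w0 + e p : Vm) := by
      have hb2 : cls b ≠ cls p := by rw [hp]; exact hbS.1
      funext i
      rw [Y_short_coord (ne_bar_of_cls hpb) (ne_of_cls hpb), bar_bar]
      simp only [Pi.add_apply, e_apply]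
      have z1 : w0 (bar p) = 0 := if_pos ((cls_bar p).trans hp)
      have z2 : w0 b = 0 := hw0 b hbS.2
      rw [z1, z2, if_neg (show bar p ≠ b from fun h => hb2 (by rw [← h, cls_bar]))]
      simp only [add_zero, mul_zero, neg_zero, ite_self, if_true, mul_one]
      split_ifs <;> field_simp [sg_ne (F := F) (bar b)] <;> ring
    rw [key, Matrix.mulVec_add, e2, hsum, ← add_assoc]
    congr 1
    refine spOn_fix (Ys_le_spOn _ hk) fun i hi => ?_
    rw [Finset.mem_singleton] at hi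
    simp only [Pi.add_apply]
    rw [show w0 i = 0 from if_pos hi, e_ne (fun h => hbS.1 (by rw [← hi, h])), add_zero]

theorem trans_vec {t : Finset (Fin m)} {b : Fin m ⊕ Fin m} (hb : cls b ∈ t) {v : Vm} (hs : Supp t v) (hv : v ≠ 0) :
    ∃ g ∈ Ys t, g.1 *ᵥ e b = v := by
  classical
  suffices H : ∀ b : Fin m ⊕ Fin m, cls b ∈ t → (v b ≠ 0 ∨ v (bar b) ≠ 0) → ∃ g ∈ Ys t, g.1 *ᵥ e b = v by
    by_cases h : v b ≠ 0 ∨ v (bar b) ≠ 0
    · exact H b hb h
    obtain ⟨d, hd⟩ := Function.ne_iff.1 hv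
    have hdt : cls d ∈ t := by
      by_contra hc
      exact hd (hs d hc)
    obtain ⟨g, hg, e1⟩ := H d hdt (Or.inl hd)
    have hbd : cls b ≠ cls d := fun hc => h (by
      rcases eq_or_bar hc.symm with rfl | rfl
      · exact Or.inl hd
      · exact Or.inr hd)
    obtain ⟨k, hk, e2⟩ := reach (F := F) hb (w := e d)
      (fun p hp => e_ne (fun e' => hp (by rw [e']; exact hdt))) (fun p hp => e_ne (fun e' => hbd (by rw [← hp, e'])))
    refine ⟨g * (Y b (bar d) (1 / sg (bar d)) * k), mul_mem hg (mul_mem (Y_mem_Ys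
      (ne_bar_of_cls (by rw [cls_bar]; exact hbd)) hb (by rw [cls_bar]; exact hdt) _) hk), ?_⟩
    rw [sp_mul_mulVec, sp_mul_mulVec, e2]
    have key : (Y b (bar d) (1 / sg (bar d))).1 *ᵥ (e b + e d) = (e d : Vm) := by
      have hbd' : cls b ≠ cls (bar d) := by rwa [cls_bar]
      funext i
      rw [Y_short_coord (ne_bar_of_cls hbd') (ne_of_cls hbd'), bar_bar]
      simp only [Pi.add_apply, e_apply]
      rw [if_neg (bar_ne b), if_neg (show bar b ≠ d from fun h => hbd (by rw [← h, cls_bar])),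
        if_neg (ne_of_cls hbd).symm]
      simp only [add_zero, zero_add, mul_zero, neg_zero, ite_self, if_true, mul_one]
      split_ifs <;> field_simp [sg_ne (F := F) (bar d)] <;> ring
    rw [key, e1]
  intro b hb hne
  let v0 : Vm := fun p => if cls p = cls b then v p else 0
  let w : Vm := fun p => if cls p = cls b then 0 else v p
  obtain ⟨k, hk, e1⟩ := plane_one (t := {cls b}) (b := b) (v := v0) (Finset.mem_singleton_self _)
    (fun p hp => if_neg (by simpa using hp)) (by simpa [v0, cls_bar] using hne)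
  obtain ⟨g, hg, e2⟩ := reach hb (w := w) (fun p hp => by simp only [w]; rw [hs p hp, ite_self])
    (fun p hp => if_pos hp)
  refine ⟨k * g, mul_mem (Ys_mono (by simpa using hb) hk) hg, ?_⟩
  rw [sp_mul_mulVec, e2, Matrix.mulVec_add, e1, spOn_fix (Ys_le_spOn _ hk) (x := w)
    (fun p hp => if_pos (Finset.mem_singleton.1 hp))]
  funext p
  simp only [v0, w, Pi.add_apply]
  split_ifs <;> simp

/-- the roots through `a` -/
def Ns (a : Fin m ⊕ Fin m) (t : Finset (Fin m)) : Subgroup Spm :=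
  Subgroup.closure {g | ∃ r c, cls r ∈ t ∧ r ≠ bar a ∧ g = Y a r c}

theorem Ns_le_Ys {a : Fin m ⊕ Fin m} {t : Finset (Fin m)} (ha : cls a ∈ t) : (Ns a t : Subgroup Spm) ≤ Ys t := by
  rw [Ns, Subgroup.closure_le]
  rintro _ ⟨r, c, hr, hne, rfl⟩
  exact Y_mem_Ys hne ha hr c

theorem Ns_fix {a : Fin m ⊕ Fin m} {t : Finset (Fin m)} {n : Spm} (hn : n ∈ Ns a t) : n.1 *ᵥ e a = e a := by
  induction hn using Subgroup.closure_induction with
  | mem g hg =>
    obtain ⟨r, c, -, hne, rfl⟩ := hg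
    exact Y_fix_e hne c (Ne.symm (bar_ne a)) (fun e' => hne (by rw [e', bar_bar]))
  | one => exact sp_one_mulVec _
  | mul g h _ _ hg hh => rw [sp_mul_mulVec, hh, hg]
  | inv g _ hg => conv_lhs => rw [← hg]; rw [sp_inv_mulVec]

theorem exists_Ns {a : Fin m ⊕ Fin m} {t : Finset (Fin m)} (ha : cls a ∈ t) {v : Vm} (hs : Supp t v)
    (hv : v (bar a) = 1) : ∃ n ∈ Ns a t, n.1 *ᵥ e (bar a) = v := by
  classical
  have hgen : ∀ r, cls r ∈ t → r ≠ bar a → ∀ c, (Y a r c : Spm) ∈ Ns a t := fun r hr hne c =>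
    Subgroup.subset_closure ⟨r, c, hr, hne, rfl⟩
  have H : ∀ D : Finset (Fin m ⊕ Fin m), (∀ r ∈ D, cls r ∈ t ∧ r ≠ bar a ∧ r ≠ a) →
      ∃ n ∈ Ns a t, (n.1 *ᵥ e (bar a)) (bar a) = 1 ∧
        ∀ i, i ≠ a → i ≠ bar a → (n.1 *ᵥ e (bar a)) i = if i ∈ D then v i else 0 := by
    intro D
    induction D using Finset.induction_on with
    | empty =>
      intro _
      exact ⟨1, one_mem _, by rw [sp_one_mulVec, e_self], fun i _ h2 => by simp [sp_one_mulVec, e_ne h2]⟩
    | @insert r D hr ih =>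
      intro hD
      obtain ⟨n, hn, h1, h2⟩ := ih fun x hx => hD x (Finset.mem_insert_of_mem hx)
      obtain ⟨hrt, hra, hra'⟩ := hD r (Finset.mem_insert_self r D)
      refine ⟨Y a r (-(v r) / sg a) * n, mul_mem (hgen r hrt hra _) hn, ?_, fun i hi hi' => ?_⟩
      · rw [sp_mul_mulVec, Y_short_coord hra hra'.symm, h1, if_neg hra.symm, if_neg (bar_ne a)]
        simp
      · rw [sp_mul_mulVec, Y_short_coord hra hra'.symm, if_neg hi, h1, h2 i hi hi', add_zero]
        by_cases h : i = r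
        · subst h; simp [hr]; field_simp [sg_ne (F := F) a]
        · simp [h]
  obtain ⟨n, hn, h1, h2⟩ := H (Finset.univ.filter fun r => cls r ∈ t ∧ r ≠ bar a ∧ r ≠ a)
    fun r hr => (Finset.mem_filter.1 hr).2
  refine ⟨Y a a (-(v a - (n.1 *ᵥ e (bar a)) a) / sg a) * n, mul_mem (hgen a ha (Ne.symm (bar_ne a)) _) hn, ?_⟩
  funext i
  rw [sp_mul_mulVec, Y_long_coord, h1]
  by_cases hi : i = a
  · subst hi
    rw [if_pos rfl]
    field_simp [sg_ne (F := F) i]
    ring
  rw [if_neg hi, add_zero]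
  by_cases hi' : i = bar a
  · rw [hi', h1, hv]
  rw [h2 i hi hi']
  split_ifs with hm
  · rfl
  · symm
    exact hs i (fun hc => hm (Finset.mem_filter.2 ⟨Finset.mem_univ _, hc, hi', hi⟩))

theorem supp_e {t : Finset (Fin m)} {p : Fin m ⊕ Fin m} (hp : cls p ∈ t) : Supp t (e p : Vm) :=
  fun i hi => e_ne (fun h => hi (by rw [h]; exact hp))

theorem supp_spOn {t : Finset (Fin m)} {g : Spm} (hg : g ∈ spOn t) {x : Vm} (hx : Supp t x) : Supp t (g.1 *ᵥ x) :=
  fun i hi => by rw [spOn_coord hg x hi, hx i hi]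

/-- the decomposition of an isometry fixing a basis vector -/
theorem stab_split {t : Finset (Fin m)} {a : Fin m ⊕ Fin m} (ha : cls a ∈ t) {g : Spm} (hg : g ∈ spOn t)
    (hga : g.1 *ᵥ e a = e a) : ∃ n ∈ Ns a t, ∃ h ∈ spOn (t.erase (cls a)), g = n * h := by
  have hb : cls (bar a) ∈ t := by rwa [cls_bar]
  obtain ⟨n, hn, en⟩ := exists_Ns ha (v := g.1 *ᵥ e (bar a)) (supp_spOn hg (supp_e hb)) (by
    rw [coord_eq (g.1 *ᵥ e (bar a)) (bar a), bar_bar]
    conv_lhs => rw [← hga, sp_B]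
    rw [B_e_left, e_self, mul_one, sg_mul_self])
  refine ⟨n, hn, n⁻¹ * g, ?_, by group⟩
  intro p hp
  rw [Finset.mem_erase, not_and_or, not_not] at hp
  rcases hp with hp | hp
  · rw [sp_mul_mulVec]
    rcases eq_or_bar hp with rfl | rfl
    · rw [hga]
      conv_lhs => rw [← Ns_fix hn]
      rw [sp_inv_mulVec]
    · rw [← en, sp_inv_mulVec]
  · exact ((spOn t).mul_mem ((spOn t).inv_mem (Ys_le_spOn _ (Ns_le_Ys ha hn))) hg) p hp

theorem spOn_le_Ys : ∀ t : Finset (Fin m), (spOn t : Subgroup Spm) ≤ Ys t := by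
  intro t
  induction t using Finset.strongInduction with
  | H t ih =>
    intro g hg
    by_cases ht : t = ∅
    · subst ht
      have : g = 1 := sp_ext_e fun p => by rw [hg p (Finset.notMem_empty _), sp_one_mulVec]
      rw [this]; exact one_mem _
    obtain ⟨d, hd⟩ := Finset.nonempty_iff_ne_empty.2 ht
    let a : Fin m ⊕ Fin m := Sum.inl d
    have ha : cls a ∈ t := hd
    obtain ⟨k, hk, ek⟩ := trans_vec ha (supp_spOn hg (supp_e ha)) (sp_mulVec_ne g (e_ne_zero a))
    obtain ⟨n, hn, h, hh, eq⟩ := stab_split ha (g := k⁻¹ * g) (mul_mem (inv_mem (Ys_le_spOn _ hk)) hg)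
      (by rw [sp_mul_mulVec, ← ek, sp_inv_mulVec])
    rw [show g = k * (k⁻¹ * g) by group, eq]
    exact mul_mem hk (mul_mem (Ns_le_Ys ha hn) (Ys_mono (Finset.erase_subset _ _)
      (ih _ (Finset.erase_ssubset ha) hh)))

theorem Ys_univ : (Ys (Finset.univ : Finset (Fin m)) : Subgroup Spm) = ⊤ :=
  eq_top_iff.2 fun g _ => spOn_le_Ys _ (fun p hp => absurd (Finset.mem_univ _) hp)

end Cfsg.Agent.Suzuki.SpSt
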