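import Cfsg.Agent.Suzuki.SpGen
import Mathlib

/-!
Elements satisfying the relations of the symplectic root elements, with faithful pairs of classes, map faithfully.
-/

set_option autoImplicit false

namespace Cfsg.Agent.Suzuki.SpSt

open Matrix
open Cfsg.Agent.KnownB.Proj.Symp
open scoped commutatorElement

universe u v

variable {m : ℕ} {F : Type u} [Field F] {E : Type v} [Group E]

local notation "Vm" => (Fin m ⊕ Fin m → F)
local notation "Spm" => Matrix.symplecticGroup (Fin m) F
local notation "B" => Cfsg.sympForm m F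

/-- lifted root elements with the relations across three or more classes -/
structure Rels (π : E →* Matrix.symplecticGroup (Fin m) F) where
  /-- the root elements -/
  y : Fin m ⊕ Fin m → Fin m ⊕ Fin m → F → E
  map : ∀ p r, r ≠ bar p → ∀ c, π (y p r c) = Y p r c
  symm : ∀ p r, r ≠ bar p → ∀ c, y p r c = y r p c
  inj2 : ∀ a b : Fin m, ∀ g ∈ Subgroup.closure {g | ∃ p r c, cls p ∈ ({a, b} : Finset (Fin m)) ∧
    cls r ∈ ({a, b} : Finset (Fin m)) ∧ r ≠ bar p ∧ g = y p r c}, π g = 1 → g = 1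
  comm : ∀ p r p' r', r ≠ bar p → r' ≠ bar p' → Free p r p' r' → ∀ c d, y p r c * y p' r' d = y p' r' d * y p r c
  comm3 : ∀ p r s, cls p ≠ cls r → cls r ≠ cls s → cls p ≠ cls s → ∀ c d,
    ⁅y p r c, y (bar r) s d⁆ = y p s (sg (bar r) * c * d)

namespace Rels

variable {π : E →* Matrix.symplecticGroup (Fin m) F} (R : Rels π)

/-- the lifted group of a set of classes -/
def U (t : Finset (Fin m)) : Subgroup E :=
  Subgroup.closure {g | ∃ p r c, cls p ∈ t ∧ cls r ∈ t ∧ r ≠ bar p ∧ g = R.y p r c}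

theorem y_mem {t : Finset (Fin m)} {p r : Fin m ⊕ Fin m} (h : r ≠ bar p) (hp : cls p ∈ t) (hr : cls r ∈ t) (c : F) :
    R.y p r c ∈ R.U t :=
  Subgroup.subset_closure ⟨p, r, c, hp, hr, h, rfl⟩

theorem U_le {t : Finset (Fin m)} {H : Subgroup E}
    (h : ∀ p r c, cls p ∈ t → cls r ∈ t → r ≠ bar p → R.y p r c ∈ H) : R.U t ≤ H := by
  rw [U, Subgroup.closure_le]
  rintro _ ⟨p, r, c, hp, hr, hne, rfl⟩
  exact h p r c hp hr hne

theorem U_mono {s t : Finset (Fin m)} (h : s ⊆ t) : R.U s ≤ R.U t :=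
  R.U_le fun _ _ c hp hr hne => R.y_mem hne (h hp) (h hr) c

theorem map_U (t : Finset (Fin m)) : (R.U t).map π = Ys t := by
  rw [U, MonoidHom.map_closure, Ys]
  refine congrArg Subgroup.closure (Set.ext fun g => ⟨?_, ?_⟩)
  · rintro ⟨_, ⟨p, r, c, hp, hr, hne, rfl⟩, rfl⟩
    exact ⟨p, r, c, hp, hr, hne, R.map p r hne c⟩
  · rintro ⟨p, r, c, hp, hr, hne, rfl⟩
    exact ⟨_, ⟨p, r, c, hp, hr, hne, rfl⟩, R.map p r hne c⟩

include R in
theorem map_spOn {t : Finset (Fin m)} {g : E} (hg : g ∈ R.U t) : π g ∈ spOn t :=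
  Ys_le_spOn t (by rw [← R.map_U]; exact Subgroup.mem_map_of_mem _ hg)

theorem exists_lift_U {t : Finset (Fin m)} {g : Spm} (hg : g ∈ Ys t) : ∃ x ∈ R.U t, π x = g := by
  rw [← R.map_U] at hg
  exact hg

theorem y_inv {p r : Fin m ⊕ Fin m} (h : r ≠ bar p) (c : F) : (R.y p r c)⁻¹ = R.y p r (-c) := by
  have hp : cls p ∈ ({cls p, cls r} : Finset (Fin m)) := Finset.mem_insert_self _ _
  have hr : cls r ∈ ({cls p, cls r} : Finset (Fin m)) := Finset.mem_insert_of_mem (Finset.mem_singleton_self _)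
  rw [← mul_left_inj (R.y p r (-c))⁻¹, mul_inv_cancel]
  refine R.inj2 (cls p) (cls r) _ (mul_mem (inv_mem (R.y_mem h hp hr c)) (inv_mem (R.y_mem h hp hr _))) ?_
  rw [map_mul, map_inv, map_inv, R.map p r h, R.map p r h, Y_inv h, Y_inv h, neg_neg, Y_add h, neg_add_cancel, Y_zero h]

theorem inj_small {t : Finset (Fin m)} {x y : Fin m} (ht : t ⊆ {x, y}) {g : E} (hg : g ∈ R.U t) (h1 : π g = 1) :
    g = 1 := R.inj2 x y g (R.U_mono ht hg) h1

theorem eq_of_map_eq {t : Finset (Fin m)} {x y : Fin m} (ht : t ⊆ {x, y}) {g h : E} (hg : g ∈ R.U t) (hh : h ∈ R.U t)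
    (e' : π g = π h) : g = h :=
  mul_inv_eq_one.1 (R.inj_small ht (mul_mem hg (inv_mem hh)) (by rw [map_mul, map_inv, e', mul_inv_cancel]))

theorem conj_out {p r s : Fin m ⊕ Fin m} (h1 : cls p ≠ cls r) (h2 : cls r ≠ cls s) (h3 : cls p ≠ cls s) (c d : F) :
    R.y p r c * R.y (bar r) s d = R.y p s (sg (bar r) * c * d) * R.y (bar r) s d * R.y p r c := by
  have h := R.comm3 p r s h1 h2 h3 c d
  rw [commutatorElement_def] at h
  rw [← h]; group

theorem commute_disjoint {s t : Finset (Fin m)} (hd : Disjoint s t) {g h : E} (hg : g ∈ R.U s) (hh : h ∈ R.U t) :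
    g * h = h * g := by
  have : R.U s ≤ Subgroup.centralizer (R.U t : Set E) := R.U_le fun p r c hp hr hne => by
    rw [Subgroup.mem_centralizer_iff]
    intro x hx
    have : R.U t ≤ Subgroup.centralizer {R.y p r c} := R.U_le fun p' r' d hp' hr' hne' => by
      rw [Subgroup.mem_centralizer_singleton_iff]
      have k : ∀ {i j : Fin m ⊕ Fin m}, cls i ∈ s → cls j ∈ t → j ≠ bar i := fun {i j} hi hj h' =>
        Finset.disjoint_left.1 hd hi (by rw [h', cls_bar] at hj; exact hj)
      exact (R.comm p r p' r' hne hne' ⟨k hp hp', k hr hp', k hp hr', k hr hr'⟩ c d).symm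
    exact Subgroup.mem_centralizer_singleton_iff.1 (this hx)
  exact ((Subgroup.mem_centralizer_iff.1 (this hg)) h hh).symm

/-- the roots fixing a basis vector -/
def P (t : Finset (Fin m)) (a : Fin m ⊕ Fin m) : Subgroup E :=
  Subgroup.closure {g | ∃ p r c, cls p ∈ t ∧ cls r ∈ t ∧ r ≠ bar p ∧ p ≠ bar a ∧ r ≠ bar a ∧ g = R.y p r c}

theorem P_mem {t : Finset (Fin m)} {a p r : Fin m ⊕ Fin m} (h : r ≠ bar p) (hp : cls p ∈ t) (hr : cls r ∈ t)
    (hpa : p ≠ bar a) (hra : r ≠ bar a) (c : F) : R.y p r c ∈ R.P t a :=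
  Subgroup.subset_closure ⟨p, r, c, hp, hr, h, hpa, hra, rfl⟩

theorem P_le_U (t : Finset (Fin m)) (a : Fin m ⊕ Fin m) : R.P t a ≤ R.U t := by
  rw [P, Subgroup.closure_le]
  rintro _ ⟨p, r, c, hp, hr, hne, -, -, rfl⟩
  exact R.y_mem hne hp hr c

theorem P_mono {s t : Finset (Fin m)} (h : s ⊆ t) (a : Fin m ⊕ Fin m) : R.P s a ≤ R.P t a := by
  rw [P, Subgroup.closure_le]
  rintro _ ⟨p, r, c, hp, hr, hne, hpa, hra, rfl⟩
  exact R.P_mem hne (h hp) (h hr) hpa hra c

include R in
theorem P_fix {t : Finset (Fin m)} {a : Fin m ⊕ Fin m} {g : E} (hg : g ∈ R.P t a) :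
    (π g).1 *ᵥ e a = (e a : Vm) := by
  induction hg using Subgroup.closure_induction with
  | mem g hg =>
    obtain ⟨p, r, c, -, -, hne, hpa, hra, rfl⟩ := hg
    rw [R.map p r hne]
    exact Y_fix_e hne c (bar_symm hpa) (bar_symm hra)
  | one => rw [map_one]; exact sp_one_mulVec _
  | mul g h _ _ hg hh => rw [map_mul, sp_mul_mulVec, hh, hg]
  | inv g _ hg => rw [map_inv]; conv_lhs => rw [← hg]
                  rw [sp_inv_mulVec]

theorem U_le_P {s t : Finset (Fin m)} {a : Fin m ⊕ Fin m} (h : s ⊆ t) (ha : cls a ∉ s) : R.U s ≤ R.P t a :=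
  R.U_le fun p r c hp hr hne => R.P_mem hne (h hp) (h hr) (fun e' => ha (by rw [← cls_bar a, ← e']; exact hp))
    (fun e' => ha (by rw [← cls_bar a, ← e']; exact hr)) c

/-- faithfulness on a set of classes -/
def Inj (t : Finset (Fin m)) : Prop := ∀ g ∈ R.U t, π g = 1 → g = 1

/-- stabilisers of basis vectors are generated by root elements -/
def Stab (t : Finset (Fin m)) : Prop :=
  ∀ a, cls a ∈ t → ∀ g ∈ R.U t, (π g).1 *ᵥ e a = (e a : Vm) → g ∈ R.P t a

theorem stab_of_inj {t : Finset (Fin m)} (hI : R.Inj t) : R.Stab t := by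
  intro a ha g hg hga
  obtain ⟨n, hn, h, hh, e'⟩ := stab_split ha (R.map_spOn hg) hga
  obtain ⟨h', hh', eh⟩ := R.exists_lift_U (spOn_le_Ys _ hh)
  have hP : (R.P t a).map π ≥ Ns a t := by
    rw [ge_iff_le, Ns, Subgroup.closure_le]
    rintro _ ⟨r, c, hr, hne, rfl⟩
    exact ⟨R.y a r c, R.P_mem hne ha hr (Ne.symm (bar_ne a)) hne c, R.map a r hne c⟩
  obtain ⟨n', hn', en⟩ := hP hn
  have hh'P : h' ∈ R.P t a := R.U_le_P (Finset.erase_subset _ _) (Finset.notMem_erase _ _) hh'
  have hmem := mul_mem hn' hh'P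
  have : g = n' * h' := mul_inv_eq_one.1 (hI _ (mul_mem hg (inv_mem (R.P_le_U t a hmem)))
    (by rw [map_mul, map_inv, map_mul, en, eh, e', mul_inv_cancel]))
  rw [this]; exact hmem

theorem stab_pair {t : Finset (Fin m)} {x y : Fin m} (ht : t ⊆ {x, y}) : R.Stab t :=
  R.stab_of_inj fun _ hg h1 => R.inj_small ht hg h1

/-- the roots through `a` -/
def N (a : Fin m ⊕ Fin m) (t : Finset (Fin m)) : Subgroup E :=
  Subgroup.closure {g | ∃ r c, cls r ∈ insert (cls a) t ∧ r ≠ bar a ∧ g = R.y a r c}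

theorem N_mem {a r : Fin m ⊕ Fin m} {t : Finset (Fin m)} (hne : r ≠ bar a) (hr : cls r ∈ insert (cls a) t) (c : F) :
    R.y a r c ∈ R.N a t :=
  Subgroup.subset_closure ⟨r, c, hr, hne, rfl⟩

theorem N_le_U {a : Fin m ⊕ Fin m} (t : Finset (Fin m)) : R.N a t ≤ R.U (insert (cls a) t) := by
  rw [N, Subgroup.closure_le]
  rintro _ ⟨r, c, hr, hne, rfl⟩
  exact R.y_mem hne (Finset.mem_insert_self _ _) hr c

theorem N_mono {a : Fin m ⊕ Fin m} {s t : Finset (Fin m)} (h : s ⊆ t) : R.N a s ≤ R.N a t := by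
  rw [N, Subgroup.closure_le]
  rintro _ ⟨r, c, hr, hne, rfl⟩
  exact R.N_mem hne (Finset.insert_subset_insert _ h hr) c

include R in
theorem N_coord {a : Fin m ⊕ Fin m} {t : Finset (Fin m)} {n : E} (hn : n ∈ R.N a t) :
    (π n).1 *ᵥ e a = (e a : Vm) ∧ ∀ x : Vm, x (bar a) = 0 → ∀ i, i ≠ a → ((π n).1 *ᵥ x) i = x i := by
  induction hn using Subgroup.closure_induction with
  | mem g hg =>
    obtain ⟨r, c, -, hne, rfl⟩ := hg
    rw [R.map a r hne]
    refine ⟨Y_fix_e hne c (Ne.symm (bar_ne a)) (bar_symm hne), fun x hx i hi => ?_⟩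
    by_cases har : a = r
    · subst har; rw [Y_long_coord, if_neg hi, add_zero]
    · rw [Y_short_coord hne har, if_neg hi, hx]; simp
  | one => rw [map_one]; exact ⟨sp_one_mulVec _, fun x _ i _ => by rw [sp_one_mulVec]⟩
  | mul g h _ _ hg hh =>
    rw [map_mul]
    refine ⟨by rw [sp_mul_mulVec, hh.1, hg.1], fun x hx i hi => ?_⟩
    rw [sp_mul_mulVec, hg.2 _ (by rw [hh.2 x hx _ (bar_ne a), hx]) i hi, hh.2 x hx i hi]
  | inv g _ hg =>
    rw [map_inv]
    refine ⟨by conv_lhs => rw [← hg.1]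
               rw [sp_inv_mulVec], fun x hx i hi => ?_⟩
    have hz : (((π g)⁻¹).1 *ᵥ x) (bar a) = 0 := by
      rw [coord_eq (((π g)⁻¹).1 *ᵥ x) (bar a), bar_bar, ← sp_B (π g), hg.1, sp_mulVec_inv, B_e_left, hx]
      simp
    have := hg.2 _ hz i hi
    rw [sp_mulVec_inv] at this
    exact this.symm

theorem N_inj {a : Fin m ⊕ Fin m} : ∀ t : Finset (Fin m), ∀ n ∈ R.N a t, π n = 1 → n = 1 := by
  intro t
  induction t using Finset.induction_on with
  | empty => exact fun n hn h1 => R.inj_small (x := cls a) (y := cls a) (by simp) (R.N_le_U _ hn) h1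
  | @insert c t hc ih =>
    intro n hn h1
    by_cases hca : c = cls a
    · subst hca
      have hle : R.N a (insert (cls a) t) ≤ R.N a t := by
        rw [N, Subgroup.closure_le]
        rintro _ ⟨r, d, hr, hne, rfl⟩
        exact R.N_mem hne (by rwa [Finset.insert_idem] at hr) d
      exact ih n (hle hn) h1
    have hdec : ∀ z ∈ R.N a (insert c t), ∃ x ∈ R.N a {c}, ∃ y ∈ R.N a t, z = x * y := by
      intro z0 hz0
      have hgen : ∀ r d, cls r ∈ insert (cls a) (insert c t) → r ≠ bar a → ∀ z : E,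
          (∃ x ∈ R.N a {c}, ∃ y ∈ R.N a t, z = x * y) → ∃ x ∈ R.N a {c}, ∃ y ∈ R.N a t, R.y a r d * z = x * y := by
        rintro r d hr hne _ ⟨x, hx, y, hy, rfl⟩
        by_cases hrc : cls r ∈ insert (cls a) ({c} : Finset (Fin m))
        · exact ⟨_, mul_mem (R.N_mem hne hrc d) hx, y, hy, (mul_assoc _ _ _).symm⟩
        · rw [Finset.mem_insert, Finset.mem_singleton, not_or] at hrc
          have hrt : cls r ∈ insert (cls a) t := by
            simp only [Finset.mem_insert] at hr ⊢
            tauto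
          have hcomm : R.y a r d * x = x * R.y a r d := by
            have : R.N a {c} ≤ Subgroup.centralizer {R.y a r d} := by
              rw [N, Subgroup.closure_le]
              rintro _ ⟨r', d', hr', hne', rfl⟩
              rw [SetLike.mem_coe, Subgroup.mem_centralizer_singleton_iff]
              refine R.comm _ _ _ _ hne' hne ⟨Ne.symm (bar_ne a), bar_symm hne', hne, fun h => ?_⟩ d' d
              simp only [Finset.mem_insert, Finset.mem_singleton] at hr'
              rw [h, cls_bar] at hrc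
              tauto
            exact (Subgroup.mem_centralizer_singleton_iff.1 (this hx)).symm
          exact ⟨x, hx, _, mul_mem (R.N_mem hne hrt d) hy, by rw [← mul_assoc, hcomm, mul_assoc]⟩
      induction hz0 using Subgroup.closure_induction_left with
      | one => exact ⟨1, one_mem _, 1, one_mem _, (one_mul 1).symm⟩
      | mul_left g hg z _ ihz =>
        obtain ⟨r, d, hr, hne, rfl⟩ := hg
        exact hgen r d hr hne z ihz
      | inv_mul_cancel g hg z _ ihz =>
        obtain ⟨r, d, hr, hne, rfl⟩ := hg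
        rw [R.y_inv hne]
        exact hgen r (-d) hr hne z ihz
    obtain ⟨x, hx, y, hy, rfl⟩ := hdec n hn
    have hx' : ∀ p, p ≠ bar a → (π x).1 *ᵥ e p = (e p : Vm) := by
      intro p hp
      by_cases hpa : p = a
      · rw [hpa]; exact (R.N_coord hx).1
      have hpc : cls p ≠ cls a := fun h => (eq_or_bar h).elim hpa hp
      by_cases hpt : cls p = c
      · have hy' : (π y⁻¹).1 *ᵥ e p = (e p : Vm) :=
          R.map_spOn (inv_mem (R.N_le_U _ hy)) p (by rw [Finset.mem_insert, hpt]; exact fun h => h.elim hca hc)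
        rw [map_inv, ← eq_inv_of_mul_eq_one_left ((map_mul π x y).symm.trans h1)] at hy'
        exact hy'
      · exact R.map_spOn (R.N_le_U _ hx) p (by
          rw [Finset.mem_insert, Finset.mem_singleton]; exact fun h => h.elim hpc hpt)
    set v : Vm := (π x).1 *ᵥ e (bar a) with hv
    have hxY : π x = Y a a (-(v a) / sg a) := by
      refine sp_ext_e fun p => ?_
      by_cases hp : p = bar a
      · subst hp
        funext i
        rw [← hv, Y_long_coord, e_self]
        by_cases hi : i = a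
        · subst hi
          rw [if_pos rfl, e_ne (bar_ne i).symm]
          field_simp [sg_ne (F := F) i]; ring
        · rw [if_neg hi, add_zero, hv, coord_eq ((π x).1 *ᵥ e (bar a)) i]
          conv_lhs => rw [← hx' (bar i) (fun h => hi (bar_inj.1 h)), sp_B]
          rw [← coord_eq]
      · rw [hx' p hp, Y_fix_e (Ne.symm (bar_ne a)) _ hp hp]
    have hxy : x = R.y a a (-(v a) / sg a) := by
      refine R.eq_of_map_eq (x := cls a) (y := c) (Finset.Subset.refl _) ?_ ?_ (hxY.trans (R.map a a (Ne.symm (bar_ne a)) _).symm)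
      · exact R.N_le_U _ hx
      · exact R.y_mem (Ne.symm (bar_ne a)) (Finset.mem_insert_self _ _) (Finset.mem_insert_self _ _) _
    exact ih _ (mul_mem (by rw [hxy]; exact R.N_mem (Ne.symm (bar_ne a)) (Finset.mem_insert_self _ _) _) hy) h1

theorem N_conj {a : Fin m ⊕ Fin m} {t : Finset (Fin m)} (ha : cls a ∉ t) {h : E} (hh : h ∈ R.U t) {n : E}
    (hn : n ∈ R.N a t) : h * n * h⁻¹ ∈ R.N a t := by
  have key : ∀ p q c, cls p ∈ t → cls q ∈ t → q ≠ bar p → ∀ n ∈ R.N a t, R.y p q c * n * (R.y p q c)⁻¹ ∈ R.N a t := by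
    intro p q c hp hq hne n hn
    have : R.N a t ≤ (R.N a t).comap (MulAut.conj (R.y p q c)).toMonoidHom := by
      rw [N, Subgroup.closure_le]
      rintro _ ⟨r, d, hr, hra, rfl⟩
      show R.y p q c * R.y a r d * (R.y p q c)⁻¹ ∈ R.N a t
      have hpa : cls p ≠ cls a := fun h => ha (h ▸ hp)
      have hqa : cls q ≠ cls a := fun h => ha (h ▸ hq)
      have hap : a ≠ bar p := fun h => hpa (by rw [h, cls_bar])
      have haq : a ≠ bar q := fun h => hqa (by rw [h, cls_bar])
      have main : ∀ p q : Fin m ⊕ Fin m, cls p ∈ t → q ≠ bar p → cls p ≠ cls a → cls q ≠ cls a → r = bar q →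
          cls p ≠ cls q → R.y p q c * R.y a r d * (R.y p q c)⁻¹ ∈ R.N a t := by
        intro p q hp hne hpa hqa hr' hpq
        subst hr'
        rw [R.symm a (bar q) hra, R.conj_out hpq hqa hpa, mul_inv_cancel_right,
          R.symm p a (ne_bar_of_cls hpa), ← R.symm a (bar q) hra]
        exact mul_mem (R.N_mem (ne_bar_of_cls hpa.symm) (Finset.mem_insert_of_mem hp) _) (R.N_mem hra hr d)
      by_cases hpq : p = q
      · subst hpq
        by_cases hrp : r = bar p
        · have har : a ≠ r := fun h => hpa (by rw [h, hrp, cls_bar])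
          subst hrp
          have hab : a ≠ p := ne_of_cls hpa.symm
          set g := Y p p c with hg
          have hga : (g : Spm).1 *ᵥ e a = e a := Y_fix_e hne c hap hap
          set k : F := -(c * sg p) with hk
          have hgr : (g : Spm).1 *ᵥ e (bar p) = k • e p + e (bar p) := by
            funext i
            rw [hg, Y_long_coord]
            simp only [Pi.add_apply, Pi.smul_apply, e_apply, smul_eq_mul, hk]
            split_ifs <;> ring
          have hB1 : B (e a) (k • e p : Vm) = 0 := by rw [B_smul_right, B_e_e (ne_bar_of_cls hpa.symm), mul_zero]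
          have hB2 : B (e a) (e (bar p) : Vm) = 0 := B_e_e hra
          have e3 : π (R.y p p c * R.y a (bar p) d * (R.y p p c)⁻¹) =
              Y a a (-(d * d * B (e (bar p)) (k • e p : Vm))) * (Y a p (k * d) * Y a (bar p) d) := by
            rw [map_mul, map_mul, map_inv, R.map p p hne, R.map a (bar p) hra, Y_short har, ← hg, S_conj, hga, hgr,
              S_add_right' hB1 hB2, Y_long, Y_short hab, S_symm hB1,
              S_smul_left (B_e_e (ne_bar_of_cls hpa)), S_symm (B_e_e (ne_bar_of_cls hpa))]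
          have hsa : cls a ∈ ({cls a, cls p} : Finset (Fin m)) := Finset.mem_insert_self _ _
          have hsp : cls p ∈ ({cls a, cls p} : Finset (Fin m)) := Finset.mem_insert_of_mem (Finset.mem_singleton_self _)
          have m1 := R.y_mem (Ne.symm (bar_ne a)) hsa hsa (-(d * d * B (e (bar p)) (k • e p : Vm)))
          have m2 := R.y_mem (ne_bar_of_cls hpa.symm) hsa hsp (k * d)
          have hsp' : cls (bar p) ∈ ({cls a, cls p} : Finset (Fin m)) := by rw [cls_bar]; exact hsp
          have m3 := R.y_mem hra hsa hsp' d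
          rw [R.eq_of_map_eq (x := cls a) (y := cls p) (Finset.Subset.refl _)
            (mul_mem (mul_mem (R.y_mem hne hsp hsp c) m3) (inv_mem (R.y_mem hne hsp hsp c)))
            (mul_mem m1 (mul_mem m2 m3)) (by
              rw [e3, map_mul, map_mul π (R.y a p _), R.map _ _ (Ne.symm (bar_ne a)), R.map _ _ (ne_bar_of_cls hpa.symm), R.map _ _ hra])]
          exact mul_mem (R.N_mem (Ne.symm (bar_ne a)) (Finset.mem_insert_self _ _) _)
            (mul_mem (R.N_mem (ne_bar_of_cls hpa.symm) (Finset.mem_insert_of_mem hp) _) (R.N_mem hra hr d))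
        · rw [R.comm p p a r hne hra ⟨hap, hap, hrp, hrp⟩, mul_inv_cancel_right]
          exact R.N_mem hra hr d
      have hpq' : cls p ≠ cls q := fun h => (eq_or_bar h).elim hpq (fun h' => hne (by rw [h', bar_bar]))
      by_cases hrq : r = bar q
      · exact main p q hp hne hpa hqa hrq hpq'
      by_cases hrp : r = bar p
      · rw [R.symm p q hne]
        exact main q p hq (bar_symm hne) hqa hpa hrp hpq'.symm
      rw [R.comm p q a r hne hra ⟨hap, haq, hrp, hrq⟩, mul_inv_cancel_right]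
      exact R.N_mem hra hr d
    exact this hn
  revert n
  induction hh using Subgroup.closure_induction_left with
  | one => intro n hn; simpa using hn
  | mul_left g hg z _ ihz =>
    obtain ⟨p, q, c, hp, hq, hne, rfl⟩ := hg
    intro n hn
    rw [show R.y p q c * z * n * (R.y p q c * z)⁻¹ = R.y p q c * (z * n * z⁻¹) * (R.y p q c)⁻¹ by group]
    exact key p q c hp hq hne _ (ihz hn)
  | inv_mul_cancel g hg z _ ihz =>
    obtain ⟨p, q, c, hp, hq, hne, rfl⟩ := hg
    intro n hn
    rw [R.y_inv hne, show R.y p q (-c) * z * n * (R.y p q (-c) * z)⁻¹ = R.y p q (-c) * (z * n * z⁻¹) * (R.y p q (-c))⁻¹ by group]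
    exact key p q (-c) hp hq hne _ (ihz hn)

theorem P_split {t : Finset (Fin m)} {a : Fin m ⊕ Fin m} {g : E} (hg : g ∈ R.P t a) :
    ∃ n ∈ R.N a (t.erase (cls a)), ∃ h ∈ R.U (t.erase (cls a)), g = n * h := by
  have hgen : ∀ p r c, cls p ∈ t → cls r ∈ t → r ≠ bar p → p ≠ bar a → r ≠ bar a → ∀ z : E,
      (∃ n ∈ R.N a (t.erase (cls a)), ∃ h ∈ R.U (t.erase (cls a)), z = n * h) →
      ∃ n ∈ R.N a (t.erase (cls a)), ∃ h ∈ R.U (t.erase (cls a)), R.y p r c * z = n * h := by
    rintro p r c hp hr hne hpa hra _ ⟨n, hn, h, hh, rfl⟩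
    have hins : ∀ {q}, cls q ∈ t → cls q ∈ insert (cls a) (t.erase (cls a)) := fun {q} hq => by
      simp only [Finset.mem_insert, Finset.mem_erase]
      tauto
    by_cases h1 : p = a
    · subst h1
      exact ⟨_, mul_mem (R.N_mem hra (hins hr) c) hn, h, hh, (mul_assoc _ _ _).symm⟩
    by_cases h2 : r = a
    · subst h2
      rw [R.symm p r hne]
      exact ⟨_, mul_mem (R.N_mem hpa (hins hp) c) hn, h, hh, (mul_assoc _ _ _).symm⟩
    have hmem : R.y p r c ∈ R.U (t.erase (cls a)) := R.y_mem hne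
      (Finset.mem_erase.2 ⟨fun h' => (eq_or_bar h').elim h1 hpa, hp⟩)
      (Finset.mem_erase.2 ⟨fun h' => (eq_or_bar h').elim h2 hra, hr⟩) c
    exact ⟨_, R.N_conj (Finset.notMem_erase _ _) hmem hn, _, mul_mem hmem hh, by group⟩
  induction hg using Subgroup.closure_induction_left with
  | one => exact ⟨1, one_mem _, 1, one_mem _, (one_mul 1).symm⟩
  | mul_left g hg z _ ihz =>
    obtain ⟨p, r, c, hp, hr, hne, hpa, hra, rfl⟩ := hg
    exact hgen p r c hp hr hne hpa hra z ihz
  | inv_mul_cancel g hg z _ ihz =>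
    obtain ⟨p, r, c, hp, hr, hne, hpa, hra, rfl⟩ := hg
    rw [R.y_inv hne]
    exact hgen p r (-c) hp hr hne hpa hra z ihz

theorem inj_of_stab {t : Finset (Fin m)} {a : Fin m ⊕ Fin m} (ha : cls a ∈ t) (hS : R.Stab t)
    (hI : R.Inj (t.erase (cls a))) : R.Inj t := by
  intro g hg h1
  obtain ⟨n, hn, h, hh, rfl⟩ := R.P_split (hS a ha g hg (by rw [h1]; exact sp_one_mulVec _))
  have hn1 : π n = 1 := by
    have e' : π n = π h⁻¹ := by rw [map_inv]; exact eq_inv_of_mul_eq_one_left ((map_mul π n h).symm.trans h1)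
    have hs : π n ∈ spOn (t.erase (cls a)) := by rw [e']; exact R.map_spOn (inv_mem hh)
    refine sp_ext_e fun p => ?_
    rw [sp_one_mulVec]
    by_cases hp : cls p = cls a
    · exact hs p (by rw [hp]; exact Finset.notMem_erase _ _)
    funext i
    by_cases hi : i = a
    · rw [spOn_coord hs _ (by rw [hi]; exact Finset.notMem_erase _ _)]
    · exact (R.N_coord hn).2 _ (e_ne (fun h' => hp (by rw [← h', cls_bar]))) i hi
  obtain rfl := R.N_inj _ n hn hn1
  rw [one_mul] at h1 ⊢
  exact hI h hh h1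

end Rels

end Cfsg.Agent.Suzuki.SpSt
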