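import Cfsg.Agent.Suzuki.SpInjective
import Cfsg.Agent.Suzuki.SpBlock
import Cfsg.Agent.Suzuki.SpFourSplit
import Mathlib

/-!
Lifting the symplectic root elements through central extensions, over fields with more than two elements.
-/

set_option autoImplicit false

namespace Cfsg.Agent.Suzuki.SpSt

open Matrix
open Cfsg.Agent.KnownB.Proj.Symp
open scoped commutatorElement

universe u v

variable {m : ℕ} {F : Type u} [Field F] {E : Type v} [Group E]

local notation "Vm" => (Fin m ⊕ Fin m → F)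
local notation "Spm" => Matrix.symplecticGroup (Fin m) F
local notation "Sp4" => Matrix.symplecticGroup (Fin 2) F

/-- the two indices of a block -/
def lo (p : Fin m ⊕ Fin m) : Fin 2 ⊕ Fin 2 := Sum.map (fun _ => 0) (fun _ => 0) p

/-- the two indices of a block -/
def hi (p : Fin m ⊕ Fin m) : Fin 2 ⊕ Fin 2 := Sum.map (fun _ => 1) (fun _ => 1) p

theorem pair_inj {a b : Fin m} (h : a ≠ b) : Function.Injective ![a, b] := by
  intro x y e'
  fin_cases x <;> fin_cases y <;> simp_all

theorem image_pair (a b : Fin m) : Finset.univ.image ![a, b] = {a, b} := by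
  ext x; simp [Fin.exists_fin_two, eq_comm]

theorem map_lo (p : Fin m ⊕ Fin m) (b : Fin m) : Sum.map ![cls p, b] ![cls p, b] (lo p) = p := by
  rcases p with p | p <;> rfl

theorem map_hi (p : Fin m ⊕ Fin m) (a : Fin m) : Sum.map ![a, cls p] ![a, cls p] (hi p) = p := by
  rcases p with p | p <;> rfl

theorem cases_block (a b : Fin m) (p : Fin 2 ⊕ Fin 2) :
    (cls (Sum.map ![a, b] ![a, b] p) = a ∧ lo (Sum.map ![a, b] ![a, b] p) = p) ∨
      (cls (Sum.map ![a, b] ![a, b] p) = b ∧ hi (Sum.map ![a, b] ![a, b] p) = p) := by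
  rcases p with p | p <;> fin_cases p <;> simp [lo, hi, cls]

/-- the block homomorphism of two classes -/
noncomputable def blk (a b : Fin m) (h : a ≠ b) : Sp4 →* Spm := ext ![a, b] (pair_inj h)

theorem blk_Y {a b : Fin m} (h : a ≠ b) (p r : Fin 2 ⊕ Fin 2) (c : F) :
    blk a b h (Y p r c) = Y (Sum.map ![a, b] ![a, b] p) (Sum.map ![a, b] ![a, b] r) c := ext_Y _ _ p r c

theorem mem_range_blk {a b : Fin m} (h : a ≠ b) {g : Spm} : g ∈ (blk (F := F) a b h).range ↔ g ∈ spOn ({a, b} : Finset (Fin m)) := by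
  rw [blk, range_ext, image_pair]

theorem blk_Y_short {p r : Fin m ⊕ Fin m} (h : cls p ≠ cls r) (c : F) :
    blk (cls p) (cls r) h (Y (lo p) (hi r) c) = Y p r c := by
  rw [blk_Y, map_lo, map_hi]

theorem blk_Y_long {p : Fin m ⊕ Fin m} {b : Fin m} (h : cls p ≠ b) (c : F) :
    blk (cls p) b h (Y (lo p) (lo p) c) = Y p p c := by
  rw [blk_Y, map_lo]

theorem mem_two {x : Fin m} {a b : Fin m} : x ∈ ({a, b} : Finset (Fin m)) ↔ x = a ∨ x = b := by
  simp only [Finset.mem_insert, Finset.mem_singleton]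

section

variable {π : E →* Matrix.symplecticGroup (Fin m) F}
  (σ : ∀ a b : Fin m, a ≠ b → (Matrix.symplecticGroup (Fin 2) F →* E))
  (hσ : ∀ a b h x, π (σ a b h x) = blk a b h x)
  (huniq : ∀ τ τ' : Matrix.symplecticGroup (Fin 2) F →* E, (∀ x, π (τ x) = π (τ' x)) → τ = τ')

include huniq hσ

theorem commute_block {a b : Fin m} (h : a ≠ b) {g : E}
    (hg : ∀ y ∈ spOn ({a, b} : Finset (Fin m)), π g * y = y * π g) (x : Sp4) : g * σ a b h x = σ a b h x * g := by
  have e' := huniq ((MulAut.conj g).toMonoidHom.comp (σ a b h)) (σ a b h) fun x => by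
    show π (g * σ a b h x * g⁻¹) = π (σ a b h x)
    rw [map_mul, map_mul, map_inv, hσ, hg _ ((mem_range_blk h).1 ⟨x, rfl⟩), mul_inv_cancel_right]
  have := DFunLike.congr_fun e' x
  simp only [MonoidHom.comp_apply, MulEquiv.coe_toMonoidHom, MulAut.conj_apply] at this
  exact mul_inv_eq_iff_eq_mul.1 this

theorem same_range {a b a' b' : Fin m} (h : a ≠ b) (h' : a' ≠ b')
    (hr : ∀ x, blk (F := F) a' b' h' x ∈ (blk (F := F) a b h).range) {x' x : Sp4} (e' : blk a' b' h' x' = blk a b h x) :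
    σ a' b' h' x' = σ a b h x := by
  have hinj : Function.Injective (blk (F := F) a b h) := ext_injective _ _
  choose f hf using hr
  let φ : Sp4 →* Sp4 := MonoidHom.mk' f fun y z => hinj (by rw [map_mul, hf, hf, hf, map_mul])
  have eτ := huniq ((σ a b h).comp φ) (σ a' b' h') fun y => by
    rw [MonoidHom.comp_apply, hσ, hσ]
    exact hf y
  rw [← eτ, MonoidHom.comp_apply]
  congr 1
  exact hinj ((hf x').trans e')

theorem swap_block {a b : Fin m} (h : a ≠ b) {x' x : Sp4} (e' : blk b a h.symm x' = blk a b h x) :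
    σ b a h.symm x' = σ a b h x :=
  same_range σ hσ huniq h h.symm (fun y => by
    rw [mem_range_blk, show ({a, b} : Finset (Fin m)) = {b, a} from Finset.pair_comm a b, ← mem_range_blk h.symm]
    exact ⟨y, rfl⟩) e'

theorem long_indep {p : Fin m ⊕ Fin m} {b c : Fin m} (hb : cls p ≠ b) (hc : cls p ≠ c) (d : F) :
    σ (cls p) b hb (Y (lo p) (lo p) d) = σ (cls p) c hc (Y (lo p) (lo p) d) := by
  classical
  by_cases hbc : b = c
  · subst hbc; rfl
  let bl : Fin m ⊕ Fin m := Sum.inl b
  let cl : Fin m ⊕ Fin m := Sum.inl c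
  obtain ⟨g, hg, g1, g2⟩ := exists_pair (t := {b, c}) (b := bl) (F := F) (show b ∈ ({b, c} : Finset (Fin m)) by simp)
    (supp_e (p := cl) (mem_two.2 (Or.inr rfl))) (supp_e (p := bar cl) (mem_two.2 (Or.inr (cls_bar cl))))
    (by rw [B_e_left, e_self, mul_one]; rfl)
  have hg' := Ys_le_spOn _ hg
  obtain ⟨x, hx⟩ := (mem_range_blk hbc).2 hg'
  set G := σ b c hbc x with hG
  have hpG : π G = g := by rw [hG, hσ, hx]
  have key : ∀ y, g * blk (cls p) b hb y * g⁻¹ ∈ (blk (F := F) (cls p) c hc).range := by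
    intro y
    suffices (blk (F := F) (cls p) b hb).range ≤
        (blk (F := F) (cls p) c hc).range.comap (MulAut.conj g).toMonoidHom by
      exact this ⟨y, rfl⟩
    intro z hz
    have hz' := spOn_le_Ys _ ((mem_range_blk hb).1 hz)
    revert z
    suffices Ys ({cls p, b} : Finset (Fin m)) ≤
        (blk (F := F) (cls p) c hc).range.comap (MulAut.conj g).toMonoidHom by
      exact fun z _ hz' => this hz'
    rw [Ys, Subgroup.closure_le]
    rintro _ ⟨s, r, d', hs, hr, hne, rfl⟩
    show g * Y s r d' * g⁻¹ ∈ (blk (F := F) (cls p) c hc).range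
    rw [mem_range_blk]
    have him : ∀ s : Fin m ⊕ Fin m, cls s ∈ ({cls p, b} : Finset (Fin m)) → ∃ s', cls s' ∈ ({cls p, c} : Finset (Fin m)) ∧ g.1 *ᵥ e s = (e s' : Vm) := by
      intro s hs
      rcases mem_two.1 hs with h | h
      · exact ⟨s, mem_two.2 (Or.inl h), hg' s (by rw [mem_two, h]; exact fun e' => e'.elim hb hc)⟩
      · rcases eq_or_bar (h.trans (show b = cls bl from rfl)) with rfl | rfl
        · exact ⟨cl, mem_two.2 (Or.inr rfl), g1⟩
        · exact ⟨bar cl, mem_two.2 (Or.inr (cls_bar cl)), g2⟩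
    obtain ⟨s', hs', es⟩ := him s hs
    obtain ⟨r', hr', er⟩ := him r hr
    have hne' : r' ≠ bar s' := by
      intro e'
      have : Cfsg.sympForm m F (e s' : Vm) (e r') = 0 := by rw [← es, ← er, sp_B, B_e_e hne]
      rw [e', B_e_left, e_self, mul_one] at this
      exact sg_ne s' this
    by_cases hsr : s = r
    · subst hsr
      rw [Y_long, T_conj, es, ← Y_long]
      exact Y_mem_spOn (bar_ne s').symm hs' hs' d'
    · rw [Y_short hsr, S_conj, es, er]
      by_cases h' : s' = r'
      · exfalso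
        subst h'
        have := es.trans er.symm
        have h2 := congrArg (fun v => (g⁻¹).1 *ᵥ v) this
        simp only [sp_inv_mulVec] at h2
        have h3 := congrFun h2 s
        rw [e_self, e_ne hsr] at h3
        exact one_ne_zero h3
      · rw [← Y_short h']
        exact Y_mem_spOn hne' hs' hr' d'
  choose f hf using key
  have hinj : Function.Injective (blk (F := F) (cls p) c hc) := ext_injective _ _
  let φ : Sp4 →* Sp4 := MonoidHom.mk' f fun y z => hinj (by
    rw [map_mul, hf, hf, hf, map_mul]; group)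
  have eτ := huniq ((MulAut.conj G).toMonoidHom.comp (σ (cls p) b hb)) ((σ (cls p) c hc).comp φ) fun y => by
    show π (G * σ (cls p) b hb y * G⁻¹) = π (σ (cls p) c hc (φ y))
    rw [map_mul, map_mul, map_inv, hσ (cls p) b, hσ (cls p) c, hpG]
    exact (hf y).symm
  have h1 := DFunLike.congr_fun eτ (Y (lo p) (lo p) d)
  simp only [MonoidHom.comp_apply, MulEquiv.coe_toMonoidHom, MulAut.conj_apply] at h1
  have hcom : σ (cls p) b hb (Y (lo p) (lo p) d) * G = G * σ (cls p) b hb (Y (lo p) (lo p) d) := by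
    refine commute_block σ hσ huniq hbc (g := σ (cls p) b hb (Y (lo p) (lo p) d)) (fun y hy => ?_) x
    rw [hσ, blk_Y_long]
    exact spOn_commute (s := {cls p}) (Finset.disjoint_singleton_left.2 (by rw [mem_two]; exact fun e' => e'.elim hb hc))
      (Y_mem_spOn (bar_ne p).symm (by simp) (by simp) d) hy
  rw [← hcom, mul_inv_cancel_right] at h1
  rw [h1]
  congr 1
  refine hinj ?_
  rw [show φ (Y (lo p) (lo p) d) = f (Y (lo p) (lo p) d) from rfl, hf, blk_Y_long, blk_Y_long, Y_long, T_conj,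
    hg' p (by rw [mem_two]; exact fun e' => e'.elim hb hc)]

omit huniq in
theorem map_range_inj {a b : Fin m} (h : a ≠ b) {g : E} (hg : g ∈ (σ a b h).range) (h1 : π g = 1) : g = 1 := by
  obtain ⟨x, rfl⟩ := hg
  rw [hσ] at h1
  rw [(injective_iff_map_eq_one (blk (F := F) a b h)).1 (ext_injective _ _) x h1, map_one]

end

theorem exists_rels [Fintype F] (hm : 2 ≤ m) (hq : 3 ≤ Fintype.card F) (π : E →* Matrix.symplecticGroup (Fin m) F)
    (hπ : Function.Surjective π) (hk : π.ker ≤ Subgroup.center E) : Nonempty (Rels π) := by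
  classical
  have hsplit := splits_Sp4.{u, max u v} (F := F) hq
  have hperf : commutator Sp4 = ⊤ := Cfsg.Agent.S0269.result 2 (Or.inr (Or.inl ⟨rfl, hq⟩))
  have hlift := fun f : Sp4 →* Spm => StLift.exists_unique_lift hsplit hperf π hπ hk f
  choose L hL using fun f => (hlift f).exists
  let σ : ∀ a b : Fin m, a ≠ b → (Sp4 →* E) := fun a b h => L (blk a b h)
  have hσ : ∀ a b h x, π (σ a b h x) = blk a b h x := fun a b h x => DFunLike.congr_fun (hL (blk a b h)) x
  have huniq : ∀ τ τ' : Sp4 →* E, (∀ x, π (τ x) = π (τ' x)) → τ = τ' := fun τ τ' h =>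
    (hlift (π.comp τ')).unique (MonoidHom.ext h) rfl
  have hoth : ∀ a : Fin m, ∃ b : Fin m, a ≠ b := fun a => by
    have : Nontrivial (Fin m) := Fin.nontrivial_iff_two_le.2 hm
    obtain ⟨b, hb⟩ := exists_ne a
    exact ⟨b, hb.symm⟩
  choose oth hoth using hoth
  let y : Fin m ⊕ Fin m → Fin m ⊕ Fin m → F → E := fun p r c =>
    if h : cls p = cls r then σ (cls p) (oth (cls p)) (hoth _) (Y (lo p) (lo p) c)
    else σ (cls p) (cls r) h (Y (lo p) (hi r) c)
  have ys : ∀ {p r} (h : cls p ≠ cls r) c, y p r c = σ (cls p) (cls r) h (Y (lo p) (hi r) c) := fun h c => dif_neg h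
  have yl : ∀ p c, y p p c = σ (cls p) (oth (cls p)) (hoth _) (Y (lo p) (lo p) c) := fun p c => dif_pos rfl
  have same : ∀ {p r : Fin m ⊕ Fin m}, r ≠ bar p → cls p = cls r → r = p := fun hne h =>
    (eq_or_bar h.symm).resolve_right hne
  have hmap : ∀ p r, r ≠ bar p → ∀ c, π (y p r c) = Y p r c := by
    intro p r hne c
    by_cases h : cls p = cls r
    · obtain rfl := same hne h
      rw [yl, hσ, blk_Y_long]
    · rw [ys h, hσ, blk_Y_short]
  have mem : ∀ {a b : Fin m} (h : a ≠ b) {p r}, cls p ∈ ({a, b} : Finset (Fin m)) → cls r ∈ ({a, b} : Finset (Fin m)) →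
      r ≠ bar p → ∀ c, y p r c ∈ (σ a b h).range := by
    intro a b h p r hp hr hne c
    rw [mem_two] at hp hr
    by_cases hpr : cls p = cls r
    · obtain rfl := same hne hpr
      rw [yl]
      rcases hp with hp | hp <;> subst hp
      · rw [long_indep σ hσ huniq (hoth _) h]; exact ⟨_, rfl⟩
      · rw [long_indep σ hσ huniq (hoth _) h.symm,
          swap_block σ hσ huniq h (x := Y (hi r) (hi r) c) (by rw [blk_Y_long, blk_Y, map_hi])]
        exact ⟨_, rfl⟩
    rw [ys hpr]
    rcases hp with rfl | rfl <;> rcases hr with hr | hr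
    · exact absurd hr.symm hpr
    · subst hr; exact ⟨_, rfl⟩
    · subst hr
      rw [swap_block σ hσ huniq h (x := Y (hi p) (lo r) c) (by rw [blk_Y_short, blk_Y, map_hi, map_lo])]
      exact ⟨_, rfl⟩
    · exact absurd hr.symm hpr
  have inj2 : ∀ a b : Fin m, ∀ g ∈ Subgroup.closure {g | ∃ p r c, cls p ∈ ({a, b} : Finset (Fin m)) ∧
      cls r ∈ ({a, b} : Finset (Fin m)) ∧ r ≠ bar p ∧ g = y p r c}, π g = 1 → g = 1 := by
    intro a b g hg h1
    obtain ⟨a', b', hab, hsub⟩ : ∃ a' b', ∃ _ : a' ≠ b', ({a, b} : Finset (Fin m)) ⊆ {a', b'} := by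
      by_cases h : a = b
      · exact ⟨a, oth a, hoth a, by simp [h]⟩
      · exact ⟨a, b, h, Finset.Subset.refl _⟩
    refine map_range_inj σ hσ hab ((Subgroup.closure_le _).2 ?_ hg) h1
    rintro _ ⟨p, r, c, hp, hr, hne, rfl⟩
    exact mem hab (hsub hp) (hsub hr) hne c
  have eqr : ∀ {a b : Fin m} (h : a ≠ b) {g g' : E}, g ∈ (σ a b h).range → g' ∈ (σ a b h).range → π g = π g' → g = g' :=
    fun {a b} h {g g'} hg hg' e' =>
      mul_inv_eq_one.1 (map_range_inj σ hσ h (mul_mem hg (inv_mem hg')) (by rw [map_mul, map_inv, e', mul_inv_cancel]))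
  have symm : ∀ p r, r ≠ bar p → ∀ c, y p r c = y r p c := by
    intro p r hne c
    by_cases h : cls p = cls r
    · rw [same hne h]
    exact eqr h (mem h (mem_two.2 (Or.inl rfl)) (mem_two.2 (Or.inr rfl)) hne c)
      (mem h (mem_two.2 (Or.inr rfl)) (mem_two.2 (Or.inl rfl)) (bar_symm hne) c)
      (by rw [hmap _ _ hne, hmap _ _ (bar_symm hne), Y_symm hne])
  have yadd : ∀ {p r}, cls p ≠ cls r → ∀ c d, y p r c * y p r d = y p r (c + d) := by
    intro p r h c d
    rw [ys h, ys h, ys h, ← map_mul, Y_add]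
    intro e'
    have := congrArg cls e'
    rw [cls_bar] at this
    rcases p with p | p <;> rcases r with r | r <;> simp [lo, hi, cls] at this
  obtain ⟨μ, hμ0, hμ1⟩ := Forms.exists_ne_zero_one hq
  have torus : ∀ p r : Fin m ⊕ Fin m, cls p ≠ cls r → ∃ G : E,
      (π G).1 *ᵥ e r = μ • (e r : Vm) ∧ (∀ k, cls k ≠ cls r → (π G).1 *ᵥ e k = (e k : Vm)) ∧
        ∀ c, G * y p r c * G⁻¹ = y p r (μ * c) := by
    intro p r hpr
    obtain ⟨g, hg, g1, g2⟩ := exists_pair (t := {cls r}) (b := r) (F := F) (v := μ • e r) (w := μ⁻¹ • e (bar r))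
      (by simp) (fun i hi => by rw [Pi.smul_apply, e_ne (fun h => hi (by rw [h]; simp)), smul_zero])
      (fun i hi => by rw [Pi.smul_apply, e_ne (fun h => hi (by rw [h, cls_bar]; simp)), smul_zero])
      (by rw [B_smul_left, B_smul_right, B_e_left, e_self, mul_one, ← mul_assoc, mul_inv_cancel₀ hμ0, one_mul])
    have hg' := Ys_le_spOn _ hg
    have hfix : ∀ k, cls k ≠ cls r → g.1 *ᵥ e k = (e k : Vm) := fun k hk => hg' k (by simpa using hk)
    obtain ⟨x, hx⟩ := (mem_range_blk hpr).2 (fun k hk => hfix k (fun h => hk (mem_two.2 (Or.inr h))))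
    have hG : π (σ (cls p) (cls r) hpr x) = g := by rw [hσ, hx]
    refine ⟨σ (cls p) (cls r) hpr x, by rw [hG]; exact g1, fun k hk => by rw [hG]; exact hfix k hk, fun c => ?_⟩
    have hne : r ≠ bar p := ne_bar_of_cls hpr
    have hne' : p ≠ r := ne_of_cls hpr
    refine eqr hpr (mul_mem (mul_mem ⟨x, rfl⟩ (mem hpr (mem_two.2 (Or.inl rfl)) (mem_two.2 (Or.inr rfl)) hne c))
      (inv_mem ⟨x, rfl⟩)) (mem hpr (mem_two.2 (Or.inl rfl)) (mem_two.2 (Or.inr rfl)) hne _) ?_
    rw [map_mul, map_mul, map_inv, hG, hmap _ _ hne, hmap _ _ hne, Y_short hne', Y_short hne', S_conj, hfix p hpr, g1,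
      S_symm (by rw [B_smul_right, B_e_e hne, mul_zero]), S_smul_left (B_e_e (bar_symm hne)), S_symm (B_e_e (bar_symm hne))]
  have comm : ∀ p r p' r', r ≠ bar p → r' ≠ bar p' → Free p r p' r' → ∀ c d, y p r c * y p' r' d = y p' r' d * y p r c := by
    intro p r p' r' hne hne' hf c d
    have disj : ∀ (p r p' r' : Fin m ⊕ Fin m), r ≠ bar p → cls p' ≠ cls r' → cls p' ∉ ({cls p, cls r} : Finset (Fin m)) →
        cls r' ∉ ({cls p, cls r} : Finset (Fin m)) → ∀ c d, y p r c * y p' r' d = y p' r' d * y p r c := by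
      intro p r p' r' hne h h1 h2 c d
      rw [ys h]
      refine commute_block σ hσ huniq h (fun z hz => ?_) _
      rw [hmap p r hne]
      refine spOn_commute (s := {cls p, cls r}) (Finset.disjoint_right.2 fun x hx => ?_)
        (Y_mem_spOn hne (mem_two.2 (Or.inl rfl)) (mem_two.2 (Or.inr rfl)) c) hz
      rcases mem_two.1 hx with rfl | rfl
      · exact h1
      · exact h2
    have two : ∀ a b : Fin m, cls p ∈ ({a, b} : Finset (Fin m)) → cls r ∈ ({a, b} : Finset (Fin m)) →
        cls p' ∈ ({a, b} : Finset (Fin m)) → cls r' ∈ ({a, b} : Finset (Fin m)) →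
        y p r c * y p' r' d = y p' r' d * y p r c := by
      intro a b h1 h2 h3 h4
      have m1 : ∀ {p r}, cls p ∈ ({a, b} : Finset (Fin m)) → cls r ∈ ({a, b} : Finset (Fin m)) → r ≠ bar p → ∀ c,
          y p r c ∈ Subgroup.closure {g | ∃ p r c, cls p ∈ ({a, b} : Finset (Fin m)) ∧
            cls r ∈ ({a, b} : Finset (Fin m)) ∧ r ≠ bar p ∧ g = y p r c} := fun hp hr h c =>
        Subgroup.subset_closure ⟨_, _, c, hp, hr, h, rfl⟩
      refine mul_inv_eq_one.1 (inj2 a b _ (mul_mem (mul_mem (m1 h1 h2 hne c) (m1 h3 h4 hne' d))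
        (inv_mem (mul_mem (m1 h3 h4 hne' d) (m1 h1 h2 hne c)))) ?_)
      rw [map_mul, map_inv, map_mul, map_mul, hmap _ _ hne, hmap _ _ hne', Y_comm hne hf, mul_inv_cancel]
    have shared : ∀ (p r r' : Fin m ⊕ Fin m), cls p ≠ cls r → cls p ≠ cls r' → cls r ≠ cls r' →
        ∀ c d, y p r c * y p r' d = y p r' d * y p r c := by
      intro p r r' h h' hrr c d
      obtain ⟨G, g1, gfix, gconj⟩ := torus p r' h'
      rw [← commutatorElement_eq_one_iff_mul_comm]
      have cen : ∀ a b (z : E), ⁅y p r a, y p r' b⁆ * z = z * ⁅y p r a, y p r' b⁆ := fun a b z =>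
        (StLift.central_of_map_one hk (by
          rw [map_commutatorElement, hmap _ _ (ne_bar_of_cls h), hmap _ _ (ne_bar_of_cls h'),
            commutatorElement_eq_one_iff_mul_comm]
          exact Y_comm (ne_bar_of_cls h) ⟨(bar_ne p).symm, fun e' => h (by rw [e', cls_bar]), ne_bar_of_cls h', fun e' => hrr (by rw [e', cls_bar])⟩ a b) z).symm
      refine StLift.biadd_zero_of_weight (fun a b => ⁅y p r a, y p r' b⁆) (fun a b b' => ?_)
        (fun a b b' => cen a b _) hμ1 (fun a b => ?_) c d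
      · rw [← yadd h' b b', show ∀ x u v : E, ⁅x, u * v⁆ = ⁅x, u⁆ * (u * ⁅x, v⁆ * u⁻¹) from fun x u v => by
          simp [commutatorElement_def, mul_assoc], ← cen a b' (y p r' b), mul_inv_cancel_right]
      · have e1 : G * ⁅y p r a, y p r' b⁆ * G⁻¹ = ⁅y p r a, y p r' b⁆ := by rw [← cen, mul_inv_cancel_right]
        have e2 : π (G * y p r a * G⁻¹) = π (y p r a) := by
          rw [map_mul, map_mul, map_inv, hmap _ _ (ne_bar_of_cls h), Y_conj_fix (gfix p h') (gfix r hrr)]
        show ⁅y p r a, y p r' (μ * b)⁆ = ⁅y p r a, y p r' b⁆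
        rw [← gconj, ← StLift.comm_congr hk e2 (rfl : π (G * y p r' b * G⁻¹) = π (G * y p r' b * G⁻¹)),
          show ⁅G * y p r a * G⁻¹, G * y p r' b * G⁻¹⁆ = G * ⁅y p r a, y p r' b⁆ * G⁻¹ by
            simp [commutatorElement_def, mul_assoc], e1]
    by_cases h1 : cls p = cls r
    · by_cases h2 : cls p' = cls r'
      · exact two (cls p) (cls p') (by simp) (by simp [← h1]) (by simp) (by simp [← h2])
      · by_cases h3 : cls p' = cls p
        · exact two (cls p) (cls r') (by simp) (by simp [← h1]) (by simp [h3]) (by simp)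
        by_cases h4 : cls r' = cls p
        · exact two (cls p) (cls p') (by simp) (by simp [← h1]) (by simp) (by simp [h4])
        exact disj p r p' r' hne h2 (by simp [← h1, h3]) (by simp [← h1, h4]) c d
    by_cases h2 : cls p' = cls r'
    · by_cases h3 : cls p = cls p'
      · exact two (cls p) (cls r) (by simp) (by simp) (by simp [h3]) (by simp [← h2, h3])
      by_cases h4 : cls r = cls p'
      · exact two (cls p) (cls r) (by simp) (by simp) (by simp [h4]) (by simp [← h2, h4])
      exact (disj p' r' p r hne' h1 (by simp [← h2, h3]) (by simp [← h2, h4]) d c).symm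
    by_cases hsub : cls p' ∈ ({cls p, cls r} : Finset (Fin m)) ∧ cls r' ∈ ({cls p, cls r} : Finset (Fin m))
    · exact two (cls p) (cls r) (by simp) (by simp) hsub.1 hsub.2
    by_cases hd : cls p' ∉ ({cls p, cls r} : Finset (Fin m)) ∧ cls r' ∉ ({cls p, cls r} : Finset (Fin m))
    · exact disj p r p' r' hne h2 hd.1 hd.2 c d
    simp only [mem_two] at hsub hd
    obtain ⟨f1, f2, f3, f4⟩ := hf
    by_cases a1 : cls p' = cls p
    · obtain rfl := (eq_or_bar a1).resolve_right f1
      exact shared p' r r' h1 h2 (fun e' => hsub ⟨Or.inl rfl, Or.inr e'.symm⟩) c d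
    by_cases a2 : cls p' = cls r
    · obtain rfl := (eq_or_bar a2).resolve_right f2
      rw [symm p p' hne]
      exact shared p' p r' (Ne.symm h1) h2 (fun e' => hsub ⟨Or.inr rfl, Or.inl e'.symm⟩) c d
    by_cases a3 : cls r' = cls p
    · obtain rfl := (eq_or_bar a3).resolve_right f3
      rw [symm p' r' hne']
      exact shared r' r p' h1 (Ne.symm h2) (fun e' => a2 e'.symm) c d
    by_cases a4 : cls r' = cls r
    · obtain rfl := (eq_or_bar a4).resolve_right f4
      rw [symm p r' hne, symm p' r' hne']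
      exact shared r' p p' (Ne.symm h1) (Ne.symm h2) (fun e' => a1 e'.symm) c d
    exact absurd ⟨fun e' => e'.elim a1 a2, fun e' => e'.elim a3 a4⟩ hd
  have comm3 : ∀ p r s, cls p ≠ cls r → cls r ≠ cls s → cls p ≠ cls s → ∀ c d,
      ⁅y p r c, y (bar r) s d⁆ = y p s (sg (bar r) * c * d) := by
    intro p r s hpr hrs hps c d
    have hrs' : cls (bar r) ≠ cls s := by rwa [cls_bar]
    let z : F → F → E := fun d c => ⁅y p r c, y (bar r) s d⁆ * (y p s (sg (bar r) * c * d))⁻¹
    have zc : ∀ d c (x : E), z d c * x = x * z d c := fun d c x => (StLift.central_of_map_one hk (by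
      rw [map_mul, map_inv, map_commutatorElement, hmap _ _ (ne_bar_of_cls hpr), hmap _ _ (ne_bar_of_cls hrs'),
        hmap _ _ (ne_bar_of_cls hps), Y_comm3 hpr hrs hps, mul_inv_cancel]) x).symm
    have ez : ∀ d c, ⁅y p r c, y (bar r) s d⁆ = z d c * y p s (sg (bar r) * c * d) := fun d c =>
      (inv_mul_cancel_right _ _).symm
    suffices h : z d c = 1 by rw [ez, h, one_mul]
    refine StLift.biadd_zero_of_weight z (fun d a b => ?_) (fun d a b => zc d a _) hμ1 (fun d a => ?_) d c
    · have e1 : ⁅y p r (a + b), y (bar r) s d⁆ = y p r a * ⁅y p r b, y (bar r) s d⁆ * (y p r a)⁻¹ * ⁅y p r a, y (bar r) s d⁆ := by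
        rw [← yadd hpr a b]; simp [commutatorElement_def, mul_assoc]
      have e2 : y p r a * y p s (sg (bar r) * b * d) = y p s (sg (bar r) * b * d) * y p r a :=
        comm _ _ _ _ (ne_bar_of_cls hpr) (ne_bar_of_cls hps) ⟨(bar_ne p).symm, fun e' => hpr (by rw [e', cls_bar]),
          ne_bar_of_cls hps, fun e' => hrs (by rw [e', cls_bar])⟩ _ _
      rw [ez, ez, ez, ← mul_assoc (y p r a), ← zc d b (y p r a), mul_assoc (z d b), e2,
        show z d b * (y p s (sg (bar r) * b * d) * y p r a) * (y p r a)⁻¹ = z d b * y p s (sg (bar r) * b * d) by group,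
        show ∀ u v : E, z d b * u * (z d a * v) = z d a * z d b * (u * v) from fun u v => by
          rw [mul_assoc (z d b), ← mul_assoc u, ← zc d a u, ← mul_assoc, ← mul_assoc, ← zc d a (z d b)]; group,
        yadd hps, show sg (bar r) * b * d + sg (bar r) * a * d = sg (bar r) * (a + b) * d by ring] at e1
      exact mul_right_cancel e1
    · obtain ⟨G, g1, gfix, gconj⟩ := torus s p hps.symm
      have e1 : G * z d a * G⁻¹ = z d a := by rw [← zc, mul_inv_cancel_right]
      have e2 : π (G * y p r a * G⁻¹) = π (y p r (μ * a)) := by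
        rw [map_mul, map_mul, map_inv, hmap _ _ (ne_bar_of_cls hpr), hmap _ _ (ne_bar_of_cls hpr),
          Y_short (ne_of_cls hpr), S_conj, g1, gfix r hpr.symm, S_smul_left (B_e_e (ne_bar_of_cls hpr)),
          Y_short (ne_of_cls hpr)]
      have e3 : π (G * y (bar r) s d * G⁻¹) = π (y (bar r) s d) := by
        rw [map_mul, map_mul, map_inv, hmap _ _ (ne_bar_of_cls hrs'),
          Y_conj_fix (gfix (bar r) (by rw [cls_bar]; exact hpr.symm)) (gfix s hps.symm)]
      have e4 : G * y p s (sg (bar r) * a * d) * G⁻¹ = y p s (sg (bar r) * (μ * a) * d) := by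
        rw [symm p s (ne_bar_of_cls hps), gconj, ← symm p s (ne_bar_of_cls hps)]; ring_nf
      conv_rhs => rw [← e1]
      show ⁅y p r (μ * a), y (bar r) s d⁆ * (y p s (sg (bar r) * (μ * a) * d))⁻¹ = G * z d a * G⁻¹
      rw [← e4, ← StLift.comm_congr hk e2 e3]
      simp only [z, commutatorElement_def]
      group
  exact ⟨⟨y, hmap, symm, inj2, comm, comm3⟩⟩

end Cfsg.Agent.Suzuki.SpSt
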