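import Cfsg.Agent.KnownA.Cover.FiniteField
import Cfsg.Agent.KnownA.Cover.Cases

/-!
Central extensions of the group presented by Steinberg's relators: generalities on lifted root elements.
-/

set_option autoImplicit false

universe u v

namespace Cfsg.Agent.Suzuki.StLift

open Cfsg.Lie Cfsg.Agent.Chev Cfsg.Agent.KnownA.Cover
open scoped commutatorElement

section Central

variable {E Q : Type*} [Group E] [Group Q] {π : E →* Q} (hπ : Function.Surjective π)
  (hk : π.ker ≤ Subgroup.center E)

/-- the chosen preimage -/
noncomputable def lift (g : Q) : E := Function.surjInv hπ g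

theorem map_lift (g : Q) : π (lift hπ g) = g := Function.surjInv_eq hπ g

/-- the commutator of two preimages -/
noncomputable def lc (g k : Q) : E := ⁅lift hπ g, lift hπ k⁆

include hk in
theorem central_of_map_one {z : E} (hz : π z = 1) (x : E) : x * z = z * x :=
  Subgroup.mem_center_iff.1 (hk (MonoidHom.mem_ker.2 hz)) x

include hk in
theorem conj_of_map_eq {a a' : E} (ha : π a = π a') (x : E) :
    a * x * a⁻¹ = a' * x * a'⁻¹ := by
  have e := central_of_map_one hk (z := a'⁻¹ * a) (by rw [map_mul, map_inv, ha, inv_mul_cancel]) x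
  rw [show a = a' * (a'⁻¹ * a) by group, show a' * (a'⁻¹ * a) * x * (a' * (a'⁻¹ * a))⁻¹ =
    a' * ((a'⁻¹ * a) * x * (a'⁻¹ * a)⁻¹) * a'⁻¹ by group, ← e, mul_inv_cancel_right]

include hk in
theorem comm_congr {a a' b b' : E} (ha : π a = π a') (hb : π b = π b') : ⁅a, b⁆ = ⁅a', b'⁆ := by
  have e1 : ⁅a, b⁆ = ⁅a', b⁆ := by
    rw [commutatorElement_def, commutatorElement_def, conj_of_map_eq hk ha b]
  have e2 : b * a'⁻¹ * b⁻¹ = b' * a'⁻¹ * b'⁻¹ := conj_of_map_eq hk hb _
  rw [e1, commutatorElement_def, commutatorElement_def, show a' * b * a'⁻¹ * b⁻¹ = a' * (b * a'⁻¹ * b⁻¹) by group,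
    e2]
  group

include hk in
theorem lc_map (a b : E) : ⁅a, b⁆ = lc hπ (π a) (π b) :=
  comm_congr hk (map_lift hπ _).symm (map_lift hπ _).symm

theorem map_lc (g k : Q) : π (lc hπ g k) = ⁅g, k⁆ := by
  rw [lc, map_commutatorElement, map_lift, map_lift]

include hk in
theorem lc_mul_left (g g' k : Q) :
    lc hπ (g * g') k = lift hπ g * lc hπ g' k * (lift hπ g)⁻¹ * lc hπ g k := by
  rw [lc, lc, lc, show lift hπ g * ⁅lift hπ g', lift hπ k⁆ * (lift hπ g)⁻¹ * ⁅lift hπ g, lift hπ k⁆ =
      ⁅lift hπ g * lift hπ g', lift hπ k⁆ by simp [commutatorElement_def, mul_assoc]]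
  exact comm_congr hk (by simp [map_lift]) rfl

include hk in
theorem lc_mul_right (g k k' : Q) :
    lc hπ g (k * k') = lc hπ g k * (lift hπ k * lc hπ g k' * (lift hπ k)⁻¹) := by
  rw [lc, lc, lc, show ⁅lift hπ g, lift hπ k⁆ * (lift hπ k * ⁅lift hπ g, lift hπ k'⁆ * (lift hπ k)⁻¹) =
      ⁅lift hπ g, lift hπ k * lift hπ k'⁆ by simp [commutatorElement_def, mul_assoc]]
  exact comm_congr hk rfl (by simp [map_lift])

include hk in
theorem lc_conj (x : E) (g k : Q) :
    x * lc hπ g k * x⁻¹ = lc hπ (π x * g * (π x)⁻¹) (π x * k * (π x)⁻¹) := by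
  rw [lc, lc, show x * ⁅lift hπ g, lift hπ k⁆ * x⁻¹ = ⁅x * lift hπ g * x⁻¹, x * lift hπ k * x⁻¹⁆ by
    simp [commutatorElement_def, mul_assoc]]
  exact comm_congr hk (by simp [map_lift]) (by simp [map_lift])

include hk in
theorem lc_central {g k : Q} (h : g * k = k * g) (x : E) : x * lc hπ g k * x⁻¹ = lc hπ g k := by
  rw [central_of_map_one hk (by rw [map_lc, commutatorElement_eq_one_iff_mul_comm.2 h]) x, mul_inv_cancel_right]

theorem lc_swap (g k : Q) : lc hπ k g = (lc hπ g k)⁻¹ := by
  rw [lc, lc, commutatorElement_inv]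

include hk in
theorem lift_commute {a b : E} (h : lc hπ (π a) (π b) = 1) : a * b = b * a :=
  commutatorElement_eq_one_iff_mul_comm.1 ((lc_map hπ hk a b).trans h)

include hk in
theorem lc_self (g : Q) : lc hπ g g = 1 := commutatorElement_self _

include hk in
theorem lc_one_left (k : Q) : lc hπ 1 k = 1 := by
  rw [lc, comm_congr hk (a' := 1) (b' := lift hπ k) (by rw [map_lift, map_one]) rfl,
    commutatorElement_one_left]

/-- an element commuting with lifts of two elements commutes with their commutator -/
theorem commute_commutator {a b x : E} (ha : x * a = a * x) (hb : x * b = b * x) :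
    x * ⁅a, b⁆ = ⁅a, b⁆ * x :=
  have ha' : Commute x a := ha
  have hb' : Commute x b := hb
  ((ha'.mul_right hb').mul_right ha'.inv_right).mul_right hb'.inv_right

end Central

/-- weight pairs killing biadditive maps -/
theorem biadd_zero_of_weight {K : Type*} [Field K] {M : Type*} [Group M] (f : K → K → M)
    (hr : ∀ a b b', f a (b + b') = f a b * f a b')
    (hcomm : ∀ a b b', f a b * f a b' = f a b' * f a b)
    {μ : K} (hμ : μ ≠ 1) (hinv : ∀ a b, f a (μ * b) = f a b) (a b : K) : f a b = 1 := by
  have key : ∀ c, f a ((μ - 1) * c) = 1 := fun c => by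
    have h := hr a ((μ - 1) * c) c
    rw [show (μ - 1) * c + c = μ * c by ring, hinv] at h
    exact right_eq_mul.1 h
  have := key (b / (μ - 1))
  rwa [mul_div_cancel₀ _ (sub_ne_zero.2 hμ)] at this

/-- biadditive maps invariant under two adjacent scalars vanish -/
theorem biadd_zero_of_scalar {K : Type*} [Field K] {M : Type*} [Group M]
    (f : K → K → M) (hl : ∀ a a' b, f (a + a') b = f a b * f a' b)
    (hr : ∀ a b b', f a (b + b') = f a b * f a b')
    {x : K} (hx0 : x ≠ 0) (hx1 : x + 1 ≠ 0) (hx : x * x + x + 1 ≠ 0)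
    (h0 : ∀ a b, f (x * a) (x * b) = f a b) (h1 : ∀ a b, f ((x + 1) * a) ((x + 1) * b) = f a b) (a b : K) :
    f a b = 1 := by
  have key : ∀ c, f a (c * ((x + 1)⁻¹ - x⁻¹ - 1)) = 1 := by
    intro c
    have e1 : f ((x + 1) * a) c = f (x * a) c * f a c := by rw [← hl, add_mul, one_mul]
    have a1 : f ((x + 1) * a) c = f a (c / (x + 1)) := by rw [← h1 a (c / (x + 1)), mul_div_cancel₀ _ hx1]
    have a2 : f (x * a) c = f a (c / x) := by rw [← h0 a (c / x), mul_div_cancel₀ _ hx0]
    rw [a1, a2, ← hr] at e1
    have e2 : f a (c * ((x + 1)⁻¹ - x⁻¹ - 1)) * f a (c / x + c) = f a (c / (x + 1)) := by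
      rw [← hr]; congr 1; rw [div_eq_mul_inv, div_eq_mul_inv]; ring
    rw [e1] at e2
    exact mul_eq_right.1 e2
  have hs : (x + 1)⁻¹ - x⁻¹ - 1 ≠ 0 := by
    intro e
    field_simp at e
    exact hx (by linear_combination -e)
  have := key (b / ((x + 1)⁻¹ - x⁻¹ - 1))
  rwa [div_mul_cancel₀ _ hs] at this

/-- a field with five elements has a good scalar -/
theorem exists_scalar {K : Type*} [Field K] (hK : ∃ s : Finset K, 4 < s.card) :
    ∃ x : K, x ≠ 0 ∧ x + 1 ≠ 0 ∧ x * x + x + 1 ≠ 0 := by
  classical
  obtain ⟨s, hs⟩ := hK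
  by_contra hc
  push Not at hc
  let P : Polynomial K := Polynomial.X ^ 2 + Polynomial.X + 1
  have hdeg : P.natDegree ≤ 2 := by simp only [P]; compute_degree
  have hne : P ≠ 0 := fun e => by
    have := congrArg (fun Q => Polynomial.eval 0 Q) e
    simp [P] at this
  have hsub : ((s.erase (0 : K)).erase (-1)).card ≤ P.roots.toFinset.card := by
    refine Finset.card_le_card fun y hy => ?_
    simp only [Finset.mem_erase] at hy
    have e := hc y hy.2.1 (fun e => hy.1 (by linear_combination e))
    rw [Multiset.mem_toFinset, Polynomial.mem_roots hne, Polynomial.IsRoot]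
    simp only [P, Polynomial.eval_add, Polynomial.eval_pow, Polynomial.eval_X, Polynomial.eval_one]
    rw [pow_two]; exact e
  have := (P.roots.toFinset_card_le.trans P.card_roots').trans hdeg
  have h1 := Finset.pred_card_le_card_erase (a := (0 : K)) (s := s)
  have h2 := Finset.pred_card_le_card_erase (a := (-1 : K)) (s := s.erase 0)
  omega

/-! ### checks on the tables -/

section Checks

variable (D : ChevalleyDatum)

/-- the roots occurring in the commutator formula -/
def tIds (r s : ℕ) : List ℕ := (D.commTerms r s).map fun c => c.1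

/-- the terms of a pair lead only to shorter formulae inside the pair -/
def pairInd (r s : ℕ) : Bool :=
  let ids := tIds D r s
  let n := ids.length
  ids.all fun c =>
    decide (c < D.nroots) && c != r && c != s && c != D.neg r && c != D.neg s &&
      decide ((tIds D r c).length < n) && decide ((tIds D s c).length < n) &&
      (tIds D r c).all (ids.contains ·) && (tIds D s c).all (ids.contains ·) &&
      ids.all fun e => e != D.neg c && (e == c || (decide ((tIds D c e).length < n) && (tIds D c e).all (ids.contains ·)))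

/-- the allowed non-trivial exponents up to `g` -/
def upTo (g m : ℕ) : Bool := decide (1 ≤ m) && decide (m ≤ g)

/-- an allowed minor of the weights of two roots -/
def minorOK (ok : ℕ → Bool) (r s : ℕ) : Bool :=
  (List.range D.rank).any fun i => (List.range D.rank).any fun j =>
    let g := Int.gcd (D.cartan i r) (D.cartan j r)
    g != 0 && ok ((D.cartan i r * D.cartan j s - D.cartan j r * D.cartan i s).natAbs / g)

/-- two weights of a root without common factor -/
def scalarOK (sc : ℕ → Bool) (r : ℕ) : Bool :=
  (List.range D.rank).any fun i => (List.range D.rank).any fun j =>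
    sc (Int.gcd (D.cartan i r) (D.cartan j r))

/-- `r` is the only term of a pair commuting with `s` -/
def decOK (coef r s : ℕ) : Bool :=
  (List.range D.nroots).any fun p =>
    match D.chainRoot (D.neg p) r 1 with
    | some q => decide (q < D.nroots) && q != p && q != D.neg p && p != D.neg s && q != D.neg s &&
        (tIds D s p).isEmpty && (tIds D s q).isEmpty &&
        (match D.commTerms p q with
          | [(c, x, 1, 1)] => c == r && decide (1 ≤ x.natAbs) && decide (x.natAbs ≤ coef)
          | _ => false)
    | none => false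

/-- commuting pairs have central lifts -/
def commCheck (ok : ℕ → Bool) (coef : ℕ) (sc : ℕ → Bool) : Bool :=
  (List.range D.rank).all fun i => (List.range D.nroots).all fun s =>
    let p := D.simple i
    s == D.neg p || !(tIds D p s).isEmpty ||
      decOK D coef p s || decOK D coef s p || (if s == p then scalarOK D sc p else minorOK D ok p s)

/-- pairs with terms -/
def termCheck (ok : ℕ → Bool) : Bool :=
  (List.range D.rank).all fun i => (List.range D.nroots).all fun s =>
    let p := D.simple i
    s == D.neg p || (tIds D p s).isEmpty || (pairInd D p s && minorOK D ok p s)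

/-- every root has an allowed weight -/
def rootCheck (ok : ℕ → Bool) : Bool :=
  (List.range D.nroots).all fun r => (List.range D.rank).any fun i => ok (D.cartan i r).natAbs

end Checks

end Cfsg.Agent.Suzuki.StLift
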