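import Cfsg.Agent.Suzuki.StLiftSection

/-!
Central extensions of Steinberg's group: relations from general killing arguments.
-/

set_option autoImplicit false

universe u v

namespace Cfsg.Agent.Suzuki.StLift

open Cfsg.Lie Cfsg.Agent.Chev Cfsg.Agent.KnownA.Cover
open scoped commutatorElement

variable {D : ChevalleyDatum} {K : Type u} [Field K]

section Ext

variable {E : Type v} [Group E] {π : E →* D.SteinbergCover K} (hπ : Function.Surjective π)
  (hk : π.ker ≤ Subgroup.center E) (C : Cert.{u} D)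
  (hc : cornerCheck D = true) {M : CoxeterMatrix (Fin D.rank)} (hM : CoxOK D M)

include hk C hc in
/-- the relations hold for normalised root elements -/
theorem rel_all_gen
    (hz : ∀ r < D.nroots, ∀ s < D.nroots, s ≠ D.neg r → tIds D r s = [] → Zero hπ r s)
    {X : ℕ → K → E} (hmap : ∀ r t, π (X r t) = D.scGen K r t) (hadd : ∀ r t t', X r (t + t') = X r t * X r t')
    (htor : ∀ (g : E), π g ∈ torY D K → ∀ r < D.nroots, ∀ b : K,
      (∀ v, π g * D.scGen K r v * (π g)⁻¹ = D.scGen K r (b * v)) → ∀ t, g * X r t * g⁻¹ = X r (b * t))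
    (hwe : ∀ i < D.rank, ∀ (g : E), π g = wEl D i 1 → ∀ r < D.nroots,
      ∀ t, g * X r t * g⁻¹ = X (D.reflectRoot i r) (kap C i 1 r * t))
    (hbase : ∀ i < D.rank, ∀ s < D.nroots, s ≠ D.neg (D.simple i) → tIds D (D.simple i) s ≠ [] →
      Rel D X (D.simple i) s ∨ (pairInd D (D.simple i) s = true ∧
        ∃ γ ∈ torY D K, ∃ a b : K, (∀ v, γ * D.scGen K (D.simple i) v * γ⁻¹ = D.scGen K (D.simple i) (a * v)) ∧
          (∀ v, γ * D.scGen K s v * γ⁻¹ = D.scGen K s (b * v)) ∧
          ∀ f : K → K → E, (∀ t t' v, f (t + t') v = f t v * f t' v) → (∀ t v v', f t (v + v') = f t v * f t v') →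
            (∀ t v x, x * f t v = f t v * x) → (∀ t v, π (f t v) = 1) → (∀ t v, f (a * t) (b * v) = f t v) → ∀ t v, f t v = 1)) :
    ∀ n, ∀ r < D.nroots, ∀ s < D.nroots, s ≠ D.neg r → (tIds D r s).length = n → Rel D X r s := by
  classical
  intro n
  induction n using Nat.strong_induction_on with
  | _ n ih =>
  refine C.induction_simple (fun r => ∀ s < D.nroots, s ≠ D.neg r → (tIds D r s).length = n → Rel D X r s) ?_ ?_
  swap
  · intro i hi r hr ihr s hs hne hlen
    have hs' := C.refl_lt i hi s hs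
    have e2 : (tIds D (D.reflectRoot i r) s).length = (tIds D r (D.reflectRoot i s)).length := by
      have := congrArg List.length (tIds_refl C K hi hr hs')
      rwa [C.refl_refl hi hs, List.length_map] at this
    have hne' : D.reflectRoot i s ≠ D.neg r := fun e => hne (by
      rw [← C.refl_refl hi hs, e, C.refl_neg hi hr])
    have hrel := ihr _ hs' hne' (e2 ▸ hlen)
    obtain ⟨g, hg⟩ := hπ (wEl D i 1)
    intro t v
    have k1 := kap_ne_zero (K := K) C hi hr (z := 1) one_ne_zero
    have k2 := kap_ne_zero (K := K) C hi hs' (z := 1) one_ne_zero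
    have e := congrArg (fun x => g * x * g⁻¹) (hrel (t / kap C i 1 r) (v / kap C i 1 (D.reflectRoot i s)))
    simp only [← conj_mul, hwe i hi g hg _ hr, hwe i hi g hg _ hs', C.refl_refl hi hs, mul_div_cancel₀ _ k1,
      mul_div_cancel₀ _ k2] at e
    rw [e]
    congr 1
    have hmapw : ∀ L : List (ℕ × K), (∀ p ∈ L, p.1 < D.nroots) → g * wx X L * g⁻¹ =
        wx X (L.map fun p => (D.reflectRoot i p.1, kap C i (1 : K) p.1 * p.2)) := by
      intro L hL
      induction L with
      | nil => simp [wx]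
      | cons p L ihL =>
        have h1 := ihL fun q hq => hL q (List.mem_cons_of_mem _ hq)
        simp only [wx, List.map_cons, List.prod_cons] at h1 ⊢
        rw [← conj_mul, hwe i hi g hg p.1 (hL p List.mem_cons_self), h1]
    rw [hmapw _ (fun p hp => by
      have : p.1 ∈ tIds D r (D.reflectRoot i s) := by
        rw [← commWord_fst (K := K)]; exact List.mem_map_of_mem hp
      obtain ⟨c, hc', e⟩ := List.mem_map.1 this
      rw [← e]
      exact C.commTerms_lt hr hs' c hc'), ← commWord_kap C hi hr hs' one_ne_zero,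
      mul_div_cancel₀ _ k1, mul_div_cancel₀ _ k2, C.refl_refl hi hs]
  intro i hi s hs hne hlen
  set r := D.simple i with hr_def
  have hr : r < D.nroots := C.simple_lt i hi
  rcases eq_or_ne (tIds D r s) [] with hnil | hnil
  · intro t v
    rw [commWord_nil hnil, wx, List.map_nil, List.prod_nil, mul_one]
    exact (lift_commute hπ hk (by rw [hmap, hmap]; exact hz r hr s hs hne hnil t v)).symm
  rcases hbase i hi s hs hne hnil with h | ⟨hind, γ, hγ, a, b, hγr, hγs, hkill⟩
  · exact h
  have hsr : s ≠ r := by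
    rintro rfl
    exact hnil (by simp [tIds, ChevalleyDatum.commTerms, ChevalleyDatum.chainRoot, C.chain_self r hr])
  obtain ⟨ε, hε, hside⟩ := exists_side C hi hs hsr hne
  set S := (tIds D r s).toFinset with hS
  have hSside : ∀ c ∈ S, Side C ε i c := by
    intro c' hmem
    obtain ⟨c, hc', rfl⟩ := List.mem_map.1 (List.mem_toFinset.1 hmem)
    clear hmem
    obtain ⟨j, hj, hji, hpos⟩ := hside.2.2
    refine side_of C hε (C.commTerms_lt hr hs c hc') hj hji ?_
    obtain ⟨h1, h2, h3⟩ := C.commTerms_coef hr hs c hc'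
    rw [h3 j hj, C.coef_simple i hi j hj, if_neg hji, mul_zero, zero_add, mul_left_comm]
    exact mul_pos (by omega) hpos
  simp only [pairInd, List.all_eq_true, Bool.and_eq_true, decide_eq_true_eq, bne_iff_ne, ne_eq, Bool.or_eq_true,
    beq_iff_eq, List.contains_iff_mem] at hind
  have hfacts : ∀ c ∈ S, (c < D.nroots ∧ c ≠ D.neg r ∧ c ≠ D.neg s) ∧
      (Rel D X r c ∧ Rel D X s c ∧ (∀ e ∈ tIds D r c, e ∈ S) ∧ (∀ e ∈ tIds D s c, e ∈ S)) ∧
      ∀ e ∈ S, (e ≠ c → Rel D X c e) ∧ ∀ d ∈ tIds D c e, d ∈ S := by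
    intro c hc'
    have hcm := List.mem_toFinset.1 hc'
    obtain ⟨⟨⟨⟨⟨⟨⟨⟨⟨h1, -⟩, -⟩, h4⟩, h5⟩, h6⟩, h7⟩, h8⟩, h9⟩, h10⟩ := hind c hcm
    refine ⟨⟨h1, h4, h5⟩, ⟨ih _ (hlen ▸ h6) r hr c h1 h4 rfl, ih _ (hlen ▸ h7) s hs c h1 h5 rfl,
      fun e he => List.mem_toFinset.2 (h8 e he), fun e he => List.mem_toFinset.2 (h9 e he)⟩, fun e he => ?_⟩
    have hem := List.mem_toFinset.1 he
    obtain ⟨hne1, h11⟩ := h10 e hem
    rcases h11 with rfl | ⟨h12, h13⟩
    · exact ⟨fun h => absurd rfl h, by simp [tIds, ChevalleyDatum.commTerms, ChevalleyDatum.chainRoot, C.chain_self _ h1]⟩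
    · have helt : e < D.nroots := (hSside e he).1
      exact ⟨fun _ => ih _ (hlen ▸ h12) c h1 e helt hne1 rfl, fun d hd => List.mem_toFinset.2 (h13 d hd)⟩
  have hinj : ∀ g ∈ spanX X S, π g = 1 → g = 1 :=
    spanX_inj hmap hadd C S.card S rfl (fun c hc' => (hfacts c hc').1.1) (fun c hc' => side_ht C (hSside c hc'))
      (fun a ha b hb => ((hfacts a ha).2.2 b hb).2) (fun a ha b hb hne => ((hfacts a ha).2.2 b hb).1 hne)
  let W : K → K → E := fun t v => wx X (D.commWord K r s t v)
  let Φ : K → K → E := fun t v => (X r t * X s v)⁻¹ * (X s v * X r t)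
  have hW : ∀ t v, W t v ∈ spanX X S := fun t v =>
    wx_mem (commWord_mem (fun c hc' => List.mem_toFinset.2 hc') t v)
  have hπW : ∀ t v, π (W t v) = wy D (D.commWord K r s t v) := fun t v => by
    simp only [W, wx, wy, map_list_prod, List.map_map, Function.comp_def, hmap]
  have hπΦ : ∀ t v, π (Φ t v) = π (W t v) := fun t v => by
    simp only [Φ, map_mul, map_inv, hmap, hπW]
    rw [y_comm hr hs hsr hne]
    group
  let δ : K → K → E := fun t v => Φ t v * (W t v)⁻¹
  have hδ : ∀ t v, π (δ t v) = 1 := fun t v => by simp only [δ, map_mul, map_inv, hπΦ, mul_inv_cancel]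
  have hδc : ∀ t v x, x * δ t v = δ t v * x := fun t v x => central_of_map_one hk (hδ t v) x
  have hconjR : ∀ t, ∀ w ∈ spanX X S, X r t * w * (X r t)⁻¹ ∈ spanX X S := fun t w hw =>
    conj_spanX hadd (fun c hc' => (hfacts c hc').2.1.1) (fun c hc' => (hfacts c hc').2.1.2.2.1) t hw
  have hconjS : ∀ v, ∀ w ∈ spanX X S, X s v * w * (X s v)⁻¹ ∈ spanX X S := fun v w hw =>
    conj_spanX hadd (fun c hc' => (hfacts c hc').2.1.2.1) (fun c hc' => (hfacts c hc').2.1.2.2.2) v hw
  have hΦW : ∀ t v, Φ t v = δ t v * W t v := fun t v => by simp only [δ, inv_mul_cancel_right]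
  have haddR : ∀ t v v', δ t (v + v') = δ t v * δ t v' := by
    intro t v v'
    have e1 : Φ t (v + v') = (X s v')⁻¹ * Φ t v * X s v' * Φ t v' := by
      simp only [Φ, hadd]; group
    set w := (X s v')⁻¹ * W t v * X s v' * W t v' * (W t (v + v'))⁻¹ with hw
    have e2 : δ t (v + v') = δ t v * δ t v' * w := by
      rw [hw]
      calc δ t (v + v') = Φ t (v + v') * (W t (v + v'))⁻¹ := rfl
        _ = (X s v')⁻¹ * δ t v * (W t v * X s v') * (δ t v' * W t v') * (W t (v + v'))⁻¹ := by
            rw [e1, hΦW t v, hΦW t v']; group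
        _ = δ t v * (X s v')⁻¹ * (W t v * X s v') * (δ t v' * W t v') * (W t (v + v'))⁻¹ := by rw [hδc t v (X s v')⁻¹]
        _ = δ t v * ((X s v')⁻¹ * W t v * X s v' * δ t v') * W t v' * (W t (v + v'))⁻¹ := by group
        _ = δ t v * (δ t v' * ((X s v')⁻¹ * W t v * X s v')) * W t v' * (W t (v + v'))⁻¹ := by rw [hδc t v']
        _ = _ := by group
    have hwS : w ∈ spanX X S := by
      refine mul_mem (mul_mem ?_ (hW _ _)) (inv_mem (hW _ _))
      have := hconjS (-v') _ (hW t v)
      rwa [← x_inv hadd, inv_inv] at this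
    have : π w = 1 := by
      have := congrArg π e2
      rw [hδ, map_mul π (δ t v * δ t v') w, map_mul π (δ t v) (δ t v'), hδ, hδ, one_mul, one_mul] at this
      exact this.symm
    rw [e2, hinj w hwS this, mul_one]
  have haddT : ∀ t t' v, δ (t + t') v = δ t v * δ t' v := by
    intro t t' v
    have e1 : Φ (t + t') v = Φ t' v * ((X r t')⁻¹ * Φ t v * X r t') := by
      simp only [Φ, hadd]; group
    set w := W t' v * ((X r t')⁻¹ * W t v * X r t') * (W (t + t') v)⁻¹ with hw
    have e2 : δ (t + t') v = δ t v * δ t' v * w := by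
      rw [hw]
      calc δ (t + t') v = Φ (t + t') v * (W (t + t') v)⁻¹ := rfl
        _ = δ t' v * W t' v * ((X r t')⁻¹ * δ t v) * (W t v * X r t') * (W (t + t') v)⁻¹ := by
            rw [e1, hΦW t v, hΦW t' v]; group
        _ = δ t' v * (W t' v * (X r t')⁻¹ * δ t v) * (W t v * X r t') * (W (t + t') v)⁻¹ := by group
        _ = δ t' v * (δ t v * (W t' v * (X r t')⁻¹)) * (W t v * X r t') * (W (t + t') v)⁻¹ := by rw [hδc t v]
        _ = δ t' v * δ t v * (W t' v * ((X r t')⁻¹ * W t v * X r t') * (W (t + t') v)⁻¹) := by group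
        _ = _ := by rw [hδc t v (δ t' v)]
    have hwS : w ∈ spanX X S := by
      refine mul_mem (mul_mem (hW _ _) ?_) (inv_mem (hW _ _))
      have := hconjR (-t') _ (hW t v)
      rwa [← x_inv hadd, inv_inv] at this
    have : π w = 1 := by
      have := congrArg π e2
      rw [hδ, map_mul π (δ t v * δ t' v) w, map_mul π (δ t v) (δ t' v), hδ, hδ, one_mul, one_mul] at this
      exact this.symm
    rw [e2, hinj w hwS this, mul_one]
  obtain ⟨g, rfl⟩ := hπ γ
  have hginv : ∀ t v, δ (a * t) (b * v) = δ t v := by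
    intro t v
    have e1 : g * Φ t v * g⁻¹ = Φ (a * t) (b * v) := by
      simp only [Φ]
      rw [← htor g hγ r hr a hγr t, ← htor g hγ s hs b hγs v]
      group
    have hgS : ∀ w ∈ spanX X S, g * w * g⁻¹ ∈ spanX X S := by
      intro w hw
      induction hw using Subgroup.closure_induction with
      | mem x hx =>
        obtain ⟨c, z, hc', rfl⟩ := hx
        obtain ⟨e, -, ee⟩ := torY_conj C hc hγ (hfacts c hc').1.1
        rw [htor g hγ c (hfacts c hc').1.1 e ee]
        exact mem_spanX hc' _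
      | one => simp
      | mul x y _ _ hx hy => rw [← conj_mul]; exact mul_mem hx hy
      | inv x _ hx => rw [← conj_inv]; exact inv_mem hx
    set w := g * W t v * g⁻¹ * (W (a * t) (b * v))⁻¹ with hw
    have e2 : δ (a * t) (b * v) = δ t v * w := by
      rw [hw]
      calc δ (a * t) (b * v) = Φ (a * t) (b * v) * (W (a * t) (b * v))⁻¹ := rfl
        _ = g * δ t v * (W t v * g⁻¹) * (W (a * t) (b * v))⁻¹ := by rw [← e1, hΦW]; group
        _ = _ := by rw [hδc]; group
    have : π w = 1 := by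
      have := congrArg π e2
      rw [hδ, map_mul π (δ t v) w, hδ, one_mul] at this
      exact this.symm
    rw [e2, hinj w (mul_mem (hgS _ (hW _ _)) (inv_mem (hW _ _))) this, mul_one]
  intro t v
  have hδ1 : δ t v = 1 := hkill δ haddT haddR (fun t v x => hδc t v x) hδ hginv t v
  have e := hΦW t v
  rw [hδ1, one_mul] at e
  rw [← inv_mul_eq_iff_eq_mul]
  exact e

end Ext

end Cfsg.Agent.Suzuki.StLift
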