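import Cfsg.Agent.Suzuki.StLiftThree

/-!
Normalised root elements for a set of roots.
-/

set_option autoImplicit false

universe u v

namespace Cfsg.Agent.Suzuki.StLift

open Cfsg.Lie Cfsg.Agent.Chev Cfsg.Agent.KnownA.Cover
open scoped commutatorElement

variable {D : ChevalleyDatum} {K : Type u} [Field K]

section Ext

variable {E : Type v} [Group E] {π : E →* D.SteinbergCover K} (hπ : Function.Surjective π)
  (hk : π.ker ≤ Subgroup.center E) (C : Cert.{u} D)
  (hc : cornerCheck D = true) {M : CoxeterMatrix (Fin D.rank)} (hM : CoxOK D M)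

include hπ hk C hc hM in
/-- normalised root elements -/
theorem exists_roots_on (hperf : commutator (D.SteinbergCover K) = ⊤) {okr : ℕ → Bool} (hokr : ∀ n, okr n = true → ∃ a : K, a ≠ 0 ∧ a ^ n ≠ 1)
    {S : ℕ → Prop} (hS : ∀ r < D.nroots, S r → ∃ i < D.rank, okr (D.cartan i r).natAbs = true)
    (hz : ∀ r < D.nroots, ∀ s < D.nroots, s ≠ D.neg r → tIds D r s = [] → Zero hπ r s) :
    ∃ X : ℕ → K → E, (∀ r, S r → ∀ t, π (X r t) = D.scGen K r t) ∧ (∀ r, S r → ∀ t t', X r (t + t') = X r t * X r t') ∧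
      (∀ (g : E), π g ∈ torY D K → ∀ r < D.nroots, S r → ∀ b : K, (∀ v, π g * D.scGen K r v * (π g)⁻¹ = D.scGen K r (b * v)) →
        ∀ t, g * X r t * g⁻¹ = X r (b * t)) ∧
      (∀ i < D.rank, ∀ (g : E), π g = wEl D i 1 → ∀ r < D.nroots, S r → S (D.reflectRoot i r) →
        ∀ t, g * X r t * g⁻¹ = X (D.reflectRoot i r) (kap C i 1 r * t)) := by
  classical
  have hH : ∀ r, ∃ H : D.SteinbergCover K, H ∈ torY D K ∧ ∃ c : K, (r < D.nroots ∧ S r) → c ≠ 1 ∧
      ∀ v, H * D.scGen K r v * H⁻¹ = D.scGen K r (c * v) := by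
    intro r
    by_cases hrS : r < D.nroots ∧ S r
    · obtain ⟨hr, hrs⟩ := hrS
      obtain ⟨i, hi, h⟩ := hS r hr hrs
      obtain ⟨a, ha, han⟩ := hokr _ h
      refine ⟨hEl D i a, hEl_mem hi ha, a ^ D.cartan i r, fun _ => ⟨fun e => han ?_, hEl_conj C hc hi hr ha⟩⟩
      rcases Int.natAbs_eq (D.cartan i r) with e' | e' <;> rw [e'] at e
      · rwa [zpow_natCast] at e
      · rwa [zpow_neg, inv_eq_one, zpow_natCast] at e
    · exact ⟨1, one_mem _, 0, fun h => absurd h hrS⟩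
  choose H hHm c hHc using hH
  let X : ℕ → K → E := fun r t => if r < D.nroots ∧ S r then lc hπ (H r) (D.scGen K r (t / (c r - 1))) else 1
  have hX : ∀ r, (r < D.nroots ∧ S r) → ∀ t, X r t = lc hπ (H r) (D.scGen K r (t / (c r - 1))) := fun r hr t => if_pos hr
  have hmap : ∀ r, S r → ∀ t, π (X r t) = D.scGen K r t := by
    intro r hrs t
    by_cases hr' : r < D.nroots
    · have hr : r < D.nroots ∧ S r := ⟨hr', hrs⟩
      obtain ⟨h1, h2⟩ := hHc r hr
      rw [hX r hr, map_lc, commutatorElement_def, h2, y_inv, y_add]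
      congr 1
      field_simp [sub_ne_zero.2 h1]
      ring
    · simp only [X, hr', false_and, if_false, map_one]
      exact (y_of_le hr' t).symm
  have hneg : ∀ r < D.nroots, r ≠ D.neg r := fun r hr => (C.neg_ne r hr).symm
  have hnil : ∀ r < D.nroots, tIds D r r = [] := fun r hr => by
    simp [tIds, ChevalleyDatum.commTerms, ChevalleyDatum.chainRoot, C.chain_self r hr]
  have hadd : ∀ r, S r → ∀ t t', X r (t + t') = X r t * X r t' := by
    intro r hrs t t'
    by_cases hr' : r < D.nroots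
    · have hr : r < D.nroots ∧ S r := ⟨hr', hrs⟩
      rw [hX r hr (t + t'), add_div, ← y_add, lc_mul_right hπ hk, ← hX r hr, ← hX r hr]
      congr 1
      refine mul_inv_eq_iff_eq_mul.2 (lift_commute hπ hk ?_)
      rw [map_lift, hmap r hrs]
      exact hz r hr' r hr' (hneg r hr') (hnil r hr') _ _
    · simp [X, hr']
  have hcl : ∀ h ∈ torY D K, ∀ k ∈ torY D K, ∀ x, lc hπ (h * k * h⁻¹) x = lc hπ k x := by
    intro h hh k hk' x
    have hzc := torY_comm C hc hM hh hk'
    rw [show h * k * h⁻¹ = h * k * h⁻¹ * k⁻¹ * k by group, lc_mul_left hπ hk, lc_central_left hπ hk hperf hzc x, mul_one]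
    have e1 := lift_commute hπ hk (a := lift hπ (h * k * h⁻¹ * k⁻¹)) (b := lc hπ k x)
      (by rw [map_lift]; exact lc_central_left hπ hk hperf hzc _)
    rw [e1, mul_inv_cancel_right]
  -- independence of the chosen torus element
  have hind : ∀ r, (r < D.nroots ∧ S r) → ∀ h ∈ torY D K, ∀ b : K, (∀ v, h * D.scGen K r v * h⁻¹ = D.scGen K r (b * v)) →
      ∀ t, lc hπ h (D.scGen K r t) = X r ((b - 1) * t) := by
    intro r hr h hh b hb t
    have e1 : lift hπ h * X r t * (lift hπ h)⁻¹ = X r (b * t) := by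
      rw [hX r hr, hX r hr, lc_conj hπ hk, map_lift, hcl h hh _ (hHm r), hb,
        mul_div_assoc]
    have e2 : lc hπ h (D.scGen K r t) = lift hπ h * X r t * (lift hπ h)⁻¹ * (X r t)⁻¹ := by
      rw [← map_lift hπ h, ← hmap r hr.2 t, ← lc_map hπ hk, commutatorElement_def, map_lift]
    rw [e2, e1, sub_mul, one_mul, sub_eq_add_neg, hadd r hr.2]
    congr 1
    exact (eq_inv_of_mul_eq_one_left (by
      rw [← hadd r hr.2, neg_add_cancel]
      exact mul_eq_left.1 (by rw [← hadd r hr.2 0 0, add_zero]))).symm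
  refine ⟨X, hmap, hadd, fun g hg r hr' hrs b hb t => ?_, fun i hi g hg r hr hrs hrs' t => ?_⟩
  · have hr : r < D.nroots ∧ S r := ⟨hr', hrs⟩
    obtain ⟨h1, h2⟩ := hHc r hr
    rw [hX r hr, lc_conj hπ hk, hcl _ hg _ (hHm r), hb,
      hind r hr _ (hHm r) (c r) h2]
    congr 1
    field_simp [sub_ne_zero.2 h1]
  · obtain ⟨h1, h2⟩ := hHc r ⟨hr, hrs⟩
    set r' := D.reflectRoot i r
    set a := kap C i (1 : K) r
    have ha : a ≠ 0 := kap_ne_zero C hi hr one_ne_zero
    have hw : ∀ v, wEl D i (1 : K) * D.scGen K r v * (wEl D i 1)⁻¹ = D.scGen K r' (a * v) :=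
      wEl_conj C hc hi hr one_ne_zero
    have hH' : wEl D i (1 : K) * H r * (wEl D i 1)⁻¹ ∈ torY D K := by
      have hn := torY_normal C hc (D := D) (K := K)
      exact hn.conj_mem ⟨H r, torY_le_monoY (hHm r)⟩ (by exact hHm r) ⟨_, wEl_mem hi one_ne_zero⟩
    have hb : ∀ v, wEl D i (1 : K) * H r * (wEl D i 1)⁻¹ * D.scGen K r' v *
        (wEl D i (1 : K) * H r * (wEl D i 1)⁻¹)⁻¹ = D.scGen K r' (c r * v) := by
      intro v
      rw [← mul_div_cancel₀ v ha, ← hw, show ∀ w h z : D.SteinbergCover K,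
        w * h * w⁻¹ * (w * z * w⁻¹) * (w * h * w⁻¹)⁻¹ = w * (h * z * h⁻¹) * w⁻¹ from fun w h z => by group,
        h2, hw]
      congr 1
      ring
    rw [hX r ⟨hr, hrs⟩, lc_conj hπ hk, hg, hw, hind r' ⟨C.refl_lt i hi r hr, hrs'⟩ _ hH' (c r) hb]
    congr 1
    field_simp [sub_ne_zero.2 h1]


end Ext

end Cfsg.Agent.Suzuki.StLift
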