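import Cfsg.Agent.Suzuki.StLiftTorus

/-!
Central extensions of Steinberg's group split when the torus has enough weights.
-/

set_option autoImplicit false

universe u v

namespace Cfsg.Agent.Suzuki.StLift

open Cfsg.Lie Cfsg.Agent.Chev Cfsg.Agent.KnownA.Cover
open scoped commutatorElement

variable {D : ChevalleyDatum} {K : Type u} [Field K]

section Rel

variable {E : Type v} [Group E]

/-- a word in candidate root elements -/
def wx (X : ℕ → K → E) (L : List (ℕ × K)) : E := (L.map fun p => X p.1 p.2).prod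

/-- the commutator relation for candidate root elements -/
def Rel (D : ChevalleyDatum) (X : ℕ → K → E) (r s : ℕ) : Prop :=
  ∀ t v : K, X s v * X r t = X r t * X s v * wx X (D.commWord K r s t v)

/-- the subgroup generated by candidate root elements -/
def spanX (X : ℕ → K → E) (S : Finset ℕ) : Subgroup E := Subgroup.closure {g | ∃ r t, r ∈ S ∧ g = X r t}

variable {π : E →* D.SteinbergCover K} {X : ℕ → K → E}

theorem mem_spanX {S : Finset ℕ} {r : ℕ} (h : r ∈ S) (t : K) : X r t ∈ spanX X S :=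
  Subgroup.subset_closure ⟨r, t, h, rfl⟩

theorem wx_mem {S : Finset ℕ} {L : List (ℕ × K)} (h : ∀ p ∈ L, p.1 ∈ S) : wx X L ∈ spanX X S :=
  Subgroup.list_prod_mem _ fun x hx => by
    obtain ⟨p, hp, rfl⟩ := List.mem_map.1 hx
    exact mem_spanX (h p hp) _

theorem commWord_mem {S : Finset ℕ} {r s : ℕ} (h : ∀ c ∈ tIds D r s, c ∈ S) (t v : K) :
    ∀ p ∈ D.commWord K r s t v, p.1 ∈ S := fun p hp => h _ (by
  rw [← commWord_fst (K := K) r s t v]
  exact List.mem_map_of_mem hp)

variable (hmap : ∀ r t, π (X r t) = D.scGen K r t) (hadd : ∀ r t t', X r (t + t') = X r t * X r t')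

include hadd in
theorem x_zero (r : ℕ) : X r 0 = 1 := by
  have := hadd r 0 0
  rw [add_zero] at this
  exact left_eq_mul.1 this

include hadd in
theorem x_inv (r : ℕ) (t : K) : (X r t)⁻¹ = X r (-t) :=
  inv_eq_of_mul_eq_one_right (by rw [← hadd, add_neg_cancel, x_zero hadd])

include hadd in
theorem rel_self {r : ℕ} (h : tIds D r r = []) : Rel D X r r := fun t v => by
  rw [commWord_nil h, wx, List.map_nil, List.prod_nil, mul_one, ← hadd, ← hadd, add_comm]

include hadd in
theorem x_conj {q s : ℕ} (h : Rel D X q s) (t v : K) :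
    X q t * X s v * (X q t)⁻¹ = X s v * wx X (D.commWord K q s (-t) v) := by
  have e := h (-t) v
  rw [x_inv hadd, mul_assoc (X q t), e, ← mul_assoc, ← mul_assoc, ← hadd, add_neg_cancel, x_zero hadd, one_mul]

include hadd in
theorem conj_spanX {q : ℕ} {S : Finset ℕ} (hrel : ∀ s ∈ S, Rel D X q s)
    (hcl : ∀ s ∈ S, ∀ c ∈ tIds D q s, c ∈ S) (t : K) {g : E} (hg : g ∈ spanX X S) :
    X q t * g * (X q t)⁻¹ ∈ spanX X S := by
  induction hg using Subgroup.closure_induction with
  | mem x hx =>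
    obtain ⟨s, v, hs, rfl⟩ := hx
    rw [x_conj hadd (hrel s hs)]
    exact mul_mem (mem_spanX hs v) (wx_mem (commWord_mem (hcl s hs) _ _))
  | one => simp
  | mul x y _ _ hx hy => rw [← conj_mul]; exact mul_mem hx hy
  | inv x _ hx => rw [← conj_inv]; exact inv_mem hx

include hmap in
theorem map_spanX {S : Finset ℕ} {g : E} (hg : g ∈ spanX X S) : π g ∈ spanY D K (· ∈ S) := by
  induction hg using Subgroup.closure_induction with
  | mem x hx =>
    obtain ⟨r, t, hr, rfl⟩ := hx
    rw [hmap]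
    exact mem_spanY (P := (· ∈ S)) hr t
  | one => rw [map_one]; exact one_mem _
  | mul x y _ _ hx hy => rw [map_mul]; exact mul_mem hx hy
  | inv x _ hx => rw [map_inv]; exact inv_mem hx

include hadd in
theorem decompX {S : Finset ℕ} {q : ℕ} (hrel : ∀ s ∈ S.erase q, Rel D X q s)
    (hcl : ∀ s ∈ S.erase q, ∀ c ∈ tIds D q s, c ∈ S.erase q) {g : E} (hg : g ∈ spanX X S) :
    ∃ a ∈ spanX X (S.erase q), ∃ t, g = a * X q t := by
  have hconj : ∀ t : K, ∀ a ∈ spanX X (S.erase q), X q t * a * (X q t)⁻¹ ∈ spanX X (S.erase q) := fun t a ha =>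
    conj_spanX hadd hrel hcl t ha
  induction hg using Subgroup.closure_induction with
  | mem x hx =>
    obtain ⟨r, t, hr, rfl⟩ := hx
    by_cases e : r = q
    · exact ⟨1, one_mem _, t, by rw [e, one_mul]⟩
    · exact ⟨_, mem_spanX (Finset.mem_erase.2 ⟨e, hr⟩) t, 0, by rw [x_zero hadd, mul_one]⟩
  | one => exact ⟨1, one_mem _, 0, by rw [x_zero hadd, mul_one]⟩
  | mul x y _ _ hx hy =>
    obtain ⟨a, ha, t, rfl⟩ := hx
    obtain ⟨b, hb, v, rfl⟩ := hy
    refine ⟨_, mul_mem ha (hconj t b hb), t + v, ?_⟩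
    rw [hadd]; group
  | inv x _ hx =>
    obtain ⟨a, ha, t, rfl⟩ := hx
    refine ⟨_, hconj (-t) a⁻¹ (inv_mem ha), -t, ?_⟩
    rw [mul_inv_rev, x_inv hadd]; group

variable (C : Cert.{u} D)
include C

omit hmap hadd in
/-- a root of least height is not spanned by the others -/
theorem eq_zero_of_mem_span {ε : ℤ} (S : Finset ℕ) (hlt : ∀ r ∈ S, r < D.nroots)
    (hpos : ∀ r ∈ S, 0 < ε * C.ht r) {r0 : ℕ} (hr0 : r0 ∈ S) (hmin : ∀ r ∈ S, ε * C.ht r0 ≤ ε * C.ht r)
    {g : D.SteinbergCover K} (hg : g ∈ spanY D K (· ∈ S.erase r0)) {t : K} (e : g * D.scGen K r0 t = 1) :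
    t = 0 := by
  obtain ⟨k, hk⟩ := exists_coroot_ne (K := K) C (hlt r0 hr0)
  set m := (ε * C.ht r0).toNat
  have hm : (m : ℤ) = ε * C.ht r0 := Int.toNat_of_nonneg (hpos r0 hr0).le
  let col : D.Idx := Sum.inr ⟨D.neg r0, C.neg_lt r0 (hlt r0 hr0)⟩
  have hrow : C.wt ε (Sum.inl k) < C.wt ε col + ((m : ℤ) + m) := by
    simp only [Cert.wt, col, Sum.elim_inl, Sum.elim_inr, C.ht_neg (hlt r0 hr0), mul_neg]
    have := hpos r0 hr0
    omega
  have hsum : ∀ A B : GL D.Idx K, A ∈ upGroup D K (C.wt ε) m → B ∈ upGroup D K (C.wt ε) m →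
      ((A * B : GL D.Idx K) : Matrix D.Idx D.Idx K) (Sum.inl k) col =
        (A : Matrix D.Idx D.Idx K) (Sum.inl k) col + (B : Matrix D.Idx D.Idx K) (Sum.inl k) col := by
    intro A B hA hB
    have hAB : (((A : Matrix D.Idx D.Idx K) - 1) * ((B : Matrix D.Idx D.Idx K) - 1))
        (Sum.inl k) col = 0 :=
      ((mem_upGroup.1 hA).1.mul (mem_upGroup.1 hB).1) _ _ hrow
    rw [sub_mul, mul_sub, mul_sub, one_mul, one_mul, mul_one] at hAB
    simp only [Matrix.sub_apply] at hAB
    rw [Units.val_mul]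
    have h1 : (1 : Matrix D.Idx D.Idx K) (Sum.inl k) col = 0 := Matrix.one_apply_ne (by simp [col])
    linear_combination hAB - h1
  have hzero : ∀ h ∈ spanY D K (· ∈ S.erase r0),
      (theta C h : GL D.Idx K) ∈ upGroup D K (C.wt ε) m ∧
      ((theta C h : GL D.Idx K) : Matrix D.Idx D.Idx K) (Sum.inl k) col = 0 := by
    intro h hh
    induction hh using Subgroup.closure_induction with
    | mem x hx =>
      obtain ⟨s, v, hs, rfl⟩ := hx
      obtain ⟨hne, hsS⟩ := Finset.mem_erase.1 hs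
      rw [theta_gen, C.coe_xu]
      exact ⟨C.xu_mem_upGroup (hlt s hsS) (by rw [hm]; exact hmin s hsS) v,
        by rw [entry_xu C (hlt r0 hr0) (hlt s hsS), if_neg hne]⟩
    | one => exact ⟨by rw [map_one]; exact one_mem _, by simp [col]⟩
    | mul x y _ _ hx hy =>
      rw [map_mul, Subgroup.coe_mul]
      exact ⟨mul_mem hx.1 hy.1, by rw [hsum _ _ hx.1 hy.1, hx.2, hy.2, add_zero]⟩
    | inv x _ hx =>
      rw [map_inv, Subgroup.coe_inv]
      refine ⟨inv_mem hx.1, ?_⟩
      have h' := hsum _ _ hx.1 (inv_mem hx.1)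
      rw [mul_inv_cancel, hx.2, zero_add, Units.val_one, Matrix.one_apply_ne (by simp [col])] at h'
      exact h'.symm
  have hx0 : C.xu r0 t ∈ upGroup D K (C.wt ε) m := C.xu_mem_upGroup (hlt r0 hr0) hm.le t
  have he := hsum _ _ (hzero g hg).1 hx0
  rw [← theta_gen C, ← Subgroup.coe_mul, ← map_mul, e, map_one, theta_gen, C.coe_xu, (hzero g hg).2,
    entry_xu C (hlt r0 hr0) (hlt r0 hr0), if_pos rfl, zero_add, Subgroup.coe_one, Units.val_one,
    Matrix.one_apply_ne (by simp [col])] at he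
  exact (mul_eq_zero.1 he.symm).resolve_left hk

include hmap hadd in
/-- candidate root elements of a closed set of one sign meet the kernel trivially -/
theorem spanX_inj {ε : ℤ} : ∀ (n : ℕ) (S : Finset ℕ), S.card = n → (∀ r ∈ S, r < D.nroots) →
    (∀ r ∈ S, 0 < ε * C.ht r) → (∀ r ∈ S, ∀ s ∈ S, ∀ c ∈ tIds D r s, c ∈ S) →
    (∀ r ∈ S, ∀ s ∈ S, s ≠ r → Rel D X r s) → ∀ g ∈ spanX X S, π g = 1 → g = 1 := by
  intro n
  induction n with
  | zero =>
    intro S hS _ _ _ _ g hg _
    have : spanX X S ≤ ⊥ := (Subgroup.closure_le _).2 fun x ⟨r, _, hr, _⟩ => by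
      rw [Finset.card_eq_zero.1 hS] at hr
      simp at hr
    exact Subgroup.mem_bot.1 (this hg)
  | succ n ih =>
    intro S hS hlt hpos hcl hrel g hg hπg
    obtain ⟨r0, hr0, hmin⟩ := S.exists_min_image (fun r => ε * C.ht r) (Finset.card_pos.1 (by omega))
    have hterm : ∀ r ∈ S, ∀ s ∈ S, ∀ c ∈ tIds D r s, c ∈ S.erase r0 := by
      intro r hr s hs c' hc'
      refine Finset.mem_erase.2 ⟨fun e => ?_, hcl r hr s hs c' hc'⟩
      obtain ⟨c, hc, rfl⟩ := List.mem_map.1 hc'
      obtain ⟨h1, h2, h3⟩ := C.commTerms_ht (hlt r hr) (hlt s hs) c hc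
      have := hmin r hr
      have := hpos r hr
      have := hpos s hs
      rw [e] at h3
      have e' : ε * C.ht r0 = (c.2.2.1 : ℤ) * (ε * C.ht r) + (c.2.2.2 : ℤ) * (ε * C.ht s) := by rw [h3]; ring
      have : ε * C.ht r ≤ (c.2.2.1 : ℤ) * (ε * C.ht r) := le_mul_of_one_le_left (by omega) (by omega)
      have : ε * C.ht s ≤ (c.2.2.2 : ℤ) * (ε * C.ht s) := le_mul_of_one_le_left (by omega) (by omega)
      omega
    obtain ⟨a, ha, t, rfl⟩ := decompX hadd
      (fun s hs => hrel r0 hr0 s (Finset.mem_erase.1 hs).2 (Finset.mem_erase.1 hs).1)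
      (fun s hs => hterm r0 hr0 s (Finset.mem_erase.1 hs).2) hg
    have ht : t = 0 := eq_zero_of_mem_span C S hlt hpos hr0 hmin (map_spanX hmap ha)
      (by rw [← hmap r0 t, ← map_mul]; exact hπg)
    rw [ht, x_zero hadd, mul_one] at hπg ⊢
    exact ih (S.erase r0) (by rw [Finset.card_erase_of_mem hr0, hS]; rfl)
      (fun r hr => hlt r (Finset.mem_erase.1 hr).2) (fun r hr => hpos r (Finset.mem_erase.1 hr).2)
      (fun r hr s hs => hterm r (Finset.mem_erase.1 hr).2 s (Finset.mem_erase.1 hs).2)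
      (fun r hr s hs => hrel r (Finset.mem_erase.1 hr).2 s (Finset.mem_erase.1 hs).2) a ha hπg

end Rel

section Ext

variable {E : Type v} [Group E] {π : E →* D.SteinbergCover K} (hπ : Function.Surjective π)
  (hk : π.ker ≤ Subgroup.center E) (C : Cert.{u} D)
  (hc : cornerCheck D = true) {M : CoxeterMatrix (Fin D.rank)} (hM : CoxOK D M)

include hk in
/-- central elements have lifts commuting with all lifts -/
theorem lc_central_left (hperf : commutator (D.SteinbergCover K) = ⊤) {z : D.SteinbergCover K}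
    (hz : z ∈ Subgroup.center (D.SteinbergCover K)) (x : D.SteinbergCover K) : lc hπ z x = 1 := by
  have hc' : ∀ x, lc hπ z x ∈ Subgroup.center E := fun x => Subgroup.mem_center_iff.2 fun g =>
    mul_inv_eq_iff_eq_mul.1 (lc_central hπ hk (Subgroup.mem_center_iff.1 hz x).symm g)
  let χ : D.SteinbergCover K →* ↥(Subgroup.center E) :=
    MonoidHom.mk' (fun x => ⟨lc hπ z x, hc' x⟩) fun x y => Subtype.ext (by
      show lc hπ z (x * y) = lc hπ z x * lc hπ z y
      rw [lc_mul_right hπ hk, Subgroup.mem_center_iff.1 (hc' y), mul_inv_cancel_right])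
  have hle : commutator (D.SteinbergCover K) ≤ χ.ker := Subgroup.commutator_le.2 fun a _ b _ => by
    rw [MonoidHom.mem_ker, map_commutatorElement]
    exact commutatorElement_eq_one_iff_mul_comm.2 (Subtype.ext (Subgroup.mem_center_iff.1 (χ b).2 _))
  rw [hperf] at hle
  exact congrArg Subtype.val (MonoidHom.mem_ker.1 (hle (Subgroup.mem_top x)))

include hπ hk C hc hM in
/-- normalised root elements -/
theorem exists_roots (hperf : commutator (D.SteinbergCover K) = ⊤) {okr : ℕ → Bool} (hokr : ∀ n, okr n = true → ∃ a : K, a ≠ 0 ∧ a ^ n ≠ 1)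
    (hroot : rootCheck D okr = true)
    (hz : ∀ r < D.nroots, ∀ s < D.nroots, s ≠ D.neg r → tIds D r s = [] → Zero hπ r s) :
    ∃ X : ℕ → K → E, (∀ r t, π (X r t) = D.scGen K r t) ∧ (∀ r t t', X r (t + t') = X r t * X r t') ∧
      (∀ (g : E), π g ∈ torY D K → ∀ r < D.nroots, ∀ b : K, (∀ v, π g * D.scGen K r v * (π g)⁻¹ = D.scGen K r (b * v)) →
        ∀ t, g * X r t * g⁻¹ = X r (b * t)) ∧
      (∀ i < D.rank, ∀ (g : E), π g = wEl D i 1 → ∀ r < D.nroots,
        ∀ t, g * X r t * g⁻¹ = X (D.reflectRoot i r) (kap C i 1 r * t)) := by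
  classical
  have hH : ∀ r, ∃ H : D.SteinbergCover K, H ∈ torY D K ∧ ∃ c : K, r < D.nroots → c ≠ 1 ∧
      ∀ v, H * D.scGen K r v * H⁻¹ = D.scGen K r (c * v) := by
    intro r
    by_cases hr : r < D.nroots
    · have hroot' := hroot
      simp only [rootCheck, List.all_eq_true, List.mem_range, List.any_eq_true] at hroot'
      obtain ⟨i, hi, h⟩ := hroot' r hr
      obtain ⟨a, ha, han⟩ := hokr _ h
      refine ⟨hEl D i a, hEl_mem hi ha, a ^ D.cartan i r, fun _ => ⟨fun e => han ?_, hEl_conj C hc hi hr ha⟩⟩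
      rcases Int.natAbs_eq (D.cartan i r) with e' | e' <;> rw [e'] at e
      · rwa [zpow_natCast] at e
      · rwa [zpow_neg, inv_eq_one, zpow_natCast] at e
    · exact ⟨1, one_mem _, 0, fun h => absurd h hr⟩
  choose H hHm c hHc using hH
  let X : ℕ → K → E := fun r t => if r < D.nroots then lc hπ (H r) (D.scGen K r (t / (c r - 1))) else 1
  have hX : ∀ r < D.nroots, ∀ t, X r t = lc hπ (H r) (D.scGen K r (t / (c r - 1))) := fun r hr t => if_pos hr
  have hmap : ∀ r t, π (X r t) = D.scGen K r t := by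
    intro r t
    by_cases hr : r < D.nroots
    · obtain ⟨h1, h2⟩ := hHc r hr
      rw [hX r hr, map_lc, commutatorElement_def, h2, y_inv, y_add]
      congr 1
      field_simp [sub_ne_zero.2 h1]
      ring
    · simp only [X, if_neg hr, map_one]
      exact (y_of_le hr t).symm
  have hneg : ∀ r < D.nroots, r ≠ D.neg r := fun r hr => (C.neg_ne r hr).symm
  have hnil : ∀ r < D.nroots, tIds D r r = [] := fun r hr => by
    simp [tIds, ChevalleyDatum.commTerms, ChevalleyDatum.chainRoot, C.chain_self r hr]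
  have hadd : ∀ r t t', X r (t + t') = X r t * X r t' := by
    intro r t t'
    by_cases hr : r < D.nroots
    · rw [hX r hr (t + t'), add_div, ← y_add, lc_mul_right hπ hk, ← hX r hr, ← hX r hr]
      congr 1
      refine mul_inv_eq_iff_eq_mul.2 (lift_commute hπ hk ?_)
      rw [map_lift, hmap]
      exact hz r hr r hr (hneg r hr) (hnil r hr) _ _
    · simp [X, if_neg hr]
  have hcl : ∀ h ∈ torY D K, ∀ k ∈ torY D K, ∀ x, lc hπ (h * k * h⁻¹) x = lc hπ k x := by
    intro h hh k hk' x
    have hzc := torY_comm C hc hM hh hk'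
    rw [show h * k * h⁻¹ = h * k * h⁻¹ * k⁻¹ * k by group, lc_mul_left hπ hk, lc_central_left hπ hk hperf hzc x, mul_one]
    have e1 := lift_commute hπ hk (a := lift hπ (h * k * h⁻¹ * k⁻¹)) (b := lc hπ k x)
      (by rw [map_lift]; exact lc_central_left hπ hk hperf hzc _)
    rw [e1, mul_inv_cancel_right]
  -- independence of the chosen torus element
  have hind : ∀ r < D.nroots, ∀ h ∈ torY D K, ∀ b : K, (∀ v, h * D.scGen K r v * h⁻¹ = D.scGen K r (b * v)) →
      ∀ t, lc hπ h (D.scGen K r t) = X r ((b - 1) * t) := by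
    intro r hr h hh b hb t
    have e1 : lift hπ h * X r t * (lift hπ h)⁻¹ = X r (b * t) := by
      rw [hX r hr, hX r hr, lc_conj hπ hk, map_lift, hcl h hh _ (hHm r), hb,
        mul_div_assoc]
    have e2 : lc hπ h (D.scGen K r t) = lift hπ h * X r t * (lift hπ h)⁻¹ * (X r t)⁻¹ := by
      rw [← map_lift hπ h, ← hmap r t, ← lc_map hπ hk, commutatorElement_def, map_lift]
    rw [e2, e1, sub_mul, one_mul, sub_eq_add_neg, hadd]
    congr 1
    exact (eq_inv_of_mul_eq_one_left (by
      rw [← hadd, neg_add_cancel]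
      exact x_zero hadd r)).symm
  refine ⟨X, hmap, hadd, fun g hg r hr b hb t => ?_, fun i hi g hg r hr t => ?_⟩
  · obtain ⟨h1, h2⟩ := hHc r hr
    rw [hX r hr, lc_conj hπ hk, hcl _ hg _ (hHm r), hb,
      hind r hr _ (hHm r) (c r) h2]
    congr 1
    field_simp [sub_ne_zero.2 h1]
  · obtain ⟨h1, h2⟩ := hHc r hr
    set r' := D.reflectRoot i r
    set a := kap C i (1 : K) r
    have ha : a ≠ 0 := kap_ne_zero C hi hr one_ne_zero
    have hw : ∀ v, wEl D i (1 : K) * D.scGen K r v * (wEl D i 1)⁻¹ = D.scGen K r' (a * v) :=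
      wEl_conj C hc hi hr one_ne_zero
    have hH' : wEl D i (1 : K) * H r * (wEl D i 1)⁻¹ ∈ torY D K := by
      have hn := torY_normal C hc (D := D) (K := K)
      exact hn.conj_mem ⟨H r, torY_le_monoY (hHm r)⟩ (by exact hHm r) ⟨_, wEl_mem hi one_ne_zero⟩
    have hb : ∀ v, wEl D i (1 : K) * H r * (wEl D i 1)⁻¹ * D.scGen K r' v *
        (wEl D i (1 : K) * H r * (wEl D i 1)⁻¹)⁻¹ = D.scGen K r' (c r * v) := by
      intro v
      rw [← mul_div_cancel₀ v ha, ← hw, show ∀ w h z : D.SteinbergCover K,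
        w * h * w⁻¹ * (w * z * w⁻¹) * (w * h * w⁻¹)⁻¹ = w * (h * z * h⁻¹) * w⁻¹ from fun w h z => by group,
        h2, hw]
      congr 1
      ring
    rw [hX r hr, lc_conj hπ hk, hg, hw, hind r' (C.refl_lt i hi r hr) _ hH' (c r) hb]
    congr 1
    field_simp [sub_ne_zero.2 h1]

include hk C hc hM in
/-- the relations hold for normalised root elements -/
theorem rel_all {ok : ℕ → Bool} (hok : ∀ n, ok n = true → ∃ a : K, a ≠ 0 ∧ a ^ n ≠ 1)
    (hterm : termCheck D ok = true)
    (hz : ∀ r < D.nroots, ∀ s < D.nroots, s ≠ D.neg r → tIds D r s = [] → Zero hπ r s)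
    {X : ℕ → K → E} (hmap : ∀ r t, π (X r t) = D.scGen K r t) (hadd : ∀ r t t', X r (t + t') = X r t * X r t')
    (htor : ∀ (g : E), π g ∈ torY D K → ∀ r < D.nroots, ∀ b : K,
      (∀ v, π g * D.scGen K r v * (π g)⁻¹ = D.scGen K r (b * v)) → ∀ t, g * X r t * g⁻¹ = X r (b * t))
    (hwe : ∀ i < D.rank, ∀ (g : E), π g = wEl D i 1 → ∀ r < D.nroots,
      ∀ t, g * X r t * g⁻¹ = X (D.reflectRoot i r) (kap C i 1 r * t)) :
    ∀ n, ∀ r < D.nroots, ∀ s < D.nroots, s ≠ D.neg r → (tIds D r s).length = n → Rel D X r s := by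
  classical
  intro n
  induction n using Nat.strong_induction_on with
  | _ n ih =>
  refine C.induction_simple (fun r => ∀ s < D.nroots, s ≠ D.neg r → (tIds D r s).length = n → Rel D X r s) ?_ ?_
  swap
  · intro i hi r hr ihr s hs hne hlen
    have hs' := C.refl_lt i hi s hs
    have e2 : (tIds D (D.reflectRoot i r) s).length = (tIds D r (D.reflectRoot i s)).length := by
      have := congrArg List.length (tIds_refl C K hi hr hs')
      rwa [C.refl_refl hi hs, List.length_map] at this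
    have hne' : D.reflectRoot i s ≠ D.neg r := fun e => hne (by
      rw [← C.refl_refl hi hs, e, C.refl_neg hi hr])
    have hrel := ihr _ hs' hne' (e2 ▸ hlen)
    obtain ⟨g, hg⟩ := hπ (wEl D i 1)
    intro t v
    have k1 := kap_ne_zero (K := K) C hi hr (z := 1) one_ne_zero
    have k2 := kap_ne_zero (K := K) C hi hs' (z := 1) one_ne_zero
    have e := congrArg (fun x => g * x * g⁻¹) (hrel (t / kap C i 1 r) (v / kap C i 1 (D.reflectRoot i s)))
    simp only [← conj_mul, hwe i hi g hg _ hr, hwe i hi g hg _ hs', C.refl_refl hi hs, mul_div_cancel₀ _ k1,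
      mul_div_cancel₀ _ k2] at e
    rw [e]
    congr 1
    have hmapw : ∀ L : List (ℕ × K), (∀ p ∈ L, p.1 < D.nroots) → g * wx X L * g⁻¹ =
        wx X (L.map fun p => (D.reflectRoot i p.1, kap C i (1 : K) p.1 * p.2)) := by
      intro L hL
      induction L with
      | nil => simp [wx]
      | cons p L ihL =>
        have h1 := ihL fun q hq => hL q (List.mem_cons_of_mem _ hq)
        simp only [wx, List.map_cons, List.prod_cons] at h1 ⊢
        rw [← conj_mul, hwe i hi g hg p.1 (hL p List.mem_cons_self), h1]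
    rw [hmapw _ (fun p hp => by
      have : p.1 ∈ tIds D r (D.reflectRoot i s) := by
        rw [← commWord_fst (K := K)]; exact List.mem_map_of_mem hp
      obtain ⟨c, hc', e⟩ := List.mem_map.1 this
      rw [← e]
      exact C.commTerms_lt hr hs' c hc'), ← commWord_kap C hi hr hs' one_ne_zero,
      mul_div_cancel₀ _ k1, mul_div_cancel₀ _ k2, C.refl_refl hi hs]
  intro i hi s hs hne hlen
  set r := D.simple i with hr_def
  have hr : r < D.nroots := C.simple_lt i hi
  rcases eq_or_ne (tIds D r s) [] with hnil | hnil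
  · intro t v
    rw [commWord_nil hnil, wx, List.map_nil, List.prod_nil, mul_one]
    exact (lift_commute hπ hk (by rw [hmap, hmap]; exact hz r hr s hs hne hnil t v)).symm
  have hterm' := hterm
  simp only [termCheck, List.all_eq_true, List.mem_range] at hterm'
  have hb := hterm' i hi s hs
  simp only [Bool.or_eq_true, beq_iff_eq, hne, List.isEmpty_iff, hnil, false_or, Bool.and_eq_true, ← hr_def] at hb
  obtain ⟨hind, hminor⟩ := hb
  have hsr : s ≠ r := by
    rintro rfl
    exact hnil (by simp [tIds, ChevalleyDatum.commTerms, ChevalleyDatum.chainRoot, C.chain_self r hr])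
  obtain ⟨ε, hε, hside⟩ := exists_side C hi hs hsr hne
  set S := (tIds D r s).toFinset with hS
  have hSside : ∀ c ∈ S, Side C ε i c := by
    intro c' hmem
    obtain ⟨c, hc', rfl⟩ := List.mem_map.1 (List.mem_toFinset.1 hmem)
    clear hmem
    obtain ⟨j, hj, hji, hpos⟩ := hside.2.2
    refine side_of C hε (C.commTerms_lt hr hs c hc') hj hji ?_
    obtain ⟨h1, h2, h3⟩ := C.commTerms_coef hr hs c hc'
    rw [h3 j hj, C.coef_simple i hi j hj, if_neg hji, mul_zero, zero_add, mul_left_comm]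
    exact mul_pos (by omega) hpos
  simp only [pairInd, List.all_eq_true, Bool.and_eq_true, decide_eq_true_eq, bne_iff_ne, ne_eq, Bool.or_eq_true,
    beq_iff_eq, List.contains_iff_mem] at hind
  have hfacts : ∀ c ∈ S, (c < D.nroots ∧ c ≠ D.neg r ∧ c ≠ D.neg s) ∧
      (Rel D X r c ∧ Rel D X s c ∧ (∀ e ∈ tIds D r c, e ∈ S) ∧ (∀ e ∈ tIds D s c, e ∈ S)) ∧
      ∀ e ∈ S, (e ≠ c → Rel D X c e) ∧ ∀ d ∈ tIds D c e, d ∈ S := by
    intro c hc'
    have hcm := List.mem_toFinset.1 hc'
    obtain ⟨⟨⟨⟨⟨⟨⟨⟨⟨h1, -⟩, -⟩, h4⟩, h5⟩, h6⟩, h7⟩, h8⟩, h9⟩, h10⟩ := hind c hcm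
    refine ⟨⟨h1, h4, h5⟩, ⟨ih _ (hlen ▸ h6) r hr c h1 h4 rfl, ih _ (hlen ▸ h7) s hs c h1 h5 rfl,
      fun e he => List.mem_toFinset.2 (h8 e he), fun e he => List.mem_toFinset.2 (h9 e he)⟩, fun e he => ?_⟩
    have hem := List.mem_toFinset.1 he
    obtain ⟨hne1, h11⟩ := h10 e hem
    rcases h11 with rfl | ⟨h12, h13⟩
    · exact ⟨fun h => absurd rfl h, by simp [tIds, ChevalleyDatum.commTerms, ChevalleyDatum.chainRoot, C.chain_self _ h1]⟩
    · have helt : e < D.nroots := (hSside e he).1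
      exact ⟨fun _ => ih _ (hlen ▸ h12) c h1 e helt hne1 rfl, fun d hd => List.mem_toFinset.2 (h13 d hd)⟩
  have hinj : ∀ g ∈ spanX X S, π g = 1 → g = 1 :=
    spanX_inj hmap hadd C S.card S rfl (fun c hc' => (hfacts c hc').1.1) (fun c hc' => side_ht C (hSside c hc'))
      (fun a ha b hb => ((hfacts a ha).2.2 b hb).2) (fun a ha b hb hne => ((hfacts a ha).2.2 b hb).1 hne)
  let W : K → K → E := fun t v => wx X (D.commWord K r s t v)
  let Φ : K → K → E := fun t v => (X r t * X s v)⁻¹ * (X s v * X r t)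
  have hW : ∀ t v, W t v ∈ spanX X S := fun t v =>
    wx_mem (commWord_mem (fun c hc' => List.mem_toFinset.2 hc') t v)
  have hπW : ∀ t v, π (W t v) = wy D (D.commWord K r s t v) := fun t v => by
    simp only [W, wx, wy, map_list_prod, List.map_map, Function.comp_def, hmap]
  have hπΦ : ∀ t v, π (Φ t v) = π (W t v) := fun t v => by
    simp only [Φ, map_mul, map_inv, hmap, hπW]
    rw [y_comm hr hs hsr hne]
    group
  let δ : K → K → E := fun t v => Φ t v * (W t v)⁻¹
  have hδ : ∀ t v, π (δ t v) = 1 := fun t v => by simp only [δ, map_mul, map_inv, hπΦ, mul_inv_cancel]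
  have hδc : ∀ t v x, x * δ t v = δ t v * x := fun t v x => central_of_map_one hk (hδ t v) x
  have hconjR : ∀ t, ∀ w ∈ spanX X S, X r t * w * (X r t)⁻¹ ∈ spanX X S := fun t w hw =>
    conj_spanX hadd (fun c hc' => (hfacts c hc').2.1.1) (fun c hc' => (hfacts c hc').2.1.2.2.1) t hw
  have hconjS : ∀ v, ∀ w ∈ spanX X S, X s v * w * (X s v)⁻¹ ∈ spanX X S := fun v w hw =>
    conj_spanX hadd (fun c hc' => (hfacts c hc').2.1.2.1) (fun c hc' => (hfacts c hc').2.1.2.2.2) v hw
  have hΦW : ∀ t v, Φ t v = δ t v * W t v := fun t v => by simp only [δ, inv_mul_cancel_right]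
  have haddR : ∀ t v v', δ t (v + v') = δ t v * δ t v' := by
    intro t v v'
    have e1 : Φ t (v + v') = (X s v')⁻¹ * Φ t v * X s v' * Φ t v' := by
      simp only [Φ, hadd]; group
    set w := (X s v')⁻¹ * W t v * X s v' * W t v' * (W t (v + v'))⁻¹ with hw
    have e2 : δ t (v + v') = δ t v * δ t v' * w := by
      rw [hw]
      calc δ t (v + v') = Φ t (v + v') * (W t (v + v'))⁻¹ := rfl
        _ = (X s v')⁻¹ * δ t v * (W t v * X s v') * (δ t v' * W t v') * (W t (v + v'))⁻¹ := by
            rw [e1, hΦW t v, hΦW t v']; group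
        _ = δ t v * (X s v')⁻¹ * (W t v * X s v') * (δ t v' * W t v') * (W t (v + v'))⁻¹ := by rw [hδc t v (X s v')⁻¹]
        _ = δ t v * ((X s v')⁻¹ * W t v * X s v' * δ t v') * W t v' * (W t (v + v'))⁻¹ := by group
        _ = δ t v * (δ t v' * ((X s v')⁻¹ * W t v * X s v')) * W t v' * (W t (v + v'))⁻¹ := by rw [hδc t v']
        _ = _ := by group
    have hwS : w ∈ spanX X S := by
      refine mul_mem (mul_mem ?_ (hW _ _)) (inv_mem (hW _ _))
      have := hconjS (-v') _ (hW t v)
      rwa [← x_inv hadd, inv_inv] at this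
    have : π w = 1 := by
      have := congrArg π e2
      rw [hδ, map_mul π (δ t v * δ t v') w, map_mul π (δ t v) (δ t v'), hδ, hδ, one_mul, one_mul] at this
      exact this.symm
    rw [e2, hinj w hwS this, mul_one]
  have haddT : ∀ t t' v, δ (t + t') v = δ t v * δ t' v := by
    intro t t' v
    have e1 : Φ (t + t') v = Φ t' v * ((X r t')⁻¹ * Φ t v * X r t') := by
      simp only [Φ, hadd]; group
    set w := W t' v * ((X r t')⁻¹ * W t v * X r t') * (W (t + t') v)⁻¹ with hw
    have e2 : δ (t + t') v = δ t v * δ t' v * w := by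
      rw [hw]
      calc δ (t + t') v = Φ (t + t') v * (W (t + t') v)⁻¹ := rfl
        _ = δ t' v * W t' v * ((X r t')⁻¹ * δ t v) * (W t v * X r t') * (W (t + t') v)⁻¹ := by
            rw [e1, hΦW t v, hΦW t' v]; group
        _ = δ t' v * (W t' v * (X r t')⁻¹ * δ t v) * (W t v * X r t') * (W (t + t') v)⁻¹ := by group
        _ = δ t' v * (δ t v * (W t' v * (X r t')⁻¹)) * (W t v * X r t') * (W (t + t') v)⁻¹ := by rw [hδc t v]
        _ = δ t' v * δ t v * (W t' v * ((X r t')⁻¹ * W t v * X r t') * (W (t + t') v)⁻¹) := by group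
        _ = _ := by rw [hδc t v (δ t' v)]
    have hwS : w ∈ spanX X S := by
      refine mul_mem (mul_mem (hW _ _) ?_) (inv_mem (hW _ _))
      have := hconjR (-t') _ (hW t v)
      rwa [← x_inv hadd, inv_inv] at this
    have : π w = 1 := by
      have := congrArg π e2
      rw [hδ, map_mul π (δ t v * δ t' v) w, map_mul π (δ t v) (δ t' v), hδ, hδ, one_mul, one_mul] at this
      exact this.symm
    rw [e2, hinj w hwS this, mul_one]
  obtain ⟨γ, hγ, b, hb, hγr, hγs⟩ := exists_weight C hc hok hr hs hminor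
  obtain ⟨g, rfl⟩ := hπ γ
  have hginv : ∀ t v, δ t (b * v) = δ t v := by
    intro t v
    have er : g * X r t * g⁻¹ = X r t := by
      rw [htor g hγ r hr 1 (fun v => by rw [hγr, one_mul]), one_mul]
    have es : g * X s v * g⁻¹ = X s (b * v) := htor g hγ s hs b hγs v
    have e1 : g * Φ t v * g⁻¹ = Φ t (b * v) := by
      simp only [Φ]
      rw [← er, ← es, er]
      rw [show g * ((X r t * X s v)⁻¹ * (X s v * X r t)) * g⁻¹ =
        (g * X r t * g⁻¹ * (g * X s v * g⁻¹))⁻¹ * (g * X s v * g⁻¹ * (g * X r t * g⁻¹)) by group, er]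
    have hgS : ∀ w ∈ spanX X S, g * w * g⁻¹ ∈ spanX X S := by
      intro w hw
      induction hw using Subgroup.closure_induction with
      | mem x hx =>
        obtain ⟨c, z, hc', rfl⟩ := hx
        obtain ⟨a, -, ea⟩ := torY_conj C hc hγ (hfacts c hc').1.1
        rw [htor g hγ c (hfacts c hc').1.1 a ea]
        exact mem_spanX hc' _
      | one => simp
      | mul x y _ _ hx hy => rw [← conj_mul]; exact mul_mem hx hy
      | inv x _ hx => rw [← conj_inv]; exact inv_mem hx
    set w := g * W t v * g⁻¹ * (W t (b * v))⁻¹ with hw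
    have e2 : δ t (b * v) = δ t v * w := by
      rw [hw]
      calc δ t (b * v) = Φ t (b * v) * (W t (b * v))⁻¹ := rfl
        _ = g * δ t v * (W t v * g⁻¹) * (W t (b * v))⁻¹ := by rw [← e1, hΦW]; group
        _ = _ := by rw [hδc]; group
    have : π w = 1 := by
      have := congrArg π e2
      rw [hδ, map_mul π (δ t v) w, hδ, one_mul] at this
      exact this.symm
    rw [e2, hinj w (mul_mem (hgS _ (hW _ _)) (inv_mem (hW _ _))) this, mul_one]
  intro t v
  have hδ1 : δ t v = 1 := biadd_zero_of_weight δ haddR (fun a b b' => hδc a b' (δ a b)) hb hginv t v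
  have e := hΦW t v
  rw [hδ1, one_mul] at e
  rw [← inv_mul_eq_iff_eq_mul]
  exact e

include C in
/-- relators give a section -/
theorem exists_section_of_rel {X : ℕ → K → E} (hmap : ∀ r t, π (X r t) = D.scGen K r t)
    (hadd : ∀ r t t', X r (t + t') = X r t * X r t')
    (hrel : ∀ r < D.nroots, ∀ s < D.nroots, s ≠ r → s ≠ D.neg r → Rel D X r s) :
    ∃ σ : D.SteinbergCover K →* E, ∀ x, π (σ x) = x := by
  have key : ∀ r, r < D.nroots → ∀ t, FreeGroup.lift (fun p : Fin D.nroots × K => X p.1 p.2) (D.stX r t) = X r t := by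
    intro r hr t
    simp [ChevalleyDatum.stX, hr]
  have key0 : ∀ r t, FreeGroup.lift (fun p : Fin D.nroots × K => X p.1 p.2) (D.stX r t) =
      if r < D.nroots then X r t else 1 := by
    intro r t
    by_cases hr : r < D.nroots <;> simp [ChevalleyDatum.stX, hr]
  have hrels : ∀ g ∈ D.steinbergRelsAB K, FreeGroup.lift (fun p : Fin D.nroots × K => X p.1 p.2) g = 1 := by
    rintro g (⟨r, t, v, hr, rfl⟩ | ⟨r, s, t, v, hr, hs, hne, hneg, rfl⟩)
    · simp only [map_mul, map_inv, key r hr, hadd]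
      group
    · simp only [map_mul, map_inv, key r hr, key s hs, ChevalleyDatum.stWord, map_list_prod, List.map_map]
      rw [mul_inv_eq_one]
      have e : List.map (FreeGroup.lift (fun p : Fin D.nroots × K => X p.1 p.2) ∘ fun p => D.stX p.1 p.2)
          (D.commWord K r s t v) = List.map (fun p => X p.1 p.2) (D.commWord K r s t v) := by
        refine List.map_congr_left fun p hp => ?_
        simp only [Function.comp_apply, key0]
        by_cases hp1 : p.1 < D.nroots
        · rw [if_pos hp1]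
        · rw [if_neg hp1]
          have h0 := hmap p.1 p.2
          have : p.1 ∈ tIds D r s := by rw [← commWord_fst (K := K)]; exact List.mem_map_of_mem hp
          exfalso
          obtain ⟨c, hc', e⟩ := List.mem_map.1 this
          rw [← e] at hp1
          simp only [ChevalleyDatum.commTerms, List.mem_filterMap] at hc'
          exact hp1 (C.commTerms_lt hr hs c (by
            simp only [ChevalleyDatum.commTerms, List.mem_filterMap]; exact hc'))
      rw [e, show (X s v)⁻¹ * (X r t)⁻¹ * X s v * X r t = (X r t * X s v)⁻¹ * (X s v * X r t) by group,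
        hrel r hr s hs hne hneg t v, inv_mul_cancel_left]
      rfl
  refine ⟨PresentedGroup.toGroup hrels, fun x => ?_⟩
  have e : π.comp (PresentedGroup.toGroup hrels) = MonoidHom.id _ := PresentedGroup.ext fun p => by
    rw [MonoidHom.comp_apply, PresentedGroup.toGroup.of, hmap, MonoidHom.id_apply, ChevalleyDatum.scGen,
      ChevalleyDatum.stX, dif_pos p.1.isLt]
    rfl
  exact DFunLike.congr_fun e x

include hk C hc hM in
/-- central extensions split -/
theorem exists_section {okc okt okr : ℕ → Bool} {coef : ℕ} {sc : ℕ → Bool}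
    (hokc : ∀ n, okc n = true → ∃ a : K, a ≠ 0 ∧ a ^ n ≠ 1) (hokt : ∀ n, okt n = true → ∃ a : K, a ≠ 0 ∧ a ^ n ≠ 1)
    (hokr : ∀ n, okr n = true → ∃ a : K, a ≠ 0 ∧ a ^ n ≠ 1)
    (hcoef : ∀ x : ℤ, 1 ≤ x.natAbs → x.natAbs ≤ coef → (x : K) ≠ 0) (hscal : ∀ g, sc g = true → ∃ a b : K, a ≠ 0 ∧ b ≠ 0 ∧ a ^ g + 1 = b ^ g ∧ a ^ g * a ^ g + a ^ g + 1 ≠ 0)
    (h1 : commCheck D okc coef sc = true) (h2 : termCheck D okt = true) (h3 : rootCheck D okr = true)
    (hperf : commutator (D.SteinbergCover K) = ⊤) (hπ : Function.Surjective π) :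
    ∃ σ : D.SteinbergCover K →* E, ∀ x, π (σ x) = x := by
  have hz := zero_all hπ hk C hc hokc hcoef hscal h1
  obtain ⟨X, hmap, hadd, htor, hwe⟩ := exists_roots hπ hk C hc hM hperf hokr h3 hz
  exact exists_section_of_rel C hmap hadd fun r hr s hs _ hneg =>
    rel_all hπ hk C hc hM hokt h2 hz hmap hadd htor hwe _ r hr s hs hneg rfl

end Ext

end Cfsg.Agent.Suzuki.StLift
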