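import Cfsg.Agent.Suzuki.StLiftGen

/-!
Central extensions of Steinberg's group over the field with three elements: auxiliary killing arguments.
-/

set_option autoImplicit false

universe u v

namespace Cfsg.Agent.Suzuki.StLift

open Cfsg.Lie Cfsg.Agent.Chev Cfsg.Agent.KnownA.Cover
open scoped commutatorElement

section Field

variable {K : Type u} [Field K]

/-- the field has three elements -/
def Three (K : Type u) [Field K] : Prop := (∀ a : K, a = 0 ∨ a = 1 ∨ a = -1) ∧ (3 : K) = 0 ∧ (2 : K) ≠ 0

theorem three_of_card [Fintype K] (h : Fintype.card K = 3) : Three K := by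
  classical
  have h3 : (3 : K) = 0 := by
    have hc := FiniteField.cast_card_eq_zero K
    rw [h] at hc
    exact_mod_cast hc
  have h2 : (2 : K) ≠ 0 := fun e => one_ne_zero (α := K) (by linear_combination h3 - e)
  refine ⟨fun a => ?_, h3, h2⟩
  by_contra hc
  push Not at hc
  have : ({0, 1, -1, a} : Finset K).card = 4 := by
    rw [Finset.card_insert_of_notMem, Finset.card_insert_of_notMem, Finset.card_insert_of_notMem, Finset.card_singleton]
    · simp only [Finset.mem_singleton]; exact fun e => hc.2.2 e.symm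
    · simp only [Finset.mem_insert, Finset.mem_singleton, not_or]
      exact ⟨fun e => h2 (by linear_combination e), fun e => hc.2.1 e.symm⟩
    · simp only [Finset.mem_insert, Finset.mem_singleton, not_or]
      exact ⟨zero_ne_one, fun e => one_ne_zero (α := K) (by linear_combination e), fun e => hc.1 e.symm⟩
  have := Finset.card_le_univ ({0, 1, -1, a} : Finset K)
  omega

theorem Three.pm (h : Three K) {a : K} (ha : a ≠ 0) : a = 1 ∨ a = -1 := (h.1 a).resolve_left ha

/-- biadditive maps with central values -/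
structure Biadd {M : Type*} [Group M] (f : K → K → M) : Prop where
  left : ∀ t t' v, f (t + t') v = f t v * f t' v
  right : ∀ t v v', f t (v + v') = f t v * f t v'

namespace Biadd

variable {M : Type*} [Group M] {f : K → K → M} (hf : Biadd f)
include hf

theorem zero_left (v : K) : f 0 v = 1 := by
  have := hf.left 0 0 v
  rw [add_zero] at this
  exact mul_eq_left.1 this.symm

theorem zero_right (t : K) : f t 0 = 1 := by
  have := hf.right t 0 0
  rw [add_zero] at this
  exact mul_eq_left.1 this.symm

theorem neg_left (t v : K) : f (-t) v = (f t v)⁻¹ :=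
  eq_inv_of_mul_eq_one_left (by rw [← hf.left, neg_add_cancel, hf.zero_left])

theorem neg_right (t v : K) : f t (-v) = (f t v)⁻¹ :=
  eq_inv_of_mul_eq_one_left (by rw [← hf.right, neg_add_cancel, hf.zero_right])

theorem eq_mul (h : Three K) (t v : K) : f t v = f (t * v) 1 := by
  rcases h.1 v with rfl | rfl | rfl
  · rw [hf.zero_right, mul_zero, hf.zero_left]
  · rw [mul_one]
  · rw [hf.neg_right, mul_neg_one, hf.neg_left]

theorem trivial_of_inv (h : Three K) (h1 : f 1 1 = (f 1 1)⁻¹) (t v : K) : f t v = 1 := by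
  have h11 : f 1 1 = 1 := by
    have e3 : f 1 1 * f 1 1 * f 1 1 = 1 := by
      rw [← hf.left, ← hf.left, show (1 : K) + 1 + 1 = 3 by norm_num, h.2.1, hf.zero_left]
    have e2 : f 1 1 * f 1 1 = 1 := by nth_rewrite 2 [h1]; exact mul_inv_cancel _
    rwa [e2, one_mul] at e3
  rw [hf.eq_mul h]
  rcases h.1 (t * v) with e | e | e <;> rw [e]
  · exact hf.zero_left _
  · exact h11
  · rw [hf.neg_left, h11, inv_one]

theorem trivial_of_fix (h : Three K) {a b : K} (hab : a * b = -1) (hinv : f (a * 1) (b * 1) = f 1 1) (t v : K) :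
    f t v = 1 := by
  refine hf.trivial_of_inv h ?_ t v
  conv_lhs => rw [← hinv, mul_one, mul_one, hf.eq_mul h, hab, hf.neg_left]

end Biadd

end Field

variable {D : ChevalleyDatum} {K : Type u} [Field K]

theorem y_inj (C : Cert.{u} D) {r : ℕ} (hr : r < D.nroots) {t t' : K} (h : D.scGen K r t = D.scGen K r t') : t = t' := by
  obtain ⟨k, hk⟩ := exists_coroot_ne (K := K) C hr
  have e := congrArg (fun g => ((theta C g : GL D.Idx K) : Matrix D.Idx D.Idx K) (Sum.inl k) (Sum.inr ⟨D.neg r, C.neg_lt r hr⟩)) h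
  simp only [theta_gen, C.coe_xu, entry_xu C hr hr, if_true] at e
  exact mul_left_cancel₀ hk e

section Checks

variable (D : ChevalleyDatum)

/-- the image of a root and its sign under a word -/
def img (eta : ℕ → ℕ → ℤ) : List ℕ → ℕ → ℕ × ℤ
  | [], r => (r, 1)
  | i :: w, r => (D.reflectRoot i (img eta w r).1, eta i (img eta w r).1 * (img eta w r).2)

/-- a word killing the pairing of two roots over the field with three elements -/
def weylOK (eta : ℕ → ℕ → ℤ) (words : List (List ℕ)) (p s : ℕ) : Bool :=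
  words.any fun w => w.all (fun i => decide (i < D.rank)) &&
    ((img D eta w p).1 == p && (img D eta w s).1 == s && (img D eta w p).2 * (img D eta w s).2 == -1 ||
     (img D eta w p).1 == s && (img D eta w s).1 == p && (img D eta w p).2 * (img D eta w s).2 == 1)

/-- commuting pairs over the field with three elements -/
def commCheckThree (ok : ℕ → Bool) (eta : ℕ → ℕ → ℤ) (words : List (List ℕ)) : Bool :=
  (List.range D.rank).all fun i => (List.range D.nroots).all fun s =>
    let p := D.simple i
    s == D.neg p || !(tIds D p s).isEmpty || s == p || minorOK D ok p s || weylOK D eta words p s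

end Checks

section Ext

variable {E : Type v} [Group E] {π : E →* D.SteinbergCover K} (hπ : Function.Surjective π)
  (hk : π.ker ≤ Subgroup.center E) (C : Cert.{u} D) (hc : cornerCheck D = true) (h3 : Three K)

include C hc

theorem img_conj (w : List ℕ) (hw : ∀ i ∈ w, i < D.rank) {r : ℕ} (hr : r < D.nroots) :
    (img D C.eta w r).1 < D.nroots ∧ ((img D C.eta w r).2 = 1 ∨ (img D C.eta w r).2 = -1) ∧
      ∀ v : K, (w.map fun i => wEl D i (1 : K)).prod * D.scGen K r v * ((w.map fun i => wEl D i (1 : K)).prod)⁻¹ =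
        D.scGen K (img D C.eta w r).1 (((img D C.eta w r).2 : K) * v) := by
  induction w with
  | nil => exact ⟨hr, Or.inl rfl, fun v => by simp [img]⟩
  | cons i w ih =>
    obtain ⟨h1, h2, h4⟩ := ih fun j hj => hw j (List.mem_cons_of_mem _ hj)
    have hi := hw i List.mem_cons_self
    refine ⟨C.refl_lt i hi _ h1, ?_, fun v => ?_⟩
    · simp only [img]
      rcases C.eta_sign i hi _ h1 with e | e <;> rcases h2 with e' | e' <;> rw [e, e'] <;> simp
    · rw [List.map_cons, List.prod_cons]
      rw [show ∀ a b g : D.SteinbergCover K, a * b * g * (a * b)⁻¹ = a * (b * g * b⁻¹) * a⁻¹ from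
        fun a b g => by group, h4, wEl_conj C hc hi h1 one_ne_zero]
      simp only [img, kap, one_zpow, one_mul, Int.cast_mul, mul_assoc]

include hπ hk h3

theorem zero_of_weyl {words : List (List ℕ)} {p s : ℕ} (hp : p < D.nroots) (hs : s < D.nroots) (hne : s ≠ D.neg p)
    (h : tIds D p s = []) (hw : weylOK D C.eta words p s = true) : Zero hπ p s := by
  obtain ⟨hl, hr⟩ := lc_biadd hπ hk C hc hp hs hne h
  have hf : Biadd (fun t v => lc hπ (D.scGen K p t) (D.scGen K s v)) := ⟨hl, hr⟩
  simp only [weylOK, List.any_eq_true, Bool.and_eq_true, List.all_eq_true, decide_eq_true_eq, Bool.or_eq_true,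
    beq_iff_eq] at hw
  obtain ⟨w, -, hwlt, hw⟩ := hw
  obtain ⟨-, a1, a2⟩ := img_conj (K := K) C hc w hwlt hp
  obtain ⟨-, b1, b2⟩ := img_conj (K := K) C hc w hwlt hs
  obtain ⟨g, hg⟩ := hπ ((w.map fun i => wEl D i (1 : K)).prod)
  have hinv : lc hπ (D.scGen K p 1) (D.scGen K s 1) =
      lc hπ (D.scGen K (img D C.eta w p).1 (((img D C.eta w p).2 : K) * 1))
        (D.scGen K (img D C.eta w s).1 (((img D C.eta w s).2 : K) * 1)) := by
    rw [← lc_central hπ hk (y_commute C hp hs hne h (1 : K) 1) g, lc_conj hπ hk, hg, a2, b2]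
  intro t v
  rcases hw with ⟨⟨e1, e2⟩, e3⟩ | ⟨⟨e1, e2⟩, e3⟩
  · rw [e1, e2] at hinv
    exact hf.trivial_of_fix h3 (by rw [← Int.cast_mul, e3]; simp) hinv.symm t v
  · rw [e1, e2] at hinv
    refine hf.trivial_of_inv h3 ?_ t v
    show lc hπ (D.scGen K p 1) (D.scGen K s 1) = (lc hπ (D.scGen K p 1) (D.scGen K s 1))⁻¹
    refine hinv.trans ((lc_swap hπ _ _).trans (congrArg (·⁻¹) ?_))
    rw [mul_one, mul_one]
    refine (hf.eq_mul h3 _ _).trans ?_
    show lc hπ (D.scGen K p _) (D.scGen K s 1) = _
    rw [← Int.cast_mul, mul_comm, e3, Int.cast_one]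

theorem zero_self {r : ℕ} (hr : r < D.nroots) : Zero hπ r r := by
  obtain ⟨hl, hr'⟩ := lc_biadd hπ hk C hc hr hr (C.neg_ne r hr).symm
    (by simp [tIds, ChevalleyDatum.commTerms, ChevalleyDatum.chainRoot, C.chain_self r hr])
  have hf : Biadd (fun t v => lc hπ (D.scGen K r t) (D.scGen K r v)) := ⟨hl, hr'⟩
  exact fun t v => hf.trivial_of_inv h3 (by simp [lc_self hπ hk]) t v

theorem zero_all_three {ok : ℕ → Bool} (hok : ∀ n, ok n = true → ∃ a : K, a ≠ 0 ∧ a ^ n ≠ 1)
    {eta : ℕ → ℕ → ℤ} (heta : C.eta = eta) {words : List (List ℕ)}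
    (hcheck : commCheckThree D ok eta words = true) :
    ∀ r < D.nroots, ∀ s < D.nroots, s ≠ D.neg r → tIds D r s = [] → Zero hπ r s := by
  refine zero_of_base hπ hk C hc fun i hi s hs hne h => ?_
  have hc' := hcheck
  simp only [commCheckThree, List.all_eq_true, List.mem_range] at hc'
  have hb := hc' i hi s hs
  simp only [Bool.or_eq_true, beq_iff_eq, h, List.isEmpty_nil, Bool.not_true, Bool.false_eq_true, or_false, hne, false_or] at hb
  rcases hb with (hb | hb) | hb
  · rw [hb]; exact zero_self hπ hk C hc h3 (C.simple_lt i hi)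
  · exact zero_of_minor hπ hk C hc hok (C.simple_lt i hi) hs hne h hb
  · exact zero_of_weyl hπ hk C hc h3 (C.simple_lt i hi) hs hne h (heta ▸ hb)

end Ext

end Cfsg.Agent.Suzuki.StLift
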