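import Cfsg.Agent.Suzuki.StLiftBasic

/-!
Central extensions of Steinberg's group: central lifts of commuting pairs, torus-normalised root elements.
-/

set_option autoImplicit false

universe u v

namespace Cfsg.Agent.Suzuki.StLift

open Cfsg.Lie Cfsg.Agent.Chev Cfsg.Agent.KnownA.Cover
open scoped commutatorElement

variable {D : ChevalleyDatum} {K : Type u} [Field K]

theorem commWord_fst (r s : ℕ) (t v : K) : (D.commWord K r s t v).map Prod.fst = tIds D r s := by
  simp [ChevalleyDatum.commWord, tIds, List.map_map, Function.comp_def]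

theorem commWord_nil {r s : ℕ} (h : tIds D r s = []) (t v : K) : D.commWord K r s t v = [] := by
  have := commWord_fst (D := D) (K := K) r s t v
  rw [h, List.map_eq_nil_iff] at this
  exact this

section Cert

variable (C : Cert.{u} D)
include C

theorem tIds_refl (K : Type u) [Field K] {i r s : ℕ} (hi : i < D.rank) (hr : r < D.nroots) (hs : s < D.nroots) :
    tIds D (D.reflectRoot i r) (D.reflectRoot i s) = (tIds D r s).map (D.reflectRoot i) := by
  have h := congrArg (List.map Prod.fst) (C.commWord_refl (F := K) hi hr hs 0 0)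
  rw [commWord_fst, List.map_map] at h
  rw [h, ← commWord_fst (D := D) (K := K) r s 0 0, List.map_map]
  rfl

theorem y_commute {r s : ℕ} (hr : r < D.nroots) (hs : s < D.nroots) (hne : s ≠ D.neg r)
    (h : tIds D r s = []) (t v : K) :
    D.scGen K r t * D.scGen K s v = D.scGen K s v * D.scGen K r t := by
  by_cases hsr : s = r
  · subst hsr
    rw [y_add, y_add, add_comm]
  · rw [y_comm hr hs hsr hne, commWord_nil h, wy, List.map_nil, List.prod_nil, mul_one]

end Cert

section Ext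

variable {E : Type v} [Group E] {π : E →* D.SteinbergCover K} (hπ : Function.Surjective π)
  (hk : π.ker ≤ Subgroup.center E)

/-- the lifts of two root subgroups commute -/
def Zero (r s : ℕ) : Prop := ∀ t v : K, lc hπ (D.scGen K r t) (D.scGen K s v) = 1

theorem zero_symm {r s : ℕ} (h : Zero hπ r s) : Zero hπ s r := fun t v => by
  rw [lc_swap, h v t, inv_one]

include hk in
theorem zero_conj {r s r' s' : ℕ} (h : Zero hπ r s) (γ : D.SteinbergCover K) {a b : K} (ha : a ≠ 0) (hb : b ≠ 0)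
    (er : ∀ t, γ * D.scGen K r t * γ⁻¹ = D.scGen K r' (a * t))
    (es : ∀ t, γ * D.scGen K s t * γ⁻¹ = D.scGen K s' (b * t)) : Zero hπ r' s' := by
  intro t v
  obtain ⟨g, rfl⟩ := hπ γ
  rw [← mul_div_cancel₀ t ha, ← mul_div_cancel₀ v hb, ← er, ← es, ← lc_conj hπ hk g, h, mul_one, mul_inv_cancel]

variable (C : Cert.{u} D)
include C hk

theorem zero_of_dec {r s coef : ℕ} (hs : s < D.nroots)
    (hcoef : ∀ x : ℤ, 1 ≤ x.natAbs → x.natAbs ≤ coef → (x : K) ≠ 0)
    (h : decOK D coef r s = true) : Zero hπ r s := by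
  simp only [decOK, List.any_eq_true, List.mem_range] at h
  obtain ⟨p, hp, h⟩ := h
  split at h
  swap
  · simp at h
  rename_i q _
  simp only [Bool.and_eq_true, decide_eq_true_eq, bne_iff_ne, ne_eq, List.isEmpty_iff] at h
  obtain ⟨⟨⟨⟨⟨⟨⟨hq, hqp⟩, hqn⟩, hps⟩, hqs⟩, esp⟩, esq⟩, h⟩ := h
  split at h
  swap
  · simp at h
  rename_i c x hterm
  simp only [Bool.and_eq_true, decide_eq_true_eq, beq_iff_eq] at h
  obtain ⟨⟨rfl, hx1⟩, hx2⟩ := h
  have hx := hcoef x hx1 hx2
  refine zero_symm hπ fun v t => ?_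
  set w := -t / (x : K) with hw
  have e : D.scGen K c t = ⁅(D.scGen K q w)⁻¹, (D.scGen K p 1)⁻¹⁆ := by
    have h1 := y_comm (K := K) hp hq hqp hqn 1 w
    have hwy : wy D (D.commWord K p q 1 w) = D.scGen K c t := by
      simp only [ChevalleyDatum.commWord, hterm, List.map_cons, List.map_nil, wy, List.prod_cons, List.prod_nil,
        mul_one, pow_one]
      congr 1
      rw [hw]; field_simp
    rw [hwy] at h1
    rw [commutatorElement_def, inv_inv, inv_inv, mul_assoc, h1]
    group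
  have c1 : ∀ v', D.scGen K s v * D.scGen K p v' = D.scGen K p v' * D.scGen K s v := fun v' =>
    y_commute C hs hp hps esp v v'
  have c2 : ∀ v', D.scGen K s v * D.scGen K q v' = D.scGen K q v' * D.scGen K s v := fun v' =>
    y_commute C hs hq hqs esq v v'
  set S := lift hπ (D.scGen K s v)
  set A := (lift hπ (D.scGen K q w))⁻¹
  set B := (lift hπ (D.scGen K p 1))⁻¹
  have e2 : lc hπ (D.scGen K s v) (D.scGen K c t) = ⁅S, ⁅A, B⁆⁆ := by
    rw [lc_map hπ hk S ⁅A, B⁆, map_commutatorElement, map_inv, map_inv, map_lift, map_lift, map_lift, e]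
  have e3 : S * ⁅A, B⁆ * S⁻¹ = ⁅A, B⁆ := by
    rw [show S * ⁅A, B⁆ * S⁻¹ = ⁅S * A * S⁻¹, S * B * S⁻¹⁆ by simp [commutatorElement_def, mul_assoc]]
    refine comm_congr hk ?_ ?_
    · simp only [S, A, map_mul, map_inv, map_lift]
      rw [y_inv, c2, mul_inv_cancel_right]
    · simp only [S, B, map_mul, map_inv, map_lift]
      rw [y_inv, c1, mul_inv_cancel_right]
  rw [e2, commutatorElement_def, e3, mul_inv_cancel]

variable (hc : cornerCheck D = true) {M : CoxeterMatrix (Fin D.rank)} (hM : CoxOK D M)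
include hc hM

omit hk in
/-- torus elements commute up to the centre -/
theorem torY_comm {a b : D.SteinbergCover K} (ha : a ∈ torY D K) (hb : b ∈ torY D K) :
    a * b * a⁻¹ * b⁻¹ ∈ Subgroup.center (D.SteinbergCover K) := by
  refine kernel_central C hc hM ?_
  rw [MonoidHom.mem_ker]
  simp only [map_mul, map_inv]
  have key : ∀ g ∈ torY D K, ∀ h ∈ torY D K, theta C g * theta C h = theta C h * theta C g := by
    intro g hg
    induction hg using Subgroup.closure_induction with
    | mem x hx =>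
      obtain ⟨i, t, hi, ht, rfl⟩ := hx
      intro h hh
      induction hh using Subgroup.closure_induction with
      | mem y hy =>
        obtain ⟨j, s, hj, hs, rfl⟩ := hy
        apply Subtype.ext
        rw [Subgroup.coe_mul, Subgroup.coe_mul, theta_hEl, theta_hEl]
        exact C.hu_comm (C.simple_lt i hi) (C.simple_lt j hj) ht hs
      | one => rw [map_one, one_mul, mul_one]
      | mul y z _ _ hy hz => rw [map_mul]; exact (Commute.mul_right hy hz : Commute _ _)
      | inv y _ hy => rw [map_inv]; exact (Commute.inv_right hy : Commute _ _)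
    | one => intro h _; rw [map_one, one_mul, mul_one]
    | mul x y _ _ hx hy => intro h hh; rw [map_mul]; exact (Commute.mul_left (hx h hh) (hy h hh) : Commute _ _)
    | inv x _ hx => intro h hh; rw [map_inv]; exact (Commute.inv_left (hx h hh) : Commute _ _)
  rw [key a ha b hb, mul_inv_cancel_right, mul_inv_cancel]

omit hk hM in
theorem torus2_conj {i j r : ℕ} (hi : i < D.rank) (hj : j < D.rank) (hr : r < D.nroots) {a : K} (ha : a ≠ 0)
    (m k : ℤ) (v : K) :
    hEl D i (a ^ m) * hEl D j (a ^ k) * D.scGen K r v * (hEl D i (a ^ m) * hEl D j (a ^ k))⁻¹ =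
      D.scGen K r (a ^ (D.cartan i r * m + D.cartan j r * k) * v) := by
  rw [show hEl D i (a ^ m) * hEl D j (a ^ k) * D.scGen K r v * (hEl D i (a ^ m) * hEl D j (a ^ k))⁻¹ =
      hEl D i (a ^ m) * (hEl D j (a ^ k) * D.scGen K r v * (hEl D j (a ^ k))⁻¹) * (hEl D i (a ^ m))⁻¹ by group,
    hEl_conj C hc hj hr (zpow_ne_zero _ ha), hEl_conj C hc hi hr (zpow_ne_zero _ ha), ← zpow_mul, ← zpow_mul,
    ← mul_assoc, ← zpow_add₀ ha]
  congr 2
  ring

omit hk hM in
/-- a torus element with weights one and not one -/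
theorem exists_weight {ok : ℕ → Bool} (hok : ∀ n, ok n = true → ∃ a : K, a ≠ 0 ∧ a ^ n ≠ 1) {r s : ℕ}
    (hr : r < D.nroots) (hs : s < D.nroots) (h : minorOK D ok r s = true) :
    ∃ γ ∈ torY D K, ∃ b : K, b ≠ 1 ∧ (∀ v, γ * D.scGen K r v * γ⁻¹ = D.scGen K r v) ∧
      ∀ v, γ * D.scGen K s v * γ⁻¹ = D.scGen K s (b * v) := by
  simp only [minorOK, List.any_eq_true, List.mem_range] at h
  obtain ⟨i, hi, j, hj, h⟩ := h
  simp only [Bool.and_eq_true, bne_iff_ne, ne_eq] at h
  obtain ⟨hg, h⟩ := h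
  obtain ⟨A, hA⟩ := Int.gcd_dvd_left (D.cartan i r) (D.cartan j r)
  obtain ⟨B, hB⟩ := Int.gcd_dvd_right (D.cartan i r) (D.cartan j r)
  set G := Int.gcd (D.cartan i r) (D.cartan j r) with hG
  set m := A * D.cartan j s - B * D.cartan i s with hm
  rw [hA, hB, show (G : ℤ) * A * D.cartan j s - (G : ℤ) * B * D.cartan i s = (G : ℤ) * m by rw [hm]; ring,
    Int.natAbs_mul, Int.natAbs_natCast, Nat.mul_div_cancel_left _ (Nat.pos_of_ne_zero hg)] at h
  obtain ⟨a, ha, han⟩ := hok _ h
  refine ⟨hEl D i (a ^ (- B)) * hEl D j (a ^ A),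
    mul_mem (hEl_mem hi (zpow_ne_zero _ ha)) (hEl_mem hj (zpow_ne_zero _ ha)), a ^ m, ?_, fun v => ?_, fun v => ?_⟩
  · intro e
    rcases Int.natAbs_eq m with hm' | hm' <;> rw [hm'] at e
    · exact han (by rwa [zpow_natCast] at e)
    · exact han (by rwa [zpow_neg, inv_eq_one, zpow_natCast] at e)
  · rw [torus2_conj C hc hi hj hr ha, show D.cartan i r * -B + D.cartan j r * A = 0 by rw [hA, hB]; ring,
      zpow_zero, one_mul]
  · rw [torus2_conj C hc hi hj hs ha, show D.cartan i s * -B + D.cartan j s * A = m by rw [hm]; ring]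

omit hM in
theorem lc_biadd {r s : ℕ} (hr : r < D.nroots) (hs : s < D.nroots) (hne : s ≠ D.neg r) (h : tIds D r s = []) :
    (∀ t t' v, lc hπ (D.scGen K r (t + t')) (D.scGen K s v) =
      lc hπ (D.scGen K r t) (D.scGen K s v) * lc hπ (D.scGen K r t') (D.scGen K s v)) ∧
    (∀ t v v', lc hπ (D.scGen K r t) (D.scGen K s (v + v')) =
      lc hπ (D.scGen K r t) (D.scGen K s v) * lc hπ (D.scGen K r t) (D.scGen K s v')) := by
  have hcen : ∀ t v x, x * lc hπ (D.scGen K r t) (D.scGen K s v) =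
      lc hπ (D.scGen K r t) (D.scGen K s v) * x := fun t v x =>
    mul_inv_eq_iff_eq_mul.1 (lc_central hπ hk (y_commute C hr hs hne h t v) x)
  refine ⟨fun t t' v => ?_, fun t v v' => ?_⟩
  · rw [← y_add, lc_mul_left hπ hk, lc_central hπ hk (y_commute C hr hs hne h t' v), hcen t v]
  · rw [← y_add, lc_mul_right hπ hk, lc_central hπ hk (y_commute C hr hs hne h t v')]

omit hM in
theorem zero_of_minor {ok : ℕ → Bool} (hok : ∀ n, ok n = true → ∃ a : K, a ≠ 0 ∧ a ^ n ≠ 1) {r s : ℕ}
    (hr : r < D.nroots) (hs : s < D.nroots) (hne : s ≠ D.neg r) (h : tIds D r s = [])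
    (hm : minorOK D ok r s = true) : Zero hπ r s := by
  obtain ⟨γ, -, b, hb, e1, e2⟩ := exists_weight C hc hok hr hs hm
  obtain ⟨g, rfl⟩ := hπ γ
  obtain ⟨-, hadd⟩ := lc_biadd hπ hk C hc hr hs hne h
  refine biadd_zero_of_weight _ hadd (fun a c c' => ?_) hb (fun a c => ?_)
  · exact (mul_inv_eq_iff_eq_mul.1 (lc_central hπ hk (y_commute C hr hs hne h a c) _)).symm
  · show lc hπ (D.scGen K r a) (D.scGen K s (b * c)) = lc hπ (D.scGen K r a) (D.scGen K s c)
    rw [← lc_central hπ hk (y_commute C hr hs hne h a c) g, lc_conj hπ hk, e1, e2]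

omit hM in
theorem zero_of_scalar {sc : ℕ → Bool}
    (hsc : ∀ g, sc g = true → ∃ a b : K, a ≠ 0 ∧ b ≠ 0 ∧ a ^ g + 1 = b ^ g ∧ a ^ g * a ^ g + a ^ g + 1 ≠ 0)
    {r : ℕ} (hr : r < D.nroots) (h : scalarOK D sc r = true) :
    Zero hπ r r := by
  simp only [scalarOK, List.any_eq_true, List.mem_range] at h
  obtain ⟨i, hi, j, hj, h⟩ := h
  have hne : r ≠ D.neg r := (C.neg_ne r hr).symm
  have h0 : tIds D r r = [] := by
    have e : D.chainEntry r r = [] := C.chain_self r hr
    simp [tIds, ChevalleyDatum.commTerms, ChevalleyDatum.chainRoot, e]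
  obtain ⟨hl, hra⟩ := lc_biadd hπ hk C hc hr hr hne h0
  obtain ⟨a, b, ha, hb, hab, hx⟩ := hsc _ h
  have inv : ∀ c : K, c ≠ 0 → ∀ t v, lc hπ (D.scGen K r (c ^ Int.gcd (D.cartan i r) (D.cartan j r) * t))
      (D.scGen K r (c ^ Int.gcd (D.cartan i r) (D.cartan j r) * v)) = lc hπ (D.scGen K r t) (D.scGen K r v) := by
    intro c hc0 t v
    have e := torus2_conj C hc hi hj hr hc0 (Int.gcdA (D.cartan i r) (D.cartan j r)) (Int.gcdB (D.cartan i r) (D.cartan j r))
    rw [← Int.gcd_eq_gcd_ab, zpow_natCast] at e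
    obtain ⟨g, hg⟩ := hπ (hEl D i (c ^ Int.gcdA (D.cartan i r) (D.cartan j r)) *
      hEl D j (c ^ Int.gcdB (D.cartan i r) (D.cartan j r)))
    rw [← lc_central hπ hk (y_commute C hr hr hne h0 t v) g, lc_conj hπ hk, hg, e, e]
  refine biadd_zero_of_scalar _ hl hra (pow_ne_zero _ ha) (by rw [hab]; exact pow_ne_zero _ hb) hx (inv a ha) ?_
  rw [hab]
  exact inv b hb

omit hM in
theorem zero_of_base (hbase : ∀ i < D.rank, ∀ s < D.nroots, s ≠ D.neg (D.simple i) → tIds D (D.simple i) s = [] →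
      Zero hπ (D.simple i) s) :
    ∀ r < D.nroots, ∀ s < D.nroots, s ≠ D.neg r → tIds D r s = [] → Zero hπ r s := by
  refine C.induction_simple (fun r => ∀ s < D.nroots, s ≠ D.neg r → tIds D r s = [] → Zero hπ r s) hbase ?_
  intro i hi r hr ih s hs hne h
  have hs' := C.refl_lt i hi s hs
  have e2 : tIds D r (D.reflectRoot i s) = [] := by
    have := tIds_refl C K hi (C.refl_lt i hi r hr) hs
    rw [C.refl_refl hi hr, h] at this
    exact this
  have hne' : D.reflectRoot i s ≠ D.neg r := fun e => hne (by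
    rw [← C.refl_refl hi hs, e, C.refl_neg hi hr])
  have z := zero_conj hπ hk (ih _ hs' hne' e2) (wEl D i (1 : K)) (kap_ne_zero C hi hr one_ne_zero)
    (kap_ne_zero C hi hs' one_ne_zero) (fun t => wEl_conj C hc hi hr one_ne_zero t)
    (fun t => wEl_conj C hc hi hs' one_ne_zero t)
  rwa [C.refl_refl hi hs] at z

omit hM in
/-- all commuting pairs have commuting lifts -/
theorem zero_all {ok : ℕ → Bool} (hok : ∀ n, ok n = true → ∃ a : K, a ≠ 0 ∧ a ^ n ≠ 1) {coef : ℕ} {sc : ℕ → Bool}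
    (hcoef : ∀ x : ℤ, 1 ≤ x.natAbs → x.natAbs ≤ coef → (x : K) ≠ 0) (hscal : ∀ g, sc g = true → ∃ a b : K, a ≠ 0 ∧ b ≠ 0 ∧ a ^ g + 1 = b ^ g ∧ a ^ g * a ^ g + a ^ g + 1 ≠ 0)
    (hcheck : commCheck D ok coef sc = true) :
    ∀ r < D.nroots, ∀ s < D.nroots, s ≠ D.neg r → tIds D r s = [] → Zero hπ r s := by
  refine zero_of_base hπ hk C hc fun i hi s hs hne h => ?_
  have hc' := hcheck
  simp only [commCheck, List.all_eq_true, List.mem_range] at hc'
  have hb := hc' i hi s hs
  simp only [Bool.or_eq_true, beq_iff_eq, h, List.isEmpty_nil, Bool.not_true, Bool.false_eq_true, or_false, hne, false_or] at hb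
  rcases hb with (hb | hb) | hb
  · exact zero_of_dec hπ hk C hs hcoef hb
  · exact zero_symm hπ (zero_of_dec hπ hk C (C.simple_lt i hi) hcoef hb)
  · by_cases hsp : s = D.simple i
    · simp only [hsp, if_true] at hb
      rw [hsp]
      exact zero_of_scalar hπ hk C hc hscal (C.simple_lt i hi) hb
    · rw [if_neg hsp] at hb
      exact zero_of_minor hπ hk C hc hok (C.simple_lt i hi) hs hne h hb

end Ext

end Cfsg.Agent.Suzuki.StLift
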