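import Cfsg.Agent.Suzuki.StLiftSection

/-!
Central extensions of Steinberg's group over the field with two elements split for simply laced types.
-/

set_option autoImplicit false

universe u v

namespace Cfsg.Agent.Suzuki.StLift

open Cfsg.Lie Cfsg.Agent.Chev Cfsg.Agent.KnownA.Cover
open scoped commutatorElement

section Checks

variable (D : ChevalleyDatum)

/-- the weights of `r` are the sums of those of `p` and `q` -/
def sumB (p q r : ℕ) : Bool :=
  (List.range D.rank).all fun k => D.cartan k r == D.cartan k p + D.cartan k q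

/-- `(p, q)` is a decomposition of `r` -/
def singleB (p q r : ℕ) : Bool :=
  decide (p < D.nroots) && decide (q < D.nroots) && decide (r < D.nroots) && q != p && q != D.neg p &&
    r != D.neg p && r != D.neg q && sumB D p q r && (tIds D p r).isEmpty && (tIds D q r).isEmpty &&
    match D.commTerms p q with
      | [(c, x, 1, 1)] => c == r && x.natAbs == 1
      | _ => false

/-- a first decomposition -/
def refDec (r : ℕ) : Option (ℕ × ℕ) :=
  ((List.range D.nroots).filterMap fun p => (D.chainRoot (D.neg p) r 1).map fun q => (p, q)).find?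
    fun e => singleB D e.1 e.2 r

/-- two decompositions linked by a third root -/
def adjB (a b c e : ℕ) : Bool :=
  match D.chainRoot (D.neg a) c 1 with
  | some j => singleB D a j c && singleB D j e b && e != D.neg a && (tIds D a e).isEmpty &&
      b != D.neg c && (tIds D c b).isEmpty
  | none => false

/-- decompositions of the fundamental roots are linked -/
def decLinked : Bool :=
  (List.range D.rank).all fun i =>
    let r := D.simple i
    match refDec D r with
    | none => false
    | some (p0, q0) =>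
      singleB D p0 q0 r && singleB D q0 p0 r && (List.range D.nroots).all fun p =>
        (D.chain.getD p #[]).toList.all fun e =>
          let q := e.1
          ((e.2.toList.head?).map fun z => z.1) != some r ||
          (p == p0 && q == q0) || (p == q0 && q == p0) ||
          adjB D p q p0 q0 || adjB D p q q0 p0 || adjB D p0 q0 p q || adjB D q0 p0 p q ||
          (singleB D q p r && (adjB D q p p0 q0 || adjB D q p q0 p0 || adjB D p0 q0 q p || adjB D q0 p0 q p))

/-- all chains have length at most one -/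
def rowsShort : Bool :=
  (List.range D.nroots).all fun p => (D.chain.getD p #[]).toList.all fun e => decide (e.2.toList.length ≤ 1)

/-- pairs with a term are decompositions -/
def termsSingle : Bool :=
  (List.range D.rank).all fun i => (List.range D.nroots).all fun s =>
    let p := D.simple i
    match tIds D p s with
    | [] => true
    | [c] => s == D.neg p || singleB D p s c
    | _ => false

end Checks

variable {D : ChevalleyDatum} {K : Type u} [Field K]

theorem entry_short (h : rowsShort D = true) {p q : ℕ} (hp : p < D.nroots) : (D.chainEntry p q).length ≤ 1 := by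
  simp only [rowsShort, List.all_eq_true, List.mem_range, decide_eq_true_eq] at h
  simp only [ChevalleyDatum.chainEntry]
  split
  · simp
  · rename_i e he; exact h p hp e (List.mem_of_find?_eq_some he)

theorem exists_row {p q r : ℕ} (h : rowsShort D = true) (hp : p < D.nroots) (hq : q < D.nroots) (e : tIds D p q = [r]) :
    ∃ z ∈ (D.chain.getD p #[]).toList, z.1 = q ∧ (z.2.toList.head?).map (fun w => w.1) = some r := by
  have h1 := entry_short h hp (q := q)
  have h2 := entry_short h hq (q := p)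
  have c2 : D.chainRoot p q 2 = none := by simp [ChevalleyDatum.chainRoot]; omega
  have c3 : D.chainRoot p q 3 = none := by simp [ChevalleyDatum.chainRoot]; omega
  have d2 : D.chainRoot q p 2 = none := by simp [ChevalleyDatum.chainRoot]; omega
  have d3 : D.chainRoot q p 3 = none := by simp [ChevalleyDatum.chainRoot]; omega
  have e1 : D.chainRoot p q 1 = some r := by
    rcases hc : D.chainRoot p q 1 with _ | c
    · simp [tIds, ChevalleyDatum.commTerms, hc, c2, c3, d2, d3] at e
    · simp [tIds, ChevalleyDatum.commTerms, hc, c2, c3, d2, d3] at e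
      rw [e]
  simp only [ChevalleyDatum.chainRoot, ChevalleyDatum.chainEntry] at e1
  split at e1
  · simp at e1
  · rename_i z hz
    refine ⟨z, List.mem_of_find?_eq_some hz, of_decide_eq_true (List.find?_some (p := fun w : ℕ × Array (ℕ × ℤ) => decide (w.1 = q)) hz), ?_⟩
    simpa [List.head?_eq_getElem?] using e1

/-- a decomposition over the field with two elements -/
def Single (D : ChevalleyDatum) (K : Type u) [Field K] (p q r : ℕ) : Prop :=
  p < D.nroots ∧ q < D.nroots ∧ r < D.nroots ∧ q ≠ p ∧ q ≠ D.neg p ∧ r ≠ D.neg p ∧ r ≠ D.neg q ∧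
    (∀ k < D.rank, D.cartan k r = D.cartan k p + D.cartan k q) ∧ tIds D p r = [] ∧ tIds D q r = [] ∧ D.commWord K p q 1 1 = [(r, 1)]

theorem Single.ids {p q r : ℕ} (h : Single D K p q r) : tIds D p q = [r] := by
  obtain ⟨-, -, -, -, -, -, -, -, -, -, e⟩ := h
  rw [← commWord_fst (D := D) (K := K) p q 1 1, e]
  rfl

theorem eq_one_of_ne (h2 : ∀ a : K, a = 0 ∨ a = 1) {a : K} (ha : a ≠ 0) : a = 1 := (h2 a).resolve_left ha

theorem single_of_singleB (h2 : ∀ a : K, a = 0 ∨ a = 1) {p q r : ℕ} (h : singleB D p q r = true) :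
    Single D K p q r := by
  simp only [singleB, Bool.and_eq_true, decide_eq_true_eq, bne_iff_ne, ne_eq, List.isEmpty_iff] at h
  obtain ⟨⟨⟨⟨⟨⟨⟨⟨⟨⟨hp, hq⟩, hr⟩, h1⟩, h3⟩, h4⟩, h5⟩, hsum⟩, h6⟩, h7⟩, h⟩ := h
  split at h
  swap
  · simp at h
  rename_i c x hterm
  simp only [Bool.and_eq_true, beq_iff_eq] at h
  obtain ⟨rfl, hx⟩ := h
  refine ⟨hp, hq, hr, h1, h3, h4, h5, fun k hk => ?_, h6, h7, ?_⟩
  · simp only [sumB, List.all_eq_true, List.mem_range, beq_iff_eq] at hsum
    exact hsum k hk
  simp only [ChevalleyDatum.commWord, hterm, List.map_cons, List.map_nil]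
  congr 2
  refine eq_one_of_ne h2 ?_
  rcases Int.natAbs_eq x with e | e <;> rw [e, hx] <;> simp

variable (h2 : ∀ a : K, a = 0 ∨ a = 1) (C : Cert.{u} D)
include h2 C

theorem kap_eq_one {i r : ℕ} (hi : i < D.rank) (hr : r < D.nroots) : kap C i (1 : K) r = 1 :=
  eq_one_of_ne h2 (kap_ne_zero C hi hr one_ne_zero)

theorem Single.refl {p q r i : ℕ} (h : Single D K p q r) (hi : i < D.rank) :
    Single D K (D.reflectRoot i p) (D.reflectRoot i q) (D.reflectRoot i r) := by
  obtain ⟨hp, hq, hr, h1, h3, h4, h5, hsum, h6, h7, h8⟩ := h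
  have inj : ∀ {a b}, a < D.nroots → b < D.nroots → D.reflectRoot i a = D.reflectRoot i b → a = b :=
    fun {a b} ha hb e => by rw [← C.refl_refl hi ha, e, C.refl_refl hi hb]
  refine ⟨C.refl_lt i hi p hp, C.refl_lt i hi q hq, C.refl_lt i hi r hr, fun e => h1 (inj hq hp e),
    fun e => h3 (inj hq (C.neg_lt p hp) (by rw [e, C.refl_neg hi hp])),
    fun e => h4 (inj hr (C.neg_lt p hp) (by rw [e, C.refl_neg hi hp])),
    fun e => h5 (inj hr (C.neg_lt q hq) (by rw [e, C.refl_neg hi hq])),
    fun k hk => by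
      rw [C.cartan_refl k hk hi hr, C.cartan_refl k hk hi hp, C.cartan_refl k hk hi hq, hsum k hk, hsum i hi]
      ring,
    by rw [tIds_refl C K hi hp hr, h6, List.map_nil], by rw [tIds_refl C K hi hq hr, h7, List.map_nil], ?_⟩
  have e := commWord_kap C hi hp hq (z := (1 : K)) one_ne_zero 1 1
  rw [kap_eq_one h2 C hi hp, kap_eq_one h2 C hi hq, one_mul, h8] at e
  rw [e, List.map_cons, List.map_nil, kap_eq_one h2 C hi hr, one_mul]

section Ext

variable {E : Type v} [Group E] {π : E →* D.SteinbergCover K} (hπ : Function.Surjective π)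
  (hk : π.ker ≤ Subgroup.center E)

/-- the commutator of the lifts of two root elements -/
noncomputable def fl (p q : ℕ) : E := lc hπ (D.scGen K p 1) (D.scGen K q 1)

omit C h2 in
theorem fl_def (p q : ℕ) : fl hπ p q = ⁅lift hπ (D.scGen K p 1), lift hπ (D.scGen K q 1)⁆ := rfl

omit C in
theorem y_one_inv (r : ℕ) : (D.scGen K r (1 : K))⁻¹ = D.scGen K r 1 := by
  rw [y_inv, eq_one_of_ne h2 (neg_ne_zero.2 (one_ne_zero (α := K)))]

theorem map_fl {p q r : ℕ} (h : Single D K p q r) : π (fl hπ q p) = D.scGen K r 1 := by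
  obtain ⟨hp, hq, hr, h1, h3, -, -, -, -, -, h8⟩ := h
  have e := y_comm (K := K) hp hq h1 h3 1 1
  rw [h8, wy, List.map_cons, List.map_nil, List.prod_cons, List.prod_nil, mul_one] at e
  have hsq : ∀ x, D.scGen K x (1 : K) * D.scGen K x 1 = 1 := fun x => by
    nth_rewrite 1 [← y_one_inv h2 x]
    exact inv_mul_cancel _
  rw [fl, map_lc, commutatorElement_def, y_one_inv h2, y_one_inv h2, mul_assoc (D.scGen K q 1 * D.scGen K p 1)]
  conv_lhs => arg 2; rw [e]
  rw [show D.scGen K q (1 : K) * D.scGen K p 1 * (D.scGen K p 1 * D.scGen K q 1 * D.scGen K r 1) =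
      D.scGen K q 1 * (D.scGen K p 1 * D.scGen K p 1) * D.scGen K q 1 * D.scGen K (r, (1 : K)).1 (r, (1 : K)).2 by group,
    hsq, mul_one, hsq, one_mul]

variable (hz : ∀ r < D.nroots, ∀ s < D.nroots, s ≠ D.neg r → tIds D r s = [] → Zero hπ r s)
include hk hz

theorem fl_symm {p q r : ℕ} (h : Single D K p q r) : fl hπ p q = fl hπ q p := by
  obtain ⟨hp, hq, hr, h1, h3, h4, h5, -, h6, h7, -⟩ := id h
  have e : fl hπ q p * fl hπ q p = 1 := by
    have e1 := lc_mul_left hπ hk (D.scGen K q (1 : K)) (D.scGen K q 1) (D.scGen K p 1)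
    rw [y_add, (h2 (1 + 1)).resolve_right (fun e => one_ne_zero (by linear_combination e : (1 : K) = 0)), y_zero,
      lc_one_left hπ hk] at e1
    have hc : lift hπ (D.scGen K q 1) * lc hπ (D.scGen K q 1) (D.scGen K p 1) =
        lc hπ (D.scGen K q 1) (D.scGen K p 1) * lift hπ (D.scGen K q 1) := by
      refine lift_commute hπ hk ?_
      rw [map_lift]
      rw [show π (lc hπ (D.scGen K q 1) (D.scGen K p 1)) = D.scGen K r 1 from map_fl h2 C hπ h]
      exact hz q hq r hr h5 h7 1 1
    rw [hc, mul_inv_cancel_right] at e1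
    exact e1.symm
  rw [show fl hπ p q = (fl hπ q p)⁻¹ from lc_swap hπ _ _, inv_eq_of_mul_eq_one_left e]

theorem map_fl' {p q r : ℕ} (h : Single D K p q r) : π (fl hπ p q) = D.scGen K r 1 := by
  rw [fl_symm h2 C hπ hk hz h, map_fl h2 C hπ h]

/-- linked decompositions have equal commutators -/
theorem fl_adj {a b c e j r : ℕ} (hab : Single D K a b r) (hce : Single D K c e r) (haj : Single D K a j c)
    (hje : Single D K j e b) (hae : tIds D a e = []) (hne : e ≠ D.neg a) (hcb : tIds D c b = [])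
    (hne' : b ≠ D.neg c) : fl hπ a b = fl hπ c e := by
  obtain ⟨ha, hb, hr, -, -, -, hbr, -, -, hbr', -⟩ := id hab
  obtain ⟨hc, he, -⟩ := id hce
  set I := lift hπ (D.scGen K a (1 : K))
  set J := lift hπ (D.scGen K j (1 : K))
  set Q := lift hπ (D.scGen K e (1 : K))
  have hP : π ⁅I, J⁆ = D.scGen K c 1 := map_fl' h2 C hπ hk hz haj
  have hM : π ⁅J, Q⁆ = D.scGen K b 1 := map_fl' h2 C hπ hk hz hje
  have eab : fl hπ a b = ⁅I, ⁅J, Q⁆⁆ := by rw [lc_map hπ hk I ⁅J, Q⁆, hM, map_lift]; rfl
  have ece : fl hπ c e = ⁅⁅I, J⁆, Q⁆ := by rw [lc_map hπ hk ⁅I, J⁆ Q, hP, map_lift]; rfl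
  have c1 : I * Q = Q * I := lift_commute hπ hk (by rw [map_lift, map_lift]; exact hz a ha e he hne hae 1 1)
  have c2 : ⁅I, J⁆ * ⁅J, Q⁆ = ⁅J, Q⁆ * ⁅I, J⁆ := lift_commute hπ hk (by rw [hP, hM]; exact hz c hc b hb hne' hcb 1 1)
  have c3 : ⁅J, Q⁆ * ⁅⁅I, J⁆, Q⁆ = ⁅⁅I, J⁆, Q⁆ * ⁅J, Q⁆ := lift_commute hπ hk (by
    rw [hM, show π ⁅⁅I, J⁆, Q⁆ = D.scGen K r 1 by rw [← ece]; exact map_fl' h2 C hπ hk hz hce]
    exact hz b hb r hr hbr hbr' 1 1)
  rw [eab, ece]
  have e1 : I * ⁅J, Q⁆ * I⁻¹ = ⁅J, Q⁆ * ⁅⁅I, J⁆, Q⁆ := by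
    have e2 : I * ⁅J, Q⁆ * I⁻¹ = ⁅⁅I, J⁆ * J, Q⁆ := by
      rw [show I * ⁅J, Q⁆ * I⁻¹ = ⁅I * J * I⁻¹, I * Q * I⁻¹⁆ by simp [commutatorElement_def, mul_assoc], c1,
        mul_inv_cancel_right, show I * J * I⁻¹ = ⁅I, J⁆ * J by simp [commutatorElement_def]]
    rw [e2, show ⁅⁅I, J⁆ * J, Q⁆ = ⁅I, J⁆ * ⁅J, Q⁆ * ⁅I, J⁆⁻¹ * ⁅⁅I, J⁆, Q⁆ by
      simp [commutatorElement_def, mul_assoc], c2, mul_inv_cancel_right]
  rw [show ⁅I, ⁅J, Q⁆⁆ = I * ⁅J, Q⁆ * I⁻¹ * ⁅J, Q⁆⁻¹ from rfl, e1, c3, mul_inv_cancel_right]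

variable (hc : cornerCheck D = true)
include hc

omit hz in
theorem fl_conj {i p q : ℕ} (hi : i < D.rank) (hp : p < D.nroots) (hq : q < D.nroots) (g : E)
    (hg : π g = wEl D i 1) : g * fl hπ p q * g⁻¹ = fl hπ (D.reflectRoot i p) (D.reflectRoot i q) := by
  rw [fl, lc_conj hπ hk, hg, wEl_conj C hc hi hp one_ne_zero, wEl_conj C hc hi hq one_ne_zero, kap_eq_one h2 C hi hp,
    kap_eq_one h2 C hi hq, one_mul]
  rfl

/-- the commutator only depends on the root -/
theorem fl_indep (hlink : decLinked D = true) (hrows : rowsShort D = true) : ∀ r < D.nroots, ∀ p q p' q',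
    Single D K p q r → Single D K p' q' r → fl hπ p q = fl hπ p' q' := by
  refine C.induction_simple (fun r => ∀ p q p' q',
    Single D K p q r → Single D K p' q' r → fl hπ p q = fl hπ p' q') ?_ ?_
  · intro i hi
    have hl := hlink
    simp only [decLinked, List.all_eq_true, List.mem_range] at hl
    have hb := hl i hi
    split at hb
    · simp at hb
    rename_i p0 q0 _
    simp only [Bool.and_eq_true, List.all_eq_true, List.mem_range] at hb
    obtain ⟨⟨h0, h0'⟩, hall⟩ := hb
    have S0 : Single D K p0 q0 (D.simple i) := single_of_singleB h2 h0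
    suffices key : ∀ p q, Single D K p q (D.simple i) → fl hπ p q = fl hπ p0 q0 from
      fun p q p' q' h h' => (key p q h).trans (key p' q' h').symm
    intro p q h
    obtain ⟨hp, hq, -⟩ := id h
    have hids := h.ids
    obtain ⟨z, hzm, rfl, hzh⟩ := exists_row hrows hp hq hids
    have hh := hall p hp z hzm
    simp only [Bool.or_eq_true, bne_iff_ne, ne_eq, hzh, not_true_eq_false, false_or,
      Bool.and_eq_true, beq_iff_eq] at hh
    have adj : ∀ {a b c e : ℕ}, adjB D a b c e = true → Single D K a b (D.simple i) → Single D K c e (D.simple i) →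
        fl hπ a b = fl hπ c e := by
      intro a b c e hadj s1 s2
      simp only [adjB] at hadj
      split at hadj
      swap
      · simp at hadj
      simp only [Bool.and_eq_true, bne_iff_ne, ne_eq, List.isEmpty_iff] at hadj
      obtain ⟨⟨⟨⟨⟨a1, a2⟩, a3⟩, a4⟩, a5⟩, a6⟩ := hadj
      exact fl_adj h2 C hπ hk hz s1 s2 (single_of_singleB h2 a1) (single_of_singleB h2 a2) a4 a3 a6 a5
    have S0' : Single D K q0 p0 (D.simple i) := single_of_singleB h2 h0'
    rcases hh with ((((((⟨rfl, rfl⟩ | ⟨rfl, h'⟩) | h') | h') | h') | h') | ⟨hsw, (((h' | h') | h') | h')⟩)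
    · rfl
    · rw [← h']; exact fl_symm h2 C hπ hk hz h
    · exact adj h' h S0
    · exact (adj h' h S0').trans (fl_symm h2 C hπ hk hz S0).symm
    · exact (adj h' S0 h).symm
    · exact ((fl_symm h2 C hπ hk hz S0).trans (adj h' S0' h)).symm
    all_goals refine (fl_symm h2 C hπ hk hz h).trans ?_
    all_goals have h'' : Single D K z.1 p (D.simple i) := single_of_singleB h2 hsw
    · exact adj h' h'' S0
    · exact (adj h' h'' S0').trans (fl_symm h2 C hπ hk hz S0).symm
    · exact (adj h' S0 h'').symm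
    · exact ((fl_symm h2 C hπ hk hz S0).trans (adj h' S0' h'')).symm
  · intro i hi r hr ih p q p' q' h h'
    have s1 := h.refl h2 C hi
    have s2 := h'.refl h2 C hi
    rw [C.refl_refl hi hr] at s1 s2
    have e := ih _ _ _ _ s1 s2
    obtain ⟨g, hg⟩ := hπ (wEl D i 1)
    have e1 := congrArg (fun x => g * x * g⁻¹) e
    rw [fl_conj h2 C hπ hk hc hi s1.1 s1.2.1 g hg, fl_conj h2 C hπ hk hc hi s2.1 s2.2.1 g hg,
      C.refl_refl hi h.1, C.refl_refl hi h.2.1, C.refl_refl hi h'.1, C.refl_refl hi h'.2.1] at e1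
    exact e1

omit hz in
include hπ in
/-- central extensions split over the field with two elements -/
theorem exists_section_two (hlink : decLinked D = true) (hrows : rowsShort D = true) (hsing : termsSingle D = true)
    (hcomm : commCheck D (fun _ => false) 1 (fun _ => false) = true) :
    ∃ σ : D.SteinbergCover K →* E, ∀ x, π (σ x) = x := by
  classical
  have hz := zero_all hπ hk C hc (ok := fun _ => false) (fun n h => absurd h Bool.false_ne_true)
    (coef := 1) (sc := fun _ => false) (fun x h1 h2' => by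
      rcases Int.natAbs_eq x with e | e <;> rw [e, show x.natAbs = 1 by omega] <;> simp)
    (fun g h => absurd h Bool.false_ne_true) hcomm
  have hdec : ∀ r < D.nroots, ∃ p q, Single D K p q r := by
    refine C.induction_simple (fun r => ∃ p q, Single D K p q r) (fun i hi => ?_)
      (fun i hi r hr ⟨p, q, h⟩ => ⟨_, _, h.refl h2 C hi⟩)
    have hl := hlink
    simp only [decLinked, List.all_eq_true, List.mem_range] at hl
    have hb := hl i hi
    split at hb
    · simp at hb
    rename_i p0 q0 _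
    simp only [Bool.and_eq_true] at hb
    exact ⟨p0, q0, single_of_singleB h2 hb.1.1⟩
  have hterm : ∀ r < D.nroots, ∀ s < D.nroots, s ≠ D.neg r → tIds D r s ≠ [] → ∃ c, Single D K r s c := by
    refine C.induction_simple (fun r => ∀ s < D.nroots, s ≠ D.neg r → tIds D r s ≠ [] → ∃ c, Single D K r s c) ?_ ?_
    · intro i hi s hs hne hnil
      have hl := hsing
      simp only [termsSingle, List.all_eq_true, List.mem_range] at hl
      have hb := hl i hi s hs
      split at hb
      · rename_i e; exact absurd e hnil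
      · rename_i c _
        simp only [Bool.or_eq_true, beq_iff_eq, hne, false_or] at hb
        exact ⟨c, single_of_singleB h2 hb⟩
      · simp at hb
    · intro i hi r hr ih s hs hne hnil
      have hs' := C.refl_lt i hi s hs
      obtain ⟨c, hs''⟩ := ih _ hs' (fun e => hne (by rw [← C.refl_refl hi hs, e, C.refl_neg hi hr])) (fun e => hnil (by
        have := tIds_refl C K hi hr hs'
        rwa [C.refl_refl hi hs, e, List.map_nil] at this))
      have := hs''.refl h2 C hi
      rw [C.refl_refl hi hs] at this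
      exact ⟨_, this⟩
  choose! cp cq hcd using hdec
  let X : ℕ → K → E := fun r t => if r < D.nroots ∧ t ≠ 0 then fl hπ (cp r) (cq r) else 1
  have hX0 : ∀ r, X r 0 = 1 := fun r => if_neg (fun h => h.2 rfl)
  have hX1 : ∀ r < D.nroots, X r 1 = fl hπ (cp r) (cq r) := fun r hr => if_pos ⟨hr, one_ne_zero⟩
  have hmap : ∀ r t, π (X r t) = D.scGen K r t := by
    intro r t
    by_cases hr : r < D.nroots
    · rcases h2 t with rfl | rfl
      · rw [hX0, map_one, y_zero]
      · rw [hX1 r hr, map_fl' h2 C hπ hk hz (hcd r hr)]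
    · simp only [X, hr, false_and, if_false, map_one]
      exact (y_of_le hr t).symm
  have h11 : (1 : K) + 1 = 0 := (h2 (1 + 1)).resolve_right (fun e => one_ne_zero (by linear_combination e : (1 : K) = 0))
  have hsq : ∀ p q r, Single D K p q r → fl hπ p q * fl hπ p q = 1 := by
    intro p q r h
    nth_rewrite 2 [fl_symm h2 C hπ hk hz h]
    rw [show fl hπ p q = (fl hπ q p)⁻¹ from lc_swap hπ _ _, inv_mul_cancel]
  have hadd : ∀ r t t', X r (t + t') = X r t * X r t' := by
    intro r t t'
    rcases h2 t with rfl | rfl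
    · rw [zero_add, hX0, one_mul]
    rcases h2 t' with rfl | rfl
    · rw [add_zero, hX0, mul_one]
    rw [h11, hX0]
    by_cases hr : r < D.nroots
    · rw [hX1 r hr, hsq _ _ _ (hcd r hr)]
    · simp [X, hr]
  refine exists_section_of_rel C hmap hadd fun r hr s hs hne hneg t v => ?_
  by_cases hnil : tIds D r s = []
  · rw [commWord_nil hnil, wx, List.map_nil, List.prod_nil, mul_one]
    exact (lift_commute hπ hk (by rw [hmap, hmap]; exact hz r hr s hs hneg hnil t v)).symm
  obtain ⟨c, hS⟩ := hterm r hr s hs hneg hnil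
  have hc0 : c < D.nroots := hS.2.2.1
  rcases h2 t with rfl | rfl
  · rw [hX0, mul_one, one_mul]
    have : wx X (D.commWord K r s 0 v) = 1 := by
      refine List.prod_eq_one fun x hx => ?_
      obtain ⟨w, hw, rfl⟩ := List.mem_map.1 hx
      obtain ⟨z, hz', rfl⟩ := List.mem_map.1 hw
      obtain ⟨e1, -, -⟩ := C.commTerms_coef hr hs z hz'
      simp [zero_pow (show z.2.2.1 ≠ 0 by omega), hX0]
    rw [this, mul_one]
  rcases h2 v with rfl | rfl
  · rw [hX0, mul_one, one_mul]
    have : wx X (D.commWord K r s 1 0) = 1 := by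
      refine List.prod_eq_one fun x hx => ?_
      obtain ⟨w, hw, rfl⟩ := List.mem_map.1 hx
      obtain ⟨z, hz', rfl⟩ := List.mem_map.1 hw
      obtain ⟨-, e1, -⟩ := C.commTerms_coef hr hs z hz'
      simp [zero_pow (show z.2.2.2 ≠ 0 by omega), hX0]
    rw [this, mul_one]
  obtain ⟨-, -, -, -, -, -, -, -, -, -, h8⟩ := id hS
  rw [h8, wx, List.map_cons, List.map_nil, List.prod_cons, List.prod_nil, mul_one, hX1 c hc0,
    fl_indep h2 C hπ hk hz hc hlink hrows c hc0 _ _ r s (hcd c hc0) hS, fl, ← hmap r 1, ← hmap s 1, ← lc_map hπ hk]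
  have e1 : (X r (1 : K))⁻¹ = X r 1 := inv_eq_of_mul_eq_one_right (by rw [← hadd, h11, hX0])
  have e2 : (X s (1 : K))⁻¹ = X s 1 := inv_eq_of_mul_eq_one_right (by rw [← hadd, h11, hX0])
  have e3 : ⁅X s (1 : K), X r 1⁆ = ⁅X r (1 : K), X s 1⁆ := by
    rw [lc_map hπ hk, lc_map hπ hk, hmap, hmap]
    exact (fl_symm h2 C hπ hk hz hS).symm
  rw [← e3, commutatorElement_def, e1, e2]
  rw [show X r (1 : K) * X s 1 * (X s 1 * X r 1 * X s 1 * X r 1) =
    X r 1 * (X s 1 * X s 1) * (X r 1 * (X s 1 * X r 1)) by group]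
  rw [← hadd s, h11, hX0, mul_one, ← mul_assoc (X r (1 : K)) (X r 1), ← hadd r, h11, hX0, one_mul]

end Ext

end Cfsg.Agent.Suzuki.StLift
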